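import Cfsg.Agent.TwoGroups.CyclicTwo

/-!
Two extensions `⟨x⟩ ⋊ ⟨y⟩` with the same parameters are isomorphic.
-/

set_option autoImplicit false

namespace Cfsg.Agent.TwoGroups

theorem IsTwoExt.nonempty_equiv {S : Type*} [Group S] {S' : Type*} [Group S'] {x y : S} {x' y' : S'}
    {N : ℕ} {c : ℤ} (h : IsTwoExt x y N c) (h' : IsTwoExt x' y' N c) : Nonempty (S ≃* S') := by
  classical
  haveI := h.finite; haveI := h'.finite
  let f : S → S' := fun g =>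
    if hg : ∃ i : ℤ, g = x ^ i then x' ^ hg.choose
    else x' ^ ((h.exists_eq g).choose) * y'
  have f1 : ∀ i : ℤ, f (x ^ i) = x' ^ i := fun i => by
    have hg : ∃ j : ℤ, x ^ i = x ^ j := ⟨i, rfl⟩
    simp only [f, dif_pos hg]
    rw [h'.zpow_eq_iff, ← h.zpow_eq_iff]
    exact hg.choose_spec.symm
  have f2 : ∀ i : ℤ, f (x ^ i * y) = x' ^ i * y' := fun i => by
    have hn : ¬ ∃ j : ℤ, x ^ i * y = x ^ j := fun ⟨j, e⟩ => h.zpow_ne j i e.symm
    simp only [f, dif_neg hn]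
    rw [h'.mul_y_inj, ← h.mul_y_inj]
    rcases (h.exists_eq (x ^ i * y)).choose_spec with e | e
    · exact absurd ⟨_, e⟩ hn
    · exact e.symm
  let φ : S →* S' := MonoidHom.mk' f fun a b => by
    obtain ⟨i, rfl | rfl⟩ := h.exists_eq a <;> obtain ⟨j, rfl | rfl⟩ := h.exists_eq b
    · rw [← zpow_add, f1, f1, f1, zpow_add]
    · rw [h.x_mul_xy, f1, f2, f2, h'.x_mul_xy]
    · rw [h.xy_mul_x, f1, f2, f2, h'.xy_mul_x]
    · rw [h.xy_mul_xy, f1, f2, f2, h'.xy_mul_xy]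
  refine ⟨MulEquiv.ofBijective φ ((Nat.bijective_iff_surjective_and_card φ).mpr ⟨fun g => ?_, by
    rw [h.card, h'.card]⟩)⟩
  obtain ⟨i, rfl | rfl⟩ := h'.exists_eq g
  exacts [⟨x ^ i, f1 i⟩, ⟨x ^ i * y, f2 i⟩]

end Cfsg.Agent.TwoGroups
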