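/-
TwoGroups library: elements of small order detect p-nilpotence.
-/
import Cfsg.Agent.FusionZJ.SmallControl
import Cfsg.Agent.Transfer.Complement
import Mathlib.GroupTheory.Nilpotent

set_option autoImplicit false
set_option linter.style.haveILetI false

namespace Cfsg.Agent.TwoGroups.SmallFusion

open Subgroup Cfsg Cfsg.Agent
open scoped commutatorElement

variable {G : Type*} [Group G] [Finite G] {p : ℕ} [hp : Fact p.Prime]

/-- A `p'`-element pushing small elements down a series reaching `⊥` centralizes them. -/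
theorem fix_of_series (L : ℕ → Subgroup G) (hL : L 0 = ⊥) {C : Subgroup G} (hC : IsPGroup p C) {g : G}
    (hg : (orderOf g).Coprime p) (hinv : ∀ x ∈ C, g * x * g⁻¹ ∈ C)
    (hstep : ∀ i, ∀ x ∈ C, x ∈ L (i + 1) → g * x * g⁻¹ * x⁻¹ ∈ L i) :
    ∀ i, ∀ x ∈ C, x ∈ L i → g * x * g⁻¹ = x := by
  intro i
  induction i with
  | zero =>
    intro x _ hx
    rw [hL, mem_bot] at hx
    subst hx
    simp
  | succ i ih =>
    intro x hxC hx
    set y := g * x * g⁻¹ * x⁻¹ with hy
    have hyC : y ∈ C := mul_mem (hinv x hxC) (inv_mem hxC)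
    have hfix : g * y * g⁻¹ = y := ih y hyC (hstep i x hxC hx)
    have hit : ∀ m : ℕ, g ^ m * x * (g ^ m)⁻¹ = y ^ m * x := by
      intro m
      induction m with
      | zero => simp
      | succ m ihm =>
        calc g ^ (m + 1) * x * (g ^ (m + 1))⁻¹ = g * (g ^ m * x * (g ^ m)⁻¹) * g⁻¹ := by rw [pow_succ']; group
          _ = (g * y ^ m * g⁻¹) * (g * x * g⁻¹) := by rw [ihm]; group
          _ = y ^ m * (y * x) := by rw [← conj_pow, hfix, hy]; group
          _ = y ^ (m + 1) * x := by rw [pow_succ]; exact (mul_assoc _ _ _).symm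
    have h1 := hit (orderOf g)
    rw [pow_orderOf_eq_one, one_mul, inv_one, mul_one] at h1
    have hyo : y ^ orderOf g = 1 := mul_right_cancel (h1.symm.trans (one_mul x).symm)
    have hy1 : y = 1 := Core.ThompsonComplement.eq_one_of_mem hC hyC
      (Nat.Coprime.coprime_dvd_left (orderOf_dvd_of_pow_eq_one hyo) hg)
    rw [hy, mul_inv_eq_one] at hy1
    exact hy1

/-- A `p'`-element normalizing a `p`-subgroup centralizes it, if it fixes the small elements. -/
theorem mem_centralizer_of_small {Q : Subgroup G} (hQ : IsPGroup p Q) {g : G}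
    (hgQ : g ∈ normalizer (Q : Set G)) (hg : (orderOf g).Coprime p)
    (hsmall : ∀ C : Subgroup G, C ≤ Q → (∀ x ∈ C, g * x * g⁻¹ ∈ C) →
      (∀ x ∈ C, FusionZJ.Small p x) → ∀ x ∈ C, g * x * g⁻¹ = x) : g ∈ centralizer (Q : Set G) := by
  obtain ⟨C, hCchar, hCs, hfaith⟩ := FusionZJ.exists_faithful_small hQ
  set a : MulAut Q := Q.normalizerMonoidHom ⟨g, hgQ⟩ with ha
  have hcoe : ∀ x : Q, ((a x : Q) : G) = g * x * g⁻¹ := fun x => rfl
  have hinv : ∀ x ∈ C.map Q.subtype, g * x * g⁻¹ ∈ C.map Q.subtype := by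
    rintro _ ⟨x, hx, rfl⟩
    exact ⟨a x, characteristic_iff_le_comap.mp hCchar a hx, hcoe x⟩
  have hfix := hsmall (C.map Q.subtype) (map_subtype_le C) hinv (by
    rintro _ ⟨x, hx, rfl⟩
    rcases hCs x hx with h | ⟨h2, h⟩
    · exact Or.inl (by rw [← map_pow, h, map_one])
    · exact Or.inr ⟨h2, by rw [← map_pow, h, map_one]⟩)
  have hord : (orderOf a).Coprime p := by
    refine Nat.Coprime.coprime_dvd_left ?_ hg
    have h1 := orderOf_map_dvd Q.normalizerMonoidHom (⟨g, hgQ⟩ : normalizer (Q : Set G))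
    rwa [Subgroup.orderOf_mk] at h1
  have ha1 : a = 1 := hfaith a hord fun x hx =>
    Subtype.ext ((hcoe x).trans (hfix _ ⟨x, hx, rfl⟩))
  intro q hq
  have h1 := hcoe ⟨q, hq⟩
  rw [ha1, MulAut.one_apply] at h1
  exact (eq_mul_inv_iff_mul_eq.1 h1)

/-- Fusion of small elements inside `P` gives a normal `p`-complement. -/
theorem hasNPC_of_fusion (P : Sylow p G)
    (h : ∀ a ∈ (P : Subgroup G), FusionZJ.Small p a → ∀ g : G, g * a * g⁻¹ ∈ (P : Subgroup G) →
      ∃ x ∈ (P : Subgroup G), g * a * g⁻¹ = x * a * x⁻¹) : HasNormalPComplement p G := by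
  refine Transfer.hasNormalPComplement_of_frobenius P fun Q hQ _ g hg hgc => ?_
  refine mem_centralizer_of_small (P.2.to_le hQ) hg hgc fun C hCQ hinv hs => ?_
  haveI : Group.IsNilpotent (P : Subgroup G) := P.2.isNilpotent
  obtain ⟨n, hn⟩ := Group.IsNilpotent.nilpotent (G := (P : Subgroup G))
  intro x hx
  refine fix_of_series (fun i => (Subgroup.upperCentralSeries (P : Subgroup G) i).map (P : Subgroup G).subtype)
    (by simp) (P.2.to_le (hCQ.trans hQ)) hgc hinv (fun i z hzC hz => ?_) n x hx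
    (by rw [hn]; exact ⟨⟨x, hQ (hCQ hx)⟩, mem_top _, rfl⟩)
  obtain ⟨z', hz', rfl⟩ := hz
  obtain ⟨w, hw, e⟩ := h _ z'.2 (hs _ hzC) g (hQ (hCQ (hinv _ hzC)))
  refine ⟨⁅(⟨w, hw⟩ : (P : Subgroup G)), z'⁆, ?_, ?_⟩
  · have := inv_mem (Subgroup.mem_upperCentralSeries_succ_iff.1 hz' ⟨w, hw⟩)
    rwa [commutatorElement_inv] at this
  · show w * (z' : G) * w⁻¹ * (z' : G)⁻¹ = g * (z' : G) * g⁻¹ * (z' : G)⁻¹
    rw [e]

/-- Small elements in the upper central series give a normal `p`-complement. -/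
theorem hasNPC_of_upper (n : ℕ) (h : ∀ a : G, FusionZJ.Small p a → a ∈ Subgroup.upperCentralSeries G n) :
    HasNormalPComplement p G := by
  obtain ⟨P⟩ : Nonempty (Sylow p G) := inferInstance
  refine Transfer.hasNormalPComplement_of_frobenius P fun Q hQ _ g hg hgc => ?_
  refine mem_centralizer_of_small (P.2.to_le hQ) hg hgc fun C hCQ hinv hs x hx => ?_
  refine fix_of_series (fun i => Subgroup.upperCentralSeries G i) (by simp)
    (P.2.to_le (hCQ.trans hQ)) hgc hinv (fun i z hzC hz => ?_) n x hx (h x (hs x hx))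
  have := inv_mem (Subgroup.mem_upperCentralSeries_succ_iff.1 hz g)
  rwa [commutatorElement_inv, commutatorElement_def] at this

end Cfsg.Agent.TwoGroups.SmallFusion
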