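/-
TwoGroups library: a nonzero norm gives a wreath quotient.
-/
import Mathlib.GroupTheory.Sylow
import Mathlib.GroupTheory.GroupAction.Quotient
import Mathlib.NumberTheory.Padics.PadicVal.Basic
import Mathlib.RingTheory.Int.Basic
import Mathlib.Data.Finite.Perm
import Mathlib.RingTheory.PrincipalIdealDomain
import Cfsg.Prelude.Def_Transfer

set_option autoImplicit false
set_option linter.style.haveILetI false

namespace Cfsg.Agent.TwoGroups.WreathQuot

open Subgroup

variable {P : Type*} [Group P] [Finite P] {p : ℕ} [hp : Fact p.Prime]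

theorem wreath_quotient (hP : IsPGroup p P) (A : Subgroup P) [A.Normal]
    (hA : Cfsg.IsElementaryAbelian p A) (hidx : A.index = p) (x y : P) (hx : x ∈ A) (hy : y ∉ A)
    (hprod : ((List.range p).map (fun i => (y ^ i)⁻¹ * x * y ^ i)).prod ≠ 1) :
    ∃ (Q : Sylow p (Equiv.Perm (Fin (p ^ 2)))) (f : P →* ↥(Q : Subgroup (Equiv.Perm (Fin (p ^ 2))))),
      Function.Surjective f := by
  classical
  letI : CommGroup A :=
    { (inferInstance : Group A) with mul_comm := fun a b => hA.1.is_comm.comm a b }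
  have hexp : ∀ a : A, a ^ p = 1 := fun a => Subtype.ext (hA.2 a a.2)
  let Φ : ℕ → A := fun n => ⟨(y ^ n)⁻¹ * x * y ^ n, by simpa using (‹A.Normal›.conj_mem x hx (y ^ n)⁻¹)⟩
  have hyp : y ^ p ∈ A := by
    have h1 : (y : P ⧸ A) ^ p = 1 := by
      rw [← hidx, index_eq_card]
      exact pow_card_eq_one'
    rw [← QuotientGroup.mk_pow] at h1
    exact (QuotientGroup.eq_one_iff _).1 h1
  have hper : ∀ n, Φ (n + p) = Φ n := fun n => Subtype.ext (by
    have h1 : (y ^ p)⁻¹ * ((Φ n : A) : P) * y ^ p = (Φ n : A) := by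
      have h2 : (Φ n : A) * ⟨y ^ p, hyp⟩ = ⟨y ^ p, hyp⟩ * (Φ n : A) := mul_comm _ _
      have h3 : ((Φ n : A) : P) * y ^ p = y ^ p * (Φ n : A) := congrArg Subtype.val h2
      rw [mul_assoc, h3, inv_mul_cancel_left]
    show (y ^ (n + p))⁻¹ * x * y ^ (n + p) = ((Φ n : A) : P)
    rw [← h1, pow_add, mul_inv_rev]
    show _ = (y ^ p)⁻¹ * ((y ^ n)⁻¹ * x * y ^ n) * y ^ p
    group)
  have hmod : ∀ n, Φ (n % p) = Φ n := fun n => by
    conv_rhs => rw [← Nat.mod_add_div n p]
    induction n / p with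
    | zero => simp
    | succ k ih => rw [mul_add, mul_one, ← add_assoc, hper, ih]
  let xi : ZMod p → A := fun i => Φ i.val
  set Nrm : A := ∏ i : ZMod p, xi i with hNrm
  have hN1 : Nrm ≠ 1 := by
    intro e
    refine hprod ?_
    have h1 : ∏ n ∈ Finset.range p, Φ n = Nrm := by
      rw [hNrm]
      refine Finset.prod_bij' (fun n _ => (n : ZMod p)) (fun i _ => i.val) (fun n _ => Finset.mem_univ _)
        (fun i _ => Finset.mem_range.2 (ZMod.val_lt i)) (fun n hn => ?_) (fun i _ => ZMod.natCast_zmod_val i)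
        (fun n hn => ?_)
      · exact ZMod.val_cast_of_lt (Finset.mem_range.1 hn)
      · show Φ n = Φ (n : ZMod p).val
        rw [ZMod.val_cast_of_lt (Finset.mem_range.1 hn)]
    have h2 : ∀ m, ((List.range m).map (fun i => (y ^ i)⁻¹ * x * y ^ i)).prod = ((∏ n ∈ Finset.range m, Φ n : A) : P) := by
      intro m
      induction m with
      | zero => simp
      | succ m ih =>
        rw [List.range_succ, List.map_append, List.prod_append, ih, Finset.prod_range_succ, Subgroup.coe_mul]
        simp [Φ]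
    rw [h2, h1, e]; rfl
  -- a subgroup of `A` avoiding the norm
  obtain ⟨B, -, ⟨hBA, hBN⟩, hBmax⟩ := Finite.exists_le_maximal (p := fun B : Subgroup P => B ≤ A ∧ (Nrm : P) ∉ B)
    (a := ⊥) ⟨bot_le, fun h => hN1 (Subtype.ext (mem_bot.1 h))⟩
  set B' := B.subgroupOf A with hB'
  haveI : B'.Normal := Subgroup.normal_of_comm _
  have hBi : B'.index = p := by
    have hgen : ∀ a : A, (a : A ⧸ B') ∈ zpowers (Nrm : A ⧸ B') := by
      intro a
      by_cases ha : (a : P) ∈ B
      · rw [(QuotientGroup.eq_one_iff _).2 (mem_subgroupOf.2 ha)]; exact one_mem _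
      set B₂ := (B' ⊔ zpowers a).map A.subtype with hB₂
      have hN2 : (Nrm : P) ∈ B₂ := by
        by_contra hno
        have hle : B ≤ B₂ := fun b hb => ⟨⟨b, hBA hb⟩, mem_sup_left (mem_subgroupOf.2 hb), rfl⟩
        exact ha (hBmax ⟨map_subtype_le _, hno⟩ hle ⟨a, mem_sup_right (mem_zpowers a), rfl⟩)
      obtain ⟨n', hn', e⟩ := hN2
      obtain ⟨b, hb, c, hc, rfl⟩ := mem_sup_of_normal_left.1 hn'
      obtain ⟨k, rfl⟩ := mem_zpowers_iff.1 hc
      have e' : (Nrm : A ⧸ B') = (a : A ⧸ B') ^ k := by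
        rw [← QuotientGroup.mk_zpow, ← (Subtype.ext e : b * a ^ k = Nrm), QuotientGroup.mk_mul,
          (QuotientGroup.eq_one_iff _).2 hb, one_mul]
      have hk : ¬ (p : ℤ) ∣ k := by
        rintro ⟨j, rfl⟩
        rw [zpow_mul, zpow_natCast, ← QuotientGroup.mk_pow, hexp, QuotientGroup.mk_one, one_zpow] at e'
        exact hBN (mem_subgroupOf.1 ((QuotientGroup.eq_one_iff _).1 e'))
      obtain ⟨u, v, huv⟩ : IsCoprime k (p : ℤ) :=
        ((Int.prime_iff_natAbs_prime.2 (by simpa using hp.out)).coprime_iff_not_dvd.2 hk).symm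
      refine mem_zpowers_iff.2 ⟨u, ?_⟩
      have hap : (a : A ⧸ B') ^ (p : ℤ) = 1 := by
        rw [zpow_natCast, ← QuotientGroup.mk_pow, hexp]; rfl
      rw [e', ← zpow_mul]
      conv_rhs => rw [← zpow_one (a : A ⧸ B'), ← huv, zpow_add, mul_comm v (p : ℤ), zpow_mul _ (p : ℤ) v, hap, one_zpow,
        mul_one]
      rw [mul_comm]
    rw [index_eq_card, ← orderOf_eq_card_of_forall_mem_zpowers (fun z => QuotientGroup.induction_on z hgen)]
    refine orderOf_eq_prime (by rw [← QuotientGroup.mk_pow, hexp]; rfl) fun h => hBN ?_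
    exact mem_subgroupOf.1 ((QuotientGroup.eq_one_iff _).1 h)
  have hBcard : B.index = p ^ 2 := by
    rw [← relIndex_mul_index hBA, hidx, show B.relIndex A = p from hBi, sq]
  -- the core has index at least `p ^ (p + 1)`
  set C := B.normalCore with hC
  have hCB : C ≤ B := normalCore_le B
  have hCn : C.Normal := normalCore_normal B
  let Ψ : (ZMod p → ZMod p) → A := fun c => ∏ i, xi i ^ (c i).val
  have hpowadd : ∀ (a : A) (s t : ZMod p), a ^ (s + t).val = a ^ s.val * a ^ t.val := fun a s t => by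
    rw [ZMod.val_add, ← pow_add]
    exact (pow_eq_pow_mod _ (hexp a)).symm
  have hΨadd : ∀ c d, Ψ (c + d) = Ψ c * Ψ d := fun c d => by
    rw [← Finset.prod_mul_distrib]
    exact Finset.prod_congr rfl fun i _ => hpowadd _ _ _
  let K₀ : AddSubgroup (ZMod p → ZMod p) :=
    { carrier := {c | (Ψ c : P) ∈ C}
      zero_mem' := by simp [Ψ]
      add_mem' := fun {c d} hc hd => by
        show ((Ψ (c + d) : A) : P) ∈ C
        rw [hΨadd, Subgroup.coe_mul]; exact mul_mem hc hd
      neg_mem' := fun {c} hc => by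
        show ((Ψ (-c) : A) : P) ∈ C
        have h : Ψ c * Ψ (-c) = 1 := by rw [← hΨadd, add_neg_cancel]; simp [Ψ]
        rw [eq_inv_of_mul_eq_one_right h]
        exact inv_mem hc }
  have hxi : ∀ i : ZMod p, y⁻¹ * (xi i : P) * y = (xi (i + 1) : A) := by
    intro i
    have h : Φ (i + 1).val = Φ (i.val + 1) := by rw [ZMod.val_add, ZMod.val_one, hmod]
    show _ = ((Φ (i + 1).val : A) : P)
    rw [h]
    show y⁻¹ * ((y ^ i.val)⁻¹ * x * y ^ i.val) * y = (y ^ (i.val + 1))⁻¹ * x * y ^ (i.val + 1)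
    rw [pow_succ, mul_inv_rev]; group
  let σ : A →* A :=
    { toFun := fun a => ⟨y⁻¹ * a * y, by simpa using ‹A.Normal›.conj_mem a a.2 y⁻¹⟩
      map_one' := Subtype.ext (by simp)
      map_mul' := fun a b => Subtype.ext (by simp [mul_assoc]) }
  have hshift : ∀ c, c ∈ K₀ → (fun i => c (i - 1)) ∈ K₀ := by
    intro c hc
    show ((Ψ (fun i => c (i - 1)) : A) : P) ∈ C
    have h1 : Ψ (fun i => c (i - 1)) = σ (Ψ c) := by
      rw [map_prod]
      refine (Fintype.prod_equiv (Equiv.addRight (1 : ZMod p)) _ _ fun i => ?_).symm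
      rw [map_pow]
      show σ (xi i) ^ (c i).val = xi (i + 1) ^ (c (i + 1 - 1)).val
      rw [show σ (xi i) = xi (i + 1) from Subtype.ext (hxi i), add_sub_cancel_right]
    rw [h1]
    show y⁻¹ * (Ψ c : P) * y ∈ C
    simpa using hCn.conj_mem _ hc y⁻¹
  have hshiftn : ∀ (m : ℕ) c, c ∈ K₀ → (fun i => c (i - (m : ZMod p))) ∈ K₀ := by
    intro m
    induction m with
    | zero => intro c hc; simpa using hc
    | succ m ih =>
      intro c hc
      have h := hshift _ (ih c hc)
      have e : (fun i => c (i - 1 - (m : ZMod p))) = fun i => c (i - ((m + 1 : ℕ) : ZMod p)) := by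
        funext i; push_cast; ring_nf
      exact e ▸ h
  letI : MulAction (Multiplicative (ZMod p)) K₀ :=
    { smul := fun m c => ⟨fun i => (c : ZMod p → ZMod p) (i - m.toAdd), by
        simpa [ZMod.natCast_zmod_val] using hshiftn m.toAdd.val _ c.2⟩
      one_smul := fun c => Subtype.ext (funext fun i => by
        show (c : ZMod p → ZMod p) (i - 0) = _
        rw [sub_zero])
      mul_smul := fun m n c => Subtype.ext (funext fun i => by
        show (c : ZMod p → ZMod p) (i - (m.toAdd + n.toAdd)) = (c : ZMod p → ZMod p) (i - m.toAdd - n.toAdd)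
        rw [sub_add_eq_sub_sub]) }
  have hK₀ : K₀ = ⊥ := by
    by_contra hne
    haveI : Nontrivial K₀ := (AddSubgroup.nontrivial_iff_ne_bot K₀).2 hne
    have hdvd : p ∣ Nat.card K₀ := by
      have h1 : Nat.card K₀ ∣ Nat.card (ZMod p → ZMod p) := AddSubgroup.card_addSubgroup_dvd_card K₀
      rw [Nat.card_fun, Nat.card_zmod] at h1
      obtain ⟨k, -, hk⟩ := (Nat.dvd_prime_pow hp.out).1 h1
      rw [hk]
      refine dvd_pow_self p fun e => ?_
      rw [e, pow_zero] at hk
      exact (Finite.one_lt_card (α := K₀)).ne' hk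
    have hG : IsPGroup p (Multiplicative (ZMod p)) := IsPGroup.of_card (n := 1) (by simp [Nat.card_congr Multiplicative.toAdd])
    obtain ⟨b, hb, hb0⟩ := hG.exists_fixed_point_of_prime_dvd_card_of_fixed_point K₀ hdvd
      (a := (0 : K₀)) (fun m => Subtype.ext rfl)
    have hconst : ∀ i, (b : ZMod p → ZMod p) i = (b : ZMod p → ZMod p) 0 := fun i => by
      have := congrArg (fun c : K₀ => (c : ZMod p → ZMod p) i) (hb (Multiplicative.ofAdd i))
      simpa using this.symm.trans (by
        show (b : ZMod p → ZMod p) (i - (Multiplicative.ofAdd i).toAdd) = _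
        rw [toAdd_ofAdd, sub_self])
    have hΨ : Ψ b = Nrm ^ ((b : ZMod p → ZMod p) 0).val := by
      rw [hNrm, ← Finset.prod_pow]
      exact Finset.prod_congr rfl fun i _ => by rw [hconst i]
    have hmem : (Nrm : P) ^ ((b : ZMod p → ZMod p) 0).val ∈ B := by
      rw [← SubgroupClass.coe_pow, ← hΨ]; exact hCB b.2
    have h0 : ((b : ZMod p → ZMod p) 0).val = 0 := by
      by_contra hne0
      have hco : (((b : ZMod p → ZMod p) 0).val).Coprime p :=
        ((hp.out.coprime_iff_not_dvd).2 (Nat.not_dvd_of_pos_of_lt (Nat.pos_of_ne_zero hne0) (ZMod.val_lt _))).symm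
      obtain ⟨m, hm⟩ := Nat.exists_mul_mod_eq_one_of_coprime hco hp.out.one_lt
      have h1 := pow_mem hmem m
      rw [← pow_mul, pow_eq_pow_mod _ (hA.2 _ Nrm.2), hm.2, pow_one] at h1
      exact hBN h1
    exact hb0 (Subtype.ext (funext fun i => by
      rw [hconst i, (ZMod.val_eq_zero _).1 h0]; rfl))
  have hΨinj : ∀ c d, ((Ψ c : A) : P)⁻¹ * (Ψ d : A) ∈ C → c = d := by
    intro c d h
    have h1 : -c + d ∈ K₀ := by
      show ((Ψ (-c + d) : A) : P) ∈ C
      have e : Ψ c * Ψ (-c) = 1 := by rw [← hΨadd, add_neg_cancel]; simp [Ψ]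
      rw [hΨadd, eq_inv_of_mul_eq_one_right e]
      exact h
    rw [hK₀, AddSubgroup.mem_bot, neg_add_eq_zero] at h1
    exact h1
  have hcore : p ^ (p + 1) ≤ C.index := by
    rw [← relIndex_mul_index (hCB.trans hBA), hidx, pow_succ]
    refine Nat.mul_le_mul_right _ ?_
    have h := Nat.card_le_card_of_injective (fun c : ZMod p → ZMod p => ((Ψ c : A) : A ⧸ C.subgroupOf A))
      (fun c d h => hΨinj c d (by
        have := QuotientGroup.eq.1 h
        rwa [mem_subgroupOf, Subgroup.coe_mul, Subgroup.coe_inv] at this))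
    rwa [Nat.card_fun, Nat.card_zmod, ← index_eq_card] at h
  -- the permutation representation
  haveI : Finite (P ⧸ B) := inferInstance
  let ec : (P ⧸ B) ≃ Fin (p ^ 2) :=
    (Finite.equivFin (P ⧸ B)).trans (finCongr (by rw [← hBcard]; rfl))
  set f := ec.permCongrHom.toMonoidHom.comp (MulAction.toPermHom P (P ⧸ B)) with hf
  have hker : f.ker = C := by
    rw [hC, normalCore_eq_ker, hf]
    ext g
    simp [MonoidHom.mem_ker]
  have hRp : IsPGroup p f.range := by
    rw [MonoidHom.range_eq_map]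
    exact (hP.to_subgroup ⊤).map f
  obtain ⟨Q, hQ⟩ := hRp.exists_le_sylow
  have hQcard : Nat.card Q = p ^ (p + 1) := by
    rw [Q.card_eq_multiplicity, Nat.card_perm, Nat.card_fin, Nat.factorization_def _ hp.out]
    congr 1
    rw [sq, padicValNat_factorial_mul, show padicValNat p p.factorial = 1 by
      simpa using padicValNat_factorial_mul (p := p) 1, add_comm]
  have hRQ : f.range = (Q : Subgroup _) := Subgroup.eq_of_le_of_card_ge hQ (by
    rw [hQcard, ← Subgroup.index_ker, hker]; exact hcore)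
  refine ⟨Q, f.codRestrict _ (fun g => hQ ⟨g, rfl⟩), fun q => ?_⟩
  obtain ⟨g, hg⟩ := hRQ.ge q.2
  exact ⟨g, Subtype.ext hg⟩

end Cfsg.Agent.TwoGroups.WreathQuot
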