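/-
TwoGroups library: a conjugacy functor together with a central functor, local to global.
-/
import Cfsg.Agent.TwoGroups.ConjFunctor
import Cfsg.Agent.LocalEven.SubnormalSylow

set_option autoImplicit false
set_option linter.style.haveILetI false
set_option linter.unusedSectionVars false

namespace Cfsg.Agent.TwoGroups.FunctorPair

open Subgroup Cfsg.Agent.Transfer ConjFunctor
open scoped commutatorElement

variable {G : Type*} [Group G] [Finite G] {p : ℕ} [Fact p.Prime]

theorem map_center (k : G) (H : Subgroup G) :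
    (H ⊓ centralizer (H : Set G)).map (MulAut.conj k).toMonoidHom =
      H.map (MulAut.conj k).toMonoidHom ⊓ centralizer ((H.map (MulAut.conj k).toMonoidHom : Subgroup G) : Set G) := by
  ext x
  rw [ConjFunctor.mem_map_conj, mem_inf, mem_inf, ConjFunctor.mem_map_conj]
  refine and_congr_right fun _ => ?_
  rw [mem_centralizer_iff, mem_centralizer_iff]
  constructor
  · rintro h _ ⟨a, ha, rfl⟩
    have := congrArg (fun z => k * z * k⁻¹) (h a ha)
    simpa [mul_assoc] using this
  · intro h a ha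
    have := congrArg (fun z => k⁻¹ * z * k) (h (k * a * k⁻¹) (ConjFunctor.conj_mem_map ha))
    simpa [mul_assoc] using this

theorem not_dvd_relIndex_normal' {T : Subgroup G} {X : Subgroup G} {R : Subgroup G} (hX : X ≤ T)
    (hXn : (X.subgroupOf T).Normal) (hRp : IsPGroup p R) (hRi : ¬ p ∣ R.relIndex T) :
    ¬ p ∣ R.relIndex X := by
  haveI := hXn
  let P : Sylow p T := IsPGroup.toSylow (P := R.subgroupOf T) hRp.comap_subtype hRi
  have := Components.not_dvd_relIndex_of_isSubnormal P
    (IsSubnormal.step (X.subgroupOf T) ⊤ le_top IsSubnormal.top inferInstance)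
  replace this : ¬ p ∣ (R.subgroupOf T).relIndex (X.subgroupOf T) := this
  rwa [relIndex_subgroupOf hX] at this

/-- The induction for a pair of functors. -/
theorem induction_pair (S : Sylow p G) {W V : Subgroup G → Subgroup G}
    (hW : Cfsg.IsConjugacyFunctor p W)
    (hWZ : ∀ H : Subgroup G, IsPGroup p ↥H → H ⊓ centralizer (H : Set G) ≤ W H)
    (hVmono : ∀ H K : Subgroup G, IsPGroup p ↥H → IsPGroup p ↥K → H ≠ ⊥ → K ≠ ⊥ →
      H ⊓ centralizer (H : Set G) ≤ K ⊓ centralizer (K : Set G) → V H ≤ V K)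
    {C : Subgroup G → G → Prop} (hC : Closed S C)
    (hcen : ∀ A ≤ (S : Subgroup G), ∀ c ∈ centralizer (A : Set G), C A c)
    (hbaseW : ∀ y ∈ normalizer (W (S : Subgroup G) : Set G), ∀ B ≤ (S : Subgroup G),
      B.map (MulAut.conj y).toMonoidHom ≤ (S : Subgroup G) → C B y)
    (hbaseV : ∀ y ∈ centralizer (V (S : Subgroup G) : Set G), ∀ B ≤ (S : Subgroup G),
      B.map (MulAut.conj y).toMonoidHom ≤ (S : Subgroup G) → C B y)
    (hlocal : ∀ T, FullyNormalizedIn p (S : Subgroup G) T →
      (S : Subgroup G) ⊓ centralizer ((S : Subgroup G) : Set G) ≤ T →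
      (∀ y, (y ∈ normalizer (T : Set G) ⊓ normalizer (W (nIn (S : Subgroup G) T) : Set G) ∨
          y ∈ normalizer (T : Set G) ⊓ centralizer (V (nIn (S : Subgroup G) T) : Set G)) →
        ∀ B ≤ nIn (S : Subgroup G) T,
          B.map (MulAut.conj y).toMonoidHom ≤ nIn (S : Subgroup G) T → C B y) →
      ∀ y ∈ normalizer (T : Set G), ∀ B ≤ nIn (S : Subgroup G) T,
        B.map (MulAut.conj y).toMonoidHom ≤ nIn (S : Subgroup G) T → C B y)
    {A : Subgroup G} (hA : A ≤ (S : Subgroup G)) {g : G}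
    (hg : A.map (MulAut.conj g).toMonoidHom ≤ (S : Subgroup G)) : C A g := by
  set Z := (S : Subgroup G) ⊓ centralizer ((S : Subgroup G) : Set G) with hZ
  let Big : Subgroup G → Prop := fun R =>
    ∀ k : G, R.map (MulAut.conj k).toMonoidHom ≤ (S : Subgroup G) → Z ≤ R.map (MulAut.conj k).toMonoidHom
  suffices key : ∀ d : ℕ,
      (∀ A : Subgroup G, ∀ g : G, Nat.card (S : Subgroup G) - Nat.card A = d → A ≤ (S : Subgroup G) →
        A.map (MulAut.conj g).toMonoidHom ≤ (S : Subgroup G) → C A g) ∧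
      (∀ T, Nat.card (S : Subgroup G) - Nat.card (nIn (S : Subgroup G) T) = d →
        FullyNormalizedIn p (S : Subgroup G) T → Z ≤ T → Big (nIn (S : Subgroup G) T) →
        ∀ y ∈ normalizer (T : Set G), ∀ B ≤ nIn (S : Subgroup G) T,
          B.map (MulAut.conj y).toMonoidHom ≤ nIn (S : Subgroup G) T → C B y) from
    (key _).1 A g rfl hA hg
  intro d
  induction d using Nat.strong_induction_on with
  | _ d ih =>
  have hb : ∀ T, Nat.card (S : Subgroup G) - Nat.card (nIn (S : Subgroup G) T) = d →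
      FullyNormalizedIn p (S : Subgroup G) T → Z ≤ T → Big (nIn (S : Subgroup G) T) →
      ∀ y ∈ normalizer (T : Set G), ∀ B ≤ nIn (S : Subgroup G) T,
        B.map (MulAut.conj y).toMonoidHom ≤ nIn (S : Subgroup G) T → C B y := by
    intro T hd hT hZT hBig
    refine hlocal T hT hZT fun y hy B hB hyB => ?_
    set R := nIn (S : Subgroup G) T with hR
    have hRS' : R ≤ (S : Subgroup G) := inf_le_left
    have hBS : B ≤ (S : Subgroup G) := hB.trans hRS'
    rcases hy with hy | hy
    swap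
    · -- steps centralising `V R` centralise `V S`
      refine hbaseV y ?_ B hBS (hyB.trans hRS')
      rcases eq_or_ne R ⊥ with hR1 | hR1
      · have hTR : T ≤ R := le_inf hT.1 le_normalizer
        have hZ1 : Z = ⊥ := le_bot_iff.1 (hR1 ▸ hZT.trans hTR)
        have hS1 : (S : Subgroup G) = ⊥ := by
          by_contra hne
          haveI : Nontrivial (S : Subgroup G) := (nontrivial_iff_ne_bot _).2 hne
          haveI := S.2.center_nontrivial
          obtain ⟨⟨z, hz⟩, hz1⟩ := exists_ne (1 : center (S : Subgroup G))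
          refine hz1 (Subtype.ext (Subtype.ext ((mem_bot (G := G)).1 (hZ1 ▸ (⟨z.2, ?_⟩ : (z : G) ∈ Z)))))
          exact mem_centralizer_iff.2 fun a ha => congrArg Subtype.val (mem_center_iff.1 hz ⟨a, ha⟩)
        rw [hS1, ← hR1]; exact hy.2
      have hS1 : (S : Subgroup G) ≠ ⊥ := fun e => hR1 (le_bot_iff.1 (e ▸ hRS'))
      refine centralizer_le (hVmono _ _ S.2 (S.2.to_le hRS') hS1 hR1 (le_inf ?_ ?_)) hy.2
      · exact hZT.trans (le_inf hT.1 le_normalizer)
      · exact inf_le_right.trans (centralizer_le hRS')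
    by_cases hRS : R = (S : Subgroup G)
    · exact hbaseW y (by rw [← hRS]; exact hy.2) B hBS (hyB.trans hRS')
    have hlt : R < (S : Subgroup G) := lt_of_le_of_ne inf_le_left hRS
    have hbig := lt_nIn_apply hW S hlt
    have hRp : IsPGroup p R := S.2.to_le hlt.le
    have hVS : W R ≤ (S : Subgroup G) := (hW R hRp).1.trans hlt.le
    obtain ⟨k, hk, hk'⟩ := (placed_fullyNormalized S).exists_good hVS
    have hk2 := card_nIn_le hk'
    have hRN : R ≤ nIn (S : Subgroup G) (W R) :=
      le_inf hlt.le (le_normalizer.trans (le_normalizer_apply hW hRp))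
    have hS' : Nat.card (nIn (S : Subgroup G) (W R)) ≤ Nat.card (S : Subgroup G) := card_le_of_le inf_le_left
    have hCk : C (nIn (S : Subgroup G) (W R)) k := (ih _ (by omega)).1 _ k rfl inf_le_left hk'
    have hRk : R.map (MulAut.conj k).toMonoidHom ≤ nIn (S : Subgroup G) ((W R).map (MulAut.conj k).toMonoidHom) :=
      (map_mono hRN).trans hk2.2
    have hZk : Z ≤ (W R).map (MulAut.conj k).toMonoidHom := by
      have h1 := hBig k (hRk.trans inf_le_left)
      rw [← (hW R hRp).2.2 k]
      refine le_trans (le_inf h1 ?_) (hWZ _ (hRp.map _))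
      exact inf_le_right.trans (centralizer_le (hRk.trans inf_le_left))
    have hBig' : Big (nIn (S : Subgroup G) ((W R).map (MulAut.conj k).toMonoidHom)) := fun l hl => by
      have h1 : (R.map (MulAut.conj k).toMonoidHom).map (MulAut.conj l).toMonoidHom ≤ (S : Subgroup G) :=
        (map_mono hRk).trans hl
      rw [map_conj_mul] at h1
      refine (hBig _ h1).trans ?_
      rw [← map_conj_mul]
      exact map_mono hRk
    have hS'' : Nat.card (nIn (S : Subgroup G) ((W R).map (MulAut.conj k).toMonoidHom)) ≤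
        Nat.card (S : Subgroup G) := card_le_of_le inf_le_left
    have hkB : B.map (MulAut.conj k).toMonoidHom ≤
        nIn (S : Subgroup G) ((W R).map (MulAut.conj k).toMonoidHom) := (map_mono hB).trans hRk
    have hkyB : (B.map (MulAut.conj y).toMonoidHom).map (MulAut.conj k).toMonoidHom ≤
        nIn (S : Subgroup G) ((W R).map (MulAut.conj k).toMonoidHom) := (map_mono hyB).trans hRk
    have h1 : C B k := hC.mono (hB.trans hRN) inf_le_left hCk
    have e : (B.map (MulAut.conj k).toMonoidHom).map (MulAut.conj (k * y * k⁻¹)).toMonoidHom =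
        (B.map (MulAut.conj y).toMonoidHom).map (MulAut.conj k).toMonoidHom := by
      rw [map_conj_mul, map_conj_mul, inv_mul_cancel_right]
    have h2 : C (B.map (MulAut.conj k).toMonoidHom) (k * y * k⁻¹) := by
      refine (ih _ (by omega)).2 _ rfl hk hZk hBig' _ ?_ _ hkB (by rw [e]; exact hkyB)
      rw [normalizer_map_conj]
      exact ConjFunctor.conj_mem_map hy.2
    have h12 : C B (k * y) := by
      have := hC.comp hBS (hkB.trans inf_le_left) h1 h2
      rwa [inv_mul_cancel_right] at this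
    have h3 : C ((B.map (MulAut.conj y).toMonoidHom).map (MulAut.conj k).toMonoidHom) k⁻¹ :=
      hC.inv (hyB.trans inf_le_left) (hkyB.trans inf_le_left)
        (hC.mono (hyB.trans hRN) inf_le_left hCk)
    rw [map_conj_mul] at h3
    have := hC.comp hBS (by rw [← map_conj_mul]; exact hkyB.trans inf_le_left) h12 h3
    rwa [inv_mul_cancel_left] at this
  refine ⟨fun A g hd hA hg => ?_, hb⟩
  by_cases hAS : A = (S : Subgroup G)
  · subst hAS
    exact hbaseW g (le_normalizer_apply hW S.2
      (mem_normalizer_iff_map_conj.2 (Subgroup.eq_of_le_of_card_ge hg (card_map_conj g _).ge))) _ le_rfl hg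
  have hlt : A < (S : Subgroup G) := lt_of_le_of_ne hA hAS
  obtain ⟨k, hk, hk'⟩ := (placed_fullyNormalized S).exists_good hA
  obtain ⟨k2, hk2U, hk2'⟩ := FullyNormalizedIn.exists_conj (P := S) (A := A.map (MulAut.conj g).toMonoidHom)
    hk (x := k * g⁻¹) (by rw [map_conj_mul, inv_mul_cancel_right])
  set U := A.map (MulAut.conj k).toMonoidHom with hU
  set A' := A.map (MulAut.conj g).toMonoidHom with hA'
  have hcA : Nat.card A' = Nat.card A := card_map_conj g A
  have hcU : Nat.card U = Nat.card A := card_map_conj k A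
  have hA'lt : A' < (S : Subgroup G) := lt_of_le_of_ne hg fun e => by
    rw [e] at hcA
    exact hlt.ne (Subgroup.eq_of_le_of_card_ge hA hcA.le)
  have hUS : U ≤ (S : Subgroup G) := hk.1
  have hUlt : U < (S : Subgroup G) := lt_of_le_of_ne hUS fun e => by
    rw [e] at hcU
    exact hlt.ne (Subgroup.eq_of_le_of_card_ge hA hcU.le)
  have hc1 := lt_nIn S hlt
  have hc2 := lt_nIn S hA'lt
  have hc3 := lt_nIn S hUlt
  have hs1 : Nat.card (nIn (S : Subgroup G) A) ≤ Nat.card (S : Subgroup G) := card_le_of_le inf_le_left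
  have hs2 : Nat.card (nIn (S : Subgroup G) A') ≤ Nat.card (S : Subgroup G) := card_le_of_le inf_le_left
  have hs3 : Nat.card (nIn (S : Subgroup G) U) ≤ Nat.card (S : Subgroup G) := card_le_of_le inf_le_left
  have h1 : C A k := hC.mono (le_inf hA le_normalizer) inf_le_left
    ((ih _ (by unfold nIn at *; omega)).1 _ k rfl inf_le_left hk')
  have h3 : C U k2⁻¹ := by
    have := hC.inv hg (hk2U ▸ hUS) (hC.mono (le_inf hg le_normalizer) inf_le_left
      ((ih _ (by unfold nIn at *; omega)).1 _ k2 rfl inf_le_left hk2'))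
    rwa [hk2U] at this
  have hm : k2 * g * k⁻¹ ∈ normalizer (U : Set G) := by
    rw [mem_normalizer_iff_map_conj, hU, map_conj_mul, inv_mul_cancel_right, ← map_conj_mul, ← hA', hk2U]
  have hUn : U ≤ nIn (S : Subgroup G) U := le_inf hUS le_normalizer
  have hmid : C U (k2 * g * k⁻¹) := by
    set y := k2 * g * k⁻¹
    set R := nIn (S : Subgroup G) U with hR
    set N := normalizer (U : Set G) with hN
    set CU := centralizer (U : Set G) with hCU
    have hCN : CU ≤ N := fun c hc => mem_normalizer_iff_map_conj.2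
      (Subgroup.eq_of_le_of_card_ge (map_conj_le fun a ha => by
        rw [← mem_centralizer_iff.1 hc a ha, mul_inv_cancel_right]; exact ha) (card_map_conj c U).ge)
    haveI hCn : (CU.subgroupOf N).Normal := ⟨fun c hc n => mem_subgroupOf.2 (mem_centralizer_iff.2 fun a ha => by
      have ha' : (n : G)⁻¹ * a * n ∈ U := (mem_normalizer_iff''.1 n.2 a).1 ha
      have := congrArg (fun z => (n : G) * z * (n : G)⁻¹) (mem_centralizer_iff.1 (mem_subgroupOf.1 hc) _ ha')
      simpa [mul_assoc] using this)⟩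
    have hRi : ¬ p ∣ R.relIndex CU := not_dvd_relIndex_normal' hCN hCn (S.2.to_le inf_le_left) hk.2
    by_cases hcent : R ⊓ CU ≤ U
    · -- the subgroup is centric: every conjugate in `S` contains `Z`
      have hBig : ∀ l : G, U.map (MulAut.conj l).toMonoidHom ≤ (S : Subgroup G) →
          Z ≤ U.map (MulAut.conj l).toMonoidHom := by
        intro l hl z hz
        rw [ConjFunctor.mem_map_conj]
        set z' := l⁻¹ * z * l with hz'
        have hz'C : z' ∈ CU := mem_centralizer_iff.2 fun a ha => by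
          have h := mem_centralizer_iff.1 hz.2 _ (hl (ConjFunctor.conj_mem_map ha))
          have := congrArg (fun w => l⁻¹ * w * l) h
          simpa [hz', mul_assoc] using this
        have hzP : IsPGroup p (zpowers z' : Subgroup G) := by
          have : (zpowers z').map (MulAut.conj l).toMonoidHom = zpowers z := by
            rw [MonoidHom.map_zpowers]
            congr 1
            simp [hz', mul_assoc]
          have h2 : IsPGroup p ((zpowers z').map (MulAut.conj l).toMonoidHom) := by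
            rw [this]; exact S.2.to_le (zpowers_le.2 hz.1)
          exact h2.of_equiv ((equivMapOfInjective _ _ (MulAut.conj l).injective).symm)
        obtain ⟨T, hT⟩ := (hzP.comap_subtype (K := CU)).exists_le_sylow
        let P : Sylow p CU := IsPGroup.toSylow (P := R.subgroupOf CU) (S.2.to_le inf_le_left).comap_subtype hRi
        obtain ⟨c, hc⟩ := MulAction.exists_smul_eq CU T P
        have h2 : c * ⟨z', hz'C⟩ * c⁻¹ ∈ ((c • T : Sylow p CU) : Subgroup CU) := by
          rw [Sylow.coe_subgroup_smul]; exact ⟨_, hT (x := ⟨z', hz'C⟩) (mem_zpowers z'), rfl⟩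
        rw [hc] at h2
        have h4 : (c : G) * z' * (c : G)⁻¹ ∈ U := hcent ⟨mem_subgroupOf.1 h2, (c * ⟨z', hz'C⟩ * c⁻¹).2⟩
        have h5 := mem_centralizer_iff.1 c.2 _ h4
        have h6 : (c : G) * z' * (c : G)⁻¹ = z' := by
          calc (c : G) * z' * (c : G)⁻¹ = (c : G)⁻¹ * ((c : G) * ((c : G) * z' * (c : G)⁻¹)) := by group
            _ = (c : G)⁻¹ * ((c : G) * z' * (c : G)⁻¹ * c) := by rw [h5]
            _ = z' := by group
        rwa [h6] at h4
      have hid : U.map (MulAut.conj (1 : G)).toMonoidHom = U :=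
        mem_normalizer_iff_map_conj.1 (one_mem _)
      refine (ih (Nat.card (S : Subgroup G) - Nat.card (nIn (S : Subgroup G) U)) (by
        have hh : Nat.card U < Nat.card (nIn (S : Subgroup G) U) := hc3
        have hh' : Nat.card (nIn (S : Subgroup G) U) ≤ Nat.card (S : Subgroup G) := hs3
        omega)).2 U rfl hk (by have := hBig 1 (by rwa [hid]); rwa [hid] at this)
        (fun l hl => (hBig l ((map_mono hUn).trans hl)).trans (map_mono hUn)) y hm U hUn
        (by rw [mem_normalizer_iff_map_conj.1 hm]; exact hUn)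
    · -- enlarge by the centralizer
      set X := U ⊔ (R ⊓ CU) with hX
      have hXS : X ≤ (S : Subgroup G) := sup_le hUS (inf_le_left.trans inf_le_left)
      have hXlt : Nat.card U < Nat.card X := by
        refine lt_of_not_ge fun hle => hcent ((Subgroup.eq_of_le_of_card_ge (le_sup_left : U ≤ X) hle).ge.trans' le_sup_right)
      obtain ⟨c, hc, hce⟩ := exists_conj_sylow (H := CU) (T₁ := (R ⊓ CU).map (MulAut.conj y).toMonoidHom)
        (map_conj_le fun a ha => by
          have hn := hCn.conj_mem ⟨a, hCN ha.2⟩ (mem_subgroupOf.2 ha.2) ⟨y, hm⟩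
          simpa using mem_subgroupOf.1 hn) ((S.2.to_le (inf_le_left.trans inf_le_left)).map _) (by
          have hCm : CU.map (MulAut.conj y).toMonoidHom = CU := Subgroup.eq_of_le_of_card_ge
            (map_conj_le fun a ha => by
              simpa using mem_subgroupOf.1 (hCn.conj_mem ⟨a, hCN ha⟩ (mem_subgroupOf.2 ha) ⟨y, hm⟩))
            (card_map_conj y CU).ge
          have h6 := relIndex_map_conj y (R ⊓ CU) CU
          rw [hCm] at h6
          rw [h6]
          rwa [inf_relIndex_right]) inf_le_right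
        (S.2.to_le (inf_le_left.trans inf_le_left)) (by rwa [inf_relIndex_right])
      rw [map_conj_mul] at hce
      have hcy : X.map (MulAut.conj (c * y)).toMonoidHom = X := by
        rw [hX, Subgroup.map_sup, hce, mem_normalizer_iff_map_conj.1 (mul_mem (hCN hc) hm)]; rfl
      have h4 : C X (c * y) := (ih _ (by have := card_le_of_le hXS; omega)).1 X _ rfl hXS (hcy.le.trans hXS)
      have h5 := hC.comp hUS (by rw [mem_normalizer_iff_map_conj.1 (mul_mem (hCN hc) hm)]; exact hUS)
        (hC.mono (le_sup_left : U ≤ X) hXS h4) (h := c⁻¹)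
        (by rw [mem_normalizer_iff_map_conj.1 (mul_mem (hCN hc) hm)]; exact hcen U hUS _ (inv_mem hc))
      rwa [inv_mul_cancel_left] at h5
  have h12 : C A (k2 * g) := by
    have := hC.comp hA hUS h1 hmid
    rwa [inv_mul_cancel_right] at this
  have heq : A.map (MulAut.conj (k2 * g)).toMonoidHom = U := by rw [← map_conj_mul, ← hA', hk2U]
  have := hC.comp hA (heq.le.trans hUS) h12 (heq ▸ h3)
  rwa [inv_mul_cancel_left] at this

/-- Right conjugations step by step by elements with a property, inside `T`. -/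
inductive PChain (P : G → Prop) (T : Subgroup G) : Set G → G → Prop
  | nil (A : Set G) (h : A ⊆ T) : PChain P T A 1
  | cons (A : Set G) (x g : G) (hx : P x) (hA : A ⊆ T)
      (h : PChain P T ((fun a => x⁻¹ * a * x) '' A) g) : PChain P T A (x * g)

section Chains

variable {P : G → Prop} {T : Subgroup G}

theorem PChain.subset {A B : Set G} {g : G} (h : PChain P T B g) (hAB : A ⊆ B) : PChain P T A g := by
  induction h generalizing A with
  | nil B hB => exact .nil A (hAB.trans hB)
  | cons B x g hx hB h ih => exact .cons A x g hx (hAB.trans hB) (ih (Set.image_mono hAB))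

theorem PChain.trans {A : Set G} {g k : G} (h : PChain P T A g)
    (h' : PChain P T ((fun a => g⁻¹ * a * g) '' A) k) : PChain P T A (g * k) := by
  induction h with
  | nil B hB => simpa using h'
  | cons B x g hx hB h ih =>
    rw [mul_assoc]
    refine .cons B x _ hx hB (ih ?_)
    simpa [Set.image_image, mul_assoc] using h'

theorem PChain.head {A : Set G} {g : G} (h : PChain P T A g) : A ⊆ T := by
  cases h with
  | nil _ h => exact h
  | cons _ _ _ _ h => exact h

theorem PChain.symm (hP : ∀ x, P x → P x⁻¹) {A : Set G} {g : G} (h : PChain P T A g) :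
    PChain P T ((fun a => g⁻¹ * a * g) '' A) g⁻¹ := by
  induction h with
  | nil B hB => simpa using PChain.nil (P := P) (T := T) B hB
  | cons B x g hx hB h ih =>
    rw [mul_inv_rev]
    have ih' : PChain P T ((fun a => g⁻¹ * x⁻¹ * a * (x * g)) '' B) g⁻¹ := by
      simpa [Set.image_image, mul_assoc] using ih
    refine ih'.trans ?_
    have h1 := PChain.cons (T := T) ((fun a => x⁻¹ * a * x) '' B) x⁻¹ 1 (hP x hx) h.head
      (.nil _ (by simpa [Set.image_image, mul_assoc] using hB))
    simpa [Set.image_image, mul_assoc] using h1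

theorem PChain.decomp {A : Set G} {g : G} (h : PChain P T A g) :
    ∃ (n : ℕ) (b : Fin n → G), (∀ i, P (b i)) ∧ (List.ofFn b).prod = g ∧ ∀ k : ℕ, k ≤ n →
      (fun x => (((List.ofFn b).take k).prod)⁻¹ * x * ((List.ofFn b).take k).prod) '' A ⊆ T := by
  induction h with
  | nil A hA =>
    refine ⟨0, Fin.elim0, fun i => i.elim0, by simp, fun k hk => ?_⟩
    obtain rfl : k = 0 := by omega
    simpa using hA
  | cons A x g hx hA h ih =>
    obtain ⟨n, b, hb, hp, hk⟩ := ih
    refine ⟨n + 1, Fin.cons x b, Fin.cases hx hb, by simp [List.ofFn_succ, hp], fun k hkn => ?_⟩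
    rcases k with - | k
    · simpa using hA
    · rintro _ ⟨a, ha, rfl⟩
      have := hk k (by omega) ⟨_, ⟨a, ha, rfl⟩, rfl⟩
      simpa [List.ofFn_succ, mul_assoc] using this

end Chains

/-- Local to global for strong fusion by a functor and a central functor. -/
theorem fusion (S : Sylow p G) {W V : Subgroup G → Subgroup G}
    (hW : Cfsg.IsConjugacyFunctor p W) (hV : Cfsg.IsConjugacyFunctor p V)
    (hWZ : ∀ H : Subgroup G, IsPGroup p ↥H → H ⊓ centralizer (H : Set G) ≤ W H)
    (hVmono : ∀ H K : Subgroup G, IsPGroup p ↥H → IsPGroup p ↥K → H ≠ ⊥ → K ≠ ⊥ →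
      H ⊓ centralizer (H : Set G) ≤ K ⊓ centralizer (K : Set G) → V H ≤ V K)
    (hloc : ∀ H : Subgroup G, (S : Subgroup G) ⊓ centralizer ((S : Subgroup G) : Set G) ≤ H →
      H ≤ (S : Subgroup G) → ∃ Q : Subgroup G, Q ≤ normalizer (H : Set G) ∧ IsPGroup p ↥Q ∧
        ¬ p ∣ Q.relIndex (normalizer (H : Set G)) ∧
        ∀ (X : Set G) (a : G), X ⊆ Q → a ∈ normalizer (H : Set G) → (fun x => a⁻¹ * x * a) '' X ⊆ Q →
          ∃ c ∈ normalizer (H : Set G) ⊓ centralizer X, ∃ (n : ℕ) (b : Fin n → G),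
            (∀ i, b i ∈ normalizer (H : Set G) ⊓ normalizer (W Q : Set G) ∨
              b i ∈ normalizer (H : Set G) ⊓ centralizer (V Q : Set G)) ∧
            a = c * (List.ofFn b).prod ∧ ∀ k : ℕ, k ≤ n →
              (fun x => (((List.ofFn b).take k).prod)⁻¹ * x * ((List.ofFn b).take k).prod) ''
                ((fun x => c⁻¹ * x * c) '' X) ⊆ Q)
    (X : Set G) (a : G) (hX : X ⊆ (S : Subgroup G)) (haX : (fun x => a⁻¹ * x * a) '' X ⊆ (S : Subgroup G)) :
    ∃ c ∈ centralizer X, ∃ (n : ℕ) (b : Fin n → G),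
      (∀ i, b i ∈ ⊤ ⊓ normalizer (W (S : Subgroup G) : Set G) ∨ b i ∈ ⊤ ⊓ centralizer (V (S : Subgroup G) : Set G)) ∧
      a = c * (List.ofFn b).prod ∧ ∀ k : ℕ, k ≤ n →
        (fun x => (((List.ofFn b).take k).prod)⁻¹ * x * ((List.ofFn b).take k).prod) ''
          ((fun x => c⁻¹ * x * c) '' X) ⊆ (S : Subgroup G) := by
  let P : G → Prop := fun x =>
    x ∈ normalizer (W (S : Subgroup G) : Set G) ∨ x ∈ centralizer (V (S : Subgroup G) : Set G)
  have hP : ∀ x, P x → P x⁻¹ := fun x => Or.imp inv_mem inv_mem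
  let C : Subgroup G → G → Prop := fun A g =>
    ∃ w, PChain P (S : Subgroup G) (A : Set G) w ∧ ∀ x ∈ A, w⁻¹ * x * w = g * x * g⁻¹
  have hset : ∀ (A : Subgroup G) (g w : G), (∀ x ∈ A, w⁻¹ * x * w = g * x * g⁻¹) →
      ((A.map (MulAut.conj g).toMonoidHom : Subgroup G) : Set G) = (fun x => w⁻¹ * x * w) '' (A : Set G) := by
    intro A g w e
    rw [coe_map]
    exact Set.image_congr fun x hx => (e x hx).symm
  have hC : Closed S C := by
    refine ⟨?_, ?_, ?_⟩
    · rintro A B g hAB - ⟨w, hw, e⟩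
      exact ⟨w, hw.subset hAB, fun x hx => e x (hAB hx)⟩
    · rintro A g h - - ⟨w, hw, e⟩ ⟨v, hv, e'⟩
      rw [hset A g w e] at hv
      refine ⟨w * v, hw.trans hv, fun x hx => ?_⟩
      calc (w * v)⁻¹ * x * (w * v) = v⁻¹ * (w⁻¹ * x * w) * v := by group
        _ = h * (g * x * g⁻¹) * h⁻¹ := by rw [e x hx]; exact e' _ (ConjFunctor.conj_mem_map hx)
        _ = h * g * x * (h * g)⁻¹ := by group
    · rintro A g - - ⟨w, hw, e⟩
      refine ⟨w⁻¹, by rw [hset A g w e]; exact hw.symm hP, ?_⟩
      rintro _ ⟨x, hx, rfl⟩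
      show (w⁻¹)⁻¹ * (g * x * g⁻¹) * w⁻¹ = g⁻¹ * (g * x * g⁻¹) * (g⁻¹)⁻¹
      rw [← e x hx]
      calc (w⁻¹)⁻¹ * (w⁻¹ * x * w) * w⁻¹ = x := by group
        _ = g⁻¹ * (g * x * g⁻¹) * (g⁻¹)⁻¹ := by group
        _ = g⁻¹ * (w⁻¹ * x * w) * (g⁻¹)⁻¹ := by rw [e x hx]
  have hstep : ∀ y, P y → ∀ B ≤ (S : Subgroup G), B.map (MulAut.conj y).toMonoidHom ≤ (S : Subgroup G) → C B y := by
    intro y hy B hB hyB
    refine ⟨y⁻¹ * 1, .cons _ y⁻¹ 1 (hP y hy) hB (.nil _ ?_), fun x _ => by group⟩
    rintro _ ⟨x, hx, rfl⟩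
    show y⁻¹⁻¹ * x * y⁻¹ ∈ (S : Subgroup G)
    rw [inv_inv]
    exact hyB (ConjFunctor.conj_mem_map hx)
  have key : C (closure X) a⁻¹ := by
    refine induction_pair S hW hWZ hVmono hC ?_ (fun y hy => hstep y (Or.inl hy))
      (fun y hy => hstep y (Or.inr hy)) ?_ ((closure_le _).2 hX) ?_
    · intro A hA c hc
      refine ⟨1, .nil _ hA, fun x hx => ?_⟩
      rw [← mem_centralizer_iff.1 hc x hx]; group
    · intro T hT hZT hsteps y hy B hB hyB
      obtain ⟨Q, hQ, hQp, hQi, hQc⟩ := hloc T hZT hT.1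
      obtain ⟨hRp, hRN, hRi⟩ := fullyNormalized_sylow S hT
      obtain ⟨u, hu, huR⟩ := exists_conj_sylow hQ hQp hQi hRN hRp hRi
      set R := nIn (S : Subgroup G) T
      have hmem : ∀ r ∈ R, u⁻¹ * r * u ∈ Q := fun r hr => ConjFunctor.mem_map_conj.1 (huR ▸ hr)
      have hmem' : ∀ q ∈ Q, u * q * u⁻¹ ∈ R := fun q hq => huR ▸ ConjFunctor.conj_mem_map hq
      set N := normalizer (T : Set G)
      obtain ⟨c, hc, n, b, hb, hab, hk⟩ := hQc ((fun r => u⁻¹ * r * u) '' (B : Set G)) (u⁻¹ * y⁻¹ * u)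
        (by rintro _ ⟨r, hr, rfl⟩; exact hmem r (hB hr))
        (N.mul_mem (N.mul_mem (N.inv_mem hu) (N.inv_mem hy)) hu)
        (by
          rintro _ ⟨_, ⟨r, hr, rfl⟩, rfl⟩
          have := hmem _ (hyB (ConjFunctor.conj_mem_map hr))
          simpa [mul_assoc] using this)
      have hcfix : ∀ r ∈ B, c⁻¹ * (u⁻¹ * r * u) * c = u⁻¹ * r * u := fun r hr => by
        rw [mul_assoc, mem_centralizer_iff.1 hc.2 _ ⟨r, hr, rfl⟩, inv_mul_cancel_left]
      -- the steps, transported to `R`
      have hst : ∀ i, u * b i * u⁻¹ ∈ N ⊓ normalizer (W R : Set G) ∨ u * b i * u⁻¹ ∈ N ⊓ centralizer (V R : Set G) := by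
        intro i
        rcases hb i with h | h
        · refine Or.inl (mem_inf.2 ⟨N.mul_mem (N.mul_mem hu h.1) (N.inv_mem hu), ?_⟩)
          rw [← huR, (hW Q hQp).2.2 u, normalizer_map_conj]
          exact ConjFunctor.conj_mem_map h.2
        · refine Or.inr (mem_inf.2 ⟨N.mul_mem (N.mul_mem hu h.1) (N.inv_mem hu), ?_⟩)
          rw [← huR, (hV Q hQp).2.2 u, mem_centralizer_iff]
          rintro _ ⟨v, hv, rfl⟩
          have := congrArg (fun z => u * z * u⁻¹) (mem_centralizer_iff.1 h.2 v hv)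
          simpa [mul_assoc] using this
      have hind : ∀ k : ℕ, k ≤ n → C B (u * ((List.ofFn b).take k).prod * u⁻¹)⁻¹ := by
        intro k
        induction k with
        | zero =>
          intro _
          exact ⟨1, .nil _ fun r hr => (mem_inf.1 (hB hr)).1, fun r _ => by simp⟩
        | succ k ih =>
          intro hk1
          have ihk := ih (by omega)
          set v := u * ((List.ofFn b).take k).prod * u⁻¹ with hv
          have hv' : u * ((List.ofFn b).take (k + 1)).prod * u⁻¹ = v * (u * b ⟨k, by omega⟩ * u⁻¹) := by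
            rw [hv, List.take_succ_eq_append_getElem (by simp; omega), List.prod_append]
            simp [mul_assoc]
          have himg : ∀ j : ℕ, j ≤ n → ∀ r ∈ B,
              (u * ((List.ofFn b).take j).prod * u⁻¹)⁻¹ * r * (u * ((List.ofFn b).take j).prod * u⁻¹) ∈ R := by
            intro j hj r hr
            have h1 := hmem' _ (hk j hj ⟨_, ⟨_, ⟨r, hr, rfl⟩, rfl⟩, rfl⟩)
            dsimp only at h1
            rw [hcfix r hr] at h1
            simpa [mul_assoc] using h1
          have hB1 : B.map (MulAut.conj v⁻¹).toMonoidHom ≤ R := map_conj_le fun r hr => by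
            simpa [hv, mul_assoc] using himg k (by omega) r hr
          have hnext : C (B.map (MulAut.conj v⁻¹).toMonoidHom) (u * b ⟨k, by omega⟩ * u⁻¹)⁻¹ := by
            refine hsteps _ ((hst _).imp inv_mem inv_mem) _ hB1 ?_
            rw [map_conj_mul]
            refine map_conj_le fun r hr => ?_
            have := himg (k + 1) hk1 r hr
            rw [hv'] at this
            simpa [mul_assoc] using this
          have := hC.comp (hB.trans inf_le_left) (hB1.trans inf_le_left) ihk hnext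
          rwa [← mul_inv_rev, ← hv'] at this
      obtain ⟨w, hw, e⟩ := hind n le_rfl
      refine ⟨w, hw, fun r hr => ?_⟩
      rw [e r hr, List.take_of_length_le (by simp)]
      have hy' : y = u * ((List.ofFn b).prod)⁻¹ * c⁻¹ * u⁻¹ := by
        have := congrArg (fun z => (u * z * u⁻¹)⁻¹) hab
        simpa [mul_assoc] using this
      rw [hy']
      calc (u * (List.ofFn b).prod * u⁻¹)⁻¹ * r * ((u * (List.ofFn b).prod * u⁻¹)⁻¹)⁻¹
          = u * ((List.ofFn b).prod)⁻¹ * (u⁻¹ * r * u) * (List.ofFn b).prod * u⁻¹ := by group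
        _ = u * ((List.ofFn b).prod)⁻¹ * (c⁻¹ * (u⁻¹ * r * u) * c) * (List.ofFn b).prod * u⁻¹ := by
            rw [hcfix r hr]
        _ = _ := by group
    · rw [map_le_iff_le_comap, closure_le]
      exact fun x hx => by simpa using haX ⟨x, hx, rfl⟩
  obtain ⟨w, hw, e⟩ := key
  have hfix : ∀ x ∈ X, (a * w⁻¹)⁻¹ * x * (a * w⁻¹) = x := fun x hx => by
    have h1 : w⁻¹ * x * w = a⁻¹ * x * a := by simpa using e x (subset_closure hx)
    calc (a * w⁻¹)⁻¹ * x * (a * w⁻¹) = w * (a⁻¹ * x * a) * w⁻¹ := by group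
      _ = x := by rw [← h1]; group
  obtain ⟨n, b, hb, hp, hk⟩ := (hw.subset subset_closure).decomp
  refine ⟨a * w⁻¹, mem_centralizer_iff.2 fun x hx => ?_, n, b,
    fun i => (hb i).imp (fun h => ⟨mem_top _, h⟩) (fun h => ⟨mem_top _, h⟩), by rw [hp, inv_mul_cancel_right], ?_⟩
  · calc x * (a * w⁻¹) = (a * w⁻¹) * ((a * w⁻¹)⁻¹ * x * (a * w⁻¹)) := by group
      _ = (a * w⁻¹) * x := by rw [hfix x hx]
  · rw [Set.image_congr hfix, Set.image_id']
    exact hk

/-- Local to global for transfer by a functor and a central functor. -/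
theorem transfer (S : Sylow p G) {W V : Subgroup G → Subgroup G}
    (hW : Cfsg.IsConjugacyFunctor p W) (hV : Cfsg.IsConjugacyFunctor p V)
    (hWZ : ∀ H : Subgroup G, IsPGroup p ↥H → H ⊓ centralizer (H : Set G) ≤ W H)
    (hVZ : ∀ H : Subgroup G, IsPGroup p ↥H → V H ≤ H ⊓ centralizer (H : Set G))
    (hVmono : ∀ H K : Subgroup G, IsPGroup p ↥H → IsPGroup p ↥K → H ≠ ⊥ → K ≠ ⊥ →
      H ⊓ centralizer (H : Set G) ≤ K ⊓ centralizer (K : Set G) → V H ≤ V K)
    (hloc : ∀ H : Subgroup G, (S : Subgroup G) ⊓ centralizer ((S : Subgroup G) : Set G) ≤ H →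
      H ≤ (S : Subgroup G) → ∃ Q : Subgroup G, Q ≤ normalizer (H : Set G) ∧ IsPGroup p ↥Q ∧
        ¬ p ∣ Q.relIndex (normalizer (H : Set G)) ∧
        ∀ x : G, x ∈ Q ⊓ ⁅normalizer (H : Set G), normalizer (H : Set G)⁆ ↔
          ∃ a ∈ Q ⊓ ⁅normalizer (H : Set G) ⊓ normalizer (W Q : Set G),
              normalizer (H : Set G) ⊓ normalizer (W Q : Set G)⁆,
            ∃ b ∈ Q ⊓ ⁅normalizer (H : Set G) ⊓ centralizer (V Q : Set G),
              normalizer (H : Set G) ⊓ centralizer (V Q : Set G)⁆, x = a * b)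
    (x : G) :
    x ∈ (S : Subgroup G) ⊓ commutator G ↔
      ∃ a ∈ (S : Subgroup G) ⊓ ⁅normalizer (W (S : Subgroup G) : Set G), normalizer (W (S : Subgroup G) : Set G)⁆,
      ∃ b ∈ (S : Subgroup G) ⊓ ⁅centralizer (V (S : Subgroup G) : Set G), centralizer (V (S : Subgroup G) : Set G)⁆,
        x = a * b := by
  set N1 := normalizer (W (S : Subgroup G) : Set G) with hN1
  set N2 := centralizer (V (S : Subgroup G) : Set G) with hN2
  set L1 := (S : Subgroup G) ⊓ ⁅N1, N1⁆ with hL1
  set L2 := (S : Subgroup G) ⊓ ⁅N2, N2⁆ with hL2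
  have hS1 : (S : Subgroup G) ≤ N1 := le_normalizer.trans (le_normalizer_apply hW S.2)
  have hcenV : ∀ R : Subgroup G, IsPGroup p R → R ≤ centralizer (V R : Set G) := fun R hR r hr =>
    mem_centralizer_iff.2 fun v hv => (mem_centralizer_iff.1 (hVZ R hR hv).2 r hr).symm
  have hS2 : (S : Subgroup G) ≤ N2 := hcenV _ S.2
  constructor
  swap
  · rintro ⟨a, ha, b, hb, rfl⟩
    exact ⟨(S : Subgroup G).mul_mem ha.1 hb.1, (commutator G).mul_mem
      (commutator_mono le_top le_top ha.2) (commutator_mono le_top le_top hb.2)⟩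
  intro hx
  set L := L1 ⊔ L2 with hL
  have hN : L1 ≤ normalizer (L2 : Set G) := fun g hg => by
    have hg2 : g ∈ N2 := hS2 hg.1
    refine mem_normalizer_iff_map_conj.2 (Subgroup.eq_of_le_of_card_ge (map_conj_le fun a ha => ?_)
      (card_map_conj g L2).ge)
    refine ⟨(S : Subgroup G).mul_mem ((S : Subgroup G).mul_mem hg.1 ha.1) ((S : Subgroup G).inv_mem hg.1), ?_⟩
    have h1 := commutator_mem_commutator hg2 ((commutator_le_self N2) ha.2)
    have := ⁅N2, N2⁆.mul_mem h1 ha.2
    rwa [commutatorElement_def, inv_mul_cancel_right] at this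
  suffices hxL : x ∈ L by
    rw [hL, ← SetLike.mem_coe, coe_mul_of_left_le_normalizer_right _ _ hN] at hxL
    obtain ⟨a, ha, b, hb, rfl⟩ := hxL
    exact ⟨a, ha, b, hb, rfl⟩
  let C : Subgroup G → G → Prop := fun A g => ∀ a ∈ A, a⁻¹ * (g * a * g⁻¹) ∈ L
  have hC : Closed S C := by
    refine ⟨fun A B g hAB _ h a ha => h a (hAB ha), ?_, ?_⟩
    · intro A g h _ _ h1 h2 a ha
      have := L.mul_mem (h1 a ha) (h2 _ (ConjFunctor.conj_mem_map ha))
      rwa [show a⁻¹ * (g * a * g⁻¹) * ((g * a * g⁻¹)⁻¹ * (h * (g * a * g⁻¹) * h⁻¹)) =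
        a⁻¹ * (h * g * a * (h * g)⁻¹) by group] at this
    · rintro A g _ _ h1 _ ⟨a, ha, rfl⟩
      show (g * a * g⁻¹)⁻¹ * (g⁻¹ * (g * a * g⁻¹) * (g⁻¹)⁻¹) ∈ L
      have := L.inv_mem (h1 a ha)
      rwa [show (a⁻¹ * (g * a * g⁻¹))⁻¹ = (g * a * g⁻¹)⁻¹ * (g⁻¹ * (g * a * g⁻¹) * (g⁻¹)⁻¹) by group] at this
  have hcomm : ∀ (K : Subgroup G) (a y : G), a ∈ K → y ∈ K → a⁻¹ * (y * a * y⁻¹) ∈ ⁅K, K⁆ := fun K a y ha hy => by
    have := commutator_mem_commutator (K.inv_mem ha) hy
    rwa [commutatorElement_def, show a⁻¹ * y * (a⁻¹)⁻¹ * y⁻¹ = a⁻¹ * (y * a * y⁻¹) by group] at this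
  refine (show (S : Subgroup G) ⊓ commutator G ≤ L from ?_) hx
  rw [_root_.commutator_def]
  refine inf_commutator_le (K := ⊤) le_top S.2 (by rw [relIndex_top_right]; exact S.not_dvd_index)
    fun a ha g _ hga => ?_
  refine induction_pair S hW hWZ hVmono hC ?_ ?_ ?_ ?_ (A := closure {a})
    ((closure_le _).2 (Set.singleton_subset_iff.2 ha)) (g := g)
    (by rw [map_le_iff_le_comap, closure_le, Set.singleton_subset_iff]; exact hga) a (subset_closure rfl)
  · intro A _ c hc r hr
    rw [← mem_centralizer_iff.1 hc r hr]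
    simp
  · intro y hy B hB hyB r hr
    exact mem_sup_left ⟨(S : Subgroup G).mul_mem ((S : Subgroup G).inv_mem (hB hr)) (hyB (ConjFunctor.conj_mem_map hr)),
      hcomm N1 r y (hS1 (hB hr)) hy⟩
  · intro y hy B hB hyB r hr
    exact mem_sup_right ⟨(S : Subgroup G).mul_mem ((S : Subgroup G).inv_mem (hB hr)) (hyB (ConjFunctor.conj_mem_map hr)),
      hcomm N2 r y (hS2 (hB hr)) hy⟩
  · intro T hT hZT hsteps y hy B hB hyB r hr
    obtain ⟨Q, hQ, hQp, hQi, hQc⟩ := hloc T hZT hT.1
    obtain ⟨hRp, hRN, hRi⟩ := fullyNormalized_sylow S hT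
    obtain ⟨u, hu, huR⟩ := exists_conj_sylow hQ hQp hQi hRN hRp hRi
    set R := nIn (S : Subgroup G) T
    set N := normalizer (T : Set G)
    set f := (MulAut.conj u).toMonoidHom
    have hf : Function.Injective f := (MulAut.conj u).injective
    have hNf : N.map f = N := mem_normalizer_iff_map_conj.1 (le_normalizer hu)
    have h1 : r⁻¹ * (y * r * y⁻¹) ∈ R ⊓ ⁅N, N⁆ :=
      ⟨R.mul_mem (R.inv_mem (hB hr)) (hyB (ConjFunctor.conj_mem_map hr)), hcomm N r y (hRN (hB hr)) hy⟩
    have h2 : u⁻¹ * (r⁻¹ * (y * r * y⁻¹)) * u ∈ Q ⊓ ⁅N, N⁆ := by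
      refine ⟨ConjFunctor.mem_map_conj.1 (huR ▸ h1.1), ?_⟩
      have h := (mem_inf.1 h1).2
      rw [← hNf, ← map_commutator] at h
      exact ConjFunctor.mem_map_conj.1 h
    obtain ⟨a₁, ha₁, b₁, hb₁, e⟩ := (hQc _).1 h2
    have hWR : (normalizer (W Q : Set G)).map f = normalizer (W R : Set G) := by
      rw [← huR, (hW Q hQp).2.2 u, normalizer_map_conj]
    have hVR : (centralizer (V Q : Set G)).map f ≤ centralizer (V R : Set G) := by
      rw [← huR, (hV Q hQp).2.2 u]
      rintro _ ⟨z, hz, rfl⟩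
      rw [mem_centralizer_iff]
      rintro _ ⟨v, hv, rfl⟩
      have := congrArg (fun w => u * w * u⁻¹) (mem_centralizer_iff.1 hz v hv)
      simpa [f, mul_assoc] using this
    have hfin : ∀ K : Subgroup G, R ≤ K → K ≤ N → (∀ z ∈ K, z ∈ N ⊓ normalizer (W R : Set G) ∨ z ∈ N ⊓ centralizer (V R : Set G)) →
        R ⊓ ⁅K, K⁆ ≤ L := fun K hRK hKN hK =>
      inf_commutator_le hRK hRp (fun h => hRi (h.trans ⟨_, (relIndex_mul_relIndex _ _ _ hRK hKN).symm⟩))
        fun w hw k hk hkw => hsteps k (hK k hk) (closure {w})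
          ((closure_le _).2 (Set.singleton_subset_iff.2 hw))
          (by rw [map_le_iff_le_comap, closure_le, Set.singleton_subset_iff]; exact hkw) w (subset_closure rfl)
    have ea : u * a₁ * u⁻¹ ∈ L := hfin (N ⊓ normalizer (W R : Set G))
      (le_inf hRN (le_normalizer.trans (le_normalizer_apply hW hRp))) inf_le_left (fun z hz => Or.inl hz)
      ⟨huR ▸ ConjFunctor.conj_mem_map ha₁.1, by
        have h := mem_map_of_mem f ha₁.2
        rw [map_commutator] at h
        have hle : (N ⊓ normalizer (W Q : Set G)).map f ≤ N ⊓ normalizer (W R : Set G) :=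
          (map_inf_le _ _ f).trans (le_of_eq (by rw [hNf, hWR]))
        exact commutator_mono hle hle h⟩
    have eb : u * b₁ * u⁻¹ ∈ L := hfin (N ⊓ centralizer (V R : Set G))
      (le_inf hRN (hcenV R hRp)) inf_le_left (fun z hz => Or.inr hz)
      ⟨huR ▸ ConjFunctor.conj_mem_map hb₁.1, by
        have h := mem_map_of_mem f hb₁.2
        rw [map_commutator] at h
        have hle : (N ⊓ centralizer (V Q : Set G)).map f ≤ N ⊓ centralizer (V R : Set G) :=
          (map_inf_le _ _ f).trans (inf_le_inf hNf.le hVR)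
        exact commutator_mono hle hle h⟩
    have := L.mul_mem ea eb
    rwa [show u * a₁ * u⁻¹ * (u * b₁ * u⁻¹) = u * (a₁ * b₁) * u⁻¹ by group, ← e,
      show u * (u⁻¹ * (r⁻¹ * (y * r * y⁻¹)) * u) * u⁻¹ = r⁻¹ * (y * r * y⁻¹) by group] at this

end Cfsg.Agent.TwoGroups.FunctorPair
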