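import Cfsg.Agent.TwoGroups.PSLEvenCount

/-!
The solubilizer of an involution in `PSL₂(2^p)`, by double counting.
-/

set_option autoImplicit false
set_option linter.style.haveILetI false
set_option linter.unusedSectionVars false
open scoped Classical

namespace Cfsg.Agent.TwoGroups.PSLEven

open Matrix Cfsg.Agent.Linear

variable {F : Type*} [Field F] [Fintype F]

local notation "PSL" => Matrix.ProjectiveSpecialLinearGroup (Fin 2) F
local notation "Nz" P => Subgroup.normalizer (((P : Sylow 2 (Matrix.ProjectiveSpecialLinearGroup (Fin 2) F)) : Subgroup (Matrix.ProjectiveSpecialLinearGroup (Fin 2) F)) : Set (Matrix.ProjectiveSpecialLinearGroup (Fin 2) F))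
local notation "Cz" x => Subgroup.centralizer ({x} : Set (Matrix.ProjectiveSpecialLinearGroup (Fin 2) F))

variable {f : ℕ} (hf : Hyp F f)
include hf

variable [Fintype (Matrix.ProjectiveSpecialLinearGroup (Fin 2) F)]

theorem card_invols :
    (Finset.univ.filter fun v : PSL => v * v = 1 ∧ v ≠ 1).card = (Fintype.card F + 1) * (Fintype.card F - 1) := by
  haveI := Fintype.ofFinite (Sylow 2 PSL)
  have : (Finset.univ.filter fun v : PSL => v * v = 1 ∧ v ≠ 1) =
      (Finset.univ : Finset (Sylow 2 PSL)).biUnion fun P =>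
        (Finset.univ.filter fun v => v ∈ (P : Subgroup PSL)).erase 1 := by
    ext v
    simp only [Finset.mem_filter, Finset.mem_univ, true_and, Finset.mem_biUnion, Finset.mem_erase]
    constructor
    · rintro ⟨h, h1⟩
      obtain ⟨P, hP⟩ := mem_of_sq hf h
      exact ⟨P, h1, hP⟩
    · rintro ⟨P, h1, hP⟩
      exact ⟨(sylow_elem hf P).1 v hP, h1⟩
  rw [this, Finset.card_biUnion]
  · simp only [Finset.card_erase_of_mem, Finset.mem_filter, Finset.mem_univ, true_and, one_mem,
      card_filter_mem, card_sylow hf, Finset.sum_const, Finset.card_univ, smul_eq_mul]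
    rw [← Nat.card_eq_fintype_card (α := Sylow 2 PSL), num_sylow hf]
  · intro P _ Q _ hPQ
    rw [Function.onFun, Finset.disjoint_left]
    simp only [Finset.mem_filter, Finset.mem_erase, Finset.mem_univ, true_and]
    rintro v ⟨hv1, hv⟩ ⟨-, hv'⟩
    exact hPQ (sylow_eq_of_mem hf hv hv' hv1)

theorem card_plus :
    2 * (Finset.univ.filter fun x : PSL => Plus x).card =
      (Fintype.card F + 1) * (Fintype.card F * (Fintype.card F - 2)) := by
  haveI := Fintype.ofFinite (Sylow 2 PSL)
  have h := Finset.sum_card_bipartiteAbove_eq_sum_card_bipartiteBelow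
    (s := Finset.univ.filter fun x : PSL => Plus x) (t := (Finset.univ : Finset (Sylow 2 PSL)))
    (fun x P => x ∈ (Nz P))
  have hl : ∀ x ∈ Finset.univ.filter (fun x : PSL => Plus x),
      ((Finset.univ : Finset (Sylow 2 PSL)).bipartiteAbove (fun x P => x ∈ (Nz P)) x).card = 2 := by
    intro x hx
    simp only [Finset.mem_filter, Finset.mem_univ, true_and] at hx
    obtain ⟨P, P', hne, hP, hP', huniq, -⟩ := plus_frame hf hx
    rw [show ((Finset.univ : Finset (Sylow 2 PSL)).bipartiteAbove (fun x P => x ∈ (Nz P)) x) = {P, P'} by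
      ext Q
      simp only [Finset.mem_bipartiteAbove, Finset.mem_univ, true_and, Finset.mem_insert, Finset.mem_singleton]
      exact ⟨huniq Q, by rintro (rfl | rfl) <;> assumption⟩]
    exact Finset.card_pair hne.symm
  have hr : ∀ P ∈ (Finset.univ : Finset (Sylow 2 PSL)),
      ((Finset.univ.filter fun x : PSL => Plus x).bipartiteBelow (fun x P => x ∈ (Nz P)) P).card =
        Fintype.card F * (Fintype.card F - 2) := by
    intro P _
    rw [show ((Finset.univ.filter fun x : PSL => Plus x).bipartiteBelow (fun x P => x ∈ (Nz P)) P) =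
        (Finset.univ.filter fun y => y ∈ (Nz P)) \ (Finset.univ.filter fun y => y ∈ (P : Subgroup PSL)) by
      ext y
      simp only [Finset.mem_bipartiteBelow, Finset.mem_filter, Finset.mem_univ, true_and, Finset.mem_sdiff]
      exact ⟨fun h => ⟨h.2, not_mem_sylow_of_plus hf h.1 P⟩, fun h => ⟨plus_of_mem_norm hf h.1 h.2, h.1⟩⟩]
    rw [Finset.card_sdiff_of_subset (fun y hy => by
      simp only [Finset.mem_filter, Finset.mem_univ, true_and] at hy ⊢
      exact Subgroup.le_normalizer hy), card_filter_mem, card_filter_mem, card_norm hf, card_sylow hf,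
      ← Nat.mul_sub_one, Nat.sub_sub]
  rw [Finset.sum_congr rfl hl, Finset.sum_congr rfl hr, Finset.sum_const, Finset.sum_const, smul_eq_mul,
    smul_eq_mul, Finset.card_univ, ← Nat.card_eq_fintype_card (α := Sylow 2 PSL), num_sylow hf] at h
  rw [mul_comm, h]

theorem pr_conj (g v y : PSL) : Pr v y ↔ Pr (g * v * g⁻¹) (g * y * g⁻¹) := by
  unfold Pr
  rw [not_iff_not]
  have h := MonoidHom.map_closure (MulAut.conj g).toMonoidHom ({v, y} : Set PSL)
  rw [Set.image_pair] at h
  simp only [MulEquiv.coe_toMonoidHom, MulAut.conj_apply] at h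
  rw [← h]
  constructor
  · intro e
    rw [e, Subgroup.map_top_of_surjective _ (MulAut.conj g).surjective]
  · intro e
    exact Subgroup.map_injective (f := (MulAut.conj g).toMonoidHom) (MulAut.conj g).injective
      (e.trans (Subgroup.map_top_of_surjective _ (MulAut.conj g).surjective).symm)

theorem invol_conj {v w : PSL} (hv : v * v = 1 ∧ v ≠ 1) (hw : w * w = 1 ∧ w ≠ 1) : ∃ g, g * v * g⁻¹ = w := by
  let m : PSL ⧸ (Cz v) → {u : PSL // u * u = 1 ∧ u ≠ 1} := Quotient.lift
    (fun g => ⟨g * v * g⁻¹, by rw [show g * v * g⁻¹ * (g * v * g⁻¹) = g * (v * v) * g⁻¹ by group, hv.1]; group,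
      fun e => hv.2 (by rwa [mul_inv_eq_one, mul_eq_left] at e)⟩)
    (fun a b hab => Subtype.ext (by
      have h' := Subgroup.mem_centralizer_singleton_iff.1 (QuotientGroup.leftRel_apply.1 hab)
      calc a * v * a⁻¹ = a * (v * (a⁻¹ * b)) * b⁻¹ := by group
        _ = b * v * b⁻¹ := by rw [← h']; group))
  have hm : Function.Injective m := by
    intro a b
    induction a using Quotient.inductionOn' with
    | h a =>
      induction b using Quotient.inductionOn' with
      | h b =>
        intro e
        have e' : a * v * a⁻¹ = b * v * b⁻¹ := congrArg Subtype.val e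
        apply Quotient.sound'
        rw [QuotientGroup.leftRel_apply, Subgroup.mem_centralizer_singleton_iff]
        calc a⁻¹ * b * v = a⁻¹ * (b * v * b⁻¹) * b := by group
          _ = v * (a⁻¹ * b) := by rw [← e']; group
  have hcard : Nat.card (PSL ⧸ (Cz v)) = Nat.card {u : PSL // u * u = 1 ∧ u ≠ 1} := by
    rw [Nat.card_eq_fintype_card (α := {u : PSL // u * u = 1 ∧ u ≠ 1}), Fintype.card_subtype, card_invols hf,
      ← Subgroup.index_eq_card]
    have h := (Cz v).index_mul_card
    rw [inv_cent hf hv.1 hv.2, card_group hf, PSL2ClassSizes.sq_sub_one_eq] at h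
    refine Nat.eq_of_mul_eq_mul_left (show 0 < Fintype.card F by have := four_le hf; omega) ?_
    rw [← h, mul_comm]
  obtain ⟨a, ha⟩ := ((Nat.bijective_iff_injective_and_card m).2 ⟨hm, hcard⟩).2 ⟨w, hw⟩
  induction a using Quotient.inductionOn' with
  | h g => exact ⟨g, congrArg Subtype.val ha⟩

theorem card_sol_invol (hmin : NoSub F) {x : PSL} (hx : x * x = 1 ∧ x ≠ 1) :
    (Finset.univ.filter (Pr x)).card = 3 * Fintype.card F * (Fintype.card F - 1) := by
  haveI := simple hf
  set q := Fintype.card F with hqdef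
  have hq := four_le hf
  set I := Finset.univ.filter fun v : PSL => v * v = 1 ∧ v ≠ 1 with hI
  have hconst : ∀ v ∈ I, ((Finset.univ : Finset PSL).bipartiteAbove (fun v y => Pr v y) v).card =
      (Finset.univ.filter (Pr x)).card := by
    intro v hv
    simp only [I, Finset.mem_filter, Finset.mem_univ, true_and] at hv
    obtain ⟨g, rfl⟩ := invol_conj hf hx hv
    refine Finset.card_bij' (fun y _ => g⁻¹ * y * g) (fun y _ => g * y * g⁻¹) ?_ ?_ ?_ ?_
    · intro y hy
      simp only [Finset.mem_bipartiteAbove, Finset.mem_filter, Finset.mem_univ, true_and] at hy ⊢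
      rw [pr_conj hf g x, show g * (g⁻¹ * y * g) * g⁻¹ = y by group]
      exact hy
    · intro y hy
      simp only [Finset.mem_bipartiteAbove, Finset.mem_filter, Finset.mem_univ, true_and] at hy ⊢
      exact (pr_conj hf g x y).1 hy
    · intro y _; group
    · intro y _; group
  set k : PSL → ℕ := fun y => (I.bipartiteBelow (fun v y => Pr v y) y).card with hk
  have h := Finset.sum_card_bipartiteAbove_eq_sum_card_bipartiteBelow
    (s := I) (t := (Finset.univ : Finset PSL)) (fun v y => Pr v y)
  rw [Finset.sum_congr rfl hconst, Finset.sum_const, smul_eq_mul] at h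
  set A := Finset.univ.filter fun y : PSL => Plus y with hA
  set B := Finset.univ.filter fun y : PSL => Minus y with hB
  have hk1 : ∀ y ∈ ({1} : Finset PSL), k y = I.card := by
    intro y hy
    rw [Finset.mem_singleton] at hy
    subst hy
    simp only [hk]; congr 1
    refine Finset.ext fun v => ⟨fun hv => (Finset.mem_bipartiteBelow _).1 hv |>.1, fun hv => ?_⟩
    refine (Finset.mem_bipartiteBelow _).2 ⟨hv, fun htop => ?_⟩
    refine Cfsg.Agent.Linear.PSL2Max.zpowers_ne_top hq v (top_le_iff.1 (htop ▸ ?_))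
    rw [Subgroup.closure_le]
    rintro s (rfl | rfl)
    exacts [Subgroup.mem_zpowers _, one_mem _]
  have hkI : ∀ y ∈ I, k y = I.card := by
    intro y hy
    simp only [I, Finset.mem_filter, Finset.mem_univ, true_and] at hy
    simp only [hk]; congr 1
    refine Finset.ext fun v => ⟨fun hv => (Finset.mem_bipartiteBelow _).1 hv |>.1, fun hv => ?_⟩
    refine (Finset.mem_bipartiteBelow _).2 ⟨hv, pr_invol hf ?_ hy.1⟩
    simp only [I, Finset.mem_filter] at hv
    exact hv.2.1
  have hsw : ∀ y : PSL, k y = (Finset.univ.filter fun v => (v * v = 1 ∧ v ≠ 1) ∧ Pr y v).card := fun y => by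
    simp only [hk]; congr 1
    ext v
    simp only [Finset.mem_bipartiteBelow, I, Finset.mem_filter, Finset.mem_univ, true_and]
    exact and_congr_right fun _ => ⟨pr_comm, pr_comm⟩
  have hkA : ∀ y ∈ A, k y = 3 * (q - 1) := fun y hy => by
    rw [hsw]; exact (card_sol_plus hf hmin (Finset.mem_filter.1 hy).2).2
  have hkB : ∀ y ∈ B, k y = q + 1 := fun y hy => by
    rw [hsw]; exact (card_sol_minus hf hmin (Finset.mem_filter.1 hy).2).2
  have d1 : Disjoint ({1} : Finset PSL) I := by simp [I]
  have d2 : Disjoint ({1} ∪ I) A := by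
    rw [Finset.disjoint_left]
    simp only [I, A, Finset.mem_union, Finset.mem_singleton, Finset.mem_filter, Finset.mem_univ, true_and]
    rintro y (rfl | hy) hp
    · exact hp.1 rfl
    · exact not_sq_of_plus hf hp hy.1
  have d3 : Disjoint ({1} ∪ I ∪ A) B := by
    rw [Finset.disjoint_left]
    simp only [I, A, B, Finset.mem_union, Finset.mem_singleton, Finset.mem_filter, Finset.mem_univ, true_and]
    rintro y ((rfl | hy) | hp) hm
    · exact hm.1 rfl
    · exact not_sq_of_minus hf hm hy.1
    · have := hp.2.symm.trans hm.2; omega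
  have hcov : (Finset.univ : Finset PSL) = {1} ∪ I ∪ A ∪ B := by
    ext y
    simp only [I, A, B, Finset.mem_union, Finset.mem_singleton, Finset.mem_filter, Finset.mem_univ, true_and,
      true_iff]
    by_cases hy : y = 1
    · exact Or.inl (Or.inl (Or.inl hy))
    rcases cent_cases hf hy with e | ⟨e, -⟩ | e
    · exact Or.inr ⟨hy, e⟩
    · exact Or.inl (Or.inr ⟨hy, e⟩)
    · refine Or.inl (Or.inl (Or.inr ⟨?_, hy⟩))
      have hp : IsPGroup 2 (Subgroup.zpowers y) := by
        have hdvd := e ▸ orderOf_dvd_cent hf y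
        rw [hf.1, Nat.dvd_prime_pow Nat.prime_two] at hdvd
        obtain ⟨n, -, hn⟩ := hdvd
        exact IsPGroup.of_card (n := n) (by rw [Nat.card_zpowers, hn])
      obtain ⟨P, hP⟩ := hp.exists_le_sylow
      exact (sylow_elem hf P).1 y (hP (Subgroup.mem_zpowers y))
  have htot := congrArg Finset.card hcov
  rw [Finset.card_union_of_disjoint d3, Finset.card_union_of_disjoint d2, Finset.card_union_of_disjoint d1,
    Finset.card_singleton, Finset.card_univ, ← Nat.card_eq_fintype_card, card_group hf] at htot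
  rw [show ∑ y : PSL, (I.bipartiteBelow (fun v y => Pr v y) y).card = ∑ y ∈ {1} ∪ I ∪ A ∪ B, k y by rw [← hcov],
    Finset.sum_union d3, Finset.sum_union d2, Finset.sum_union d1, Finset.sum_congr rfl hk1,
    Finset.sum_congr rfl hkI, Finset.sum_congr rfl hkA, Finset.sum_congr rfl hkB] at h
  simp only [Finset.sum_const, smul_eq_mul, Finset.card_singleton, one_mul] at h
  have hIc : I.card = (q + 1) * (q - 1) := card_invols hf
  have hAc : 2 * A.card = (q + 1) * (q * (q - 2)) := card_plus hf
  rw [PSL2ClassSizes.sq_sub_one_eq] at htot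
  rw [hIc] at h htot
  obtain ⟨d, hd⟩ : ∃ d, q = d + 2 := ⟨q - 2, by omega⟩
  rw [← hqdef] at htot
  clear_value q
  subst hd
  rw [show d + 2 - 1 = d + 1 by omega] at *
  rw [show d + 2 - 2 = d by omega] at hAc
  generalize A.card = a at *
  generalize B.card = b at *
  refine Nat.eq_of_mul_eq_mul_left (show 0 < 2 * ((d + 2 + 1) * (d + 1)) by positivity) ?_
  rw [mul_assoc, h]
  zify at *
  linear_combination (2 * ((d : ℤ) + 3) : ℤ) * htot * (-1) + (3 * ((d : ℤ) + 1) - ((d : ℤ) + 3)) * hAc

end Cfsg.Agent.TwoGroups.PSLEven
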