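/-
Two-groups library: Yoshida's transfer argument for weakly closed subgroups.
-/
import Mathlib.GroupTheory.Transfer
import Mathlib.Algebra.Group.ForwardDiff
import Cfsg.Agent.Transfer.Tate
import Cfsg.Prelude.Def_BaumannBlocks
import Cfsg.Agent.FGS3.PGroupFrattini

set_option linter.style.haveILetI false
set_option linter.unusedSimpArgs false

namespace Cfsg.Agent.TwoGroups.Yoshida

open Cfsg MulAction
open scoped commutatorElement fwdDiff

variable {G : Type*} [Group G]

/-- `y ↦ [y, z]`. -/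
def eng (z : G) : G → G := fun y => y⁻¹ * z⁻¹ * y * z

/-- A hom on a subgroup, extended by `1`. -/
noncomputable def chi {C : Type*} [CommGroup C] {H : Subgroup G} (φ : H →* C) (x : G) : C :=
  open scoped Classical in if h : x ∈ H then φ ⟨x, h⟩ else 1

variable {C : Type*} [CommGroup C] {H : Subgroup G}

theorem chi_of_mem (φ : H →* C) {x : G} (h : x ∈ H) : chi φ x = φ ⟨x, h⟩ := by
  rw [chi, dif_pos h]

theorem chi_of_not_mem (φ : H →* C) {x : G} (h : x ∉ H) : chi φ x = 1 := by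
  rw [chi, dif_neg h]

theorem chi_conj (φ : H →* C) {n : G} (hn : n ∈ H) (x : G) :
    chi φ (n⁻¹ * x * n) = chi φ x := by
  by_cases h : x ∈ H
  · have h' : n⁻¹ * x * n ∈ H := H.mul_mem (H.mul_mem (H.inv_mem hn) h) hn
    rw [chi_of_mem φ h, chi_of_mem φ h',
      show (⟨n⁻¹ * x * n, h'⟩ : H) = (⟨n, hn⟩ : H)⁻¹ * ⟨x, h⟩ * ⟨n, hn⟩ from rfl,
      map_mul, map_mul, map_inv, mul_comm (φ ⟨n, hn⟩)⁻¹, inv_mul_cancel_right]
  · rw [chi_of_not_mem φ h, chi_of_not_mem φ]
    intro h'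
    apply h
    have h2 := H.mul_mem (H.mul_mem hn h') (H.inv_mem hn)
    simpa [mul_assoc] using h2

/-- `chi` of a conjugate depends only on the coset of the conjugating element. -/
theorem chi_coset (φ : H →* C) (u g g' : G) (h : (g : G ⧸ H) = g') :
    chi φ (g'⁻¹ * u * g') = chi φ (g⁻¹ * u * g) := by
  have hn : g⁻¹ * g' ∈ H := QuotientGroup.eq.mp h
  rw [← chi_conj φ hn (g⁻¹ * u * g)]
  congr 1
  group

theorem smul_eq_self_iff (u g : G) : u • (g : G ⧸ H) = g ↔ g⁻¹ * u * g ∈ H := by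
  rw [MulAction.Quotient.smul_coe, smul_eq_mul, QuotientGroup.eq]
  constructor
  · intro h
    have h2 := H.inv_mem h
    simpa [mul_assoc] using h2
  · intro h
    have h2 := H.inv_mem h
    simpa [mul_assoc] using h2

/-- Transfer evaluated through fixed points, when the longer orbits contribute nothing. -/
theorem transfer_eq_prod_chi [Finite G] [Fintype (G ⧸ H)] (φ : H →* C) (u : G)
    (hmin : ∀ (g : G) (m : ℕ), 1 < m → m ∣ orderOf u → chi φ (g⁻¹ * u ^ m * g) = 1) :
    MonoidHom.transfer φ u = ∏ q : G ⧸ H, chi φ (q.out⁻¹ * u * q.out) := by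
  classical
  haveI : Fintype (Quotient (orbitRel (Subgroup.zpowers u) (G ⧸ H))) := Fintype.ofFinite _
  rw [MonoidHom.transfer_eq_prod_quotient_orbitRel_zpowers_quot]
  have hfix : ∀ q : G ⧸ H, chi φ (q.out⁻¹ * u * q.out) ≠ 1 → u • q = q := by
    intro q hq
    have hmem : q.out⁻¹ * u * q.out ∈ H := by
      by_contra h
      exact hq (chi_of_not_mem φ h)
    have h := (smul_eq_self_iff u q.out).mpr hmem
    rwa [QuotientGroup.out_eq'] at h
  have hone : ∀ ω : Quotient (orbitRel (Subgroup.zpowers u) (G ⧸ H)),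
      φ ⟨ω.out.out⁻¹ * u ^ Function.minimalPeriod (u • ·) ω.out * ω.out.out,
          QuotientGroup.out_conj_pow_minimalPeriod_mem H u ω.out⟩ ≠ 1 →
        Function.minimalPeriod (u • ·) ω.out = 1 := by
    intro ω hω
    by_contra hm
    apply hω
    have hdvd : Function.minimalPeriod (u • ·) ω.out ∣ orderOf u := by
      apply Function.IsPeriodicPt.minimalPeriod_dvd
      show (u • ·)^[orderOf u] ω.out = ω.out
      rw [smul_iterate, pow_orderOf_eq_one]
      exact one_smul G ω.out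
    have hpos : 0 < Function.minimalPeriod (u • ·) ω.out :=
      Nat.pos_of_dvd_of_pos hdvd (orderOf_pos u)
    have h := hmin ω.out.out _ (by omega) hdvd
    rwa [chi_of_mem φ (QuotientGroup.out_conj_pow_minimalPeriod_mem H u ω.out)] at h
  -- the orbit of a fixed point
  have hout : ∀ q : G ⧸ H, u • q = q →
      (Quotient.mk (orbitRel (Subgroup.zpowers u) (G ⧸ H)) q).out = q := by
    intro q hq
    have h : (Quotient.mk (orbitRel (Subgroup.zpowers u) (G ⧸ H)) q).out ∈
        orbit (Subgroup.zpowers u) q :=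
      Quotient.mk_out (s := orbitRel (Subgroup.zpowers u) (G ⧸ H)) q
    obtain ⟨⟨t, ht⟩, hte⟩ := h
    rw [← hte]
    have hst : Subgroup.zpowers u ≤ stabilizer G q := Subgroup.zpowers_le.mpr hq
    exact hst ht
  symm
  refine Finset.prod_bij_ne_one (fun q _ _ => Quotient.mk _ q) (fun _ _ _ => Finset.mem_univ _)
    ?_ ?_ ?_
  · intro q₁ _ h₁ q₂ _ h₂ he
    rw [← hout q₁ (hfix q₁ h₁), ← hout q₂ (hfix q₂ h₂)]
    exact congrArg Quotient.out he
  · intro ω _ hω
    have hm := hone ω hω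
    have hmem := QuotientGroup.out_conj_pow_minimalPeriod_mem H u ω.out
    refine ⟨ω.out, Finset.mem_univ _, ?_, Quotient.out_eq _⟩
    have heq : chi φ (ω.out.out⁻¹ * u * ω.out.out) =
        φ ⟨_, hmem⟩ := by
      rw [chi_of_mem φ (by simpa [hm] using hmem)]
      congr 1
      apply Subtype.ext
      simp [hm]
    rw [heq]
    exact hω
  · intro q _ hq
    have hf := hfix q hq
    have hper : Function.minimalPeriod (u • ·)
        (Quotient.mk (orbitRel (Subgroup.zpowers u) (G ⧸ H)) q).out = 1 := by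
      rw [hout q hf]
      exact Function.minimalPeriod_eq_one_iff_isFixedPt.mpr hf
    have hmem := QuotientGroup.out_conj_pow_minimalPeriod_mem H u
      (Quotient.mk (orbitRel (Subgroup.zpowers u) (G ⧸ H)) q).out
    rw [← chi_of_mem φ hmem, hper, pow_one, hout q hf]

section Cyclic

variable {p : ℕ} [hp : Fact p.Prime]

theorem choose_pred_cast : ∀ k ≤ p - 1, (((p - 1).choose k : ℕ) : ZMod p) = (-1) ^ k := by
  intro k hk
  induction k with
  | zero => simp
  | succ k ih =>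
    have h1 : (p - 1 + 1).choose (k + 1) = (p - 1).choose k + (p - 1).choose (k + 1) :=
      Nat.choose_succ_succ' (p - 1) k
    rw [Nat.sub_add_cancel hp.out.one_lt.le] at h1
    have h2 : ((p.choose (k + 1) : ℕ) : ZMod p) = 0 :=
      (ZMod.natCast_eq_zero_iff _ _).mpr (hp.out.dvd_choose_self k.succ_ne_zero (by omega))
    rw [h1, Nat.cast_add, ih (by omega)] at h2
    rw [pow_succ, mul_neg_one]
    exact eq_neg_of_add_eq_zero_right h2

/-- In exponent `p`, the norm is the `(p-1)`-st difference. -/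
theorem sum_eq_fwdDiff {A : Type*} [AddCommGroup A] (hA : ∀ a : A, p • a = 0) (f : ℕ → A) :
    (Δ_[1])^[p - 1] f 0 = ∑ i ∈ Finset.range p, f i := by
  rw [fwdDiff_iter_eq_sum_shift, Nat.sub_add_cancel hp.out.one_lt.le]
  refine Finset.sum_congr rfl fun k hk => ?_
  rw [Finset.mem_range] at hk
  have hc : (((-1 : ℤ) ^ (p - 1 - k) * ((p - 1).choose k : ℤ) : ℤ) : ZMod p) = ((1 : ℤ) : ZMod p) := by
    push_cast
    rw [choose_pred_cast k (by omega), ← pow_add, Nat.sub_add_cancel (by omega : k ≤ p - 1),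
      ZMod.pow_card_sub_one_eq_one (neg_ne_zero.mpr one_ne_zero)]
  obtain ⟨t, ht⟩ := (ZMod.intCast_eq_intCast_iff_dvd_sub _ _ p).mp hc.symm
  rw [sub_eq_iff_eq_add] at ht
  rw [ht, add_zsmul, mul_comm, mul_zsmul', one_zsmul, natCast_zsmul, hA, zero_add,
    smul_eq_mul, mul_one, zero_add]

/-- `(p-1)`-fold commutation with `z` is the norm, modulo the kernel of a hom of exponent `p`. -/
theorem prod_conj_eq_iter (hC : ∀ c : C, c ^ p = 1) (M : Subgroup G) (ψ : M →* C) (z : G)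
    (hMz : ∀ y ∈ M, z⁻¹ * y * z ∈ M) (u : G) (hu : u ∈ M) :
    (∀ n, (eng z)^[n] u ∈ M) ∧
      ∏ i ∈ Finset.range p, chi ψ ((z ^ i)⁻¹ * u * z ^ i) = chi ψ ((eng z)^[p - 1] u) := by
  have hci : ∀ i : ℕ, ∀ y ∈ M, (z ^ i)⁻¹ * y * z ^ i ∈ M := by
    intro i
    induction i with
    | zero => intro y hy; simpa using hy
    | succ i ih =>
      intro y hy
      have h := hMz _ (ih y hy)
      rwa [show z⁻¹ * ((z ^ i)⁻¹ * y * z ^ i) * z = (z ^ (i + 1))⁻¹ * y * z ^ (i + 1) by
        rw [pow_succ]; group] at h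
  have heng : ∀ n, (eng z)^[n] u ∈ M := by
    intro n
    induction n with
    | zero => exact hu
    | succ n ih =>
      rw [Function.iterate_succ_apply']
      have h := M.mul_mem (M.inv_mem ih) (hMz _ ih)
      simpa [eng, mul_assoc] using h
  refine ⟨heng, ?_⟩
  let f : ℕ → Additive C := fun i => Additive.ofMul (chi ψ ((z ^ i)⁻¹ * u * z ^ i))
  have key : ∀ n i, (Δ_[1])^[n] f i =
      Additive.ofMul (chi ψ ((z ^ i)⁻¹ * (eng z)^[n] u * z ^ i)) := by
    intro n
    induction n with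
    | zero => intro i; rfl
    | succ n ih =>
      intro i
      rw [Function.iterate_succ_apply', fwdDiff, ih, ih, Function.iterate_succ_apply']
      have h1 := hci (i + 1) _ (heng n)
      have h2 := hci i _ (heng n)
      set w := (eng z)^[n] u
      have e : (z ^ i)⁻¹ * eng z w * z ^ i =
          ((z ^ i)⁻¹ * w * z ^ i)⁻¹ * ((z ^ (i + 1))⁻¹ * w * z ^ (i + 1)) := by
        simp only [eng, pow_succ', mul_inv_rev, inv_inv]
        group
      rw [e, chi_of_mem ψ h1, chi_of_mem ψ h2, chi_of_mem ψ (M.mul_mem (M.inv_mem h2) h1),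
        show (⟨((z ^ i)⁻¹ * w * z ^ i)⁻¹ * ((z ^ (i + 1))⁻¹ * w * z ^ (i + 1)),
          M.mul_mem (M.inv_mem h2) h1⟩ : M) = (⟨_, h2⟩ : M)⁻¹ * ⟨_, h1⟩ from rfl,
        map_mul, map_inv, ofMul_mul, ofMul_inv]
      abel
  have hs := sum_eq_fwdDiff (p := p) (A := Additive C) (fun a => by
    show Additive.ofMul (a.toMul ^ p) = 0
    rw [hC]; rfl) f
  rw [key (p - 1) 0] at hs
  simp only [pow_zero, inv_one, one_mul, mul_one] at hs
  apply Additive.ofMul.injective
  rw [hs, ofMul_prod]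

end Cyclic

variable [Finite G] {p : ℕ} [hp : Fact p.Prime]

/-- Yoshida's argument: a linear character of `N_G(W)` of order `p` which does not transfer to
`G` produces a singular pair. -/
theorem exists_singular (hC : ∀ c : C, c ^ p = 1) (S : Sylow p G) (W : Subgroup G)
    (hW : IsWeaklyClosed W (S : Subgroup G))
    (N : Subgroup G) (hN : N = Subgroup.normalizer (W : Set G)) (lam : N →* C)
    (hlam : ∃ x ∈ (S : Subgroup G), chi lam x ≠ 1)
    (hV : ∀ u ∈ (S : Subgroup G), MonoidHom.transfer lam u = 1) :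
    ∃ x ∈ (S : Subgroup G), ∃ z ∈ W, ∃ M : Subgroup G,
      M ≤ (S : Subgroup G) ∧ x ∈ M ∧ z ∉ M ∧ (∀ y ∈ M, z⁻¹ * y * z ∈ M) ∧ z ^ p ∈ M ∧
      IsCoatom (M.subgroupOf W) ∧ (eng z)^[p - 1] x ∈ (M.subgroupOf W).map W.subtype ∧
      (eng z)^[p - 1] x ∉
        ((frattini ↥(M.subgroupOf W)).map (M.subgroupOf W).subtype).map W.subtype := by
  classical
  obtain ⟨hWS, hWC⟩ := hW
  have hSN : (S : Subgroup G) ≤ N := by
    intro s hs
    rw [hN, Cfsg.Agent.Transfer.mem_normalizer_iff_map_conj]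
    refine hWC s ?_
    rintro _ ⟨w, hw, rfl⟩
    exact (S : Subgroup G).mul_mem ((S : Subgroup G).mul_mem hs (hWS hw))
      ((S : Subgroup G).inv_mem hs)
  -- a counterexample of least order
  obtain ⟨u, ⟨huS, hu1⟩, humin⟩ := Set.exists_min_image
    {x : G | x ∈ (S : Subgroup G) ∧ chi lam x ≠ 1} orderOf (Set.toFinite _)
    (by obtain ⟨x, hx1, hx2⟩ := hlam; exact ⟨x, hx1, hx2⟩)
  have hsmall : ∀ x : G, (∃ k, x ^ p ^ k = 1) → orderOf x < orderOf u → chi lam x = 1 := by
    intro x hxp hlt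
    by_contra hx
    have hxN : x ∈ N := by
      by_contra h
      exact hx (chi_of_not_mem lam h)
    have hpg : IsPGroup p (Subgroup.zpowers (⟨x, hxN⟩ : N)) := by
      obtain ⟨k, hk⟩ := hxp
      obtain ⟨j, -, hj⟩ := (Nat.dvd_prime_pow hp.out).mp (orderOf_dvd_of_pow_eq_one hk)
      exact IsPGroup.of_card (n := j) (by rw [Nat.card_zpowers, Subgroup.orderOf_mk, hj])
    obtain ⟨c, hc⟩ := Cfsg.Agent.Transfer.exists_map_conj_le_sylow (S.subtype hSN) hpg
    have hmem : (c : G) * x * (c : G)⁻¹ ∈ (S : Subgroup G) :=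
      hc ⟨⟨x, hxN⟩, Subgroup.mem_zpowers _, rfl⟩
    have hch : chi lam ((c : G) * x * (c : G)⁻¹) = chi lam x := by
      have h := chi_conj lam (inv_mem c.2 : (c : G)⁻¹ ∈ N) x
      rwa [inv_inv] at h
    have hle := humin _ ⟨hmem, by rw [hch]; exact hx⟩
    have hord : orderOf ((c : G) * x * (c : G)⁻¹) = orderOf x :=
      (MulAut.conj (c : G)).orderOf_eq x
    omega
  have hmin : ∀ v : G, orderOf v = orderOf u → ∀ (g : G) (m : ℕ), 1 < m → m ∣ orderOf v →
      chi lam (g⁻¹ * v ^ m * g) = 1 := by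
    intro v hv g m hm hmd
    obtain ⟨k, hk⟩ := IsPGroup.iff_orderOf.mp S.2 ⟨u, huS⟩
    rw [Subgroup.orderOf_mk] at hk
    have hord : orderOf (g⁻¹ * v ^ m * g) = orderOf (v ^ m) := by
      have h := (MulAut.conj g⁻¹).orderOf_eq (v ^ m)
      rwa [MulAut.conj_apply, inv_inv] at h
    refine hsmall _ ⟨k, ?_⟩ ?_
    · have h1 : (v ^ m) ^ p ^ k = 1 := by
        rw [← pow_mul, mul_comm, pow_mul, ← hk, ← hv, pow_orderOf_eq_one, one_pow]
      have h2 : orderOf (g⁻¹ * v ^ m * g) ∣ p ^ k := hord ▸ orderOf_dvd_of_pow_eq_one h1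
      exact orderOf_dvd_iff_pow_eq_one.mp h2
    · rw [hord, orderOf_pow' _ (by omega), Nat.gcd_eq_right hmd, ← hv]
      exact Nat.div_lt_self (orderOf_pos v) hm
  haveI : Fintype (G ⧸ N) := Fintype.ofFinite _
  have htot : (1 : C) = ∏ q : G ⧸ N, chi lam (q.out⁻¹ * u * q.out) :=
    (hV u huS).symm.trans (transfer_eq_prod_chi lam u (hmin u rfl))
  set R := W ⊔ Subgroup.zpowers u with hR
  have hRS : R ≤ (S : Subgroup G) := sup_le hWS (Subgroup.zpowers_le.mpr huS)
  have hWR : W ≤ R := le_sup_left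
  have huR : u ∈ R := Subgroup.mem_sup_right (Subgroup.mem_zpowers u)
  set F : G ⧸ N → C := fun q => chi lam (q.out⁻¹ * u * q.out) with hF
  have hFmk : ∀ g : G, F g = chi lam (g⁻¹ * u * g) := fun g =>
    (chi_coset lam u _ g (QuotientGroup.out_eq' _)).symm
  -- the orbits of `R`
  haveI : Fintype (Quotient (orbitRel R (G ⧸ N))) := Fintype.ofFinite _
  haveI : ∀ ω : orbitRel.Quotient R (G ⧸ N), Fintype ω.orbit := fun ω => Fintype.ofFinite _
  have hsplit : ∏ q : G ⧸ N, F q =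
      ∏ ω : orbitRel.Quotient R (G ⧸ N), ∏ x : ω.orbit, F (x : G ⧸ N) := by
    rw [← Fintype.prod_sigma']
    refine (Equiv.prod_comp (selfEquivSigmaOrbits' R (G ⧸ N)).symm F).symm.trans ?_
    exact Finset.prod_congr rfl fun x _ => rfl
  -- the orbit of the coset `N`
  let ω₀ : orbitRel.Quotient R (G ⧸ N) := Quotient.mk _ ((1 : G) : G ⧸ N)
  have hone : ∀ x : ω₀.orbit, (x : G ⧸ N) = ((1 : G) : G ⧸ N) := by
    rintro ⟨x, hx⟩
    have hx' : x ∈ orbit R ((1 : G) : G ⧸ N) := by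
      rwa [orbitRel.Quotient.orbit_mk] at hx
    obtain ⟨⟨r, hr⟩, rfl⟩ := hx'
    show r • ((1 : G) : G ⧸ N) = _
    rw [MulAction.Quotient.smul_coe, smul_eq_mul, mul_one, QuotientGroup.eq, mul_one]
    exact N.inv_mem (hSN (hRS hr))
  have hω₀ : ∏ x : ω₀.orbit, F (x : G ⧸ N) = chi lam u := by
    have hmem : ((1 : G) : G ⧸ N) ∈ ω₀.orbit := by
      rw [orbitRel.Quotient.orbit_mk]; exact mem_orbit_self _
    rw [Fintype.prod_eq_single ⟨_, hmem⟩ (fun x hx => absurd (Subtype.ext (hone x)) hx), hFmk]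
    simp
  have hex : ∃ ω : orbitRel.Quotient R (G ⧸ N), ω ≠ ω₀ ∧ ∏ x : ω.orbit, F (x : G ⧸ N) ≠ 1 := by
    by_contra h
    push Not at h
    apply hu1
    rw [← hω₀, ← Fintype.prod_eq_single (f := fun ω : orbitRel.Quotient R (G ⧸ N) =>
      ∏ x : ω.orbit, F (x : G ⧸ N)) ω₀ h, ← hsplit, hF]
    exact htot.symm
  obtain ⟨ω, hωne, hω⟩ := hex
  obtain ⟨⟨q, hqω⟩, -, hq⟩ := Finset.exists_ne_one_of_prod_ne_one hω
  obtain ⟨g, rfl⟩ := QuotientGroup.mk_surjective q
  have hgu : g⁻¹ * u * g ∈ N := by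
    by_contra h
    apply hq
    show F (g : G ⧸ N) = 1
    rw [hFmk]
    exact chi_of_not_mem lam h
  have hgN : g ∉ N := by
    intro hg
    apply hωne
    have h1 : Quotient.mk (orbitRel R (G ⧸ N)) (g : G ⧸ N) = ω :=
      orbitRel.Quotient.mem_orbit.mp hqω
    rw [← h1]
    show Quotient.mk _ _ = Quotient.mk _ _
    congr 1
    rw [QuotientGroup.eq, mul_one]
    exact N.inv_mem hg
  have hωorb : ω.orbit = orbit R (g : G ⧸ N) := by
    rw [← orbitRel.Quotient.orbit_mk, orbitRel.Quotient.mem_orbit.mp hqω]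
  -- `W` does not fix `g N`
  have hWfix : ¬ ∀ w ∈ W, g⁻¹ * w * g ∈ N := by
    intro h
    apply hgN
    have hQ : IsPGroup p ((W.map (MulAut.conj g⁻¹).toMonoidHom).subgroupOf N) :=
      ((S.2.to_le hWS).map _).comap_subtype
    obtain ⟨c, hc⟩ := Cfsg.Agent.Transfer.exists_map_conj_le_sylow (S.subtype hSN) hQ
    have hle : W.map (MulAut.conj ((c : G) * g⁻¹)).toMonoidHom ≤ (S : Subgroup G) := by
      rintro _ ⟨w, hw, rfl⟩
      have hwN : MulAut.conj g⁻¹ w ∈ N := by
        rw [MulAut.conj_apply, inv_inv]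
        exact h w hw
      have := hc ⟨⟨MulAut.conj g⁻¹ w, hwN⟩, ⟨w, hw, rfl⟩, rfl⟩
      simpa [Subgroup.mem_subgroupOf, mul_assoc] using this
    have h1 : (c : G) * g⁻¹ ∈ N := by
      exact hN.ge (Cfsg.Agent.Transfer.mem_normalizer_iff_map_conj.mpr (hWC _ hle))
    have h2 := N.inv_mem (N.mul_mem (N.inv_mem c.2) h1)
    simpa using h2
  have hRp : IsPGroup p R := S.2.to_le hRS
  have hst : stabilizer R (g : G ⧸ N) ≠ ⊤ := by
    intro h
    apply hWfix
    intro w hw
    have h2 : (⟨w, hWR hw⟩ : R) ∈ stabilizer R (g : G ⧸ N) := h ▸ Subgroup.mem_top _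
    exact (smul_eq_self_iff w g).mp h2
  obtain ⟨Mr, hMr, hMst⟩ := (eq_top_or_exists_le_coatom (stabilizer R (g : G ⧸ N))).resolve_left hst
  haveI hMn : Mr.Normal := Cfsg.Agent.FGS3.normal_of_coatom hRp hMr
  have huM : (⟨u, huR⟩ : R) ∈ Mr := hMst ((smul_eq_self_iff u g).mpr hgu)
  have hnot : ¬ W.subgroupOf R ≤ Mr := by
    intro h
    apply hMr.1
    rw [eq_top_iff]
    rintro ⟨r, hr⟩ -
    have hle : R ≤ Mr.map R.subtype := by
      refine sup_le (fun w hw => ⟨⟨w, hWR hw⟩, h hw, rfl⟩) (Subgroup.zpowers_le.mpr ⟨_, huM, rfl⟩)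
    obtain ⟨y, hy, hye⟩ := hle hr
    rwa [show (⟨r, hr⟩ : R) = y from Subtype.ext hye.symm]
  obtain ⟨⟨z, hzR⟩, hzW, hzM⟩ := SetLike.not_le_iff_exists.mp hnot
  set M := Mr.map R.subtype with hM
  have hmemM : ∀ {x : G} (hx : x ∈ R), x ∈ M ↔ (⟨x, hx⟩ : R) ∈ Mr := fun {x} hx =>
    ⟨fun ⟨y, hy, hye⟩ => by rwa [show (⟨x, hx⟩ : R) = y from Subtype.ext hye.symm],
      fun h => ⟨_, h, rfl⟩⟩
  have hMR : M ≤ R := Subgroup.map_subtype_le _
  have hindex : Nat.card (R ⧸ Mr) = p := by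
    rw [← Subgroup.index_eq_card]
    exact Cfsg.Agent.FGS3.index_of_coatom hRp hMr
  have hzbar : orderOf (QuotientGroup.mk' Mr ⟨z, hzR⟩) = p := by
    rcases (Nat.dvd_prime hp.out).mp (hindex ▸ orderOf_dvd_natCard (QuotientGroup.mk' Mr ⟨z, hzR⟩))
      with h | h
    · exact absurd ((QuotientGroup.eq_one_iff _).mp (orderOf_eq_one_iff.mp h)) hzM
    · exact h
  have hzp : z ^ p ∈ M := by
    rw [hmemM (R.pow_mem hzR p)]
    apply (QuotientGroup.eq_one_iff _).mp
    show QuotientGroup.mk' Mr (⟨z, hzR⟩ ^ p) = 1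
    rw [map_pow]
    conv_lhs => rw [← hzbar]
    exact pow_orderOf_eq_one _
  have hconj : ∀ r ∈ R, ∀ y ∈ M, r⁻¹ * y * r ∈ M := by
    intro r hr y hy
    have h := hMn.conj_mem _ ((hmemM (hMR hy)).mp hy) ⟨r, hr⟩⁻¹
    rw [inv_inv] at h
    exact ⟨_, h, rfl⟩
  have hdec : ∀ r ∈ R, ∃ i < p, (z ^ i)⁻¹ * r ∈ M := by
    intro r hr
    have htop : Subgroup.zpowers (QuotientGroup.mk' Mr ⟨z, hzR⟩) = ⊤ :=
      Subgroup.eq_top_of_card_eq _ (by rw [Nat.card_zpowers, hzbar, hindex])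
    have h : QuotientGroup.mk' Mr ⟨r, hr⟩ ∈ Subgroup.zpowers (QuotientGroup.mk' Mr ⟨z, hzR⟩) :=
      htop ▸ Subgroup.mem_top _
    rw [mem_zpowers_iff_mem_range_orderOf, hzbar] at h
    obtain ⟨i, hi, he⟩ := Finset.mem_image.mp h
    rw [← map_pow] at he
    exact ⟨i, Finset.mem_range.mp hi, (hmemM (R.mul_mem (R.inv_mem (R.pow_mem hzR i)) hr)).mpr
      (QuotientGroup.eq.mp he)⟩
  have huniq : ∀ i j, i < p → j < p → (z ^ i)⁻¹ * z ^ j ∈ M → i = j := by
    intro i j hi hj h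
    have h' : QuotientGroup.mk' Mr (⟨z, hzR⟩ ^ i) = QuotientGroup.mk' Mr (⟨z, hzR⟩ ^ j) :=
      QuotientGroup.eq.mpr ((hmemM _).mp h)
    rw [map_pow, map_pow] at h'
    exact pow_injOn_Iio_orderOf (hzbar.symm ▸ hi : i < orderOf (QuotientGroup.mk' Mr ⟨z, hzR⟩))
      (hzbar.symm ▸ hj : j < orderOf (QuotientGroup.mk' Mr ⟨z, hzR⟩)) h'
  have huM' : u ∈ M := (hmemM huR).mpr huM
  -- the transfer from the point stabiliser into `M`
  let T : Subgroup M := stabilizer M (g : G ⧸ N)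
  let φT : T →* C := lam.comp
    ((((MulAut.conj g⁻¹).toMonoidHom.comp M.subtype).comp T.subtype).codRestrict N (fun t => by
      have h : ((t : M) : G) • (g : G ⧸ N) = (g : G ⧸ N) := t.2
      have h2 := (smul_eq_self_iff _ g).mp h
      show MulAut.conj g⁻¹ ((t : M) : G) ∈ N
      rwa [MulAut.conj_apply, inv_inv]))
  have hchiT : ∀ x : M, chi φT x = chi lam (g⁻¹ * x * g) := by
    intro x
    by_cases h : x ∈ T
    · have h2 : g⁻¹ * (x : G) * g ∈ N := (smul_eq_self_iff (x : G) g).mp h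
      rw [chi_of_mem φT h, chi_of_mem lam h2]
      show lam _ = lam _
      congr 1
      apply Subtype.ext
      show g⁻¹ * (x : G) * g⁻¹⁻¹ = _
      rw [inv_inv]
    · rw [chi_of_not_mem φT h, chi_of_not_mem lam]
      exact fun h2 => h ((smul_eq_self_iff (x : G) g).mpr h2)
  let ψ : M →* C := MonoidHom.transfer φT
  haveI : Fintype (M ⧸ T) := Fintype.ofFinite _
  haveI : Fintype (orbit M (g : G ⧸ N)) := Fintype.ofFinite _
  have hψ : ∀ v : M, orderOf (v : G) = orderOf u →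
      ψ v = ∏ x : orbit M (g : G ⧸ N), chi lam ((x : G ⧸ N).out⁻¹ * v * (x : G ⧸ N).out) := by
    intro v hv
    show MonoidHom.transfer φT v = _
    rw [transfer_eq_prod_chi φT v (fun a m hm hmd => by
      rw [hchiT]
      have h := hmin v hv ((a : G) * g) m hm (by rwa [Subgroup.orderOf_coe])
      refine Eq.trans ?_ h
      congr 1
      push_cast
      group)]
    refine Fintype.prod_equiv (orbitEquivQuotientStabilizer M (g : G ⧸ N)).symm _ _ fun t => ?_
    have hval : (((orbitEquivQuotientStabilizer M (g : G ⧸ N)).symm t) : G ⧸ N) =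
        (((t.out : M) : G) * g : G) := by
      conv_lhs => rw [← QuotientGroup.out_eq' t]
      rfl
    rw [hchiT, hval, chi_coset lam (v : G) _ _ (QuotientGroup.out_eq' _).symm]
    congr 1
    push_cast
    group
  have hprod : ∏ x : ω.orbit, F (x : G ⧸ N) =
      ∏ i ∈ Finset.range p, chi ψ ((z ^ i)⁻¹ * u * z ^ i) := by
    rw [Finset.prod_range]
    have hrhs : ∀ i : Fin p, chi ψ ((z ^ (i : ℕ))⁻¹ * u * z ^ (i : ℕ)) =
        ∏ x : orbit M (g : G ⧸ N), chi lam ((x : G ⧸ N).out⁻¹ *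
          ((z ^ (i : ℕ))⁻¹ * u * z ^ (i : ℕ)) * (x : G ⧸ N).out) := by
      intro i
      have hmem := hconj _ (R.pow_mem hzR i) u huM'
      rw [chi_of_mem ψ hmem, hψ ⟨_, hmem⟩ ?_]
      show orderOf ((z ^ (i : ℕ))⁻¹ * u * z ^ (i : ℕ)) = orderOf u
      have h := (MulAut.conj (z ^ (i : ℕ))⁻¹).orderOf_eq u
      rwa [MulAut.conj_apply, inv_inv] at h
    rw [Finset.prod_congr rfl fun i _ => hrhs i, ← Fintype.prod_prod_type']
    have hto : ∀ ix : Fin p × orbit M (g : G ⧸ N), z ^ (ix.1 : ℕ) • (ix.2 : G ⧸ N) ∈ ω.orbit := by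
      rintro ⟨i, x, m, rfl⟩
      rw [hωorb]
      exact ⟨⟨z ^ (i : ℕ) * m, R.mul_mem (R.pow_mem hzR _) (hMR m.2)⟩,
        mul_smul (z ^ (i : ℕ)) (m : G) (g : G ⧸ N)⟩
    symm
    refine Fintype.prod_bijective (fun ix => ⟨_, hto ix⟩) ⟨?_, ?_⟩ _ _ ?_
    · rintro ⟨i, x, m, rfl⟩ ⟨j, y, n, rfl⟩ he
      have he' : z ^ (i : ℕ) • ((m : G) • (g : G ⧸ N)) = z ^ (j : ℕ) • ((n : G) • (g : G ⧸ N)) :=
        congrArg Subtype.val he
      rw [smul_smul, smul_smul] at he'
      have hst' : ((z ^ (i : ℕ) * m)⁻¹ * (z ^ (j : ℕ) * n)) • (g : G ⧸ N) = (g : G ⧸ N) := by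
        rw [mul_smul, ← he', inv_smul_smul]
      have hRm : (z ^ (i : ℕ) * m)⁻¹ * (z ^ (j : ℕ) * n) ∈ R :=
        R.mul_mem (R.inv_mem (R.mul_mem (R.pow_mem hzR _) (hMR m.2)))
          (R.mul_mem (R.pow_mem hzR _) (hMR n.2))
      have hM2 := (hmemM hRm).mpr (hMst (show (⟨_, hRm⟩ : R) ∈ stabilizer R (g : G ⧸ N) from hst'))
      have hij : (i : ℕ) = j := huniq i j i.2 j.2 (by
        have := M.mul_mem (M.mul_mem m.2 hM2) (M.inv_mem n.2)
        simpa [mul_assoc] using this)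
      obtain rfl := Fin.ext hij
      refine Prod.ext rfl (Subtype.ext ?_)
      show (m : G) • (g : G ⧸ N) = (n : G) • (g : G ⧸ N)
      rw [mul_smul, mul_smul] at he'
      exact (smul_left_cancel_iff _).mp he'
    · rintro ⟨x, hx⟩
      rw [hωorb] at hx
      obtain ⟨⟨r, hr⟩, rfl⟩ := hx
      obtain ⟨i, hi, him⟩ := hdec r hr
      refine ⟨⟨⟨i, hi⟩, ⟨_, ⟨⟨_, him⟩, rfl⟩⟩⟩, Subtype.ext ?_⟩
      show z ^ i • (((z ^ i)⁻¹ * r) • (g : G ⧸ N)) = r • (g : G ⧸ N)
      rw [smul_smul, mul_inv_cancel_left]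
    · rintro ⟨i, x⟩
      obtain ⟨a, ha⟩ := QuotientGroup.mk_surjective (x : G ⧸ N)
      show _ = F (z ^ (i : ℕ) • (x : G ⧸ N))
      rw [chi_coset lam ((z ^ (i : ℕ))⁻¹ * u * z ^ (i : ℕ)) a _
          (by rw [QuotientGroup.out_eq', ha]), ← ha,
        MulAction.Quotient.smul_coe, smul_eq_mul, hFmk]
      congr 1
      group
  obtain ⟨heng, hiter⟩ := prod_conj_eq_iter hC M ψ z (hconj z hzR) u huM'
  rw [hprod, hiter, chi_of_mem ψ (heng _)] at hω
  have hz' : z ∉ M := fun h => hzM ((hmemM hzR).mp h)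
  have hengW : (eng z)^[p - 1] u ∈ W := by
    obtain ⟨n, hn⟩ : ∃ n, p - 1 = n + 1 := ⟨p - 2, by have := hp.out.two_le; omega⟩
    rw [hn, Function.iterate_succ_apply']
    set y := (eng z)^[n] u
    have hyS : y ∈ N := hSN (hRS (hMR (heng n)))
    have h1 : y⁻¹ * z⁻¹ * y ∈ W := by
      have hy' : y⁻¹ ∈ Subgroup.normalizer (W : Set G) := hN.le (N.inv_mem hyS)
      have h2 := (Subgroup.mem_normalizer_iff.mp hy' z⁻¹).mp (W.inv_mem hzW)
      rwa [inv_inv] at h2
    exact W.mul_mem h1 hzW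
  have hcoat : IsCoatom (M.subgroupOf W) := by
    refine ⟨fun h => hz' ?_, fun X hX => ?_⟩
    · have h2 : (⟨z, hzW⟩ : W) ∈ M.subgroupOf W := h ▸ Subgroup.mem_top _
      exact h2
    · obtain ⟨x, hxX, hxM⟩ := SetLike.exists_of_lt hX
      rw [eq_top_iff]
      rintro w -
      have hxR : (x : G) ∈ R := hWR x.2
      have htop : Subgroup.zpowers (QuotientGroup.mk' Mr ⟨x, hxR⟩) = ⊤ := by
        apply Subgroup.eq_top_of_card_eq
        rw [Nat.card_zpowers, hindex]
        rcases (Nat.dvd_prime hp.out).mp (hindex ▸ orderOf_dvd_natCard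
          (QuotientGroup.mk' Mr ⟨x, hxR⟩)) with h | h
        · exact absurd ((hmemM hxR).mpr ((QuotientGroup.eq_one_iff _).mp
            (orderOf_eq_one_iff.mp h))) hxM
        · exact h
      obtain ⟨k, hk⟩ : QuotientGroup.mk' Mr ⟨(w : G), hWR w.2⟩ ∈
          Subgroup.zpowers (QuotientGroup.mk' Mr ⟨x, hxR⟩) := htop ▸ Subgroup.mem_top _
      replace hk : QuotientGroup.mk' Mr ⟨(x : G), hxR⟩ ^ k = _ := hk
      rw [← map_zpow] at hk
      have h2 : (x ^ k)⁻¹ * w ∈ M.subgroupOf W :=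
        ⟨_, QuotientGroup.eq.mp hk, by simp⟩
      have h3 := X.mul_mem (X.zpow_mem hxX k) (hX.le h2)
      rwa [mul_inv_cancel_left] at h3
  refine ⟨u, huS, z, hzW, M, hMR.trans hRS, huM', hz', hconj z hzR, hzp, hcoat,
    ⟨⟨_, hengW⟩, heng _, rfl⟩, ?_⟩
  rintro ⟨y, hy, hye⟩
  obtain ⟨y', hy', rfl⟩ := hy
  apply hω
  let ψW : (M.subgroupOf W) →* C :=
    ψ.comp ((W.subtype.comp (M.subgroupOf W).subtype).codRestrict M fun t => t.2)
  have hker : frattini ↥(M.subgroupOf W) ≤ ψW.ker :=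
    Cfsg.Agent.FGS3.frattini_le_of_elementary (p := p) (Abelianization.commutator_subset_ker _)
      fun a => by rw [MonoidHom.mem_ker, map_pow, hC]
  have h := MonoidHom.mem_ker.mp (hker hy')
  rw [← h]
  show ψ _ = ψ _
  congr 1
  exact Subtype.ext hye.symm

theorem transfer_comp {D : Type*} [CommGroup D] (f : C →* D) (φ : H →* C) (x : G) :
    MonoidHom.transfer (f.comp φ) x = f (MonoidHom.transfer φ x) := by
  classical
  haveI := H.fintypeQuotientOfFiniteIndex
  let T : H.LeftTransversal := default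
  rw [MonoidHom.transfer_def _ T, MonoidHom.transfer_def _ T,
    Subgroup.leftTransversals.diff, Subgroup.leftTransversals.diff, map_prod]
  rfl

/-- A property of `x, z, M` which is impossible for the groups at hand. -/
def NoSingular (p : ℕ) (S W : Subgroup G) : Prop :=
  ∀ x ∈ S, ∀ z ∈ W, ∀ M : Subgroup G, M ≤ S → x ∈ M → z ∉ M → (∀ y ∈ M, z⁻¹ * y * z ∈ M) →
    z ^ p ∈ M → IsCoatom (M.subgroupOf W) →
    (eng z)^[p - 1] x ∈ (M.subgroupOf W).map W.subtype →
    (eng z)^[p - 1] x ∈ ((frattini ↥(M.subgroupOf W)).map (M.subgroupOf W).subtype).map W.subtype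

theorem sylow_le_normalizer (S : Sylow p G) {W : Subgroup G}
    (hW : IsWeaklyClosed W (S : Subgroup G)) :
    (S : Subgroup G) ≤ Subgroup.normalizer (W : Set G) := by
  intro s hs
  rw [Cfsg.Agent.Transfer.mem_normalizer_iff_map_conj]
  refine hW.2 s ?_
  rintro _ ⟨w, hw, rfl⟩
  exact (S : Subgroup G).mul_mem ((S : Subgroup G).mul_mem hs (hW.1 hw))
    ((S : Subgroup G).inv_mem hs)

/-- Without singular pairs, `N_G(W)` controls the p-residual. -/
theorem pResidual_inf_eq (S : Sylow p G) (W : Subgroup G)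
    (hW : IsWeaklyClosed W (S : Subgroup G)) (hns : NoSingular p (S : Subgroup G) W) :
    pResidualOf p (Subgroup.normalizer (W : Set G)) =
      pResidual p G ⊓ Subgroup.normalizer (W : Set G) := by
  classical
  have hSN := sylow_le_normalizer S hW
  set N := Subgroup.normalizer (W : Set G) with hN
  have hle : pResidualOf p N ≤ pResidual p G ⊓ N :=
    le_inf (Cfsg.Agent.Transfer.pResidual_map_subtype_le N) (Subgroup.map_subtype_le _)
  have hP : IsPGroup p (N ⧸ pResidual p N) := Cfsg.Agent.Transfer.isPGroup_quotient_pResidual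
  let K := frattini (N ⧸ pResidual p N)
  haveI : (frattini (N ⧸ pResidual p N)).Characteristic := frattini_characteristic
  letI : CommGroup ((N ⧸ pResidual p N) ⧸ K) :=
    { (inferInstance : Group ((N ⧸ pResidual p N) ⧸ K)) with
      mul_comm := Cfsg.Agent.FGS3.quotient_frattini_comm hP }
  let lam : N →* (N ⧸ pResidual p N) ⧸ K :=
    (QuotientGroup.mk' K).comp (QuotientGroup.mk' (pResidual p N))
  let inc : (S : Subgroup G) →* N := Subgroup.inclusion hSN
  have hsurj0 : Function.Surjective ((QuotientGroup.mk' (pResidual p N)).comp inc) := by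
    intro y
    obtain ⟨n, rfl⟩ := QuotientGroup.mk'_surjective _ y
    obtain ⟨x, hx, k, hk, rfl⟩ := Subgroup.mem_sup_of_normal_right.mp
      ((Cfsg.Agent.Transfer.sylow_sup_pResidual (S.subtype hSN)).symm ▸ Subgroup.mem_top n :
        n ∈ ((S.subtype hSN : Sylow p N) : Subgroup N) ⊔ pResidual p N)
    refine ⟨⟨x, hx⟩, ?_⟩
    show QuotientGroup.mk' _ x = QuotientGroup.mk' _ (x * k)
    rw [map_mul, show QuotientGroup.mk' (pResidual p N) k = 1 from
      (QuotientGroup.eq_one_iff _).mpr hk, mul_one]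
  have hC : ∀ c : (N ⧸ pResidual p N) ⧸ K, c ^ p = 1 :=
    Cfsg.Agent.FGS3.quotient_frattini_pow hP
  let f1 : (S : Subgroup G) →* (N ⧸ pResidual p N) ⧸ K := lam.comp inc
  let f2 : (S : Subgroup G) →* (N ⧸ pResidual p N) ⧸ K :=
    (MonoidHom.transfer lam).comp (S : Subgroup G).subtype
  have hf1 : Function.Surjective f1 := (QuotientGroup.mk'_surjective _).comp hsurj0
  have hf2 : Function.Surjective f2 := by
    rw [← MonoidHom.range_eq_top]
    by_contra hne
    obtain ⟨D, hD, hDle⟩ := (eq_top_or_exists_le_coatom f2.range).resolve_left hne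
    haveI : D.Normal := ⟨fun a ha b => by rwa [mul_comm b a, mul_inv_cancel_right]⟩
    letI : CommGroup (((N ⧸ pResidual p N) ⧸ K) ⧸ D) := QuotientGroup.Quotient.commGroup D
    obtain ⟨c, -, hc⟩ := SetLike.exists_of_lt hD.1.lt_top
    obtain ⟨⟨s, hs⟩, hsc⟩ := hf1 c
    let lam' : N →* ((N ⧸ pResidual p N) ⧸ K) ⧸ D := (QuotientGroup.mk' D).comp lam
    obtain ⟨x, hx, z, hz, M, h1, h2, h3, h4, h5, h6, h7, h8⟩ :=
      exists_singular (p := p) (C := ((N ⧸ pResidual p N) ⧸ K) ⧸ D) (fun a => by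
          obtain ⟨b, rfl⟩ := QuotientGroup.mk'_surjective D a
          rw [← map_pow, hC, map_one]) S W hW N hN lam'
        ⟨s, hs, by
          rw [chi_of_mem lam' (hSN hs)]
          intro h
          exact hc (hsc ▸ (QuotientGroup.eq_one_iff _).mp h)⟩
        (fun v hv => by
          rw [transfer_comp]
          exact (QuotientGroup.eq_one_iff _).mpr (hDle ⟨⟨v, hv⟩, rfl⟩))
    exact h8 (hns x hx z hz M h1 h2 h3 h4 h5 h6 h7)
  -- the two kernels
  have hk12 : f1.ker ≤ f2.ker := by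
    intro s hs
    have hπ : QuotientGroup.mk' (pResidual p N) (inc s) ∈ K := (QuotientGroup.eq_one_iff _).mp hs
    have hfr : K ≤ (frattini (S : Subgroup G)).map
        ((QuotientGroup.mk' (pResidual p N)).comp inc) := by
      haveI : (frattini (S : Subgroup G)).Characteristic := frattini_characteristic
      haveI : ((frattini (S : Subgroup G)).map
          ((QuotientGroup.mk' (pResidual p N)).comp inc)).Normal :=
        Subgroup.Normal.map inferInstance _ hsurj0
      refine Cfsg.Agent.FGS3.frattini_le_of_elementary (p := p) ?_ ?_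
      · rw [show commutator (N ⧸ pResidual p N) = (commutator (S : Subgroup G)).map
          ((QuotientGroup.mk' (pResidual p N)).comp inc) by
            rw [map_commutator_eq, MonoidHom.range_eq_top.mpr hsurj0]; rfl]
        exact Subgroup.map_mono (Cfsg.Agent.FGS3.commutator_le_frattini S.2)
      · intro a
        obtain ⟨b, rfl⟩ := hsurj0 a
        exact ⟨b ^ p, Cfsg.Agent.FGS3.pow_mem_frattini S.2 b, map_pow _ _ _⟩
    obtain ⟨f, hf, hfe⟩ := hfr hπ
    have hres : inc (f⁻¹ * s) ∈ pResidual p N := by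
      rw [map_mul, map_inv]
      exact QuotientGroup.eq.mp hfe
    have hCp : IsPGroup p ((N ⧸ pResidual p N) ⧸ K) := hP.to_quotient _
    have hf2res : f2 (f⁻¹ * s) = 1 :=
      Cfsg.Agent.Transfer.pResidual_le_ker hCp (MonoidHom.transfer lam)
        ((hle ⟨_, hres, rfl⟩).1)
    have hf2f : f2 f = 1 :=
      (Cfsg.Agent.FGS3.frattini_le_of_elementary (p := p) (N := f2.ker)
        (Abelianization.commutator_subset_ker _)
        (fun a => by rw [MonoidHom.mem_ker, map_pow, hC])) hf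
    rw [MonoidHom.mem_ker, ← mul_inv_cancel_left f s, map_mul, hf2f, hf2res, one_mul]
  have hkeq : f2.ker = f1.ker := by
    refine (Subgroup.eq_of_le_of_card_ge hk12 ?_).symm
    have h1 := f1.ker.card_eq_card_quotient_mul_card_subgroup
    have h2 := f2.ker.card_eq_card_quotient_mul_card_subgroup
    rw [Nat.card_congr (QuotientGroup.quotientKerEquivOfSurjective f1 hf1).toEquiv] at h1
    rw [Nat.card_congr (QuotientGroup.quotientKerEquivOfSurjective f2 hf2).toEquiv] at h2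
    exact (Nat.eq_of_mul_eq_mul_left Nat.card_pos (h2.symm.trans h1)).le
  -- Tate
  have hR : (S : Subgroup G) ⊓ pResidual p G = (S : Subgroup G) ⊓ pResidualOf p N := by
    refine Cfsg.Agent.Transfer.tate_core S _ (inf_le_inf_left _ (hle.trans inf_le_left)) ?_ ?_
    · intro s hs
      rw [Subgroup.mem_normalizer_iff]
      haveI : (pResidual p N).Normal := Cfsg.Agent.Transfer.pResidual_normal
      intro x
      have key : ∀ t ∈ (S : Subgroup G), ∀ y ∈ (S : Subgroup G) ⊓ pResidualOf p N,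
          t * y * t⁻¹ ∈ (S : Subgroup G) ⊓ pResidualOf p N := by
        rintro t ht y ⟨hy1, y', hy', rfl⟩
        exact ⟨(S : Subgroup G).mul_mem ((S : Subgroup G).mul_mem ht hy1)
          ((S : Subgroup G).inv_mem ht),
          _, Subgroup.Normal.conj_mem inferInstance y' hy' ⟨t, hSN ht⟩, rfl⟩
      refine ⟨key s hs x, fun h => ?_⟩
      have h2 := key s⁻¹ ((S : Subgroup G).inv_mem hs) _ h
      simpa [mul_assoc] using h2
    · rintro x ⟨hxS, hxQ⟩
      have hx2 : (⟨x, hxS⟩ : (S : Subgroup G)) ∈ f2.ker :=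
        Cfsg.Agent.Transfer.pResidual_le_ker (hP.to_quotient _) (MonoidHom.transfer lam) hxQ
      rw [hkeq] at hx2
      have hπ : QuotientGroup.mk' (pResidual p N) (inc ⟨x, hxS⟩) ∈ K :=
        (QuotientGroup.eq_one_iff _).mp hx2
      haveI : (frattini (S : Subgroup G)).Characteristic := frattini_characteristic
      haveI : ((frattini (S : Subgroup G)).map
          ((QuotientGroup.mk' (pResidual p N)).comp inc)).Normal :=
        Subgroup.Normal.map inferInstance _ hsurj0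
      have hfr : K ≤ (frattini (S : Subgroup G)).map
          ((QuotientGroup.mk' (pResidual p N)).comp inc) := by
        refine Cfsg.Agent.FGS3.frattini_le_of_elementary (p := p) ?_ ?_
        · rw [show commutator (N ⧸ pResidual p N) = (commutator (S : Subgroup G)).map
          ((QuotientGroup.mk' (pResidual p N)).comp inc) by
            rw [map_commutator_eq, MonoidHom.range_eq_top.mpr hsurj0]; rfl]
          exact Subgroup.map_mono (Cfsg.Agent.FGS3.commutator_le_frattini S.2)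
        · intro a
          obtain ⟨b, rfl⟩ := hsurj0 a
          exact ⟨b ^ p, Cfsg.Agent.FGS3.pow_mem_frattini S.2 b, map_pow _ _ _⟩
      obtain ⟨f, hf, hfe⟩ := hfr hπ
      have hres : (inc f)⁻¹ * inc ⟨x, hxS⟩ ∈ pResidual p N := QuotientGroup.eq.mp hfe
      rw [sup_comm, show x = (f : G) * ((f : G)⁻¹ * x) by group]
      exact Subgroup.mul_mem _ (Subgroup.mem_sup_left ⟨f, hf, rfl⟩) (Subgroup.mem_sup_right
        ⟨(S : Subgroup G).mul_mem ((S : Subgroup G).inv_mem f.2) hxS, _, hres, rfl⟩)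
  refine le_antisymm hle ?_
  rintro x ⟨hxQ, hxN⟩
  obtain ⟨s, hs, k, hk, he⟩ := Subgroup.mem_sup_of_normal_right.mp
    ((Cfsg.Agent.Transfer.sylow_sup_pResidual (S.subtype hSN)).symm ▸
        Subgroup.mem_top (⟨x, hxN⟩ : N) :
      (⟨x, hxN⟩ : N) ∈ ((S.subtype hSN : Sylow p N) : Subgroup N) ⊔ pResidual p N)
  have hkR : (k : G) ∈ pResidualOf p N := ⟨k, hk, rfl⟩
  have hx : (s : G) * (k : G) = x := congrArg Subtype.val he
  have hsQ : (s : G) ∈ pResidual p G := by
    rw [show (s : G) = x * (k : G)⁻¹ by rw [← hx]; group]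
    exact Subgroup.mul_mem _ hxQ (Subgroup.inv_mem _ (hle hkR).1)
  have hsR : (s : G) ∈ (S : Subgroup G) ⊓ pResidualOf p N := hR ▸ ⟨hs, hsQ⟩
  rw [← hx]
  exact Subgroup.mul_mem _ hsR.2 hkR

/-- Without singular pairs, `N_G(W)` controls transfer. -/
theorem inf_commutator_eq (S : Sylow p G) (W : Subgroup G)
    (hW : IsWeaklyClosed W (S : Subgroup G)) (hns : NoSingular p (S : Subgroup G) W) :
    (S : Subgroup G) ⊓ commutator G = (S : Subgroup G) ⊓
      ⁅Subgroup.normalizer (W : Set G), Subgroup.normalizer (W : Set G)⁆ := by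
  have hSN := sylow_le_normalizer S hW
  have heq := pResidual_inf_eq S W hW hns
  set N := Subgroup.normalizer (W : Set G) with hN
  refine le_antisymm ?_ (inf_le_inf_left _ (Subgroup.commutator_mono le_top le_top))
  rintro s ⟨hs, hsG⟩
  refine ⟨hs, ?_⟩
  let q := QuotientGroup.mk' (pResidual p G)
  have hqN : N.map q = ⊤ := by
    rw [eq_top_iff, ← Subgroup.map_top_of_surjective q (QuotientGroup.mk'_surjective _),
      ← Cfsg.Agent.Transfer.sylow_sup_pResidual S, Subgroup.map_sup,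
      QuotientGroup.map_mk'_self, sup_bot_eq]
    exact Subgroup.map_mono hSN
  have h1 : q s ∈ ⁅N, N⁆.map q := by
    rw [Subgroup.map_commutator, hqN,
      ← Subgroup.map_top_of_surjective q (QuotientGroup.mk'_surjective _),
      ← Subgroup.map_commutator]
    exact ⟨s, hsG, rfl⟩
  obtain ⟨c, hc, hce⟩ := h1
  have hcN : c ∈ N := Subgroup.commutator_le_self N hc
  have hk : c⁻¹ * s ∈ pResidualOf p N := by
    rw [heq]
    exact ⟨QuotientGroup.eq.mp hce, N.mul_mem (N.inv_mem hcN) (hSN hs)⟩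
  obtain ⟨k, hk, hke⟩ := hk
  -- in the abelianization of `N`
  let π : N →* Abelianization N := Abelianization.of
  have hAcop : ∀ a ∈ pResidual p (Abelianization N), (orderOf a).Coprime p := by
    intro a ha
    induction ha using Subgroup.closure_induction with
    | mem x hx => exact hx
    | one => rw [orderOf_one]; exact Nat.coprime_one_left p
    | mul a b _ _ ha hb =>
      exact Nat.Coprime.coprime_dvd_left (Commute.all a b).orderOf_mul_dvd_lcm
        (Nat.Coprime.coprime_dvd_left (Nat.lcm_dvd_mul _ _) (Nat.Coprime.mul_left ha hb))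
    | inv a _ ha => rwa [orderOf_inv]
  have hks : π k = π ⟨s, hSN hs⟩ := by
    have hkc : k = (⟨c, hcN⟩ : N)⁻¹ * ⟨s, hSN hs⟩ := Subtype.ext hke
    have hc' : π ⟨c, hcN⟩ = 1 := by
      rw [← Subgroup.map_subtype_commutator] at hc
      obtain ⟨c', hc', rfl⟩ := hc
      exact Abelianization.commutator_subset_ker π hc'
    rw [hkc, map_mul, map_inv, hc', inv_one, one_mul]
  have hone : π ⟨s, hSN hs⟩ = 1 := by
    rw [← orderOf_eq_one_iff]
    have h2 : (orderOf (π ⟨s, hSN hs⟩)).Coprime p :=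
      hks ▸ hAcop _ (Cfsg.Agent.Transfer.pResidual_map_le π ⟨k, hk, rfl⟩)
    obtain ⟨j, hj⟩ := S.2 ⟨s, hs⟩
    have h3 : orderOf (π ⟨s, hSN hs⟩) ∣ p ^ j := by
      apply orderOf_dvd_of_pow_eq_one
      rw [← map_pow, show (⟨s, hSN hs⟩ : N) ^ p ^ j = 1 from
        Subtype.ext (by simpa using congrArg Subtype.val hj), map_one]
    exact Nat.eq_one_of_dvd_coprimes (h2.pow_right j) dvd_rfl h3
  have hsc : (⟨s, hSN hs⟩ : N) ∈ commutator N := by
    have h4 : ((⟨s, hSN hs⟩ : N) : N ⧸ commutator N) = 1 := hone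
    exact (QuotientGroup.eq_one_iff _).mp h4
  rw [← Subgroup.map_subtype_commutator]
  exact ⟨_, hsc, rfl⟩

end Cfsg.Agent.TwoGroups.Yoshida
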