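import Cfsg.Agent.OddLocal.FPF
import Cfsg.Agent.S0039
import Cfsg.Agent.PermGroups.FrobeniusKernel
import Cfsg.Agent.Core.MinimalNormal
import Mathlib.GroupTheory.SchurZassenhaus
import Mathlib.GroupTheory.Sylow
import Cfsg.Prelude.Def_Solvable

/-! # Groups with disconnected prime graph -/

set_option autoImplicit false

namespace Cfsg.Agent.TwoGroups

open Subgroup
open scoped Pointwise

/-- No commuting elements of prime orders on both sides of `A`. -/
def Separated (A : Set ℕ) (G : Type*) [Group G] : Prop :=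
  ∀ x y : G, Commute x y → (orderOf x).Prime → (orderOf y).Prime → orderOf x ∈ A → orderOf y ∉ A → False

/-- All prime divisors of the order lie in `A`. -/
def SetGroup (A : Set ℕ) (H : Type*) [Group H] : Prop :=
  ∀ p : ℕ, p.Prime → p ∣ Nat.card H → p ∈ A

variable {A : Set ℕ} {G : Type*} [Group G]

theorem separated_of_noEdge [Finite G]
    (h : ∀ a ∈ A, ∀ b ∉ A, a.Prime → b.Prime → a ∣ Nat.card G → b ∣ Nat.card G →
      ¬ ∃ g : G, orderOf g = a * b) : Separated A G := by
  intro x y hc hx hy hxA hyA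
  refine h _ hxA _ hyA hx hy (orderOf_dvd_natCard x) (orderOf_dvd_natCard y) ⟨x * y, ?_⟩
  exact hc.orderOf_mul_eq_mul_orderOf_of_coprime ((Nat.coprime_primes hx hy).2 fun e => hyA (e ▸ hxA))

theorem Separated.compl (h : Separated A G) : Separated Aᶜ G := fun x y hc hx hy hxA hyA =>
  h y x hc.symm hy hx (by simpa using hyA) hxA

/-- Elements commuting with a non-trivial `A`-element have no `B`-part. -/
theorem Separated.prime_mem [Finite G] (h : Separated A G) {x y : G} (hc : Commute x y) (hy : y ≠ 1)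
    (hyA : ∀ p : ℕ, p.Prime → p ∣ orderOf y → p ∈ A) {p : ℕ} (hp : p.Prime) (hpx : p ∣ orderOf x) :
    p ∈ A := by
  by_contra hpA
  obtain ⟨q, hq, hqy⟩ := Nat.exists_prime_and_dvd (mt orderOf_eq_one_iff.1 hy)
  have hx' := orderOf_pow_orderOf_div (orderOf_pos x).ne' hpx
  have hy' := orderOf_pow_orderOf_div (orderOf_pos y).ne' hqy
  exact h _ _ ((hc.pow_pow (orderOf x / p) (orderOf y / q)).symm) (by rw [hy']; exact hq)
    (by rw [hx']; exact hp) (by rw [hy']; exact hyA q hq hqy) (by rw [hx']; exact hpA)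

/-- An `A`-subgroup and a `B`-subgroup act fixed point freely on each other. -/
theorem Separated.fpf [Finite G] (h : Separated A G) {N W : Subgroup G} (hN : SetGroup A N)
    (hW : SetGroup Aᶜ W) : OddLocal.FPF N W := by
  intro w hw hw1 k hk hc
  by_contra hk1
  obtain ⟨p, hp, hpw⟩ := Nat.exists_prime_and_dvd (mt orderOf_eq_one_iff.1 hw1)
  have := h.prime_mem (show Commute w k from hc) hk1
    (fun q hq hqk => hN q hq (hqk.trans (by
      rw [← Subgroup.orderOf_mk k hk]; exact orderOf_dvd_natCard _))) hp hpw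
  exact hW p hp (hpw.trans (by rw [← Subgroup.orderOf_mk w hw]; exact orderOf_dvd_natCard _)) this

theorem SetGroup.of_dvd {H K : Type*} [Group H] [Group K] (h : SetGroup A K)
    (hd : Nat.card H ∣ Nat.card K) : SetGroup A H := fun p hp hpH => h p hp (hpH.trans hd)

theorem SetGroup.coprime [Finite G] {N W : Subgroup G} (hN : SetGroup A N) (hW : SetGroup Aᶜ W) :
    (Nat.card N).Coprime (Nat.card W) :=
  Nat.coprime_of_dvd fun p hp h1 h2 => hW p hp h2 (hN p hp h1)

theorem SetGroup.of_pGroup [Finite G] {r : ℕ} [hr : Fact r.Prime] (hrA : r ∈ A) {R : Subgroup G}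
    (hR : IsPGroup r R) : SetGroup A R := fun p hp hpR => by
  obtain ⟨k, hk⟩ := IsPGroup.iff_card.1 hR
  rw [hk] at hpR
  rwa [(Nat.prime_dvd_prime_iff_eq hp hr.out).1 (hp.dvd_of_dvd_pow hpR)]

/-- A maximal normal `A`-subgroup. -/
theorem exists_max_normal_set [Finite G] {N0 : Subgroup G} (h0 : N0.Normal) (hA : SetGroup A N0) :
    ∃ N : Subgroup G, N.Normal ∧ N0 ≤ N ∧ SetGroup A N ∧
      ∀ M : Subgroup G, M.Normal → N ≤ M → SetGroup A M → M = N := by
  obtain ⟨N, hle, ⟨hn, hs⟩, hmax⟩ :=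
    (Set.toFinite {M : Subgroup G | M.Normal ∧ SetGroup A M}).exists_le_maximal
      (show N0 ∈ {M : Subgroup G | M.Normal ∧ SetGroup A M} from ⟨h0, hA⟩)
  exact ⟨N, hn, hle, hs, fun M hM hNM hMA => le_antisymm (hmax ⟨hM, hMA⟩ hNM) hNM⟩

/-- The Frobenius kernel of a semidirect product with fixed point free action. -/
theorem frobenius_of_fpf [Finite G] {N H : Subgroup G} [N.Normal] (hc : IsComplement' N H)
    (hN : N ≠ ⊥) (hH : H ≠ ⊥) (h : OddLocal.FPF N H) :
    Cfsg.IsFrobeniusComplement H ∧ Cfsg.frobeniusKernel H = (N : Set G) := by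
  have hF : Cfsg.IsFrobeniusComplement H :=
    (S0039.result N H hc hN hH).2 fun x hx hx1 => h.inf_centralizer hx hx1
  refine ⟨hF, (Set.eq_of_subset_of_ncard_le ?_ ?_ (Set.toFinite _)).symm⟩
  · intro x hx
    rcases eq_or_ne x 1 with rfl | hx1
    · exact Or.inl rfl
    refine Or.inr fun g hg => hx1 ?_
    rw [PermGroups.mem_conj_smul] at hg
    have hN' : g⁻¹ * x * g ∈ N := by
      have := ‹N.Normal›.conj_mem x hx g⁻¹
      rwa [inv_inv] at this
    have : g⁻¹ * x * g ∈ N ⊓ H := ⟨hN', hg⟩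
    rw [hc.disjoint.eq_bot, mem_bot] at this
    calc x = g * (g⁻¹ * x * g) * g⁻¹ := by group
      _ = 1 := by rw [this]; group
  · rw [← Nat.card_coe_set_eq, ← Nat.card_coe_set_eq,
      PermGroups.Frobenius.natCard_kernel hF, hc.index_eq_card]
    rfl

/-- A group with a normal non-trivial `A`-subgroup `N` whose quotient has a non-trivial normal
elementary abelian `r`-subgroup with `r ∉ A` is a Frobenius or 2-Frobenius group. -/
theorem frobenius_or_two [Finite G] (h : Separated A G) {N L : Subgroup G} [N.Normal] [L.Normal]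
    (hN : N ≠ ⊥) (hNA : SetGroup A N) (hNL : N < L) {r : ℕ} [hr : Fact r.Prime] (hrA : r ∉ A)
    (hcard : ∃ k : ℕ, Nat.card L = Nat.card N * r ^ k) (hexp : ∀ x ∈ L, x ^ r ∈ N) :
    (∃ C : Subgroup G, Cfsg.IsFrobeniusComplement C) ∨
    (∃ (H K : Subgroup G) (_ : H.Normal), K.Normal ∧ H < K ∧
      (∃ C : Subgroup ↥K, Cfsg.IsFrobeniusComplement C ∧ Cfsg.frobeniusKernel C = (H.subgroupOf K : Set ↥K)) ∧
      (∃ C : Subgroup (G ⧸ H), Cfsg.IsFrobeniusComplement C ∧
        Cfsg.frobeniusKernel C = (K.map (QuotientGroup.mk' H) : Set (G ⧸ H)))) := by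
  obtain ⟨k, hk⟩ := hcard
  have hNr : (Nat.card N).Coprime r := (hr.out.coprime_iff_not_dvd.2 fun hd => hrA (hNA r hr.out hd)).symm
  -- the Sylow subgroup of `L`
  let P : Sylow r L := default
  let R : Subgroup G := (P : Subgroup L).map L.subtype
  have hRL : R ≤ L := map_subtype_le _
  have hRp : IsPGroup r R := P.isPGroup'.map _
  have hRcard : Nat.card R = r ^ k := by
    rw [card_map_of_injective L.subtype_injective, P.card_eq_multiplicity, hk,
      Nat.factorization_mul Nat.card_pos.ne' (pow_pos hr.out.pos k).ne', Finsupp.add_apply,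
      Nat.factorization_eq_zero_of_not_dvd (hr.out.coprime_iff_not_dvd.1 hNr.symm),
      hr.out.factorization_pow, Finsupp.single_eq_same, zero_add]
  have hRA : SetGroup Aᶜ R := SetGroup.of_pGroup hrA hRp
  have hfRN : OddLocal.FPF N R := h.fpf hNA hRA
  have hinf : N ⊓ R = ⊥ := Subgroup.inf_eq_bot_of_coprime (hNA.coprime hRA)
  have hsup : N ⊔ R = L := by
    refine Subgroup.eq_of_le_of_card_ge (sup_le hNL.le hRL) (le_of_eq ?_)
    have h1 : (Nat.card L) ∣ Nat.card (N ⊔ R : Subgroup G) := by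
      rw [hk, ← hRcard]
      exact (hNA.coprime hRA).mul_dvd_of_dvd_of_dvd (card_dvd_of_le le_sup_left) (card_dvd_of_le le_sup_right)
    exact Nat.dvd_antisymm h1 (card_dvd_of_le (sup_le hNL.le hRL))
  have hR1 : R ≠ ⊥ := fun e => hNL.ne (by rw [← hsup, e, sup_bot_eq])
  -- the normaliser complement
  let Y : Subgroup G := normalizer (R : Set G)
  have hRY : R ≤ Y := le_normalizer
  have hNY : N ⊔ Y = ⊤ := by
    have h1 : Y ⊔ L = ⊤ := P.normalizer_sup_eq_top
    rw [eq_top_iff, ← h1, ← hsup]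
    exact sup_le le_sup_right (sup_le le_sup_left (hRY.trans le_sup_right))
  have hYN : N ⊓ Y = ⊥ := by
    rw [eq_bot_iff_forall]
    rintro x ⟨hx, hxY⟩
    obtain ⟨y, hy, hy1⟩ := (Subgroup.bot_or_exists_ne_one R).resolve_left hR1
    refine hfRN y hy hy1 x hx ?_
    have h1 : x * y * x⁻¹ * y⁻¹ ∈ N ⊓ R := by
      refine ⟨?_, R.mul_mem ((Subgroup.mem_normalizer_iff.1 hxY y).1 hy) (R.inv_mem hy)⟩
      rw [show x * y * x⁻¹ * y⁻¹ = x * (y * x⁻¹ * y⁻¹) by group]
      exact N.mul_mem hx (‹N.Normal›.conj_mem _ (N.inv_mem hx) y)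
    rw [hinf, mem_bot, mul_inv_eq_one, mul_inv_eq_iff_eq_mul] at h1
    exact h1.symm
  have hcompl : IsComplement' N Y := isComplement'_of_disjoint_and_mul_eq_univ
    (disjoint_iff.2 hYN) (by rw [← normal_mul, hNY, coe_top])
  -- `R` is cyclic of order `r`
  have hRord : ∀ x ∈ R, x ^ r = 1 := fun x hx => by
    have : x ^ r ∈ N ⊓ R := ⟨hexp x (hRL hx), R.pow_mem hx r⟩
    rwa [hinf, mem_bot] at this
  have hu := hfRN.uniqueOrderP hN (by rw [normalizer_eq_top N]; exact le_top) R le_rfl hRp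
  obtain ⟨z, hz, hz1⟩ := (Subgroup.bot_or_exists_ne_one R).resolve_left hR1
  have hRz : ∀ x ∈ R, x ∈ zpowers z := by
    intro x hx
    rcases eq_or_ne x 1 with rfl | hx1
    · exact one_mem _
    obtain ⟨i, hi⟩ := mem_zpowers_iff.1 (hu ⟨z, hz⟩ ⟨x, hx⟩ (Subtype.ext (hRord z hz))
      (Subtype.ext (hRord x hx)) (fun e => hz1 (congrArg Subtype.val e)))
    exact mem_zpowers_iff.2 ⟨i, by simpa using congrArg Subtype.val hi⟩
  -- the centraliser of `R` in `Y`
  let C : Subgroup G := Y ⊓ centralizer (R : Set G)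
  have hzord : orderOf z = r := orderOf_eq_prime (hRord z hz) hz1
  have hCA : SetGroup Aᶜ C := by
    intro p hp hpC hpA
    haveI := Fact.mk hp
    obtain ⟨x, hx⟩ := exists_prime_orderOf_dvd_card' p hpC
    rw [← orderOf_coe] at hx
    exact h (x : G) z (show Commute (x : G) z from (mem_centralizer_iff.1 x.2.2 z hz).symm)
      (hx ▸ hp) (hzord ▸ hr.out) (hx ▸ hpA) (hzord ▸ hrA)
  have hCn : (C.subgroupOf Y).Normal := by
    refine ⟨fun c hc g => ?_⟩
    refine ⟨(g * c * g⁻¹).2, mem_centralizer_iff.2 fun x hx => ?_⟩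
    have h1 : (g : G)⁻¹ * x * (g : G) ∈ R := (Subgroup.mem_normalizer_iff''.1 g.2 x).1 hx
    have h2 := mem_centralizer_iff.1 hc.2 _ h1
    calc x * ((g : G) * c * (g : G)⁻¹) = (g : G) * (((g : G)⁻¹ * x * g) * c) * (g : G)⁻¹ := by group
      _ = (g : G) * ((c : G) * ((g : G)⁻¹ * x * g)) * (g : G)⁻¹ := congrArg (fun u => (g : G) * u * (g : G)⁻¹) h2
      _ = ((g : G) * c * (g : G)⁻¹) * x := by group
  have hcomm : ∀ a ∈ Y, ∀ b ∈ Y, a * b * a⁻¹ * b⁻¹ ∈ C := by
    intro a ha b hb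
    refine ⟨Y.mul_mem (Y.mul_mem (Y.mul_mem ha hb) (Y.inv_mem ha)) (Y.inv_mem hb),
      mem_centralizer_iff.2 fun x hx => ?_⟩
    obtain ⟨j, rfl⟩ := mem_zpowers_iff.1 (hRz x hx)
    have conjz : ∀ g ∈ Y, ∃ i : ℤ, g * z * g⁻¹ = z ^ i := fun g hg => by
      obtain ⟨i, hi⟩ := mem_zpowers_iff.1 (hRz _ ((Subgroup.mem_normalizer_iff.1 hg z).1 hz))
      exact ⟨i, hi.symm⟩
    obtain ⟨i1, h1⟩ := conjz a ha
    obtain ⟨i2, h2⟩ := conjz b hb
    have hab : (a * b) * z * (a * b)⁻¹ = (b * a) * z * (b * a)⁻¹ := by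
      calc (a * b) * z * (a * b)⁻¹ = a * (b * z * b⁻¹) * a⁻¹ := by group
        _ = (a * z * a⁻¹) ^ i2 := by rw [h2, conj_zpow]
        _ = (b * z * b⁻¹) ^ i1 := by rw [h1, h2, ← zpow_mul, ← zpow_mul, mul_comm]
        _ = b * (z ^ i1) * b⁻¹ := by rw [conj_zpow]
        _ = (b * a) * z * (b * a)⁻¹ := by rw [← h1]; group
    have hz' : Commute (a * b * a⁻¹ * b⁻¹) z := by
      show _ = _
      calc a * b * a⁻¹ * b⁻¹ * z
          = (a * b) * ((b * a)⁻¹ * z * (b * a)) * (a * b)⁻¹ * (a * b * a⁻¹ * b⁻¹) := by group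
        _ = z * (a * b * a⁻¹ * b⁻¹) := by
          congr 1
          have key : (a * b) * ((b * a)⁻¹ * z * (b * a)) * (a * b)⁻¹
              = (b * a) * ((b * a)⁻¹ * z * (b * a)) * (b * a)⁻¹ := by
            obtain ⟨i3, h3⟩ := conjz (b * a)⁻¹ (Y.inv_mem (Y.mul_mem hb ha))
            rw [inv_inv] at h3
            rw [h3, ← conj_zpow, ← conj_zpow, hab]
          rw [key]; group
    exact ((hz'.zpow_right j).eq).symm
  obtain ⟨B, hBn, hCB, hBA, hBmax⟩ := exists_max_normal_set (A := Aᶜ) hCn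
    (hCA.of_dvd (by rw [Nat.card_congr (subgroupOfEquivOfLe (inf_le_left : C ≤ Y)).toEquiv]))
  let B0 : Subgroup G := B.map Y.subtype
  have hB0Y : B0 ≤ Y := map_subtype_le _
  have hB0card : Nat.card B0 = Nat.card B := card_map_of_injective Y.subtype_injective
  have hB0A : SetGroup Aᶜ B0 := hBA.of_dvd (dvd_of_eq hB0card)
  have hRB : R ≤ B0 := by
    intro x hx
    refine ⟨⟨x, hRY hx⟩, hCB ?_, rfl⟩
    refine ⟨hRY hx, mem_centralizer_iff.2 fun y hy => ?_⟩
    obtain ⟨i, rfl⟩ := mem_zpowers_iff.1 (hRz x hx)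
    obtain ⟨j, rfl⟩ := mem_zpowers_iff.1 (hRz y hy)
    exact (Commute.zpow_zpow_self z j i).eq
  have hB1 : B0 ≠ ⊥ := fun e => hR1 (le_bot_iff.1 (hRB.trans e.le))
  have hfB : OddLocal.FPF N B0 := h.fpf hNA hB0A
  by_cases hBtop : B = ⊤
  · have hY : B0 = Y := by
      show B.map Y.subtype = Y
      rw [hBtop, ← MonoidHom.range_eq_map, range_subtype]
    exact Or.inl ⟨Y, (frobenius_of_fpf hcompl hN (hY ▸ hB1) (hY ▸ hfB)).1⟩
  right
  have hquot : SetGroup A (Y ⧸ B) := by
    intro p hp hpd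
    by_contra hpA
    haveI := Fact.mk hp
    obtain ⟨q, hq⟩ := exists_prime_orderOf_dvd_card' (G := Y ⧸ B) p hpd
    have hqc : ∀ g : Y ⧸ B, g * q * g⁻¹ = q := by
      intro g
      obtain ⟨g, rfl⟩ := QuotientGroup.mk'_surjective B g
      obtain ⟨y, rfl⟩ := QuotientGroup.mk'_surjective B q
      rw [← map_inv, ← map_mul, ← map_mul]
      have : g * y * g⁻¹ * y⁻¹ ∈ B := hCB (hcomm g g.2 y y.2)
      have h' : QuotientGroup.mk' B (g * y * g⁻¹ * y⁻¹) = 1 := (QuotientGroup.eq_one_iff _).2 this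
      rw [map_mul, map_inv, mul_inv_eq_one] at h'
      exact h'
    have hzn : (zpowers q).Normal := ⟨fun x hx g => by
      obtain ⟨i, rfl⟩ := mem_zpowers_iff.1 hx
      rw [← conj_zpow, hqc]; exact zpow_mem_zpowers _ _⟩
    let M := (zpowers q).comap (QuotientGroup.mk' B)
    have hM : M = B := hBmax M (hzn.comap _) (QuotientGroup.le_comap_mk' _ _) (by
      intro s hs hsd
      have e : Nat.card M = Nat.card B * p := by
        let f : M →* zpowers q := (QuotientGroup.mk' B).subgroupComap (zpowers q)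
        have hf : Function.Surjective f :=
          (QuotientGroup.mk' B).subgroupComap_surjective_of_surjective _ (QuotientGroup.mk'_surjective B)
        rw [← hq, ← Nat.card_zpowers q, card_eq_card_quotient_mul_card_subgroup f.ker,
          Nat.card_congr (QuotientGroup.quotientKerEquivOfSurjective f hf).toEquiv, mul_comm]
        congr 1
        refine Nat.card_congr ((Equiv.setCongr ?_).trans
          (subgroupOfEquivOfLe (QuotientGroup.le_comap_mk' B (zpowers q))).toEquiv)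
        ext x
        rw [SetLike.mem_coe, SetLike.mem_coe, MonoidHom.mem_ker, mem_subgroupOf, Subtype.ext_iff]
        exact QuotientGroup.eq_one_iff _
      rw [e] at hsd
      rcases hs.dvd_mul.1 hsd with h1 | h1
      · exact hBA s hs h1
      · rwa [(Nat.prime_dvd_prime_iff_eq hs hp).1 h1])
    have : q = 1 := by
      obtain ⟨y, rfl⟩ := QuotientGroup.mk'_surjective B q
      exact (QuotientGroup.eq_one_iff y).2 (hM ▸ (mem_zpowers _ : QuotientGroup.mk' B y ∈ zpowers _))
    rw [this, orderOf_one] at hq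
    exact hp.ne_one hq.symm
  have hcopBQ : (Nat.card B).Coprime B.index :=
    Nat.coprime_of_dvd fun p hp h1 h2 => hBA p hp h1 (hquot p hp h2)
  obtain ⟨D, hD⟩ := exists_right_complement'_of_coprime hcopBQ
  have hD1 : D ≠ ⊥ := fun e => hBtop (isComplement'_bot_right.1 (e ▸ hD))
  have hDA : SetGroup A D := hquot.of_dvd (dvd_of_eq hD.symm.index_eq_card.symm)
  have hBD : OddLocal.FPF B D := by
    intro d hd hd1 b hb hc
    have := (h.compl.fpf (N := B0) (W := D.map Y.subtype) hB0A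
      (by rw [compl_compl]; exact hDA.of_dvd (dvd_of_eq (card_map_of_injective Y.subtype_injective))))
      (d : G) ⟨d, hd, rfl⟩ (fun e => hd1 (Subtype.ext e)) (b : G) ⟨b, hb, rfl⟩ (congrArg Subtype.val hc)
    exact Subtype.ext this
  obtain ⟨hF2, hK2⟩ := frobenius_of_fpf hD (fun e => hB1 (by show B.map _ = ⊥; rw [e, Subgroup.map_bot]))
    hD1 hBD
  let K : Subgroup G := N ⊔ B0
  have hKn : K.Normal := by
    refine normalizer_eq_top_iff.1 (eq_top_iff.2 ?_)
    rw [← hNY, sup_le_iff]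
    refine ⟨le_sup_left.trans le_normalizer, fun y hy => ?_⟩
    refine mem_normalizer_iff_map_conj_eq.2 ?_
    rw [Subgroup.map_sup, (mem_normalizer_iff_map_conj_eq.1 (by rw [normalizer_eq_top N]; trivial) :
      N.map (MulAut.conj y).toMonoidHom = N)]
    congr 1
    refine mem_normalizer_iff_map_conj_eq.1 ((le_normalizer_map _) ⟨⟨y, hy⟩, ?_, rfl⟩)
    rw [normalizer_eq_top B]; trivial
  have hdisj : Disjoint (N.subgroupOf K) (B0.subgroupOf K) := by
    rw [disjoint_iff, eq_bot_iff_forall]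
    rintro x ⟨hxN, hxB⟩
    have : (x : G) ∈ N ⊓ Y := ⟨hxN, hB0Y hxB⟩
    rw [hYN, mem_bot] at this
    exact Subtype.ext this
  refine ⟨N, K, ‹N.Normal›, hKn, lt_of_le_of_ne le_sup_left ?_, ?_, ?_⟩
  · intro e'
    refine hB1 (le_bot_iff.1 ?_)
    rw [← hYN]
    exact le_inf (le_sup_right.trans e'.ge) hB0Y
  · refine ⟨B0.subgroupOf K, frobenius_of_fpf ?_ ?_ ?_ ?_⟩
    · refine isComplement'_of_disjoint_and_mul_eq_univ hdisj ?_
      rw [← normal_mul, ← subgroupOf_sup le_sup_left le_sup_right, subgroupOf_self, coe_top]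
    · rw [Ne, subgroupOf_eq_bot, disjoint_of_le_iff_left_eq_bot le_sup_left]; exact hN
    · rw [Ne, subgroupOf_eq_bot, disjoint_of_le_iff_left_eq_bot le_sup_right]; exact hB1
    · exact fun x hx hx1 y hy hc => Subtype.ext
        (hfB x hx (fun e' => hx1 (Subtype.ext e')) y hy (congrArg Subtype.val hc))
  · let ψ : Y →* G ⧸ N := (QuotientGroup.mk' N).comp Y.subtype
    have hinj : Function.Injective ψ := by
      rw [injective_iff_map_eq_one]
      intro y hy
      have : (y : G) ∈ N ⊓ Y := ⟨(QuotientGroup.eq_one_iff _).1 hy, y.2⟩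
      rw [hYN, mem_bot] at this
      exact Subtype.ext this
    have hKmap : K.map (QuotientGroup.mk' N) = B.map ψ := by
      rw [Subgroup.map_sup, QuotientGroup.map_mk'_self, bot_sup_eq, Subgroup.map_map]
    have hsur : Function.Surjective ψ := fun q => by
      obtain ⟨g, rfl⟩ := QuotientGroup.mk'_surjective N q
      obtain ⟨n, hn, y, hy, rfl⟩ : g ∈ (N : Set G) * (Y : Set G) := by
        rw [← normal_mul, hNY]; trivial
      exact ⟨⟨y, hy⟩, by
        show QuotientGroup.mk' N y = QuotientGroup.mk' N (n * y)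
        rw [map_mul, show QuotientGroup.mk' N n = 1 from (QuotientGroup.eq_one_iff n).2 hn, one_mul]⟩
    haveI : (B.map ψ).Normal := hBn.map _ hsur
    refine ⟨D.map ψ, ?_⟩
    rw [hKmap]
    refine frobenius_of_fpf ?_ ?_ ?_ ?_
    · refine isComplement'_of_disjoint_and_mul_eq_univ ?_ ?_
      · rw [disjoint_iff, ← map_inf _ _ _ hinj, hD.disjoint.eq_bot, Subgroup.map_bot]
      · rw [← normal_mul, ← Subgroup.map_sup, hD.sup_eq_top, ← MonoidHom.range_eq_map,
          MonoidHom.range_eq_top.2 hsur, coe_top]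
    · rw [Ne, map_eq_bot_iff_of_injective _ hinj]
      exact fun e' => hB1 (by show B.map _ = ⊥; rw [e', Subgroup.map_bot])
    · rw [Ne, map_eq_bot_iff_of_injective _ hinj]; exact hD1
    · rintro _ ⟨d, hd, rfl⟩ hd1 _ ⟨b, hb, rfl⟩ hc
      rw [hBD d hd (fun e' => hd1 (by rw [e', map_one])) b hb (hinj (by simpa using hc)), map_one]

end Cfsg.Agent.TwoGroups
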