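import Cfsg.Agent.Dickson.Main
import Cfsg.Agent.Linear.PSL2Spectrum
import Cfsg.Agent.Linear.Card
import Cfsg.Prelude.Def_HallClasses
import Mathlib.NumberTheory.LSeries.PrimesInAP

/-! # `SL(2, ℓ)` need not have Hall subgroups -/

set_option autoImplicit false

namespace Cfsg.Agent.TwoGroups

open Subgroup Cfsg.Agent.Dickson
open scoped Pointwise

variable {l : ℕ} [hl : Fact l.Prime]

/-- Orders of elements of `SL(2, ℓ)`. -/
theorem orderOf_sl2_dvd (hl2 : l ≠ 2) (x : SL2 (ZMod l)) :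
    orderOf x ∣ 2 * l ∨ orderOf x ∣ l - 1 ∨ orderOf x ∣ l + 1 := by
  have hc := Linear.PSL2Classes.orderOf_dvd l (Linear.toPSL x)
  have hodd : l % 2 = 1 := Nat.odd_iff.1 (hl.out.odd_of_ne_two hl2)
  have hg : Nat.gcd 2 (l - 1) = 2 := Nat.gcd_eq_left (by omega)
  rw [ZMod.card, hg] at hc
  have key : ∀ k : ℕ, orderOf (Linear.toPSL x) ∣ k → orderOf x ∣ 2 * k := by
    intro k hk
    have h1 := orderOf_dvd_iff_pow_eq_one.1 hk
    rw [← map_pow, Linear.toPSL_eq_one_iff] at h1
    refine orderOf_dvd_of_pow_eq_one ?_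
    rw [mul_comm, pow_mul]
    rcases h1 with h1 | h1 <;> simp [h1]
  rcases hc with h | h | h
  · exact Or.inl (key _ h)
  · exact Or.inr (Or.inl (by have := key _ h; rwa [show 2 * ((l - 1) / 2) = l - 1 by omega] at this))
  · exact Or.inr (Or.inr (by have := key _ h; rwa [show 2 * ((l + 1) / 2) = l + 1 by omega] at this))

/-- Torus elements of large coprime orders do not commute. -/
theorem not_commute_tori (hl2 : l ≠ 2) {z w : SL2 (ZMod l)} {n1 n2 : ℕ} (hz : orderOf z = n1)
    (hw : orderOf w = n2) (hcop : n1.Coprime n2) (h1 : ¬ n1 ∣ 2 * l) (h2 : ¬ n2 ∣ l - 1)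
    (h3 : ¬ n1 ∣ l + 1) : ¬ Commute z w := by
  intro hc
  have := hc.orderOf_mul_eq_mul_orderOf_of_coprime (hz ▸ hw ▸ hcop)
  rcases orderOf_sl2_dvd hl2 (z * w) with h | h | h <;> rw [this, hz, hw] at h
  · exact h1 ((dvd_mul_right n1 n2).trans h)
  · exact h2 ((dvd_mul_left n2 n1).trans h)
  · exact h3 ((dvd_mul_right n1 n2).trans h)

theorem lower1 {m a g : ℕ} (hm : 5 ≤ m) (h : m * a + g = g * m) : 4 * g ≤ 5 * a := by
  refine Nat.le_of_mul_le_mul_left ?_ (show 0 < m by omega)
  nlinarith [Nat.mul_le_mul_left g hm]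

theorem lower2 {m a g : ℕ} (hm : 5 ≤ m) (h : 2 * m * a + g = g * m) : 2 * g ≤ 5 * a := by
  refine Nat.le_of_mul_le_mul_left ?_ (show 0 < m by omega)
  nlinarith [Nat.mul_le_mul_left g hm]

theorem lower0 {m a g : ℕ} (hm : 2 ≤ m) (h : m * a + g = g * m) : g ≤ 2 * a := by
  refine Nat.le_of_mul_le_mul_left ?_ (show 0 < m by omega)
  nlinarith [Nat.mul_le_mul_left g hm]

theorem lower3 {m a g : ℕ} (hm : 2 ≤ m) (h : 2 * m * a + g = g * m) : g ≤ 4 * a := by
  refine Nat.le_of_mul_le_mul_left ?_ (show 0 < m by omega)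
  nlinarith [Nat.mul_le_mul_left g hm]

theorem equality_case {m n a b g : ℕ} (hm : 0 < m) (h1 : 2 * m * a + g = g * m)
    (h2 : 2 * n * b + g = g * n) (hg : 4 * m ≤ g) (hall : a + b + 2 = g) : False := by
  subst hall
  have e : (a + b + 2) * (m + n) = 4 * m * n := by
    have h3 := congrArg (fun t => n * t) h1
    have h4 := congrArg (fun t => m * t) h2
    nlinarith
  have e' : 4 * m * (m + n) ≤ 4 * m * n := e ▸ Nat.mul_le_mul_right _ hg
  rw [mul_add] at e'
  have := Nat.mul_pos (show 0 < 4 * m by omega) hm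
  omega

/-- A subgroup of order prime to `ℓ` contains no two such elements. -/
theorem no_two_tori_coprime (hl2 : l ≠ 2) (H : Subgroup (SL2 (ZMod l))) (hneg : -1 ∈ H)
    (hH : ¬ l ∣ Nat.card H) {z w : H} (hz5 : 10 ≤ orderOf z) (hw5 : 10 ≤ orderOf w)
    (hzw : ∀ z' w' : SL2 (ZMod l), orderOf z' = orderOf z → orderOf w' = orderOf w → ¬ Commute z' w') :
    False := by
  classical
  let c : H := ⟨-1, hneg⟩
  have hc : (c : SL2 (ZMod l)) = -1 := rfl
  obtain ⟨hc1, hcc, hco⟩ := negOne_props (p := l) hl2 hc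
  have hSS : ∀ x : H, x ≠ 1 → x ≠ c → IsSS x := by
    intro x hx1 hxc
    refine ⟨fun h => hx1 ?_, fun h => hxc ?_⟩
    · have h1 : x ^ l = 1 := Subtype.ext (by
        rw [SubmonoidClass.coe_pow]; exact pow_p_of_tr _ h)
      exact orderOf_eq_one_iff.1 ((hl.out.eq_one_or_self_of_dvd _ (orderOf_dvd_of_pow_eq_one h1)).resolve_right
        fun e => hH ((dvd_of_eq e.symm).trans (_root_.orderOf_dvd_natCard x)))
    · have h0 : tr ((c * x : H) : SL2 (ZMod l)) = 2 := by
        rw [Subgroup.coe_mul, hc, neg_one_mul, tr_neg, h, neg_neg]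
      have h1 : (c * x) ^ l = 1 := Subtype.ext (by
        rw [SubmonoidClass.coe_pow]; exact pow_p_of_tr _ h0)
      have h2 : c * x = 1 := orderOf_eq_one_iff.1
        ((hl.out.eq_one_or_self_of_dvd _ (orderOf_dvd_of_pow_eq_one h1)).resolve_right
          fun e => hH ((dvd_of_eq e.symm).trans (_root_.orderOf_dvd_natCard (c * x))))
      calc x = c * (c * x) := by rw [← mul_assoc, hcc, one_mul]
        _ = c := by rw [h2, mul_one]
  have hbig : ∀ x : H, 10 ≤ orderOf x → IsSS x := fun x hx => hSS x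
    (fun e => by rw [e, orderOf_one] at hx; omega) (fun e => by rw [e, hco] at hx; omega)
  have hz := hbig z hz5
  have hw := hbig w hw5
  have hwz : w ∉ sat z := by
    rintro ⟨x, v, ⟨hv, -⟩, hxv⟩
    refine hzw (z : SL2 (ZMod l)) (v : SL2 (ZMod l)) (orderOf_coe z) ?_ (mem_cz.1 hv)
    rw [orderOf_coe, ← hxv]
    exact ((MulAut.conj x).orderOf_eq v).symm
  have hcover : ∀ x : H, IsSS x → 4 ≤ Nat.card (cz x) := by
    intro x hx
    have h1 := tor_card (p := l) hl2 (z := x) hc
    have h2 : 0 < (tor x).ncard := (Set.ncard_pos (Set.toFinite _)).2 ⟨x, self_mem_cz x, hx.not_scal⟩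
    have hdvd : 2 ∣ Nat.card (cz x) := by
      have : c ∈ cz x := mem_cz.2 (by simp [hc])
      have h3 := _root_.orderOf_dvd_natCard (⟨c, this⟩ : cz x)
      rwa [Subgroup.orderOf_mk, hco] at h3
    omega
  have hbound : ∀ x : H, IsSS x → ∃ m s : ℕ, 2 ≤ m ∧ Nat.card (cz x) = 2 * m ∧ s = (sat x).ncard ∧
      (m * s + Nat.card H = Nat.card H * m ∨
        (2 * m * s + Nat.card H = Nat.card H * m ∧ 4 * m ≤ Nat.card H)) := by
    intro x hx
    have hdvd : 2 ∣ Nat.card (cz x) := by
      have : c ∈ cz x := mem_cz.2 (by simp [hc])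
      have h3 := _root_.orderOf_dvd_natCard (⟨c, this⟩ : cz x)
      rwa [Subgroup.orderOf_mk, hco] at h3
    obtain ⟨m, hm⟩ := hdvd
    have hm2 : 2 ≤ m := by have := hcover x hx; omega
    refine ⟨m, _, hm2, hm, rfl, ?_⟩
    have h1 := tor_card (p := l) hl2 (z := x) hc
    have h2 := sat_card hx
    obtain ⟨j, rfl⟩ : ∃ j, m = j + 2 := ⟨m - 2, by omega⟩
    have h3 : (tor x).ncard = 2 * j + 2 := by omega
    rw [h3] at h2
    rcases card_nz (p := l) hl2 hx with h | h
    · left
      rw [h, hm] at h2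
      nlinarith
    · right
      refine ⟨?_, ?_⟩
      · rw [h, hm] at h2
        nlinarith
      · have := Nat.le_of_dvd Nat.card_pos (card_subgroup_dvd_card (nz x))
        omega
  obtain ⟨m1, s1, hm1, hc1', rfl, h1⟩ := hbound z hz
  obtain ⟨m2, s2, hm2, hc2', rfl, h2⟩ := hbound w hw
  have hm1' : 5 ≤ m1 := by
    have := Nat.le_of_dvd Nat.card_pos (_root_.orderOf_dvd_natCard (⟨z, self_mem_cz z⟩ : cz z))
    rw [Subgroup.orderOf_mk] at this
    omega
  have hm2' : 5 ≤ m2 := by
    have := Nat.le_of_dvd Nat.card_pos (_root_.orderOf_dvd_natCard (⟨w, self_mem_cz w⟩ : cz w))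
    rw [Subgroup.orderOf_mk] at this
    omega
  have hall : {x : H | IsSS x}.ncard + 2 = Nat.card H := by
    have h : {x : H | IsSS x} = (Set.univ : Set H) \ {1, c} := by
      ext x
      simp only [Set.mem_setOf_eq, Set.mem_sdiff, Set.mem_univ, true_and, Set.mem_insert_iff,
        Set.mem_singleton_iff, not_or]
      refine ⟨fun hx => ⟨?_, ?_⟩, fun hx => hSS x hx.1 hx.2⟩
      · rintro rfl; exact hx.1 tr_one_coe
      · rintro rfl; exact hx.2 (by rw [hc, tr_neg, tr_one])
    have hh := Set.ncard_sdiff_add_ncard_of_subset (Set.subset_univ ({1, c} : Set H))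
    rw [Set.ncard_pair (Ne.symm hc1), Set.ncard_univ] at hh
    rw [h]; exact hh
  have hsub : sat z ∪ sat w ⊆ {x : H | IsSS x} := by
    rintro x (hx | hx)
    · exact sat_mem (p := l) hl2 hz hx
    · exact sat_mem (p := l) hl2 hw hx
  have hdisj := sat_disjoint hz hw hwz
  have hg : 0 < Nat.card H := Nat.card_pos
  generalize hG : Nat.card H = g at h1 h2 hg hall
  generalize ha : (sat z).ncard = a at h1
  generalize hb : (sat w).ncard = b at h2
  have hle : a + b + 2 ≤ g := by
    have := Set.ncard_le_ncard hsub (Set.toFinite _)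
    rw [Set.ncard_union_eq hdisj, ha, hb] at this
    omega
  by_cases heq : sat z ∪ sat w = {x : H | IsSS x}
  · rw [← heq, Set.ncard_union_eq hdisj, ha, hb] at hall
    clear hle
    rcases h1 with h1 | ⟨h1, h1'⟩
    · have e1 : 4 * g ≤ 5 * a := lower1 hm1' h1
      have e2 : 2 * g ≤ 5 * b := h2.elim (fun h => by have := lower1 hm2' h; omega)
        fun h => lower2 hm2' h.1
      omega
    rcases h2 with h2 | ⟨h2, -⟩
    · have e1 : 2 * g ≤ 5 * a := lower2 hm1' h1
      have e2 : 4 * g ≤ 5 * b := lower1 hm2' h2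
      omega
    exact equality_case (by omega) h1 h2 h1' hall
  · obtain ⟨y, hy, hy'⟩ : ∃ y, IsSS y ∧ y ∉ sat z ∪ sat w := by
      by_contra hcon
      push Not at hcon
      exact heq (Set.Subset.antisymm hsub fun y hy => hcon y hy)
    rw [Set.mem_union, not_or] at hy'
    obtain ⟨m3, s3, hm3, -, rfl, h3⟩ := hbound y hy
    rw [hG] at h3
    generalize hd : (sat y).ncard = d at h3
    have hsub' : sat z ∪ sat w ∪ sat y ⊆ {x : H | IsSS x} :=
      Set.union_subset hsub fun x hx => sat_mem (p := l) hl2 hy hx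
    have h4 := Set.ncard_le_ncard hsub' (Set.toFinite _)
    rw [Set.ncard_union_eq (Set.disjoint_union_left.2 ⟨sat_disjoint hz hy hy'.1, sat_disjoint hw hy hy'.2⟩),
      Set.ncard_union_eq hdisj, ha, hb, hd] at h4
    have e1 : 2 * g ≤ 5 * a := h1.elim (fun h => by have := lower1 hm1' h; omega) fun h => lower2 hm1' h.1
    have e2 : 2 * g ≤ 5 * b := h2.elim (fun h => by have := lower1 hm2' h; omega) fun h => lower2 hm2' h.1
    have e3 : g ≤ 4 * d := h3.elim (fun h => by have := lower0 hm3 h; omega) fun h => lower3 hm3 h.1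
    omega

theorem not_dvd_of_prime_pow {p k n : ℕ} (hp : p.Prime) (hk : 0 < k) (h : ¬ p ∣ n) : ¬ p ^ k ∣ n :=
  fun hd => h ((dvd_pow_self p hk.ne').trans hd)

/-- For `p, q ∈ π` and `r ∉ π` some `SL(2, ℓ)` has no Hall `π`-subgroup. -/
theorem exists_not_ePiGroup {π : Set ℕ} {p q r : ℕ} (hp : p.Prime) (hq : q.Prime) (hr : r.Prime)
    (hpπ : p ∈ π) (hqπ : q ∈ π) (hrπ : r ∉ π) (hpq : p ≠ q) (hq2 : q ≠ 2) :
    ∃ (G : Type) (_ : Group G) (_ : Finite G), ¬ Cfsg.IsEPiGroup π G := by
  have hrp : r ≠ p := fun e => hrπ (e ▸ hpπ)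
  have hrq : r ≠ q := fun e => hrπ (e ▸ hqπ)
  have hco : Nat.Coprime (p ^ 6 * r) (q ^ 6) :=
    Nat.Coprime.pow_right 6 (Nat.Coprime.mul_left
      (Nat.Coprime.pow_left 6 ((Nat.coprime_primes hp hq).2 hpq)) ((Nat.coprime_primes hr hq).2 hrq))
  set M1 := p ^ 6 * r with hM1
  set M2 := q ^ 6 with hM2
  have hM2pos : 1 ≤ M2 := Nat.one_le_pow _ _ hq.pos
  obtain ⟨k, hk1, hk2⟩ := Nat.chineseRemainder hco 1 (M2 - 1)
  have hkco : Nat.Coprime k (M1 * M2) := by
    refine Nat.Coprime.mul_right ?_ ?_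
    · rw [Nat.coprime_iff_gcd_eq_one, hk1.gcd_eq, Nat.gcd_one_left]
    · rw [Nat.coprime_iff_gcd_eq_one, hk2.gcd_eq, Nat.gcd_comm, Nat.gcd_self_sub_right hM2pos,
        Nat.gcd_one_right]
  haveI : NeZero (M1 * M2) := ⟨(Nat.mul_pos (Nat.mul_pos (pow_pos hp.pos _) hr.pos) hM2pos).ne'⟩
  obtain ⟨l, hgt, hl, hmod⟩ := Nat.forall_exists_prime_gt_and_eq_mod
    (show IsUnit ((k : ℕ) : ZMod (M1 * M2)) from ⟨ZMod.unitOfCoprime k hkco, rfl⟩) (p + q + r + 2)
  rw [ZMod.natCast_eq_natCast_iff] at hmod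
  haveI := Fact.mk hl
  have hl2 : l ≠ 2 := by omega
  have h1 : p ^ 6 * r ∣ l - 1 :=
    (Nat.modEq_iff_dvd' hl.one_lt.le).1 (((hmod.of_mul_right M2).trans hk1).symm)
  have h2 : q ^ 6 ∣ l + 1 := by
    have h : l + 1 ≡ M2 - 1 + 1 [MOD M2] := ((hmod.of_mul_left M1).trans hk2).add_right 1
    rw [Nat.sub_add_cancel hM2pos] at h
    exact Nat.modEq_zero_iff_dvd.1 (h.trans (Nat.modEq_zero_iff_dvd.2 dvd_rfl))
  refine ⟨SL2 (ZMod l), inferInstance, inferInstance, fun ⟨H, hH1, hH2⟩ => ?_⟩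
  have hcard : Nat.card (SL2 (ZMod l)) = l * ((l + 1) * (l - 1)) := by
    have := Linear.card_SL_two (F := ZMod l)
    rw [ZMod.card, show l ^ 2 - 1 = (l + 1) * (l - 1) by rw [← Nat.sq_sub_sq, one_pow]] at this
    exact this
  -- elements of large order
  have hfind : ∀ (s : ℕ), s.Prime → s ∈ π → (s ^ 6 ∣ l + 1 ∨ s ^ 6 ∣ l - 1) →
      ∃ x : H, orderOf x = s ^ 6 := by
    intro s hs hsπ hd
    haveI := Fact.mk hs
    obtain ⟨C, hC, hCc⟩ : ∃ C : Subgroup (SL2 (ZMod l)), IsCyclic C ∧ s ^ 6 ∣ Nat.card C := by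
      rcases hd with hd | hd
      · obtain ⟨C, hC, hc⟩ := Linear.exists_cyclic_SL2 (F := ZMod l) true
        exact ⟨C, hC, by rw [hc, if_pos rfl, ZMod.card]; exact hd⟩
      · obtain ⟨C, hC, hc⟩ := Linear.exists_cyclic_SL2 (F := ZMod l) false
        exact ⟨C, hC, by rw [hc, if_neg (by decide), ZMod.card]; exact hd⟩
    obtain ⟨g, hg⟩ := IsCyclic.exists_ofOrder_eq_natCard (α := C)
    obtain ⟨y, hy⟩ := Linear.PSL2Classes.exists_of_dvd_order g (hg ▸ hCc)
    let T : Sylow s H := default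
    have hTmap : IsPGroup s ((T : Subgroup H).map H.subtype) := T.isPGroup'.map _
    obtain ⟨S, hS⟩ := hTmap.exists_le_sylow
    have hSeq : (S : Subgroup (SL2 (ZMod l))) ≤ H := by
      have hle : (T : Subgroup H).map H.subtype = (S : Subgroup (SL2 (ZMod l))) := by
        refine Subgroup.eq_of_le_of_card_ge hS (le_of_eq ?_)
        rw [Subgroup.card_map_of_injective H.subtype_injective, T.card_eq_multiplicity,
          S.card_eq_multiplicity, ← H.card_mul_index,
          Nat.factorization_mul Nat.card_pos.ne' Subgroup.index_ne_zero_of_finite, Finsupp.add_apply,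
          Nat.factorization_eq_zero_of_not_dvd (hH2 s hs hsπ), add_zero]
      exact hle ▸ Subgroup.map_subtype_le _
    have hyp : IsPGroup s (zpowers (y : SL2 (ZMod l))) :=
      IsPGroup.of_card (n := 6) (by rw [Nat.card_zpowers, orderOf_coe, hy])
    obtain ⟨S', hS'⟩ := hyp.exists_le_sylow
    obtain ⟨g', hg'⟩ := MulAction.exists_smul_eq (SL2 (ZMod l)) S' S
    have hmem : g' * (y : SL2 (ZMod l)) * g'⁻¹ ∈ H := by
      refine hSeq ?_
      rw [← hg', Sylow.coe_subgroup_smul, Subgroup.mem_pointwise_smul_iff_inv_smul_mem]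
      simpa [mul_assoc] using hS' (mem_zpowers _)
    refine ⟨⟨_, hmem⟩, ?_⟩
    rw [Subgroup.orderOf_mk, ← hy, ← orderOf_coe y]
    exact (MulAut.conj g').orderOf_eq _
  obtain ⟨z, hz⟩ := hfind p hp hpπ (Or.inr ((dvd_mul_right _ _).trans h1))
  obtain ⟨w, hw⟩ := hfind q hq hqπ (Or.inl h2)
  have hlp : ¬ p ∣ l := fun e => by have := (Nat.prime_dvd_prime_iff_eq hp hl).1 e; omega
  have hlq : ¬ q ∣ l := fun e => by have := (Nat.prime_dvd_prime_iff_eq hq hl).1 e; omega
  have hq1 : ¬ q ∣ l - 1 := fun e => hq2 ((Nat.prime_dvd_prime_iff_eq hq Nat.prime_two).1 (by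
    have := Nat.dvd_sub ((dvd_pow_self q (by omega : 6 ≠ 0)).trans h2) e
    rwa [show l + 1 - (l - 1) = 2 by omega] at this))
  have h64 : 64 ≤ p ^ 6 := Nat.pow_le_pow_left hp.two_le 6
  have h64' : 64 ≤ q ^ 6 := Nat.pow_le_pow_left hq.two_le 6
  by_cases hldvd : l ∣ Nat.card H
  · rcases eq_or_lt_of_le (Nat.one_le_iff_ne_zero.2 (Nat.card_pos (α := Sylow l H)).ne') with h1S | h1S
    · -- normal Sylow `ℓ`-subgroup
      haveI : Subsingleton (Sylow l H) := (Nat.card_eq_one_iff_unique.1 h1S.symm).1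
      obtain ⟨u, hu⟩ := exists_prime_orderOf_dvd_card' l hldvd
      have hut : tr (u : SL2 (ZMod l)) = 2 := tr_of_pow (p := l) (k := 1) (by
        rw [pow_one, ← SubmonoidClass.coe_pow, show u ^ l = 1 from orderOf_dvd_iff_pow_eq_one.1 (dvd_of_eq hu),
          Subgroup.coe_one])
      obtain ⟨P', huP'⟩ := exists_sylow_mem (p := l) hut
      haveI hP'n : (P' : Subgroup H).Normal := P'.normal_of_subsingleton
      have hPcard : Nat.card (P' : Subgroup H) = l := by
        obtain ⟨e, he⟩ := IsPGroup.iff_card.1 P'.isPGroup'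
        rcases e with _ | _ | e
        · have h0 : (P' : Subgroup H) = ⊥ := Subgroup.eq_bot_of_card_eq _ (by rw [he, pow_zero])
          have : u = 1 := by rw [← Subgroup.mem_bot, ← h0]; exact huP'
          rw [this, orderOf_one] at hu
          exact absurd hu.symm hl.ne_one
        · simpa using he
        · exfalso
          have hd : l ^ 2 ∣ l * ((l + 1) * (l - 1)) := hcard ▸
            ((pow_dvd_pow l (show 2 ≤ e + 2 by omega)).trans (he ▸ ((card_subgroup_dvd_card (P' : Subgroup H)).trans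
              (card_subgroup_dvd_card H))))
          rw [pow_two] at hd
          rcases (hl.dvd_mul).1 ((Nat.mul_dvd_mul_iff_left hl.pos).1 hd) with h' | h'
          · have : l ∣ 1 := (Nat.dvd_add_right dvd_rfl).1 h'
            exact hl.ne_one (Nat.dvd_one.1 this)
          · have := Nat.le_of_dvd (by omega) h'
            omega
      have hgen : ∀ x ∈ (P' : Subgroup H), x ∈ zpowers u := by
        intro x hx
        have : zpowers u = (P' : Subgroup H) := Subgroup.eq_of_le_of_card_ge (zpowers_le.2 huP')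
          (by rw [hPcard, Nat.card_zpowers, hu])
        rw [this]; exact hx
      obtain ⟨i, hi⟩ := mem_zpowers_iff.1 (hgen _ (hP'n.conj_mem u huP' w))
      have hpowi : ∀ n : ℕ, w ^ n * u * (w ^ n)⁻¹ = u ^ (i ^ n) := by
        intro n
        induction n with
        | zero => simp
        | succ n ih =>
          calc w ^ (n + 1) * u * (w ^ (n + 1))⁻¹ = w ^ n * (w * u * w⁻¹) * (w ^ n)⁻¹ := by
                rw [pow_succ]; group
            _ = (w ^ n * u * (w ^ n)⁻¹) ^ i := by rw [← hi, conj_zpow]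
            _ = u ^ (i ^ (n + 1)) := by rw [ih, ← zpow_mul, pow_succ]
      have hil : ¬ (l : ℤ) ∣ i := by
        intro hd
        have h0 : u ^ i = 1 := orderOf_dvd_iff_zpow_eq_one.1 (by rw [hu]; exact hd)
        rw [h0] at hi
        have : u = 1 := by
          calc u = w⁻¹ * (w * u * w⁻¹) * w := by group
            _ = 1 := by rw [← hi]; group
        rw [this, orderOf_one] at hu
        exact hl.ne_one hu.symm
      have hfer : u ^ (i ^ (l - 1)) = u := by
        have := Int.ModEq.pow_card_sub_one_eq_one hl (Int.isCoprime_iff_gcd_eq_one.2 (by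
          rcases Nat.coprime_or_dvd_of_prime hl i.natAbs with h' | h'
          · rwa [Int.gcd_comm]
          · exact absurd (Int.natCast_dvd.2 h') hil))
        rw [show u ^ (i ^ (l - 1)) = u ^ (1 : ℤ) from zpow_eq_zpow_iff_modEq.2 (by rw [hu]; exact_mod_cast this),
          zpow_one]
      have hcomm : (u : SL2 (ZMod l)) * ((w ^ (l - 1) : H) : SL2 (ZMod l)) = ((w ^ (l - 1) : H) : SL2 (ZMod l)) * u := by
        have := hpowi (l - 1)
        rw [hfer, mul_inv_eq_iff_eq_mul] at this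
        exact congrArg Subtype.val this.symm
      have hu1 : u ≠ 1 := fun e => by rw [e, orderOf_one] at hu; exact hl.ne_one hu.symm
      obtain ⟨a, b, e1, e2, e3, e4⟩ := exists_of_commute (not_scal_coe (p := l) hl2 hut hu1) hcomm
      set y : SL2 (ZMod l) := ((w ^ (l - 1) : H) : SL2 (ZMod l)) with hy
      have hdety := det_eq y
      have hdetu := det_eq (u : SL2 (ZMod l))
      have hutr : (u : SL2 (ZMod l)) 0 0 + (u : SL2 (ZMod l)) 1 1 = 2 := hut
      have hsq : (a + b) * (a + b) = 1 := by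
        rw [e1, e2, e3, e4] at hdety
        linear_combination hdety - a * b * hutr - b * b * hdetu
      have hy2 : y ^ (2 * l) = 1 := by
        have htry : tr y = 2 * (a + b) := by
          show y 0 0 + y 1 1 = _
          rw [e1, e4]; linear_combination b * hutr
        rcases mul_self_eq_one_iff.1 hsq with h | h
        · rw [h, mul_one] at htry
          rw [mul_comm, pow_mul, pow_p_of_tr y htry, one_pow]
        · have : tr (-y) = 2 := by rw [tr_neg, htry, h]; ring
          rw [show y ^ (2 * l) = (-y) ^ (2 * l) by rw [pow_mul, pow_mul, neg_sq], mul_comm, pow_mul,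
            pow_p_of_tr _ this, one_pow]
      have hdiv : q ^ 6 ∣ (l - 1) * (2 * l) := by
        rw [← hw, ← orderOf_coe w]
        refine orderOf_dvd_of_pow_eq_one ?_
        rw [pow_mul, ← SubmonoidClass.coe_pow]
        exact hy2
      have h' : q ∣ (l - 1) * (2 * l) := (dvd_pow_self q (by omega)).trans hdiv
      rcases hq.dvd_mul.1 h' with h' | h'
      · exact hq1 h'
      · rcases hq.dvd_mul.1 h' with h' | h'
        · exact hq2 ((Nat.prime_dvd_prime_iff_eq hq Nat.prime_two).1 h')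
        · exact hlq h'
    · obtain ⟨f, hf, hfH⟩ := exists_sl2_embedding (p := l) hl2 H h1S
      have htop : H = ⊤ := top_unique (le_trans (le_of_eq
        (MonoidHom.range_eq_top.2 (Finite.injective_iff_surjective.1 hf)).symm) hfH)
      refine hrπ (hH1 r hr ?_)
      rw [htop, Subgroup.card_top, hcard]
      exact Dvd.dvd.mul_left (Dvd.dvd.mul_left ((dvd_mul_left r (p ^ 6)).trans h1) _) _
  · -- no `ℓ`-elements
    let N : Subgroup (SL2 (ZMod l)) := zpowers (-1)
    haveI : N.Normal := ⟨fun x hx g => by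
      obtain ⟨i, rfl⟩ := mem_zpowers_iff.1 hx
      rw [← conj_zpow, mul_neg_one, neg_mul, mul_inv_cancel]
      exact zpow_mem_zpowers _ _⟩
    have hN : Nat.card N ∣ 2 := by
      rw [Nat.card_zpowers]
      exact orderOf_dvd_of_pow_eq_one (by simp)
    have hH' : ¬ l ∣ Nat.card (H ⊔ N : Subgroup (SL2 (ZMod l))) := by
      intro hd
      have h3 : Nat.card (H ⊔ N : Subgroup (SL2 (ZMod l))) ∣ Nat.card H * Nat.card N := by
        have h5 := (N.subgroupOf (H ⊔ N)).card_mul_index
        rw [Nat.card_congr (Subgroup.subgroupOfEquivOfLe (le_sup_right : N ≤ H ⊔ N)).toEquiv,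
          show (N.subgroupOf (H ⊔ N)).index = N.relIndex H from Subgroup.relIndex_sup_right H N,
          mul_comm] at h5
        rw [← h5]
        exact mul_dvd_mul_right (Subgroup.relIndex_dvd_card _ _) _
      rcases hl.dvd_mul.1 (hd.trans h3) with h' | h'
      · exact hldvd h'
      · exact hl2 ((Nat.prime_dvd_prime_iff_eq hl Nat.prime_two).1 (h'.trans hN))
    refine no_two_tori_coprime hl2 (H ⊔ N) (Subgroup.mem_sup_right (mem_zpowers _)) hH'
      (z := ⟨z, Subgroup.mem_sup_left z.2⟩) (w := ⟨w, Subgroup.mem_sup_left w.2⟩) ?_ ?_ ?_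
    · rw [Subgroup.orderOf_mk, orderOf_coe, hz]; omega
    · rw [Subgroup.orderOf_mk, orderOf_coe, hw]; omega
    intro z' w' hz' hw'
    rw [Subgroup.orderOf_mk, orderOf_coe, hz] at hz'
    rw [Subgroup.orderOf_mk, orderOf_coe, hw] at hw'
    refine not_commute_tori hl2 hz' hw' (Nat.Coprime.pow _ _ ((Nat.coprime_primes hp hq).2 hpq)) ?_
      (not_dvd_of_prime_pow hq (by omega) hq1) ?_
    · intro hd
      have := (Nat.Coprime.pow_left 6 ((Nat.coprime_primes hp hl).2 (by omega))).dvd_of_dvd_mul_right hd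
      have := Nat.le_of_dvd (by omega) this
      omega
    · intro hd
      have h' := Nat.dvd_sub hd ((dvd_mul_right (p ^ 6) r).trans h1)
      rw [show l + 1 - (l - 1) = 2 by omega] at h'
      have := Nat.le_of_dvd (by omega) h'
      omega

end Cfsg.Agent.TwoGroups
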