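import Cfsg.Agent.TwoGroups.MetacyclicSub
import Cfsg.Agent.TwoGroups.QDMax

/-!
Class sizes, the Frattini subgroup and a factorisation of metacyclic `p`-groups of odd order.
-/

set_option autoImplicit false
set_option linter.style.haveILetI false

namespace Cfsg.Agent.TwoGroups

open Subgroup ModPlane

variable {G : Type*} [Group G] [Finite G] {p : ℕ} [hp : Fact p.Prime] {a b : G} {m n : ℕ} {c : ℤ}

namespace MCData

variable (h : MCData p a b m n c) (hp2 : p ≠ 2)

include h

theorem centralizer_singleton_eq (g : G) :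
    centralizer ({g} : Set G) = h.pre (perp (Submodule.span (ZMod (p ^ n)) {h.vec g})) := by
  ext r
  rw [mem_centralizer_singleton_iff, h.mem_pre, mem_perp, h.commute_iff]
  constructor
  · intro hd w hw
    obtain ⟨s, rfl⟩ := Submodule.mem_span_singleton.mp hw
    simp only [det, Prod.smul_fst, Prod.smul_snd, smul_eq_mul] at hd ⊢
    linear_combination s * hd
  · exact fun hd => hd _ (Submodule.mem_span_singleton_self _)

include hp2

theorem index_centralizer {g : G} {e : ℕ} (he : e ≤ n) {f f' : V p n} (hf : det f f' = 1)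
    (hg : h.vec g = (p : ZMod (p ^ n)) ^ e • f) :
    (centralizer ({g} : Set G)).index = p ^ (n - e) := by
  have h1 := (centralizer ({g} : Set G)).card_mul_index
  rw [h.centralizer_singleton_eq, h.card_pre hp2, hg, card_annihilator he hf, h.card_group hp2] at h1
  rw [h.centralizer_singleton_eq, hg]
  refine Nat.eq_of_mul_eq_mul_left
    (show 0 < p ^ (n + e) * Nat.card (Subgroup.center G) from Nat.mul_pos (pow_pos hp.out.pos _) Nat.card_pos)
    (h1.trans ?_)
  rw [mul_right_comm (p ^ (n + e)), ← pow_add, ← pow_add]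
  congr 2
  omega

theorem index_centralizer_le_iff {s : ℕ} (hs : s ≤ n) (g : G) :
    (centralizer ({g} : Set G)).index ≤ p ^ (n - s) ↔ ∃ w, h.vec g = (p : ZMod (p ^ n)) ^ s • w := by
  obtain ⟨e, he, f, f', hf, hg⟩ := exists_frame (h.vec g)
  rw [h.index_centralizer hp2 he hf hg, Nat.pow_le_pow_iff_right hp.out.one_lt]
  constructor
  · intro hle
    refine ⟨(p : ZMod (p ^ n)) ^ (e - s) • f, ?_⟩
    rw [hg, smul_smul, ← pow_add]
    congr 2
    omega
  · rintro ⟨w, hw⟩
    by_contra hlt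
    have h1 : (p : ZMod (p ^ n)) ^ s ∣ (p : ZMod (p ^ n)) ^ e := by
      refine ⟨det w f', ?_⟩
      have h2 : det (h.vec g) f' = det (h.vec g) f' := rfl
      conv_lhs at h2 => rw [hg]
      conv_rhs at h2 => rw [hw]
      simp only [det, Prod.smul_fst, Prod.smul_snd, smul_eq_mul] at h2 hf ⊢
      linear_combination h2 - (p : ZMod (p ^ n)) ^ e * hf
    have := (pow_dvd_pow_iff' (p := p) (by omega : e < n)).mp h1
    omega

theorem card_powers {s : ℕ} (hs : s ≤ n) :
    Nat.card (Subgroup.closure {x : G | ∃ y : G, y ^ p ^ s = x}) =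
      p ^ (2 * (n - s)) * Nat.card (Subgroup.center G) := by
  rw [h.card_eq hp2, ← card_pow_multiples (p := p) hs]
  congr 1
  · refine Nat.card_congr (Equiv.subtypeEquivRight fun v => ?_)
    constructor
    · rintro ⟨g, hg, rfl⟩
      exact (h.mem_powers_iff hp2 hs g).mp hg
    · rintro ⟨w, rfl⟩
      obtain ⟨g, hg⟩ := h.vec_surjective hp2 ((p : ZMod (p ^ n)) ^ s • w)
      exact ⟨g, (h.mem_powers_iff hp2 hs g).mpr ⟨w, hg⟩, hg⟩
  · rw [inf_eq_right.mpr]
    intro z hz
    exact (h.mem_powers_iff hp2 hs z).mpr ⟨0, by rw [(h.mem_center_iff z).mp hz, smul_zero]⟩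

theorem count_classes {i : ℕ} (hi : 1 ≤ i) (hin : i ≤ n) :
    Nat.card {g : G // (centralizer ({g} : Set G)).index = p ^ i} =
      Nat.card (Subgroup.center G) * (p ^ (2 * i) - p ^ (2 * i - 2)) := by
  set A := Subgroup.closure {x : G | ∃ y : G, y ^ p ^ (n - i) = x}
  set B := Subgroup.closure {x : G | ∃ y : G, y ^ p ^ (n - (i - 1)) = x}
  have hset : {g : G | (centralizer ({g} : Set G)).index = p ^ i} = (A : Set G) \ (B : Set G) := by
    ext g
    obtain ⟨e, he, f, f', hf, hg⟩ := exists_frame (h.vec g)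
    have h1 := h.index_centralizer_le_iff hp2 (show n - i ≤ n by omega) g
    have h2 := h.index_centralizer_le_iff hp2 (show n - (i - 1) ≤ n by omega) g
    rw [show n - (n - i) = i by omega, ← h.mem_powers_iff hp2 (by omega)] at h1
    rw [show n - (n - (i - 1)) = i - 1 by omega, ← h.mem_powers_iff hp2 (by omega)] at h2
    simp only [Set.mem_setOf_eq, Set.mem_sdiff, SetLike.mem_coe]
    rw [show A = Subgroup.closure {x : G | ∃ y : G, y ^ p ^ (n - i) = x} from rfl, ← h1,
      show B = Subgroup.closure {x : G | ∃ y : G, y ^ p ^ (n - (i - 1)) = x} from rfl, ← h2,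
      h.index_centralizer hp2 he hf hg, Nat.pow_le_pow_iff_right hp.out.one_lt,
      Nat.pow_le_pow_iff_right hp.out.one_lt, (Nat.pow_right_injective hp.out.two_le).eq_iff]
    omega
  have hBA : B ≤ A := by
    refine (closure_le _).mpr ?_
    rintro _ ⟨y, rfl⟩
    refine subset_closure ⟨y ^ p, ?_⟩
    rw [← pow_mul, ← pow_succ']
    congr 2
    omega
  show Nat.card ↥({g : G | (centralizer ({g} : Set G)).index = p ^ i}) = _
  rw [Nat.card_coe_set_eq, hset, Set.ncard_sdiff hBA (Set.toFinite _), ← Nat.card_coe_set_eq, ← Nat.card_coe_set_eq]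
  rw [show Nat.card ↥(A : Set G) = Nat.card A from rfl, show Nat.card ↥(B : Set G) = Nat.card B from rfl,
    h.card_powers hp2 (show n - i ≤ n by omega), h.card_powers hp2 (show n - (i - 1) ≤ n by omega),
    show n - (n - i) = i by omega, show n - (n - (i - 1)) = i - 1 by omega,
    show 2 * (i - 1) = 2 * i - 2 by omega, mul_comm, mul_comm (p ^ (2 * i - 2)), ← Nat.mul_sub]

theorem notMem_frattini_iff (hG : IsPGroup p G) (hna : ¬ IsMulCommutative G) (g : G) :
    g ∉ frattini G ↔ IsMulCommutative ↥(centralizer ({g} : Set G)) := by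
  have hn : 1 ≤ n := by
    by_contra hn
    refine hna ⟨⟨fun u v => (h.commute_iff u v).mpr ?_⟩⟩
    haveI : Subsingleton (ZMod (p ^ n)) := by
      rw [show n = 0 by omega, pow_zero]; infer_instance
    exact Subsingleton.elim _ _
  set A := Subgroup.closure {x : G | ∃ y : G, y ^ p ^ 1 = x}
  have hfr : frattini G = A := by
    refine le_antisymm ?_ ((closure_le _).mpr ?_)
    · have hline : ∀ π : V p n →ₗ[ZMod (p ^ n)] ZMod (p ^ n), Function.Surjective π →
          ∀ r ∈ frattini G, (p : ZMod (p ^ n)) ∣ π (h.vec r) := by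
        intro π hπ
        let L : Submodule (ZMod (p ^ n)) (V p n) :=
          { carrier := {v | (p : ZMod (p ^ n)) ∣ π v}
            zero_mem' := by simp
            add_mem' := fun ha hb => by simp only [Set.mem_setOf_eq, map_add] at *; exact dvd_add ha hb
            smul_mem' := fun s v hv => by
              simp only [Set.mem_setOf_eq, map_smul, smul_eq_mul] at *; exact hv.mul_left s }
        intro r hr
        suffices hco : IsCoatom (h.pre L) from frattini_le_coatom hco hr
        have hne : h.pre L ≠ ⊤ := by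
          intro e
          obtain ⟨v, hv⟩ := hπ 1
          obtain ⟨r', hr'⟩ := h.vec_surjective hp2 v
          have h1 : r' ∈ h.pre L := e ▸ Subgroup.mem_top _
          have h2 : (p : ZMod (p ^ n)) ^ 1 ∣ (p : ZMod (p ^ n)) ^ 0 := by
            have h3 : (p : ZMod (p ^ n)) ∣ π (h.vec r') := h1
            rwa [hr', hv, ← pow_one (p : ZMod (p ^ n)), ← pow_zero (p : ZMod (p ^ n))] at h3
          have := (pow_dvd_pow_iff' (p := p) (by omega : 0 < n)).mp h2
          omega
        refine ⟨hne, fun K hK => ?_⟩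
        obtain ⟨k, hkK, hk⟩ := SetLike.exists_of_lt hK
        rw [eq_top_iff]
        intro r _
        obtain ⟨e, -, u, hu⟩ := exists_pow_unit (π (h.vec k))
        have he0 : e = 0 := by
          by_contra he0
          exact hk (show (p : ZMod (p ^ n)) ∣ π (h.vec k) by
            rw [hu]; exact dvd_mul_of_dvd_left (dvd_pow_self _ he0) _)
        obtain ⟨t, ht⟩ := h.exists_vec_smul hp2 k (((u⁻¹ : (ZMod (p ^ n))ˣ) : ZMod (p ^ n)) * π (h.vec r))
        obtain ⟨r', hr'⟩ := h.vec_surjective hp2 (h.vec r - h.vec (k ^ t))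
        have hr'K : r' ∈ K := hK.le (show (p : ZMod (p ^ n)) ∣ π (h.vec r') by
          rw [hr', ht, map_sub, map_smul, smul_eq_mul, hu, he0, pow_zero, one_mul, mul_right_comm, Units.inv_mul,
            one_mul, sub_self]
          exact dvd_zero _)
        obtain ⟨w, hwv, hwK⟩ : ∃ w, h.vec w = h.vec r ∧ w ∈ K := by
          have h4 : h.vec r ∈ h.img hp2 K := by
            have := add_mem (s := h.img hp2 K) ⟨r', hr'K, hr'⟩ ⟨k ^ t, pow_mem hkK t, rfl⟩
            rwa [sub_add_cancel] at this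
          obtain ⟨w, hw, e⟩ := h4
          exact ⟨w, e, hw⟩
        have h5 := mul_mem hwK (hK.le (h.center_le_pre _ ((h.vec_eq_vec_iff w r).mp hwv)))
        rwa [mul_inv_cancel_left] at h5
      intro r hr
      refine (h.mem_powers_iff hp2 hn r).mpr ?_
      obtain ⟨w1, h1⟩ := hline (LinearMap.fst _ _ _) (fun x => ⟨(x, 0), rfl⟩) r hr
      obtain ⟨w2, h2⟩ := hline (LinearMap.snd _ _ _) (fun x => ⟨(0, x), rfl⟩) r hr
      exact ⟨(w1, w2), Prod.ext (by rw [pow_one]; exact h1) (by rw [pow_one]; exact h2)⟩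
    · rintro _ ⟨y, rfl⟩
      rw [SetLike.mem_coe, frattini, Order.radical]
      simp only [Subgroup.mem_iInf]
      intro M hM
      obtain ⟨hMn, hMi⟩ := index_eq_of_isCoatom hG hM
      haveI := hMn
      rw [pow_one, ← hMi]
      exact Subgroup.pow_index_mem M y
  rw [hfr, h.mem_powers_iff hp2 hn, h.centralizer_singleton_eq, h.comm_iff hp2, h.img_pre hp2, perp_perp]
  obtain ⟨e, he, f, f', hf, hg⟩ := exists_frame (h.vec g)
  rw [hg]
  set W := Submodule.span (ZMod (p ^ n)) {(p : ZMod (p ^ n)) ^ e • f}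
  constructor
  · intro hne
    have he0 : e = 0 := by
      by_contra he0
      exact hne ⟨(p : ZMod (p ^ n)) ^ (e - 1) • f, by rw [smul_smul, ← pow_add, Nat.add_sub_cancel' (by omega)]⟩
    intro v hv
    have h1 := hv _ (Submodule.mem_span_singleton_self _)
    rw [he0, pow_zero, one_smul] at h1
    rw [Submodule.mem_span_singleton]
    refine ⟨det v f', ?_⟩
    rw [he0, pow_zero, one_smul]
    conv_rhs => rw [coords hf v]
    have h2 : det f v = 0 := by simp only [det] at h1 ⊢; linear_combination -h1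
    rw [h2, zero_smul, add_zero]
  · rintro hle ⟨w, hw⟩
    have h1 : 1 ≤ e := by
      by_contra he0
      obtain rfl : e = 0 := by omega
      have h2 : (p : ZMod (p ^ n)) ^ 1 ∣ (p : ZMod (p ^ n)) ^ 0 := ⟨det w f', by
        have h3 := congrArg (fun v => det v f') hw
        simp only [det, Prod.smul_fst, Prod.smul_snd, smul_eq_mul] at h3 hf ⊢
        linear_combination h3 - hf⟩
      have := (pow_dvd_pow_iff' (p := p) (by omega : 0 < n)).mp h2
      omega
    have hiso : perp W ≤ perp (perp W) := by rw [perp_perp]; exact hle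
    have h2 := ((isotropic_or_large (perp W)).resolve_right fun hl => hl.1 hiso).2
    rw [card_annihilator he hf, Nat.pow_le_pow_iff_right hp.out.one_lt] at h2
    omega

end MCData

theorem conj_pow_formula {G : Type*} [Group G] {a u : G} {r : ℤ} (hr : u * a * u⁻¹ = a ^ r) (z : ℤ) (t : ℕ) :
    (a ^ z * u) ^ t = a ^ (z * geomSum r t) * u ^ t := by
  induction t with
  | zero => simp [geomSum]
  | succ t ih =>
    rw [pow_succ', ih, add_comm t 1, geomSum_add, show geomSum r 1 = 1 by simp [geomSum], pow_add, pow_one, pow_one]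
    calc a ^ z * u * (a ^ (z * geomSum r t) * u ^ t)
          = a ^ z * (u * a ^ (z * geomSum r t) * u⁻¹) * (u * u ^ t) := by group
      _ = _ := by rw [← conj_zpow, hr, ← zpow_mul, ← zpow_add]; congr 2; ring

theorem conj_pow_exp {G : Type*} [Group G] {a b : G} {r : ℤ} (hr : b * a * b⁻¹ = a ^ r) (t : ℕ) :
    b ^ t * a * (b ^ t)⁻¹ = a ^ (r ^ t) := by
  induction t with
  | zero => simp
  | succ t ih =>
    calc b ^ (t + 1) * a * (b ^ (t + 1))⁻¹ = b * (b ^ t * a * (b ^ t)⁻¹) * b⁻¹ := by rw [pow_succ']; group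
      _ = a ^ (r ^ (t + 1)) := by rw [ih, ← conj_zpow, hr, ← zpow_mul, pow_succ']

theorem factor_of_cover {G : Type*} [Group G] [Finite G] (A B : Subgroup G)
    (hcov : ∀ g : G, ∃ u ∈ A, ∃ v ∈ B, g = u * v) (hle : Nat.card A * Nat.card B ≤ Nat.card G) :
    A ⊓ B = ⊥ ∧ Nat.card A * Nat.card B = Nat.card G := by
  let f : ↥A × ↥B → G := fun q => q.1 * q.2
  have hs : Function.Surjective f := fun g => by
    obtain ⟨u, hu, v, hv, rfl⟩ := hcov g
    exact ⟨(⟨u, hu⟩, ⟨v, hv⟩), rfl⟩
  have hc : Nat.card (↥A × ↥B) = Nat.card G := by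
    refine le_antisymm (by rw [Nat.card_prod]; exact hle) (Nat.card_le_card_of_surjective f hs)
  refine ⟨(eq_bot_iff).mpr fun g hg => ?_, by rw [← Nat.card_prod, hc]⟩
  have hi : Function.Injective f := (hs.bijective_of_nat_card_le hc.le).1
  have h1 := @hi (⟨g, hg.1⟩, ⟨g⁻¹, inv_mem hg.2⟩) (1, 1) (by simp [f])
  exact congrArg (fun q => ((q.1 : ↥A) : G)) h1

/-- A metacyclic `p`-group of odd order is a product of two cyclic subgroups meeting trivially. -/
theorem exists_cyclic_factorisation {G : Type*} [Group G] [Finite G] {p : ℕ} [hp : Fact p.Prime] (hp2 : p ≠ 2)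
    (hG : IsPGroup p G) (hmc : Cfsg.IsMetacyclic G) :
    ∃ A B : Subgroup G, IsCyclic ↥A ∧ IsCyclic ↥B ∧ A ⊓ B = ⊥ ∧ Nat.card ↥A * Nat.card ↥B = Nat.card G := by
  obtain ⟨a, b, k, hn, hbk, hcard, hgen⟩ := exists_cyclic_data hG hmc
  obtain ⟨m, hm⟩ := IsPGroup.iff_orderOf.mp hG a
  obtain ⟨c, hc, hpc⟩ := exists_conj_exp hG hn hm
  suffices ∃ u v : G, (∀ g, ∃ i j : ℤ, g = u ^ i * v ^ j) ∧ orderOf u * orderOf v ≤ Nat.card G by
    obtain ⟨u, v, hcov, hle⟩ := this
    have h1 := factor_of_cover (zpowers u) (zpowers v) (fun g => by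
      obtain ⟨i, j, rfl⟩ := hcov g
      exact ⟨_, zpow_mem_zpowers u i, _, zpow_mem_zpowers v j, rfl⟩)
      (by rw [Nat.card_zpowers, Nat.card_zpowers]; exact hle)
    exact ⟨zpowers u, zpowers v, inferInstance, inferInstance, h1.1, h1.2⟩
  obtain ⟨i, hi⟩ := mem_powers_iff_mem_zpowers.mpr hbk
  simp only at hi
  have hinv : ∀ τ : ℤ, ¬ (p : ℤ) ∣ τ → ∃ σ : ℤ, (p : ℤ) ^ m ∣ τ * σ - 1 := fun τ hτ => by
    obtain ⟨x, y, hxy⟩ := (((Nat.prime_iff_prime_int.mp hp.out).coprime_iff_not_dvd).mpr hτ).pow_left (m := m)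
    exact ⟨y, -x, by linear_combination hxy⟩
  have hcomplement : ∀ x : ℤ, (a ^ x * b) ^ p ^ k = 1 →
      ∃ u v : G, (∀ g, ∃ i j : ℤ, g = u ^ i * v ^ j) ∧ orderOf u * orderOf v ≤ Nat.card G := by
    intro x hx
    refine ⟨a, a ^ x * b, fun g => ?_, ?_⟩
    · obtain ⟨i', j', rfl⟩ := hgen g
      refine ⟨(i' : ℤ) - x * geomSum (1 + c) j', j', ?_⟩
      rw [zpow_natCast, conj_pow_formula hc, ← mul_assoc, ← zpow_add, sub_add_cancel, zpow_natCast]
    · rw [hcard]
      exact Nat.mul_le_mul_left _ (Nat.le_of_dvd (pow_pos hp.out.pos k) (orderOf_dvd_of_pow_eq_one hx))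
  by_cases hi0 : i = 0
  · exact hcomplement 0 (by rw [zpow_zero, one_mul, ← hi, hi0, pow_zero])
  obtain ⟨s, w, hw, rfl⟩ := Nat.exists_eq_pow_mul_and_not_dvd hi0 p hp.out.ne_one
  by_cases hsm : m ≤ s
  · refine hcomplement 0 ?_
    rw [zpow_zero, one_mul, ← hi]
    exact orderOf_dvd_iff_pow_eq_one.mp (hm ▸ dvd_mul_of_dvd_left (pow_dvd_pow p hsm) _)
  push Not at hsm
  by_cases hks : k ≤ s
  · obtain ⟨τ, hτ, hτ'⟩ := geomSum_factor hp.out hp2 (x := 1 + c) (by rw [add_sub_cancel_left]; exact hpc) k 1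
      (by simpa using hp.out.ne_one)
    rw [mul_one] at hτ
    obtain ⟨σ, hσ⟩ := hinv τ hτ'
    refine hcomplement (-((p : ℤ) ^ (s - k) * w * σ)) ?_
    rw [conj_pow_formula hc, hτ, ← hi, ← zpow_natCast a (p ^ s * w), ← zpow_add, ← orderOf_dvd_iff_zpow_eq_one, hm]
    push_cast
    refine hσ.trans ⟨-((p : ℤ) ^ s * w), ?_⟩
    rw [show (p : ℤ) ^ s = (p : ℤ) ^ (s - k) * (p : ℤ) ^ k by rw [← pow_add, Nat.sub_add_cancel hks]]
    ring
  · push Not at hks
    set y := p ^ (k - s)
    have hru := conj_pow_exp hc y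
    have hx1 : (p : ℤ) ∣ (1 + c) ^ y - 1 := by
      refine Dvd.dvd.trans ?_ (by simpa using sub_dvd_pow_sub_pow (1 + c) 1 y)
      simpa using hpc
    obtain ⟨τ, hτ, hτ'⟩ := geomSum_factor hp.out hp2 (x := (1 + c) ^ y) hx1 s 1 (by simpa using hp.out.ne_one)
    rw [mul_one] at hτ
    obtain ⟨σ, hσ⟩ := hinv τ hτ'
    set lam : ℤ := -((w : ℤ) * σ)
    set u := a ^ lam * b ^ y
    have hu : u ^ p ^ s = 1 := by
      rw [conj_pow_formula hru, hτ, ← pow_mul, show y * p ^ s = p ^ k by
        rw [← pow_add, Nat.sub_add_cancel hks.le], ← hi, ← zpow_natCast a (p ^ s * w), ← zpow_add,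
        ← orderOf_dvd_iff_zpow_eq_one, hm]
      push_cast
      exact hσ.trans ⟨-((p : ℤ) ^ s * w), by simp only [lam]; ring⟩
    refine ⟨u, b, fun g => ?_, ?_⟩
    · obtain ⟨i', j', rfl⟩ := hgen g
      -- write `a ^ i'` as a power of `u` times a power of `a ^ p ^ s`
      obtain ⟨α, β, hαβ⟩ : IsCoprime ((p : ℤ) ^ m) (w : ℤ) :=
        (((Nat.prime_iff_prime_int.mp hp.out).coprime_iff_not_dvd).mpr (fun hd => hw (by exact_mod_cast hd))).pow_left
      have hgs : ∀ t : ℕ, ∃ q : ℤ, u ^ t = a ^ (lam * geomSum ((1 + c) ^ y) t) * b ^ q :=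
        fun t => ⟨(y * t : ℕ), by rw [conj_pow_formula hru, zpow_natCast, pow_mul]⟩
      haveI : NeZero (p ^ s) := ⟨pow_ne_zero _ hp.out.ne_zero⟩
      have hlam : ¬ (p : ℤ) ∣ lam := by
        simp only [lam, dvd_neg]
        refine fun hd => (Int.Prime.dvd_mul' hp.out hd).elim (fun h1 => hw (by exact_mod_cast h1)) fun h1 => ?_
        obtain ⟨z, hz⟩ := (dvd_pow_self (p : ℤ) (by omega : m ≠ 0)).trans hσ
        have h2 : (p : ℤ) ∣ 1 := by
          obtain ⟨z', rfl⟩ := h1
          exact ⟨τ * z' - z, by linear_combination -hz⟩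
        exact hp.out.ne_one (by exact_mod_cast Int.eq_one_of_dvd_one (by positivity) h2)
      have hinj : Function.Injective
          (fun t : Fin (p ^ s) => ((lam * geomSum ((1 + c) ^ y) (t : ℕ) : ℤ) : ZMod (p ^ s))) := by
        have key : ∀ t d : ℕ, ((lam * geomSum ((1 + c) ^ y) t : ℤ) : ZMod (p ^ s))
            = ((lam * geomSum ((1 + c) ^ y) (t + d) : ℤ) : ZMod (p ^ s)) → p ^ s ∣ d := by
          intro t d e
          rw [ZMod.intCast_eq_intCast_iff, Int.modEq_iff_dvd, geomSum_add] at e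
          push_cast at e
          rw [mul_add, add_sub_cancel_left, ← mul_assoc] at e
          have hcop : ∀ v : ℤ, ¬ (p : ℤ) ∣ v → IsCoprime ((p : ℤ) ^ s) v := fun v hv =>
            (((Nat.prime_iff_prime_int.mp hp.out).coprime_iff_not_dvd).mpr hv).pow_left
          refine dvd_of_dvd_geomSum hp.out hp2 hx1 ((hcop _ fun hd => ?_).dvd_of_dvd_mul_left e)
          refine (Int.Prime.dvd_mul' hp.out hd).elim hlam fun h1 => ?_
          have h2 := Int.Prime.dvd_pow' hp.out h1
          have h3 : (p : ℤ) ∣ 1 := by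
            have := dvd_sub h2 hx1
            rwa [sub_sub_cancel] at this
          exact hp.out.ne_one (by exact_mod_cast Int.eq_one_of_dvd_one (by positivity) h3)
        intro t1 t2 e
        have := t1.2
        have := t2.2
        rcases le_total (t1 : ℕ) t2 with hle | hle
        · obtain ⟨d, hd⟩ := Nat.exists_eq_add_of_le hle
          have := Nat.eq_zero_of_dvd_of_lt (key t1 d (by rw [← hd]; exact e)) (by omega)
          exact Fin.ext (by omega)
        · obtain ⟨d, hd⟩ := Nat.exists_eq_add_of_le hle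
          have := Nat.eq_zero_of_dvd_of_lt (key t2 d (by rw [← hd]; exact e.symm)) (by omega)
          exact Fin.ext (by omega)
      obtain ⟨t, ht⟩ := ((Fintype.bijective_iff_injective_and_card _).mpr
        ⟨hinj, by rw [Fintype.card_fin, ZMod.card]⟩).surjective ((i' : ℤ) : ZMod (p ^ s))
      rw [ZMod.intCast_eq_intCast_iff, Int.modEq_iff_dvd] at ht
      obtain ⟨l, hl⟩ := ht
      push_cast at hl
      obtain ⟨q, hq⟩ := hgs t
      refine ⟨((t : ℕ) : ℤ), -q + (p : ℤ) ^ k * (β * l) + j', ?_⟩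
      have hps : a ^ ((p : ℤ) ^ s * l) = b ^ ((p : ℤ) ^ k * (β * l)) := by
        have e1 : a ^ (p ^ m : ℕ) = 1 := hm ▸ pow_orderOf_eq_one a
        calc a ^ ((p : ℤ) ^ s * l)
              = a ^ (((p ^ s * w : ℕ) : ℤ) * (β * l)) * a ^ (((p ^ m : ℕ) : ℤ) * ((p : ℤ) ^ s * α * l)) := by
                rw [← zpow_add]; congr 1; push_cast; linear_combination -((p : ℤ) ^ s * l) * hαβ
          _ = _ := by
                rw [zpow_mul a ((p ^ s * w : ℕ) : ℤ), zpow_mul a ((p ^ m : ℕ) : ℤ), zpow_natCast, zpow_natCast, e1, one_zpow, mul_one, hi, ← zpow_natCast,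
                  ← zpow_mul]
                push_cast; rfl
      rw [zpow_natCast, hq, zpow_add, zpow_add, ← mul_assoc, ← mul_assoc, mul_assoc _ (b ^ q), ← zpow_add,
        add_neg_cancel, zpow_zero, mul_one, ← hps, ← zpow_add, ← hl, add_sub_cancel, zpow_natCast, zpow_natCast]
    · have hb : b ^ p ^ (k + (m - s)) = 1 := by
        rw [pow_add, pow_mul, ← hi, ← pow_mul]
        refine orderOf_dvd_iff_pow_eq_one.mp ?_
        rw [hm, mul_right_comm, ← pow_add]
        exact dvd_mul_of_dvd_left (pow_dvd_pow _ (by omega)) _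
      rw [hcard, hm]
      calc orderOf u * orderOf b ≤ p ^ s * p ^ (k + (m - s)) :=
            Nat.mul_le_mul (Nat.le_of_dvd (pow_pos hp.out.pos _) (orderOf_dvd_of_pow_eq_one hu))
              (Nat.le_of_dvd (pow_pos hp.out.pos _) (orderOf_dvd_of_pow_eq_one hb))
        _ = p ^ m * p ^ k := by rw [← pow_add, ← pow_add]; congr 1; omega

end Cfsg.Agent.TwoGroups
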