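import Cfsg.Agent.TwoGroups.PiClasses

/-!
Classes of `p`-elements meeting a Sylow subgroup: bounds when it is not central in its normalizer.
-/

set_option autoImplicit false
set_option linter.style.haveILetI false
set_option linter.unusedSectionVars false

namespace Cfsg.Agent.TwoGroups.PiClasses

open Subgroup Finset

variable {G : Type*} [Group G] [Finite G] {p : ℕ} [Fact p.Prime]

theorem kDiv_eq_sylow_image [DecidableEq (ConjClasses G)] (P : Sylow p G)
    [Fintype (P : Subgroup G)] :
    kDiv (p ^ (Nat.card G).factorization p) G =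
      (univ.image (fun u : (P : Subgroup G) => ConjClasses.mk (u : G))).card := by
  classical
  haveI : Fintype G := Fintype.ofFinite G
  rw [kDiv_eq_card_image]
  exact congrArg Finset.card (by convert image_eq_sylow_image P)

theorem pow_card_iff (x : G) :
    x ^ p ^ (Nat.card G).factorization p = 1 ↔ ∃ k : ℕ, orderOf x = p ^ k := by
  constructor
  · intro h
    obtain ⟨k, -, hk⟩ := (Nat.dvd_prime_pow Fact.out).mp (orderOf_dvd_of_pow_eq_one h)
    exact ⟨k, hk⟩
  · rintro ⟨k, hk⟩
    refine orderOf_dvd_iff_pow_eq_one.mp ?_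
    have h1 : p ^ k ∣ Nat.card G := hk ▸ orderOf_dvd_natCard x
    rw [hk]
    exact Nat.pow_dvd_pow p
      ((Nat.Prime.pow_dvd_iff_le_factorization Fact.out Nat.card_pos.ne').mp h1)

theorem card_pClasses_eq :
    Nat.card {c : ConjClasses G // ∀ x ∈ c.carrier, ∃ k : ℕ, orderOf x = p ^ k} =
      kDiv (p ^ (Nat.card G).factorization p) G :=
  Nat.card_congr (Equiv.subtypeEquivRight fun c =>
    forall₂_congr fun x _ => (pow_card_iff x).symm)

/-- With a normal `p`-complement, fusion in `P` is conjugation in `P`. -/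
theorem exists_conj_of_complement (P : Sylow p G) (hc : Cfsg.HasNormalPComplement p G)
    (x y : (P : Subgroup G)) {g : G} (hg : g * x * g⁻¹ = y) :
    ∃ a : (P : Subgroup G), a * x * a⁻¹ = y := by
  have hN := Cfsg.Agent.Transfer.isComplement'_pResidual P hc
  haveI : (Cfsg.pResidual p G).Normal := Cfsg.Agent.Transfer.pResidual_normal
  obtain ⟨⟨⟨n, hn⟩, ⟨a, ha⟩⟩, he⟩ := hN.2 g
  simp only at he
  subst he
  refine ⟨⟨a, ha⟩, Subtype.ext ?_⟩
  show a * (x : G) * a⁻¹ = y
  have h1 : (a * (x : G) * a⁻¹)⁻¹ * y ∈ (P : Subgroup G) :=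
    mul_mem (inv_mem (mul_mem (mul_mem ha x.2) (inv_mem ha))) y.2
  have h2 : (a * (x : G) * a⁻¹)⁻¹ * y ∈ Cfsg.pResidual p G := by
    rw [← hg, show (a * (x : G) * a⁻¹)⁻¹ * (n * a * x * (n * a)⁻¹) =
      ((a * (x : G) * a⁻¹)⁻¹ * n * (a * (x : G) * a⁻¹)⁻¹⁻¹) * n⁻¹ by group]
    exact mul_mem (Subgroup.Normal.conj_mem inferInstance _ hn _) (inv_mem hn)
  exact inv_mul_eq_one.mp (Subgroup.disjoint_def.mp hN.disjoint h2 h1)

/-- An abelian Sylow subgroup central in its normalizer has a normal complement. -/
theorem complement_of_central (P : Sylow p G)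
    (h : Subgroup.normalizer ((P : Subgroup G) : Set G) ≤ centralizer ((P : Subgroup G) : Set G)) :
    Cfsg.HasNormalPComplement p G :=
  Cfsg.Agent.Transfer.hasNormalPComplement_of_isComplement' P
    (MonoidHom.ker_transferSylow_isComplement' P h)

/-- An element of prime order modulo the centraliser of an abelian Sylow subgroup. -/
theorem exists_prime_mover (P : Sylow p G) (hab : IsMulCommutative (P : Subgroup G)) {K : Subgroup G}
    (hK : ¬ K ⊓ Subgroup.normalizer ((P : Subgroup G) : Set G) ≤ centralizer ((P : Subgroup G) : Set G)) :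
    ∃ (g : G) (t : ℕ), t.Prime ∧ t ≠ p ∧ g ∈ K ∧ g ∈ Subgroup.normalizer ((P : Subgroup G) : Set G) ∧
      g ^ t ∈ centralizer ((P : Subgroup G) : Set G) ∧ g ∉ centralizer ((P : Subgroup G) : Set G) ∧
      t ∣ Nat.card K := by
  by_contra hcon
  push Not at hcon
  refine hK (Cfsg.Agent.OddLocal.CN.le_of_prime_pow_elements fun g hg t k ht hgk => ?_)
  haveI := hab
  by_cases htp : t = p
  · subst htp
    refine le_centralizer _ ?_
    have hz : IsPGroup t (zpowers g) := by
      obtain ⟨j, -, hj⟩ := (Nat.dvd_prime_pow ht).mp (orderOf_dvd_of_pow_eq_one hgk)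
      exact IsPGroup.of_card (n := j) (by rw [Nat.card_zpowers, hj])
    rw [← P.is_maximal' (hz.to_sup_of_normal_right' P.isPGroup' (zpowers_le.mpr hg.2)) le_sup_right]
    exact mem_sup_left (mem_zpowers g)
  · induction k generalizing g with
    | zero =>
      rw [pow_zero, pow_one] at hgk
      rw [hgk]
      exact one_mem _
    | succ k ih =>
      have h1 : (g ^ t) ^ t ^ k = 1 := by rwa [← pow_mul, ← pow_succ']
      have h2 := ih (g ^ t) (pow_mem hg t) h1
      by_contra hgC
      have hne : g ≠ 1 := fun h => hgC (h ▸ one_mem _)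
      obtain ⟨j, -, hj⟩ := (Nat.dvd_prime_pow ht).mp (orderOf_dvd_of_pow_eq_one hgk)
      have hj0 : j ≠ 0 := by
        rintro rfl
        exact hne (orderOf_eq_one_iff.mp (by simpa using hj))
      exact hcon g t ht htp hg.1 hg.2 h2 hgC
        ((dvd_pow_self t hj0).trans (hj ▸ Subgroup.orderOf_dvd_natCard K hg.1))

/-- A class bound from an element acting with prime order on an abelian Sylow subgroup. -/
theorem bound_of_mover (P : Sylow p G) {g : G} {t : ℕ} (ht : t.Prime)
    (hgN : g ∈ Subgroup.normalizer ((P : Subgroup G) : Set G))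
    (hgt : g ^ t ∈ centralizer ((P : Subgroup G) : Set G))
    (hgC : g ∉ centralizer ((P : Subgroup G) : Set G)) {q : ℕ} (hq : q ≤ t) :
    p * (q * kDiv (p ^ (Nat.card G).factorization p) G) ≤
      Nat.card (P : Subgroup G) * (p + (q - 1)) := by
  classical
  haveI : Fintype (P : Subgroup G) := Fintype.ofFinite _
  have hp : p.Prime := Fact.out
  set F := ((P : Subgroup G) ⊓ centralizer ({g} : Set G)) with hF
  rw [kDiv_eq_sylow_image P]
  have hconj : ∀ x : (P : Subgroup G), ∀ i : ℕ, g ^ i * x * (g ^ i)⁻¹ ∈ (P : Subgroup G) :=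
    fun x i => (mem_normalizer_iff.mp (pow_mem hgN i) _).mp x.2
  have hb := mul_card_image_le (fun u : (P : Subgroup G) => ConjClasses.mk (u : G))
    (univ.filter (fun u : (P : Subgroup G) => (u : G) ∈ F)) q ?_
  · have hcardF : (univ.filter (fun u : (P : Subgroup G) => (u : G) ∈ F)).card = Nat.card F := by
      rw [← Fintype.card_subtype, ← Nat.card_eq_fintype_card]
      exact Nat.card_congr ⟨fun x => ⟨_, x.2⟩, fun x => ⟨⟨x, x.2.1⟩, x.2⟩, fun x => rfl, fun x => rfl⟩
    rw [hcardF, ← Nat.card_eq_fintype_card] at hb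
    have hidx : p * Nat.card F ≤ Nat.card (P : Subgroup G) := by
      have hmul : Nat.card F * F.relIndex (P : Subgroup G) = Nat.card (P : Subgroup G) := by
        simpa only [relIndex_bot_left] using
          relIndex_mul_relIndex (⊥ : Subgroup G) F (P : Subgroup G) bot_le inf_le_left
      have hne : F.relIndex (P : Subgroup G) ≠ 1 := fun h => hgC (mem_centralizer_iff.mpr fun u hu =>
        mem_centralizer_singleton_iff.mp (relIndex_eq_one.mp h hu).2)
      obtain ⟨n, hn⟩ := IsPGroup.iff_card.mp P.isPGroup'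
      obtain ⟨j, -, hj⟩ := (Nat.dvd_prime_pow hp).mp (hn ▸ Dvd.intro_left _ hmul :
        F.relIndex (P : Subgroup G) ∣ p ^ n)
      have : p ≤ F.relIndex (P : Subgroup G) := by
        rw [hj]
        rcases j with _ | j
        · exact absurd (by rw [hj, pow_zero]) hne
        · exact Nat.le_self_pow (by omega) p
      calc p * Nat.card F ≤ F.relIndex (P : Subgroup G) * Nat.card F := Nat.mul_le_mul_right _ this
        _ = Nat.card (P : Subgroup G) := by rw [mul_comm, hmul]
    have h3 := Nat.mul_le_mul_left (q - 1) hidx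
    calc p * (q * _) ≤ p * (Nat.card (P : Subgroup G) + (q - 1) * Nat.card F) := Nat.mul_le_mul_left p hb
      _ ≤ Nat.card (P : Subgroup G) * (p + (q - 1)) := by nlinarith
  · intro x hx
    simp only [Finset.mem_filter, Finset.mem_univ, true_and] at hx
    have hxg : g * x * g⁻¹ ≠ (x : G) := fun h => hx ⟨x.2,
      mem_centralizer_singleton_iff.mpr (mul_inv_eq_iff_eq_mul.mp h).symm⟩
    refine hq.trans ?_
    rw [← Fintype.card_fin t, ← Finset.card_univ]
    refine Finset.card_le_card_of_injOn (fun i : Fin t => ⟨_, hconj x i⟩) (fun i _ => ?_) ?_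
    · simp only [Finset.coe_filter, Finset.mem_univ, true_and, Set.mem_ofPred_eq]
      exact (ConjClasses.mk_eq_mk_iff_isConj.mpr (isConj_iff.mpr ⟨g ^ (i : ℕ), rfl⟩)).symm
    · have main : ∀ i j : ℕ, i < j → j < t → g ^ i * (x : G) * (g ^ i)⁻¹ ≠ g ^ j * x * (g ^ j)⁻¹ := by
        intro i j hij hjt h
        have hd : g ^ (j - i) * (x : G) * (g ^ (j - i))⁻¹ = x := by
          have e : g ^ j = g ^ i * g ^ (j - i) := by rw [← pow_add]; congr 1; omega
          rw [e] at h
          have h' := mul_left_cancel (a := g ^ i) (b := (x : G))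
            (c := g ^ (j - i) * (x : G) * (g ^ (j - i))⁻¹) (by
              have h2 := congrArg (· * g ^ i) h
              simp only [inv_mul_cancel_right] at h2
              rw [h2]; group)
          exact h'.symm
        set H := centralizer ({(x : G)} : Set G)
        have hdH : g ^ (j - i) ∈ H :=
          mem_centralizer_singleton_iff.mpr (mul_inv_eq_iff_eq_mul.mp hd)
        have htH : g ^ t ∈ H := mem_centralizer_singleton_iff.mpr (mem_centralizer_iff.mp hgt _ x.2).symm
        have hco : (j - i).gcd t = 1 :=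
          ((ht.coprime_iff_not_dvd.mpr fun hd' => by
            have := Nat.le_of_dvd (by omega) hd'
            omega).symm).gcd_eq_one
        have h1 : g ∈ H := by
          have := zpow_natCast g 1
          rw [pow_one, ← hco, Nat.gcd_eq_gcd_ab, zpow_add, zpow_mul, zpow_mul, zpow_natCast,
            zpow_natCast] at this
          rw [← this]
          exact mul_mem (zpow_mem hdH _) (zpow_mem htH _)
        exact hxg (mul_inv_eq_iff_eq_mul.mpr (mem_centralizer_singleton_iff.mp h1))
      intro i _ j _ hij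
      have hij' := congrArg Subtype.val hij
      rcases lt_trichotomy (i : ℕ) j with h | h | h
      · exact absurd hij' (main i j h j.2)
      · exact Fin.ext h
      · exact absurd hij'.symm (main j i h i.2)

/-- The class bound for a non-abelian Sylow subgroup. -/
theorem bound_of_nonabelian (P : Sylow p G) (hab : ¬ IsMulCommutative (P : Subgroup G)) :
    p ^ 3 * kDiv (p ^ (Nat.card G).factorization p) G ≤
      Nat.card (P : Subgroup G) * (p ^ 2 + (p - 1)) := by
  classical
  haveI : Fintype (P : Subgroup G) := Fintype.ofFinite _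
  have hp : p.Prime := Fact.out
  rw [kDiv_eq_sylow_image P]
  set Z := Subgroup.center (P : Subgroup G)
  have hb := mul_card_image_le (fun u : (P : Subgroup G) => ConjClasses.mk (u : G))
    (univ.filter (fun u : (P : Subgroup G) => u ∈ Z)) p ?_
  · have hcardZ : (univ.filter (fun u : (P : Subgroup G) => u ∈ Z)).card = Nat.card Z := by
      rw [← Fintype.card_subtype, ← Nat.card_eq_fintype_card]
    rw [hcardZ, ← Nat.card_eq_fintype_card] at hb
    have hidx : p ^ 2 * Nat.card Z ≤ Nat.card (P : Subgroup G) := by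
      obtain ⟨n, hn⟩ := IsPGroup.iff_card.mp P.isPGroup'
      obtain ⟨j, -, hj⟩ := (Nat.dvd_prime_pow hp).mp (hn ▸ Z.index_dvd_card)
      have : 2 ≤ j := by
        by_contra hj2
        refine hab ?_
        haveI : IsCyclic ((P : Subgroup G) ⧸ Z) := by
          rcases (show j = 0 ∨ j = 1 by omega) with rfl | rfl
          · haveI : Subsingleton ((P : Subgroup G) ⧸ Z) :=
              (Nat.card_eq_one_iff_unique.mp (by rw [← Subgroup.index_eq_card, hj, pow_zero])).1
            exact isCyclic_of_subsingleton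
          · exact isCyclic_of_prime_card (by rw [← Subgroup.index_eq_card, hj, pow_one])
        exact ⟨⟨commutative_of_cyclic_center_quotient (QuotientGroup.mk' Z) (QuotientGroup.ker_mk' Z).le⟩⟩
      calc p ^ 2 * Nat.card Z ≤ Z.index * Nat.card Z :=
            Nat.mul_le_mul_right _ (hj ▸ Nat.pow_le_pow_right hp.pos this)
        _ = _ := Z.index_mul_card
    have h3 := Nat.mul_le_mul_left (p - 1) hidx
    calc p ^ 3 * _ = p ^ 2 * (p * _) := by rw [← mul_assoc, ← pow_succ]
      _ ≤ p ^ 2 * (Nat.card (P : Subgroup G) + (p - 1) * Nat.card Z) := Nat.mul_le_mul_left _ hb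
      _ ≤ Nat.card (P : Subgroup G) * (p ^ 2 + (p - 1)) := by nlinarith
  · intro x hx
    simp only [Finset.mem_filter, Finset.mem_univ, true_and] at hx
    have h1 : p ≤ Nat.card (ConjClasses.mk x).carrier := by
      have hm := card_centralizer_mul_card_carrier x
      obtain ⟨n, hn⟩ := IsPGroup.iff_card.mp P.isPGroup'
      obtain ⟨j, -, hj⟩ := (Nat.dvd_prime_pow hp).mp (hn ▸ Dvd.intro_left _ hm)
      rcases j with _ | j
      · refine absurd ?_ hx
        rw [pow_zero] at hj
        rw [hj, mul_one] at hm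
        have htop := Subgroup.eq_top_of_card_eq _ hm
        exact Subgroup.mem_center_iff.mpr fun u =>
          mem_centralizer_singleton_iff.mp (htop ▸ Subgroup.mem_top u)
      · rw [hj]; exact Nat.le_self_pow (by omega) p
    refine h1.trans ?_
    rw [← Nat.card_eq_finsetCard]
    refine Nat.card_le_card_of_injective (fun u => ⟨u.1, ?_⟩) (fun u v h => Subtype.ext ?_)
    · simp only [Finset.mem_filter, Finset.mem_univ, true_and]
      obtain ⟨a, ha⟩ := isConj_iff.mp (ConjClasses.mk_eq_mk_iff_isConj.mp
        (ConjClasses.mem_carrier_iff_mk_eq.mp u.2))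
      exact ConjClasses.mk_eq_mk_iff_isConj.mpr (isConj_iff.mpr ⟨(a : G), congrArg Subtype.val ha⟩)
    · simpa using h

end Cfsg.Agent.TwoGroups.PiClasses
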