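import Cfsg.Agent.TwoGroups.PiSylow
import Cfsg.Agent.Fusion.Group
import Cfsg.Prelude.Def_OddOrderLocal
import Mathlib

/-!
Normal `π`-complements and abelian Hall subgroups from normal `p`-complements.
-/

set_option autoImplicit false
set_option linter.style.haveILetI false

namespace Cfsg.Agent.TwoGroups.PiClasses

open Subgroup

variable {G : Type*} [Group G] [Finite G]

theorem not_dvd_index_iInf (U : Finset ℕ) (hU : ∀ r ∈ U, r.Prime) {t : ℕ} (ht : t.Prime) (htU : t ∉ U) :
    ¬ t ∣ (⨅ r ∈ U, Cfsg.pResidual r G).index := by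
  haveI := Fact.mk ht
  obtain ⟨P⟩ : Nonempty (Sylow t G) := inferInstance
  have hle : (P : Subgroup G) ≤ ⨅ r ∈ U, Cfsg.pResidual r G := by
    refine le_iInf₂ fun r hr x hx => Cfsg.Agent.Transfer.mem_pResidual_of_coprime ?_
    obtain ⟨k, hk⟩ := IsPGroup.iff_orderOf.mp P.isPGroup' ⟨x, hx⟩
    rw [← Subgroup.orderOf_coe] at hk
    rw [hk]
    exact ((Nat.coprime_primes ht (hU r hr)).mpr fun e => htU (e ▸ hr)).pow_left k
  exact fun h => P.not_dvd_index (h.trans (Subgroup.index_dvd_of_le hle))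

instance normal_iInf_pResidual (U : Finset ℕ) : (⨅ r ∈ U, Cfsg.pResidual r G).Normal :=
  ⟨fun x hx g => by
    simp only [Subgroup.mem_iInf] at hx ⊢
    exact fun r hr => Subgroup.Normal.conj_mem Cfsg.Agent.Transfer.pResidual_normal _ (hx r hr) g⟩

/-- A normal `π`-complement and an abelian Hall subgroup for the primes with abelian Sylow subgroups. -/
theorem complement_and_hall (π T : Finset ℕ) (hπ : ∀ r ∈ π, r.Prime) (hT : T ⊆ π)
    (hc : ∀ r ∈ π, Cfsg.HasNormalPComplement r G)
    (hab : ∀ r ∈ T, ∀ P : Sylow r G, IsMulCommutative (P : Subgroup G)) :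
    (∃ N : Subgroup G, N.Normal ∧ (∀ r : ℕ, r.Prime → r ∣ Nat.card ↥N → r ∉ π) ∧
      ∀ r : ℕ, r.Prime → r ∣ N.index → r ∈ π) ∧
      ∃ H : Subgroup G, Cfsg.IsPiHall (↑T : Set ℕ) H ∧ IsMulCommutative ↥H := by
  set N := ⨅ r ∈ π, Cfsg.pResidual r G
  set K := ⨅ r ∈ π \ T, Cfsg.pResidual r G
  have hco : ∀ (U : Finset ℕ), U ⊆ π → ∀ r ∈ U, ¬ r ∣ Nat.card ↥(⨅ r ∈ U, Cfsg.pResidual r G) := by
    intro U hU r hr h
    haveI := Fact.mk (hπ r (hU hr))
    have h1 := h.trans (Subgroup.card_dvd_of_le (iInf₂_le r hr))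
    exact ((hπ r (hU hr)).coprime_iff_not_dvd.mp
      (Cfsg.Agent.Transfer.hasNormalPComplement_iff_coprime_pResidual.mp (hc r (hU hr))).symm) h1
  have hNidx : ∀ r : ℕ, r.Prime → r ∣ N.index → r ∈ π := fun r hr h => by
    by_contra hrπ
    exact not_dvd_index_iInf π hπ hr hrπ h
  refine ⟨⟨N, inferInstance, fun r hr h hrπ => hco π subset_rfl r hrπ h, hNidx⟩, ?_⟩
  have hcop : (Nat.card N).Coprime N.index := Nat.coprime_of_dvd fun r hr h1 h2 =>
    hco π subset_rfl r (hNidx r hr h2) h1
  obtain ⟨C, hC⟩ := Subgroup.exists_right_complement'_of_coprime hcop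
  refine ⟨C ⊓ K, ⟨fun r hr h => ?_, fun r hr hrT h => ?_⟩, ?_⟩
  · have hrπ : r ∈ π := hNidx r hr (hC.symm.index_eq_card ▸ h.trans (Subgroup.card_dvd_of_le inf_le_left))
    by_contra hrT
    exact hco (π \ T) Finset.sdiff_subset r (Finset.mem_sdiff.mpr ⟨hrπ, hrT⟩)
      (h.trans (Subgroup.card_dvd_of_le inf_le_right))
  · rw [← Subgroup.relIndex_mul_index (inf_le_left : C ⊓ K ≤ C), Subgroup.inf_relIndex_left,
      hC.index_eq_card] at h
    rcases hr.dvd_mul.mp h with h | h
    · exact not_dvd_index_iInf (π \ T) (fun s hs => hπ s (Finset.mem_sdiff.mp hs).1) hr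
        (fun hh => (Finset.mem_sdiff.mp hh).2 hrT) (h.trans (Subgroup.relIndex_dvd_index_of_normal K C))
    · exact hco π subset_rfl r (hT hrT) h
  refine ⟨⟨fun a b => Subtype.ext ?_⟩⟩
  have key : (a : G) * b * (a : G)⁻¹ * (b : G)⁻¹ ∈ N := by
    simp only [N, Subgroup.mem_iInf]
    intro r hr
    haveI := Fact.mk (hπ r hr)
    haveI : (Cfsg.pResidual r G).Normal := Cfsg.Agent.Transfer.pResidual_normal
    by_cases hrT : r ∈ T
    · obtain ⟨P⟩ : Nonempty (Sylow r G) := inferInstance
      have hsup := Cfsg.Agent.Transfer.sylow_sup_pResidual (p := r) P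
      obtain ⟨s, hs, n, hn, e⟩ := Subgroup.mem_sup_of_normal_right.mp (hsup ▸ Subgroup.mem_top (a : G))
      obtain ⟨s', hs', n', hn', e'⟩ := Subgroup.mem_sup_of_normal_right.mp (hsup ▸ Subgroup.mem_top (b : G))
      haveI := hab r hrT P
      have hss : s * s' = s' * s :=
        congrArg Subtype.val (mul_comm' (⟨s, hs⟩ : (P : Subgroup G)) ⟨s', hs'⟩)
      rw [← QuotientGroup.eq_one_iff]
      have ea : ((a : G) : G ⧸ Cfsg.pResidual r G) = (s : G ⧸ Cfsg.pResidual r G) := by
        rw [← e, QuotientGroup.mk_mul, (QuotientGroup.eq_one_iff n).mpr hn, mul_one]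
      have eb : ((b : G) : G ⧸ Cfsg.pResidual r G) = (s' : G ⧸ Cfsg.pResidual r G) := by
        rw [← e', QuotientGroup.mk_mul, (QuotientGroup.eq_one_iff n').mpr hn', mul_one]
      simp only [QuotientGroup.mk_mul, QuotientGroup.mk_inv, ea, eb]
      rw [← QuotientGroup.mk_mul, hss, QuotientGroup.mk_mul, mul_inv_cancel_right, mul_inv_cancel]
    · have h1 : ∀ c : ↥(C ⊓ K), (c : G) ∈ Cfsg.pResidual r G := fun c => by
        exact (iInf₂_le r (Finset.mem_sdiff.mpr ⟨hr, hrT⟩) : K ≤ Cfsg.pResidual r G) c.2.2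
      exact mul_mem (mul_mem (mul_mem (h1 a) (h1 b)) (inv_mem (h1 a))) (inv_mem (h1 b))
  have hC' : (a : G) * b * (a : G)⁻¹ * (b : G)⁻¹ ∈ C :=
    mul_mem (mul_mem (mul_mem a.2.1 b.2.1) (inv_mem a.2.1)) (inv_mem b.2.1)
  have := Subgroup.disjoint_def.mp hC.disjoint key hC'
  show (a : G) * b = b * a
  exact mul_inv_eq_iff_eq_mul.mp (mul_inv_eq_one.mp this)

theorem card_piClasses_eq {π : Finset ℕ} (hπ : ∀ r ∈ π, r.Prime) :
    Nat.card {c : ConjClasses G // ∀ x ∈ c.carrier, ∀ r : ℕ, r.Prime → r ∣ orderOf x → r ∈ π} =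
      kDiv (part π (Nat.card G)) G :=
  Nat.card_congr (Equiv.subtypeEquivRight fun _ =>
    forall₂_congr fun x _ => (dvd_part_iff hπ x).symm)

/-- A lower bound on classes of `π`-elements passes to every subset of `π`. -/
theorem lt_of_subset {π μ : Finset ℕ} (hπ : ∀ r ∈ π, r.Prime) (hμ : μ ⊆ π) {a b : ℕ}
    (h : a * part π (Nat.card G) < b * kDiv (part π (Nat.card G)) G) :
    a * part μ (Nat.card G) < b * kDiv (part μ (Nat.card G)) G := by
  have e : part π (Nat.card G) = part (π \ μ) (Nat.card G) * part μ (Nat.card G) :=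
    (Finset.prod_sdiff hμ).symm
  by_contra hcon
  have h2 := (Nat.mul_le_mul_left b (kDiv_part_union_le (G := G) hπ hμ)).trans
    (le_of_eq (mul_left_comm b (part (π \ μ) (Nat.card G)) (kDiv (part μ (Nat.card G)) G)))
  have h3 := h2.trans (Nat.mul_le_mul_left _ (not_lt.mp hcon))
  rw [mul_left_comm, ← e] at h3
  omega

theorem kDiv_two_le (H : Type*) [Group H] [Finite H] {e : ℕ} :
    kDiv (2 ^ e) H ≤ 2 ^ (Nat.card H).factorization 2 := by
  classical
  haveI : Fintype H := Fintype.ofFinite H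
  haveI := Fact.mk Nat.prime_two
  refine le_trans ?_ (kDiv_prime_pow_le (G := H) (p := 2) (le_refl _))
  refine Nat.card_le_card_of_injective (fun c => ⟨c.1, fun x hx => ?_⟩) (fun a b h => Subtype.ext (by simpa using h))
  obtain ⟨k, -, hk⟩ := (Nat.dvd_prime_pow Nat.prime_two).mp (orderOf_dvd_of_pow_eq_one (c.2 x hx))
  exact (pow_card_iff x).mpr ⟨k, hk⟩

/-- If an element of `N(R)` squaring into `C(R)` moves the abelian Sylow `r`-subgroup `R` and the
2-complement centralizes `R` wherever it normalizes it, the `{2, r}`-classes are few. -/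
theorem two_prime_bound {r : ℕ} [Fact r.Prime] (hr2 : r ≠ 2) (P : Sylow r G)
    (hab : IsMulCommutative (P : Subgroup G)) (hc2 : Cfsg.HasNormalPComplement 2 G)
    (hK : Cfsg.pResidual 2 G ⊓ Subgroup.normalizer ((P : Subgroup G) : Set G) ≤
      centralizer ((P : Subgroup G) : Set G))
    {g : G} (hgN : g ∈ Subgroup.normalizer ((P : Subgroup G) : Set G))
    (hgC : g ∉ centralizer ((P : Subgroup G) : Set G)) :
    2 * kDiv (r ^ (Nat.card G).factorization r * 2 ^ (Nat.card G).factorization 2) G ≤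
      r ^ (Nat.card G).factorization r * 2 ^ (Nat.card G).factorization 2 := by
  classical
  haveI : Fintype G := Fintype.ofFinite G
  haveI : Fintype (P : Subgroup G) := Fintype.ofFinite _
  haveI := Fact.mk Nat.prime_two
  have hr : r.Prime := Fact.out
  have hr3 : 3 ≤ r := by have := hr.two_le; omega
  set T := 2 ^ (Nat.card G).factorization 2 with hTdef
  set R := r ^ (Nat.card G).factorization r with hRdef
  set hc := fun c : ConjClasses G => 2 ^ (Nat.card G / Nat.card c.carrier).factorization 2 with hhc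
  have h1 : kDiv (R * T) G ≤
      ∑ c ∈ (Finset.univ.filter (fun y : G => y ^ R = 1)).image ConjClasses.mk, hc c := by
    refine Nat.le_of_mul_le_mul_left ?_ (Nat.card_pos (α := G))
    rw [kDiv_mul R T ((Nat.coprime_pow_primes _ _ hr Nat.prime_two hr2))]
    refine le_of_le_of_eq ?_ (by convert sum_centralizer_mul R hc)
    refine Finset.sum_le_sum fun y _ => Nat.mul_le_mul_left _ ?_
    rw [hhc]
    simp only
    rw [← card_centralizer_eq]
    exact kDiv_two_le _
  rw [show (Finset.univ.filter (fun y : G => y ^ R = 1)).image ConjClasses.mk =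
    Finset.univ.image (fun u : (P : Subgroup G) => ConjClasses.mk (u : G)) from image_eq_sylow_image P] at h1
  set f := fun u : (P : Subgroup G) => ConjClasses.mk (u : G)
  set F := (P : Subgroup G) ⊓ centralizer ({g} : Set G)
  set Ff := Finset.univ.filter (fun u : (P : Subgroup G) => (u : G) ∈ F)
  have hsum : Fintype.card (P : Subgroup G) =
      ∑ c ∈ Finset.univ.image f, (Finset.univ.filter (fun y => f y = c)).card :=
    Finset.card_eq_sum_card_image f Finset.univ
  have hFsum : Ff.card = ∑ c ∈ Finset.univ.image f, (Ff.filter (fun y => f y = c)).card :=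
    Finset.card_eq_sum_card_fiberwise (fun x _ => Finset.mem_image_of_mem f (Finset.mem_univ x))
  have hle : ∀ c : ConjClasses G, hc c ≤ T := fun c => by
    refine Nat.pow_le_pow_right Nat.two_pos ?_
    obtain ⟨x, rfl⟩ := c.exists_rep
    rw [← card_centralizer_eq]
    exact (Nat.factorization_le_iff_dvd Nat.card_pos.ne' Nat.card_pos.ne').mpr
      (Subgroup.card_subgroup_dvd_card _) 2
  have hmove : ∀ u : (P : Subgroup G), (u : G) ∉ F → 2 * hc (f u) ≤ T := by
    intro u hu
    have hne : g * u * g⁻¹ ≠ (u : G) := fun h => hu ⟨u.2,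
      mem_centralizer_singleton_iff.mpr (mul_inv_eq_iff_eq_mul.mp h).symm⟩
    have hy' : g * u * g⁻¹ ∈ (P : Subgroup G) := (mem_normalizer_iff.mp hgN _).mp u.2
    rw [hhc]
    simp only [f]
    rw [← card_centralizer_eq, ← pow_succ']
    refine Nat.pow_le_pow_right Nat.two_pos ?_
    set C := centralizer ({(u : G)} : Set G)
    have hCle := (Nat.factorization_le_iff_dvd (Nat.card_pos (α := C)).ne'
      (Nat.card_pos (α := G)).ne').mpr (Subgroup.card_subgroup_dvd_card C) 2
    by_contra hcon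
    have heq : (Nat.card C).factorization 2 = (Nat.card G).factorization 2 := by omega
    have hodd : ¬ 2 ∣ C.index := by
      intro h2
      have := congrArg (fun m => m.factorization 2) C.card_mul_index
      rw [Nat.factorization_mul Nat.card_pos.ne' C.index_ne_zero_of_finite, Finsupp.add_apply, heq] at this
      have := Nat.prime_two.factorization_pos_of_dvd C.index_ne_zero_of_finite h2
      omega
    set K := Cfsg.pResidual 2 G
    haveI : K.Normal := Cfsg.Agent.Transfer.pResidual_normal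
    have htop : K ⊔ C = ⊤ := by
      rw [← Subgroup.index_eq_one]
      obtain ⟨Q⟩ : Nonempty (Sylow 2 G) := inferInstance
      have hKc := (Cfsg.Agent.Transfer.isComplement'_pResidual Q hc2)
      obtain ⟨n, hn⟩ := IsPGroup.iff_card.mp Q.isPGroup'
      have hd := Subgroup.index_dvd_of_le (le_sup_left : K ≤ K ⊔ C)
      rw [hKc.symm.index_eq_card, hn] at hd
      obtain ⟨j, -, hj⟩ := (Nat.dvd_prime_pow Nat.prime_two).mp hd
      rcases j with _ | j
      · rw [hj, pow_zero]
      · refine absurd ((dvd_pow_self 2 (Nat.succ_ne_zero j)).trans ?_) hodd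
        rw [← hj]
        exact Subgroup.index_dvd_of_le le_sup_right
    obtain ⟨k, hk, c, hc', e⟩ := Subgroup.mem_sup_of_normal_left.mp (htop ▸ Subgroup.mem_top g)
    set y := g * u * g⁻¹ with hy
    have hky : k * u * k⁻¹ = y := by
      have := mem_centralizer_singleton_iff.mp hc'
      rw [hy, ← e]
      calc k * (u : G) * k⁻¹ = k * ((u : G) * c) * c⁻¹ * k⁻¹ := by group
        _ = k * (c * u) * c⁻¹ * k⁻¹ := by rw [this]
        _ = k * c * u * (k * c)⁻¹ := by group
    have hPK : (P : Subgroup G) ≤ K := fun x hx => by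
      obtain ⟨j, hj⟩ := IsPGroup.iff_orderOf.mp P.isPGroup' ⟨x, hx⟩
      refine Cfsg.Agent.Transfer.mem_pResidual_of_coprime ?_
      rw [← Subgroup.orderOf_coe] at hj
      rw [hj]
      exact ((Nat.coprime_primes hr Nat.prime_two).mpr hr2).pow_left j
    haveI := hab
    set L := K ⊓ centralizer ({y} : Set G)
    have hPL : (P : Subgroup G) ≤ L := fun x hx => ⟨hPK hx, mem_centralizer_singleton_iff.mpr
      (congrArg Subtype.val (mul_comm' (⟨x, hx⟩ : (P : Subgroup G)) ⟨y, hy'⟩))⟩
    have hRL : (P : Subgroup G).map (MulAut.conj k).toMonoidHom ≤ L := by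
      rintro _ ⟨x, hx, rfl⟩
      refine ⟨K.mul_mem (K.mul_mem hk (hPK hx)) (K.inv_mem hk), mem_centralizer_singleton_iff.mpr ?_⟩
      have hxu : x * (u : G) = u * x := congrArg Subtype.val (mul_comm' (⟨x, hx⟩ : (P : Subgroup G)) u)
      simp only [MulEquiv.coe_toMonoidHom, MulAut.conj_apply]
      rw [← hky]
      calc k * x * k⁻¹ * (k * u * k⁻¹) = k * (x * u) * k⁻¹ := by group
        _ = k * (u * x) * k⁻¹ := by rw [hxu]
        _ = _ := by group
    obtain ⟨l, hl, hle'⟩ := Cfsg.Agent.Fusion.exists_conj_le_of_sylow (p := r) hPL P.isPGroup'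
      (fun h => P.not_dvd_index (h.trans (Subgroup.relIndex_dvd_index_of_le hPL)))
      hRL (P.isPGroup'.map _)
    have hlk : l * k ∈ Subgroup.normalizer ((P : Subgroup G) : Set G) := by
      rw [Cfsg.Agent.Transfer.mem_normalizer_iff_map_conj]
      refine Subgroup.eq_of_le_of_card_ge ?_ (Cfsg.Agent.Transfer.card_map_conj _ _).ge
      rw [← Cfsg.Agent.Transfer.map_conj_mul]
      rintro _ ⟨x, hx, rfl⟩
      exact hle' x hx
    have hcent := mem_centralizer_iff.mp (hK ⟨mul_mem hl.1 hk, hlk⟩) u u.2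
    refine hne ?_
    have hly : l * y = y * l := mem_centralizer_singleton_iff.mp hl.2
    calc y = l * y * l⁻¹ := by rw [hly]; group
      _ = (l * k) * u * (l * k)⁻¹ := by rw [← hky]; group
      _ = u := by rw [← hcent]; group
  have hF3 : 3 * Ff.card ≤ Fintype.card (P : Subgroup G) := by
    have hcardF : Ff.card = Nat.card F := by
      rw [← Fintype.card_subtype, ← Nat.card_eq_fintype_card]
      exact Nat.card_congr ⟨fun x => ⟨_, x.2⟩, fun x => ⟨⟨x, x.2.1⟩, x.2⟩, fun x => rfl, fun x => rfl⟩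
    have hlt : Nat.card F < Nat.card (P : Subgroup G) := by
      refine lt_of_le_of_ne (Subgroup.card_le_of_le inf_le_left) fun e => hgC ?_
      have := Subgroup.eq_of_le_of_card_ge (inf_le_left : F ≤ _) e.ge
      exact mem_centralizer_iff.mpr fun u hu => mem_centralizer_singleton_iff.mp (this.ge hu).2
    obtain ⟨n, hn⟩ := IsPGroup.iff_card.mp P.isPGroup'
    obtain ⟨j, hjn, hj⟩ := (Nat.dvd_prime_pow hr).mp
      (hn ▸ Subgroup.card_dvd_of_le (inf_le_left : F ≤ (P : Subgroup G)))
    rw [hcardF, ← Nat.card_eq_fintype_card, hn, hj]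
    rw [hj, hn] at hlt
    have hjn' : j < n := (Nat.pow_lt_pow_iff_right hr.one_lt).mp hlt
    calc 3 * r ^ j ≤ r * r ^ j := Nat.mul_le_mul_right _ hr3
      _ = r ^ (j + 1) := (pow_succ' r j).symm
      _ ≤ r ^ n := Nat.pow_le_pow_right hr.pos hjn'
  have hmain : 4 * ∑ c ∈ Finset.univ.image f, hc c ≤ T * Fintype.card (P : Subgroup G) + T * (3 * Ff.card) := by
    rw [hsum, hFsum, Finset.mul_sum, Finset.mul_sum, Finset.mul_sum, Finset.mul_sum, ← Finset.sum_add_distrib]
    refine Finset.sum_le_sum fun c hc' => ?_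
    obtain ⟨x, -, rfl⟩ := Finset.mem_image.mp hc'
    have hpos : 1 ≤ (Finset.univ.filter (fun y => f y = f x)).card := Finset.card_pos.mpr ⟨x, by simp⟩
    by_cases hsub : ∀ y, f y = f x → (y : G) ∈ F
    · have e : Ff.filter (fun y => f y = f x) = Finset.univ.filter (fun y => f y = f x) := by
        ext y
        simp only [Ff, Finset.mem_filter, Finset.mem_univ, true_and]
        exact ⟨And.right, fun h => ⟨hsub y h, h⟩⟩
      rw [e]
      have := hle (f x)
      nlinarith
    · push Not at hsub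
      obtain ⟨y, hy, hyF⟩ := hsub
      have h2 : 2 ≤ (Finset.univ.filter (fun z => f z = f x)).card := by
        have hgy : g * y * g⁻¹ ∈ (P : Subgroup G) := (mem_normalizer_iff.mp hgN _).mp y.2
        refine Finset.one_lt_card.mpr ⟨y, by simp [hy], ⟨_, hgy⟩, ?_, fun h => hyF ⟨y.2, ?_⟩⟩
        · simp only [Finset.mem_filter, Finset.mem_univ, true_and, ← hy]
          exact (ConjClasses.mk_eq_mk_iff_isConj.mpr (isConj_iff.mpr ⟨g, rfl⟩)).symm
        · exact mem_centralizer_singleton_iff.mpr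
            (mul_inv_eq_iff_eq_mul.mp (congrArg Subtype.val h).symm).symm
      have := hmove y hyF
      rw [hy] at this
      nlinarith
  have hR : Fintype.card (P : Subgroup G) = R := by
    rw [← Nat.card_eq_fintype_card, P.card_eq_multiplicity]
  rw [hR] at hmain hF3
  nlinarith

end Cfsg.Agent.TwoGroups.PiClasses
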