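import Cfsg.Agent.TwoGroups.ModPlane
import Cfsg.Prelude.Def_OddOrderLocal
import Mathlib

/-!
Commutation in metacyclic `p`-groups of odd order, linearised over `ℤ/pⁿ` with `pⁿ = |G'|`.
-/

set_option autoImplicit false
set_option linter.style.haveILetI false

namespace Cfsg.Agent.TwoGroups

/-- `1 + x + ⋯ + x^(d-1)`. -/
def geomSum {R : Type*} [CommRing R] (x : R) (d : ℕ) : R := ∑ i ∈ Finset.range d, x ^ i

theorem geomSum_add {R : Type*} [CommRing R] (x : R) (d e : ℕ) :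
    geomSum x (d + e) = geomSum x d + x ^ d * geomSum x e := by
  simp only [geomSum, Finset.sum_range_add, Finset.mul_sum, pow_add]

theorem geomSum_mul {R : Type*} [CommRing R] (x : R) (d k : ℕ) :
    geomSum x (d * k) = geomSum x d * geomSum (x ^ d) k := by
  induction k with
  | zero => simp [geomSum]
  | succ k ih =>
    rw [mul_add, mul_one, geomSum_add, ih, geomSum_add (x ^ d) k 1]
    have h1 : geomSum (x ^ d) 1 = 1 := by simp [geomSum]
    rw [h1, ← pow_mul, mul_one]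
    ring

theorem geomSum_sub_natCast {p : ℕ} {x : ℤ} (hx : (p : ℤ) ∣ x - 1) (d : ℕ) :
    (p : ℤ) ∣ geomSum x d - d := by
  have h : geomSum x d - d = ∑ i ∈ Finset.range d, (x ^ i - 1) := by simp [geomSum]
  rw [h]
  refine Finset.dvd_sum fun i _ => hx.trans ?_
  simpa using sub_dvd_pow_sub_pow x 1 i

theorem geomSum_prime {p : ℕ} (hp : p.Prime) (hp2 : p ≠ 2) {x : ℤ} (hx : (p : ℤ) ∣ x - 1) :
    ∃ τ : ℤ, geomSum x p = p * τ ∧ ¬ (p : ℤ) ∣ τ := by
  obtain ⟨y, hy⟩ := hx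
  have hpow : ∀ i : ℕ, (p : ℤ) ^ 2 ∣ x ^ i - 1 - (i : ℤ) * (p * y) := by
    intro i
    induction i with
    | zero => simp
    | succ i ih =>
      obtain ⟨w, hw⟩ := ih
      refine ⟨w * x + i * y * y, ?_⟩
      have hx' : x = 1 + p * y := by linarith
      push_cast
      rw [pow_succ]
      linear_combination x * hw + (1 + (i : ℤ) * (p * y)) * hx'
  have hsum : (p : ℤ) ^ 2 ∣ geomSum x p - p := by
    have hodd : Odd p := hp.odd_of_ne_two hp2
    obtain ⟨h, hh⟩ := hodd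
    have h2 : ∑ i ∈ Finset.range p, (i : ℤ) = (p : ℤ) * h := by
      have := Finset.sum_range_id_mul_two p
      have h3 : (∑ i ∈ Finset.range p, i) = p * h := by
        rw [show p - 1 = 2 * h by omega] at this
        linarith
      rw [← Nat.cast_sum, h3]
      push_cast
      ring
    have h1 : geomSum x p - p = (∑ i ∈ Finset.range p, (x ^ i - 1 - (i : ℤ) * (p * y))) + (p : ℤ) ^ 2 * (h * y) := by
      simp only [geomSum, Finset.sum_sub_distrib, ← Finset.sum_mul, h2, Finset.sum_const, Finset.card_range,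
        nsmul_eq_mul, mul_one]
      ring
    rw [h1]
    exact dvd_add (Finset.dvd_sum fun i _ => hpow i) (dvd_mul_right _ _)
  obtain ⟨w, hw⟩ := hsum
  refine ⟨1 + p * w, by linear_combination hw, fun hd => ?_⟩
  have h1 : (p : ℤ) ∣ 1 := (Int.dvd_add_left (dvd_mul_right _ _)).mp hd
  exact hp.ne_one (by exact_mod_cast Int.eq_one_of_dvd_one (by positivity) h1)

/-- For `x ≡ 1 (mod p)`, `p` odd, the geometric sum has the `p`-part of the number of terms. -/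
theorem geomSum_factor {p : ℕ} (hp : p.Prime) (hp2 : p ≠ 2) {x : ℤ} (hx : (p : ℤ) ∣ x - 1) (s d : ℕ)
    (hd : ¬ p ∣ d) : ∃ τ : ℤ, geomSum x (p ^ s * d) = (p : ℤ) ^ s * τ ∧ ¬ (p : ℤ) ∣ τ := by
  induction s generalizing x with
  | zero =>
    refine ⟨geomSum x d, by simp, fun h => hd ?_⟩
    have := dvd_sub h (geomSum_sub_natCast hx d)
    rw [sub_sub_cancel] at this
    exact_mod_cast this
  | succ s ih =>
    obtain ⟨τ₁, h1, h1'⟩ := geomSum_prime hp hp2 hx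
    have hxp : (p : ℤ) ∣ x ^ p - 1 := hx.trans (by simpa using sub_dvd_pow_sub_pow x 1 p)
    obtain ⟨τ₂, h2, h2'⟩ := ih hxp
    refine ⟨τ₁ * τ₂, ?_, fun h => ?_⟩
    · rw [show p ^ (s + 1) * d = p * (p ^ s * d) by ring, geomSum_mul, h1, h2]; ring
    · exact (Int.Prime.dvd_mul' hp h).elim h1' h2'

theorem dvd_of_dvd_geomSum {p : ℕ} (hp : p.Prime) (hp2 : p ≠ 2) {x : ℤ} (hx : (p : ℤ) ∣ x - 1) {e d : ℕ}
    (h : (p : ℤ) ^ e ∣ geomSum x d) : p ^ e ∣ d := by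
  by_cases hd0 : d = 0
  · simp [hd0]
  obtain ⟨s, d', hd', rfl⟩ := Nat.exists_eq_pow_mul_and_not_dvd hd0 p hp.ne_one
  obtain ⟨τ, hτ, hτ'⟩ := geomSum_factor hp hp2 hx s d' hd'
  rw [hτ] at h
  by_cases hle : e ≤ s
  · exact dvd_mul_of_dvd_left (pow_dvd_pow _ hle) _
  · exfalso
    refine hτ' ?_
    have h1 : (p : ℤ) ^ s * p ∣ (p : ℤ) ^ s * τ := by
      refine (dvd_of_eq ?_).trans ((pow_dvd_pow _ (show s + 1 ≤ e by omega)).trans h)
      rw [pow_succ]
    exact (mul_dvd_mul_iff_left (pow_ne_zero _ (by exact_mod_cast hp.ne_zero))).mp h1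

variable {G : Type*} [Group G]

/-- Standard generators of a metacyclic `p`-group. -/
structure MCData (p : ℕ) (a b : G) (m n : ℕ) (c : ℤ) : Prop where
  orda : orderOf a = p ^ m
  conj : b * a * b⁻¹ = a ^ (1 + c)
  pc : (p : ℤ) ∣ c
  cn : ∀ z : ℤ, (p : ℤ) ^ m ∣ c * z ↔ (p : ℤ) ^ n ∣ z
  gen : ∀ g : G, ∃ i j : ℕ, g = a ^ i * b ^ j

theorem exists_cyclic_data {p : ℕ} [Fact p.Prime] [Finite G] (hG : IsPGroup p G)
    (hmc : Cfsg.IsMetacyclic G) :
    ∃ a b : G, ∃ k : ℕ, (Subgroup.zpowers a).Normal ∧ b ^ p ^ k ∈ Subgroup.zpowers a ∧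
      Nat.card G = orderOf a * p ^ k ∧ ∀ g : G, ∃ i j : ℕ, g = a ^ i * b ^ j := by
  obtain ⟨N, hN, hNc, hQc⟩ := hmc
  haveI := hN
  obtain ⟨a, ha⟩ := (Subgroup.isCyclic_iff_exists_zpowers_eq_top N).mp hNc
  obtain ⟨bq, hbq⟩ := hQc.exists_generator
  obtain ⟨b, rfl⟩ := QuotientGroup.mk_surjective bq
  obtain ⟨k, hk⟩ := (IsPGroup.iff_orderOf.mp (hG.to_quotient N)) (b : G ⧸ N)
  refine ⟨a, b, k, ha ▸ hN, ?_, ?_, fun g => ?_⟩
  · rw [ha, ← QuotientGroup.eq_one_iff, QuotientGroup.mk_pow, ← hk, pow_orderOf_eq_one]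
  · rw [← Nat.card_zpowers a, ha, Subgroup.card_eq_card_quotient_mul_card_subgroup N,
      ← orderOf_eq_card_of_forall_mem_zpowers hbq, hk, mul_comm]
  · obtain ⟨j, hj⟩ := mem_powers_iff_mem_zpowers.mpr (hbq (g : G ⧸ N))
    have h1 : g * (b ^ j)⁻¹ ∈ N := by
      rw [← QuotientGroup.eq_one_iff, QuotientGroup.mk_mul, QuotientGroup.mk_inv, QuotientGroup.mk_pow]
      exact mul_inv_eq_one.mpr hj.symm
    rw [← ha] at h1
    obtain ⟨i, hi⟩ := mem_powers_iff_mem_zpowers.mpr h1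
    exact ⟨i, j, (mul_inv_eq_iff_eq_mul.mp hi.symm)⟩

theorem exists_conj_exp {p : ℕ} [hp : Fact p.Prime] [Finite G] (hG : IsPGroup p G) {a b : G}
    (hn : (Subgroup.zpowers a).Normal) {m : ℕ} (hm : orderOf a = p ^ m) :
    ∃ c : ℤ, b * a * b⁻¹ = a ^ (1 + c) ∧ (p : ℤ) ∣ c := by
  obtain ⟨r, hr⟩ := hn.conj_mem a (Subgroup.mem_zpowers a) b
  by_cases hm0 : m = 0
  · rw [hm0, pow_zero, orderOf_eq_one_iff] at hm
    exact ⟨0, by simp [hm], dvd_zero _⟩
  refine ⟨r - 1, by rw [add_sub_cancel]; exact hr.symm, ?_⟩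
  have hpow : ∀ t : ℕ, b ^ t * a * (b ^ t)⁻¹ = a ^ (r ^ t) := by
    intro t
    induction t with
    | zero => simp
    | succ t ih =>
      calc b ^ (t + 1) * a * (b ^ (t + 1))⁻¹ = b * (b ^ t * a * (b ^ t)⁻¹) * b⁻¹ := by
            rw [pow_succ']; group
        _ = a ^ (r ^ (t + 1)) := by
            rw [ih, ← conj_zpow, ← hr, ← zpow_mul, pow_succ']
  obtain ⟨l, hl⟩ := IsPGroup.iff_orderOf.mp hG b
  have h1 := hpow (orderOf b)
  rw [pow_orderOf_eq_one, one_mul, inv_one, mul_one, hl] at h1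
  have h2 : a ^ (r ^ p ^ l - 1) = 1 := by rw [zpow_sub, ← h1, zpow_one, mul_inv_cancel]
  rw [← orderOf_dvd_iff_zpow_eq_one, hm] at h2
  push_cast at h2
  have h3 : (p : ℤ) ∣ r ^ p ^ l - 1 := (dvd_pow_self _ hm0).trans h2
  rw [← ZMod.intCast_zmod_eq_zero_iff_dvd] at h3 ⊢
  push_cast at h3 ⊢
  rwa [ZMod.pow_card_pow] at h3

theorem exists_cn {p : ℕ} (hp : p.Prime) (m : ℕ) (c : ℤ) :
    ∃ n ≤ m, ∀ z : ℤ, (p : ℤ) ^ m ∣ c * z ↔ (p : ℤ) ^ n ∣ z := by
  by_cases h : (p : ℤ) ^ m ∣ c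
  · exact ⟨0, Nat.zero_le _, fun z => ⟨fun _ => by simp, fun _ => h.mul_right z⟩⟩
  have hc : c.natAbs ≠ 0 := fun e => h (by rw [Int.natAbs_eq_zero.mp e]; exact dvd_zero _)
  obtain ⟨l, w, hw, hl⟩ := Nat.exists_eq_pow_mul_and_not_dvd hc p hp.ne_one
  have hlm : l < m := by
    by_contra hlt
    refine h (Int.dvd_natAbs.mp ?_)
    rw [hl]; push_cast
    exact dvd_mul_of_dvd_left (pow_dvd_pow _ (by omega)) _
  refine ⟨m - l, Nat.sub_le _ _, fun z => ?_⟩
  rw [← Int.dvd_natAbs, ← Int.dvd_natAbs (b := z), Int.natAbs_mul, hl, ← Nat.cast_pow, ← Nat.cast_pow,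
    Int.natCast_dvd_natCast, Int.natCast_dvd_natCast, mul_assoc,
    show p ^ m = p ^ l * p ^ (m - l) by rw [← pow_add, Nat.add_sub_cancel' hlm.le],
    Nat.mul_dvd_mul_iff_left (pow_pos hp.pos _)]
  exact ((hp.coprime_iff_not_dvd.mpr hw).pow_left _).dvd_mul_left

theorem exists_mcData {p : ℕ} [hp : Fact p.Prime] [Finite G] (hG : IsPGroup p G)
    (hmc : Cfsg.IsMetacyclic G) : ∃ (a b : G) (m n : ℕ) (c : ℤ), MCData p a b m n c := by
  obtain ⟨a, b, k, hn, -, -, hgen⟩ := exists_cyclic_data hG hmc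
  obtain ⟨m, hm⟩ := IsPGroup.iff_orderOf.mp hG a
  obtain ⟨c, hc, hpc⟩ := exists_conj_exp hG hn hm
  obtain ⟨n, -, hcn⟩ := exists_cn hp.out m c
  exact ⟨a, b, m, n, c, hm, hc, hpc, hcn, hgen⟩

namespace MCData

open ModPlane

variable {p : ℕ} {a b : G} {m n : ℕ} {c : ℤ} (h : MCData p a b m n c)

include h

theorem apow_iff (z z' : ℤ) : a ^ (c * z) = a ^ (c * z') ↔ (z : ZMod (p ^ n)) = z' := by
  rw [zpow_eq_zpow_iff_modEq, h.orda, Int.modEq_iff_dvd, ← mul_sub]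
  push_cast
  rw [h.cn, ZMod.intCast_eq_intCast_iff, Int.modEq_iff_dvd]
  push_cast
  rfl

/-- `g` induces the coordinates `(x, y)`. -/
def Rel (a b : G) (c : ℤ) (g : G) (x y : ℤ) : Prop :=
  g * a * g⁻¹ = a ^ (1 + c * y) ∧ g * b * g⁻¹ * b⁻¹ = a ^ (-(c * x))

theorem rel_mul {g g' : G} {x y x' y' : ℤ} (e : Rel a b c g x y) (e' : Rel a b c g' x' y') :
    Rel a b c (g * g') (x + (1 + c * y) * x') (y + (1 + c * y) * y') := by
  obtain ⟨e1, e2⟩ := e
  obtain ⟨e1', e2'⟩ := e'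
  have hz : ∀ z : ℤ, g * a ^ z * g⁻¹ = a ^ ((1 + c * y) * z) := fun z => by
    rw [← conj_zpow, e1, ← zpow_mul]
  refine ⟨?_, ?_⟩
  · calc g * g' * a * (g * g')⁻¹ = g * (g' * a * g'⁻¹) * g⁻¹ := by group
      _ = _ := by rw [e1', hz]; congr 1; ring
  · calc g * g' * b * (g * g')⁻¹ * b⁻¹ = g * (g' * b * g'⁻¹ * b⁻¹) * g⁻¹ * (g * b * g⁻¹ * b⁻¹) := by group
      _ = _ := by rw [e2', hz, e2, ← zpow_add]; congr 1; ring

theorem rel_one : Rel a b c 1 0 0 := ⟨by simp, by simp⟩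

theorem rel_a : Rel a b c a 1 0 := by
  refine ⟨by simp, ?_⟩
  calc a * b * a⁻¹ * b⁻¹ = a * (b * a * b⁻¹)⁻¹ := by group
    _ = a ^ (1 : ℤ) * (a ^ (1 + c))⁻¹ := by rw [h.conj, zpow_one]
    _ = _ := by rw [← zpow_neg, ← zpow_add]; congr 1; ring

theorem rel_b : Rel a b c b 0 1 := ⟨by rw [h.conj, mul_one], by simp⟩

theorem induction_gen {P : G → Prop} (ha : P a) (hb : P b) (h1 : P 1)
    (hm : ∀ g g', P g → P g' → P (g * g')) (g : G) : P g := by
  have hpow : ∀ r, P r → ∀ i : ℕ, P (r ^ i) := fun r hr i => by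
    induction i with
    | zero => simpa using h1
    | succ i ih => rw [pow_succ]; exact hm _ _ ih hr
  obtain ⟨i, j, rfl⟩ := h.gen g
  exact hm _ _ (hpow a ha i) (hpow b hb j)

theorem exists_rel (g : G) : ∃ x y, Rel a b c g x y :=
  h.induction_gen (P := fun g => ∃ x y, Rel a b c g x y) ⟨_, _, h.rel_a⟩ ⟨_, _, h.rel_b⟩ ⟨_, _, h.rel_one⟩
    (fun _ _ ⟨_, _, e⟩ ⟨_, _, e'⟩ => ⟨_, _, h.rel_mul e e'⟩) g

theorem rel_unique {g : G} {x y x' y' : ℤ} (e : Rel a b c g x y) (e' : Rel a b c g x' y') :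
    (x : ZMod (p ^ n)) = x' ∧ (y : ZMod (p ^ n)) = y' := by
  refine ⟨(h.apow_iff x x').mp ?_, (h.apow_iff y y').mp ?_⟩
  · have := e.2.symm.trans e'.2
    rwa [zpow_neg, zpow_neg, inv_inj] at this
  · have := e.1.symm.trans e'.1
    rwa [zpow_add, zpow_add, mul_right_inj] at this

/-- The coordinates of an element. -/
noncomputable def vec (g : G) : V p n :=
  (((h.exists_rel g).choose : ℤ), ((h.exists_rel g).choose_spec.choose : ℤ))

theorem exists_vec (g : G) : ∃ x y : ℤ, Rel a b c g x y ∧ h.vec g = ((x : ZMod (p ^ n)), (y : ZMod (p ^ n))) :=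
  ⟨_, _, (h.exists_rel g).choose_spec.choose_spec, rfl⟩

theorem vec_eq {g : G} {x y : ℤ} (e : Rel a b c g x y) :
    h.vec g = ((x : ZMod (p ^ n)), (y : ZMod (p ^ n))) := by
  obtain ⟨x', y', e', hv⟩ := h.exists_vec g
  rw [hv]
  exact Prod.ext (h.rel_unique e' e).1 (h.rel_unique e' e).2

/-- The scalar by which `g` twists the product. -/
noncomputable def chi (g : G) : ZMod (p ^ n) := 1 + (c : ZMod (p ^ n)) * (h.vec g).2

theorem vec_mul (g g' : G) : h.vec (g * g') = h.vec g + h.chi g • h.vec g' := by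
  obtain ⟨x, y, e, hv⟩ := h.exists_vec g
  obtain ⟨x', y', e', hv'⟩ := h.exists_vec g'
  rw [h.vec_eq (h.rel_mul e e'), chi, hv, hv']
  refine Prod.ext ?_ ?_ <;> simp

theorem vec_one : h.vec 1 = 0 := by rw [h.vec_eq h.rel_one]; simp

theorem vec_a : h.vec a = (1, 0) := by rw [h.vec_eq h.rel_a]; simp

theorem vec_b : h.vec b = (0, 1) := by rw [h.vec_eq h.rel_b]; simp

theorem comm_eq (g g' : G) :
    ∃ z : ℤ, g * g' * g⁻¹ * g'⁻¹ = a ^ (c * z) ∧ (z : ZMod (p ^ n)) = det (h.vec g') (h.vec g) := by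
  refine h.induction_gen (P := fun g' => ∃ z : ℤ, g * g' * g⁻¹ * g'⁻¹ = a ^ (c * z) ∧
    (z : ZMod (p ^ n)) = det (h.vec g') (h.vec g)) ?_ ?_ ?_ ?_ g'
  · obtain ⟨x, y, e, hv⟩ := h.exists_vec g
    refine ⟨y, ?_, by rw [hv, h.vec_a]; simp [det]⟩
    rw [e.1, zpow_add, zpow_one, (Commute.self_zpow a _).eq, mul_inv_cancel_right]
  · obtain ⟨x, y, e, hv⟩ := h.exists_vec g
    refine ⟨-x, ?_, by rw [hv, h.vec_b]; simp [det]⟩
    rw [e.2, mul_neg]
  · exact ⟨0, by simp, by rw [h.vec_one]; simp [det]⟩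
  · rintro r r' ⟨z, e1, e2⟩ ⟨z', e1', e2'⟩
    obtain ⟨x, y, e, hv⟩ := h.exists_vec r
    refine ⟨z + (1 + c * y) * z', ?_, ?_⟩
    · calc g * (r * r') * g⁻¹ * (r * r')⁻¹ = g * r * g⁻¹ * r⁻¹ * (r * (g * r' * g⁻¹ * r'⁻¹) * r⁻¹) := by group
        _ = _ := by rw [e1, e1', ← conj_zpow, e.1, ← zpow_mul, ← zpow_add]; congr 1; ring
    · rw [h.vec_mul, Int.cast_add, Int.cast_mul, e2, e2', chi, hv]
      simp only [det, Prod.fst_add, Prod.snd_add, Prod.smul_fst, Prod.smul_snd, smul_eq_mul]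
      push_cast
      ring

theorem commute_iff (g g' : G) : g * g' = g' * g ↔ det (h.vec g) (h.vec g') = 0 := by
  obtain ⟨z, e1, e2⟩ := h.comm_eq g g'
  have h1 : g * g' = g' * g ↔ g * g' * g⁻¹ * g'⁻¹ = 1 := by
    rw [mul_inv_eq_one, mul_inv_eq_iff_eq_mul]
  rw [h1, e1, ← zpow_zero a, show (0 : ℤ) = c * 0 by ring, h.apow_iff, Int.cast_zero, e2]
  constructor <;> intro e <;> simp only [det] at e ⊢ <;> linear_combination -e

theorem mem_center_iff (g : G) : g ∈ Subgroup.center G ↔ h.vec g = 0 := by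
  rw [Subgroup.mem_center_iff]
  constructor
  · intro hg
    have h1 := (h.commute_iff a g).mp (hg a)
    have h2 := (h.commute_iff b g).mp (hg b)
    rw [h.vec_a] at h1
    rw [h.vec_b] at h2
    simp only [det] at h1 h2
    exact Prod.ext (show (h.vec g).1 = 0 by linear_combination -h2) (show (h.vec g).2 = 0 by linear_combination h1)
  · intro hg r
    rw [h.commute_iff, hg]
    simp [det]

variable [hp : Fact p.Prime]

theorem isUnit_chi (g : G) : IsUnit (h.chi g) := by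
  refine IsNilpotent.isUnit_one_add ⟨n, ?_⟩
  obtain ⟨d, hd⟩ := h.pc
  have hc : (c : ZMod (p ^ n)) = (p : ZMod (p ^ n)) * d := by
    rw [congrArg (Int.cast : ℤ → ZMod (p ^ n)) hd]; push_cast; rfl
  rw [hc, mul_pow, mul_pow, cast_pow_eq_zero_iff.mpr le_rfl, zero_mul, zero_mul]

theorem vec_eq_vec_iff (g g' : G) : h.vec g = h.vec g' ↔ g⁻¹ * g' ∈ Subgroup.center G := by
  rw [h.mem_center_iff]
  have h1 := h.vec_mul g (g⁻¹ * g')
  rw [mul_inv_cancel_left] at h1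
  rw [h1]
  constructor
  · intro e
    rw [left_eq_add] at e
    exact (h.isUnit_chi g).smul_eq_zero.mp e
  · intro e; rw [e, smul_zero, add_zero]

theorem vec_pow (g : G) (t : ℕ) : h.vec (g ^ t) = geomSum (h.chi g) t • h.vec g := by
  induction t with
  | zero => simp [geomSum, h.vec_one]
  | succ t ih =>
    rw [pow_succ', h.vec_mul, ih, add_comm t 1, geomSum_add, smul_smul]
    have : geomSum (h.chi g) 1 = 1 := by simp [geomSum]
    rw [this, add_smul, one_smul, pow_one]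

theorem geomSum_chi (hp2 : p ≠ 2) (g : G) :
    Function.Surjective (fun t : Fin (p ^ n) => geomSum (h.chi g) (t : ℕ)) := by
  haveI : NeZero (p ^ n) := ⟨pow_ne_zero _ hp.out.ne_zero⟩
  obtain ⟨x, y, -, hv⟩ := h.exists_vec g
  have hchi : h.chi g = ((1 + c * y : ℤ) : ZMod (p ^ n)) := by rw [chi, hv]; push_cast; rfl
  refine ((Fintype.bijective_iff_injective_and_card _).mpr ⟨?_, by rw [Fintype.card_fin, ZMod.card]⟩).surjective
  intro s t e
  have key : ∀ s d : ℕ, geomSum (h.chi g) s = geomSum (h.chi g) (s + d) → p ^ n ∣ d := by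
    intro s d e
    rw [geomSum_add, left_eq_add] at e
    have h1 := ((h.isUnit_chi g).pow s).mul_right_eq_zero.mp e
    have h2 : geomSum (h.chi g) d = ((geomSum (1 + c * y) d : ℤ) : ZMod (p ^ n)) := by
      rw [hchi]; simp [geomSum]
    rw [h2, ZMod.intCast_zmod_eq_zero_iff_dvd] at h1
    push_cast at h1
    exact dvd_of_dvd_geomSum hp.out hp2 (by rw [add_sub_cancel_left]; exact h.pc.mul_right y) h1
  have hs := s.2
  have ht := t.2
  rcases le_total (s : ℕ) t with hle | hle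
  · obtain ⟨d, hd⟩ := Nat.exists_eq_add_of_le hle
    have := Nat.eq_zero_of_dvd_of_lt (key s d (by rw [← hd]; exact e)) (by omega)
    exact Fin.ext (by omega)
  · obtain ⟨d, hd⟩ := Nat.exists_eq_add_of_le hle
    have := Nat.eq_zero_of_dvd_of_lt (key t d (by rw [← hd]; exact e.symm)) (by omega)
    exact Fin.ext (by omega)

theorem exists_vec_smul (hp2 : p ≠ 2) (g : G) (s : ZMod (p ^ n)) : ∃ t : ℕ, h.vec (g ^ t) = s • h.vec g := by
  obtain ⟨t, ht⟩ := h.geomSum_chi hp2 g s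
  exact ⟨t, by rw [h.vec_pow]; exact congrArg (· • h.vec g) ht⟩

end MCData

end Cfsg.Agent.TwoGroups
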