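import Cfsg.Agent.TwoGroups.MetacyclicModel
import Cfsg.Prelude.Def_BaumannBlocks

/-!
Subgroups of metacyclic `p`-groups of odd order.
-/

set_option autoImplicit false
set_option linter.style.haveILetI false

namespace Cfsg.Agent.TwoGroups

open Subgroup ModPlane

variable {G : Type*} [Group G]

theorem card_center_subgroup (R : Subgroup G) :
    Nat.card (Subgroup.center R) = Nat.card (R ⊓ centralizer (R : Set G) : Subgroup G) := by
  rw [← card_map_of_injective R.subtype_injective (K := Subgroup.center R)]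
  congr 2
  ext g
  constructor
  · rintro ⟨⟨r, hr⟩, hc, rfl⟩
    exact ⟨hr, mem_centralizer_iff.mpr fun s hs =>
      congrArg Subtype.val (Subgroup.mem_center_iff.mp hc ⟨s, hs⟩)⟩
  · rintro ⟨hr, hc⟩
    exact ⟨⟨g, hr⟩, Subgroup.mem_center_iff.mpr fun s => Subtype.ext (mem_centralizer_iff.mp hc s s.2), rfl⟩

theorem isMulCommutative_iff {R : Subgroup G} :
    IsMulCommutative ↥R ↔ ∀ g ∈ R, ∀ g' ∈ R, g * g' = g' * g :=
  ⟨fun hc g hg g' hg' => congrArg Subtype.val (hc.is_comm.comm (⟨g, hg⟩ : R) ⟨g', hg'⟩),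
    fun h => ⟨⟨fun u v => Subtype.ext (h u u.2 v v.2)⟩⟩⟩

variable [Finite G] {p : ℕ} [hp : Fact p.Prime] {a b : G} {m n : ℕ} {c : ℤ}

namespace MCData

variable (h : MCData p a b m n c) (hp2 : p ≠ 2)

theorem vec_inv (g : G) : h.vec g + h.chi g • h.vec g⁻¹ = 0 := by
  rw [← h.vec_mul, mul_inv_cancel, h.vec_one]

/-- The image of a subgroup. -/
noncomputable def img (R : Subgroup G) : Submodule (ZMod (p ^ n)) (V p n) where
  carrier := h.vec '' (R : Set G)
  zero_mem' := ⟨1, one_mem R, h.vec_one⟩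
  add_mem' := by
    rintro _ _ ⟨g, hg, rfl⟩ ⟨g', hg', rfl⟩
    obtain ⟨u, hu⟩ := h.isUnit_chi g
    obtain ⟨t, ht⟩ := h.exists_vec_smul hp2 g' ((u⁻¹ : (ZMod (p ^ n))ˣ) : ZMod (p ^ n))
    exact ⟨g * g' ^ t, mul_mem hg (pow_mem hg' t), by
      rw [h.vec_mul, ht, smul_smul, ← hu, Units.mul_inv, one_smul]⟩
  smul_mem' := by
    rintro s _ ⟨g, hg, rfl⟩
    obtain ⟨t, ht⟩ := h.exists_vec_smul hp2 g s
    exact ⟨g ^ t, pow_mem hg t, ht⟩

/-- The preimage of a submodule. -/
def pre (W : Submodule (ZMod (p ^ n)) (V p n)) : Subgroup G where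
  carrier := {g | h.vec g ∈ W}
  one_mem' := by show h.vec 1 ∈ W; rw [h.vec_one]; exact W.zero_mem
  mul_mem' := by
    intro g g' hg hg'
    show h.vec (g * g') ∈ W
    rw [h.vec_mul]; exact W.add_mem hg (W.smul_mem _ hg')
  inv_mem' := by
    intro g hg
    obtain ⟨u, hu⟩ := h.isUnit_chi g
    show h.vec g⁻¹ ∈ W
    have h1 : h.vec g⁻¹ = -(((u⁻¹ : (ZMod (p ^ n))ˣ) : ZMod (p ^ n)) • h.vec g) := by
      rw [eq_neg_iff_add_eq_zero, add_comm]
      have h2 := congrArg (fun v : V p n => ((u⁻¹ : (ZMod (p ^ n))ˣ) : ZMod (p ^ n)) • v) (h.vec_inv g)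
      simp only [smul_add, smul_smul, smul_zero, ← hu, Units.inv_mul, one_smul] at h2
      exact h2
    rw [h1]; exact W.neg_mem (W.smul_mem _ hg)

theorem mem_pre {W : Submodule (ZMod (p ^ n)) (V p n)} {g : G} : g ∈ h.pre W ↔ h.vec g ∈ W := Iff.rfl

theorem mem_img {R : Subgroup G} {v : V p n} : v ∈ h.img hp2 R ↔ ∃ g ∈ R, h.vec g = v := Iff.rfl

theorem center_le_pre (W : Submodule (ZMod (p ^ n)) (V p n)) : Subgroup.center G ≤ h.pre W := fun g hg => by
  rw [h.mem_pre, (h.mem_center_iff g).mp hg]; exact W.zero_mem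

include hp2 in
theorem vec_surjective : Function.Surjective h.vec := by
  intro v
  have h1 : v ∈ h.img hp2 ⊤ := by
    rw [show v = v.1 • ((1, 0) : V p n) + v.2 • ((0, 1) : V p n) by ext <;> simp]
    exact add_mem (Submodule.smul_mem _ _ ⟨a, trivial, h.vec_a⟩) (Submodule.smul_mem _ _ ⟨b, trivial, h.vec_b⟩)
  obtain ⟨g, -, hg⟩ := h1
  exact ⟨g, hg⟩

theorem img_pre (W : Submodule (ZMod (p ^ n)) (V p n)) : h.img hp2 (h.pre W) = W := by
  ext v
  refine ⟨fun ⟨g, hg, e⟩ => e ▸ hg, fun hv => ?_⟩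
  obtain ⟨g, hg⟩ := h.vec_surjective hp2 v
  exact ⟨g, by show h.vec g ∈ W; rwa [hg], hg⟩

theorem pre_img {R : Subgroup G} (hZ : Subgroup.center G ≤ R) : h.pre (h.img hp2 R) = R := by
  refine le_antisymm (fun g hg => ?_) fun g hg => ⟨g, hg, rfl⟩
  obtain ⟨r, hr, e⟩ := hg
  have h1 := mul_mem hr (hZ ((h.vec_eq_vec_iff r g).mp e))
  rwa [mul_inv_cancel_left] at h1

theorem centralizer_eq (R : Subgroup G) : centralizer (R : Set G) = h.pre (perp (h.img hp2 R)) := by
  ext g
  rw [mem_centralizer_iff, h.mem_pre, mem_perp]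
  constructor
  · rintro hg _ ⟨r, hr, rfl⟩
    exact (h.commute_iff g r).mp (hg r hr).symm
  · intro hg r hr
    exact ((h.commute_iff g r).mpr (hg _ ⟨r, hr, rfl⟩)).symm

theorem comm_iff (R : Subgroup G) : IsMulCommutative ↥R ↔ h.img hp2 R ≤ perp (h.img hp2 R) := by
  rw [isMulCommutative_iff]
  constructor
  · rintro hR _ ⟨g, hg, rfl⟩ _ ⟨g', hg', rfl⟩
    exact (h.commute_iff g g').mp (hR g hg g' hg')
  · intro hR g hg g' hg'
    exact (h.commute_iff g g').mpr (hR ⟨g, hg, rfl⟩ _ ⟨g', hg', rfl⟩)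

include hp2 in
theorem card_eq (R : Subgroup G) :
    Nat.card R = Nat.card (h.img hp2 R) * Nat.card (R ⊓ Subgroup.center G : Subgroup G) := by
  have hK : Nat.card (R ⊓ Subgroup.center G : Subgroup G) = Nat.card ((Subgroup.center G).subgroupOf R) := by
    rw [← card_map_of_injective R.subtype_injective (K := (Subgroup.center G).subgroupOf R), subgroupOf_map_subtype,
      inf_comm]
  rw [hK, Subgroup.card_eq_card_quotient_mul_card_subgroup ((Subgroup.center G).subgroupOf R)]
  congr 1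
  let f : ↥R ⧸ (Subgroup.center G).subgroupOf R → h.img hp2 R :=
    Quotient.lift (fun r : ↥R => (⟨h.vec r, r, r.2, rfl⟩ : h.img hp2 R)) fun r r' e => by
      replace e := mem_subgroupOf.mp (QuotientGroup.leftRel_apply.mp e)
      exact Subtype.ext ((h.vec_eq_vec_iff r r').mpr e)
  refine Nat.card_eq_of_bijective f ⟨?_, ?_⟩
  · rintro ⟨r⟩ ⟨r'⟩ e
    exact QuotientGroup.eq.mpr (mem_subgroupOf.mpr ((h.vec_eq_vec_iff r r').mp (congrArg Subtype.val e)))
  · rintro ⟨_, r, hr, rfl⟩
    exact ⟨(⟨r, hr⟩ : ↥R), rfl⟩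

include hp2 in
theorem card_pre (W : Submodule (ZMod (p ^ n)) (V p n)) :
    Nat.card (h.pre W) = Nat.card W * Nat.card (Subgroup.center G) := by
  rw [h.card_eq hp2, h.img_pre hp2, inf_eq_right.mpr (h.center_le_pre W)]

theorem card_plane : Nat.card (V p n) = p ^ n * p ^ n := by
  rw [Nat.card_prod, Nat.card_zmod]

include h hp2 in
theorem card_group : Nat.card G = p ^ n * p ^ n * Nat.card (Subgroup.center G) := by
  have h1 := h.card_pre hp2 ⊤
  have e : h.pre ⊤ = (⊤ : Subgroup G) := eq_top_iff.mpr fun g _ => (h.mem_pre (W := ⊤)).mpr Submodule.mem_top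
  rw [e, card_top] at h1
  rw [h1, Nat.card_congr Submodule.topEquiv.toEquiv, card_plane]

include h hp2 in
theorem index_center : (Subgroup.center G).index = p ^ n * p ^ n := by
  have h1 := (Subgroup.center G).card_mul_index
  rw [h.card_group hp2, mul_comm (p ^ n * p ^ n)] at h1
  exact Nat.eq_of_mul_eq_mul_left Nat.card_pos h1

include h in
theorem commutator_eq : commutator G = zpowers (a ^ c) := by
  refine le_antisymm ?_ (zpowers_le.mpr ?_)
  · rw [commutator_def, Subgroup.commutator_le]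
    intro g _ g' _
    obtain ⟨z, e, -⟩ := h.comm_eq g g'
    rw [commutatorElement_def, e, zpow_mul]
    exact zpow_mem (mem_zpowers _) z
  · have h1 := commutator_mem_commutator (H₁ := (⊤ : Subgroup G)) (H₂ := ⊤) (g₁ := b) (g₂ := a) trivial trivial
    rw [commutatorElement_def, h.conj, zpow_add, zpow_one, (Commute.self_zpow a c).eq, mul_inv_cancel_right] at h1
    rw [commutator_def]
    exact h1

include h in
theorem card_commutator : Nat.card (commutator G) = p ^ n := by
  rw [h.commutator_eq, Nat.card_zpowers]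
  refine Nat.dvd_antisymm ?_ ?_
  · rw [← Int.natCast_dvd_natCast, orderOf_dvd_iff_zpow_eq_one, ← zpow_mul, ← orderOf_dvd_iff_zpow_eq_one, h.orda]
    push_cast
    exact (h.cn _).mpr dvd_rfl
  · have h1 := pow_orderOf_eq_one (a ^ c)
    rw [← zpow_natCast, ← zpow_mul, ← orderOf_dvd_iff_zpow_eq_one, h.orda] at h1
    push_cast at h1
    exact_mod_cast (h.cn _).mp h1

include h hp2 in
theorem index_commutator : (commutator G).index = p ^ n * Nat.card (Subgroup.center G) := by
  have h1 := (commutator G).card_mul_index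
  rw [h.card_commutator, h.card_group hp2, mul_assoc] at h1
  exact Nat.eq_of_mul_eq_mul_left (pow_pos hp.out.pos n) h1

include h hp2 in
/-- The subgroup of `p ^ s`-th powers. -/
theorem mem_powers_iff {s : ℕ} (hs : s ≤ n) (g : G) :
    g ∈ Subgroup.closure {x : G | ∃ y : G, y ^ p ^ s = x} ↔
      ∃ w, h.vec g = (p : ZMod (p ^ n)) ^ s • w := by
  constructor
  · intro hg
    let W : Submodule (ZMod (p ^ n)) (V p n) :=
      { carrier := {v | ∃ w, v = (p : ZMod (p ^ n)) ^ s • w}
        zero_mem' := ⟨0, (smul_zero _).symm⟩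
        add_mem' := by rintro _ _ ⟨w, rfl⟩ ⟨w', rfl⟩; exact ⟨w + w', (smul_add _ _ _).symm⟩
        smul_mem' := by rintro r _ ⟨w, rfl⟩; exact ⟨r • w, smul_comm _ _ _⟩ }
    have hle : Subgroup.closure {x : G | ∃ y : G, y ^ p ^ s = x} ≤ h.pre W := by
      rw [closure_le]
      rintro _ ⟨y, rfl⟩
      obtain ⟨x, z, -, hv⟩ := h.exists_vec y
      have hchi : h.chi y = ((1 + c * z : ℤ) : ZMod (p ^ n)) := by rw [chi, hv]; push_cast; rfl
      obtain ⟨τ, hτ, -⟩ := geomSum_factor hp.out hp2 (x := 1 + c * z)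
        (by rw [add_sub_cancel_left]; exact h.pc.mul_right z) s 1 (by simpa using hp.out.ne_one)
      rw [mul_one] at hτ
      refine ⟨(τ : ZMod (p ^ n)) • h.vec y, ?_⟩
      rw [h.vec_pow, smul_smul, hchi]
      congr 1
      have h2 : geomSum ((1 + c * z : ℤ) : ZMod (p ^ n)) (p ^ s)
          = ((geomSum (1 + c * z) (p ^ s) : ℤ) : ZMod (p ^ n)) := by simp [geomSum]
      rw [h2, hτ]; push_cast; rfl
    exact hle hg
  · rintro ⟨w, hw⟩
    obtain ⟨i, j, rfl⟩ := h.gen g
    have hi : h.vec (a ^ i * b ^ j) = ((i : ZMod (p ^ n)), geomSum (h.chi b) j) := by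
      rw [h.vec_mul, h.vec_pow, h.vec_pow]
      have h1 : h.chi (a ^ i) = 1 := by rw [chi, h.vec_pow, h.vec_a]; simp
      have h2 : geomSum (h.chi a) i = (i : ZMod (p ^ n)) := by
        rw [show h.chi a = 1 by rw [chi, h.vec_a]; simp]; simp [geomSum]
      rw [h1, h2, h.vec_a, h.vec_b]
      ext <;> simp
    rw [hi] at hw
    have hzero : ∀ x : ℤ, ((x : ZMod (p ^ n))) = (p : ZMod (p ^ n)) ^ s * (0 : ZMod (p ^ n)) →
        (p : ℤ) ^ n ∣ x := fun x hx => by
      rw [mul_zero, ZMod.intCast_zmod_eq_zero_iff_dvd] at hx; exact_mod_cast hx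
    have hdiv : ∀ (x : ℤ) (u : ZMod (p ^ n)), (x : ZMod (p ^ n)) = (p : ZMod (p ^ n)) ^ s * u →
        (p : ℤ) ^ s ∣ x := by
      intro x u hx
      obtain ⟨u', rfl⟩ := ZMod.intCast_surjective u
      have h1 := (ZMod.intCast_eq_intCast_iff x ((p : ℤ) ^ s * u') (p ^ n)).mp (by push_cast; exact hx)
      rw [Int.modEq_iff_dvd] at h1
      push_cast at h1
      have h2 := (pow_dvd_pow (p : ℤ) hs).trans h1
      rwa [dvd_sub_right (dvd_mul_right _ _)] at h2
    have h1 : (p : ℤ) ^ s ∣ (i : ℤ) := hdiv _ w.1 (by push_cast; exact congrArg Prod.fst hw)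
    have h2 : (p : ℤ) ^ s ∣ geomSum (1 + c) j := hdiv _ w.2 (by
      have := congrArg Prod.snd hw
      simp only [chi, h.vec_b, mul_one] at this
      simpa [geomSum] using this)
    obtain ⟨i', rfl⟩ : p ^ s ∣ i := by exact_mod_cast h1
    obtain ⟨j', rfl⟩ := dvd_of_dvd_geomSum hp.out hp2 (by rw [add_sub_cancel_left]; exact h.pc) h2
    exact mul_mem (subset_closure ⟨a ^ i', by rw [← pow_mul, mul_comm]⟩)
      (subset_closure ⟨b ^ j', by rw [← pow_mul, mul_comm]⟩)

include h hp2 in
theorem powers_eq_center : Subgroup.closure {x : G | ∃ y : G, y ^ p ^ n = x} = Subgroup.center G := by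
  ext g
  rw [h.mem_powers_iff hp2 le_rfl, h.mem_center_iff, cast_pow_eq_zero_iff.mpr le_rfl]
  simp

include h hp2 in
/-- A non-abelian subgroup contains the centre. -/
theorem center_le_of_noncomm (hG : IsPGroup p G) {R : Subgroup G} (hR : ¬ IsMulCommutative ↥R) :
    Subgroup.center G ≤ R := by
  rw [h.comm_iff hp2] at hR
  obtain ⟨-, -, -, e, hen, hmem⟩ := (isotropic_or_large _).resolve_left fun hc => hR hc.1
  have hlift : ∀ g : G, (∃ w, h.vec g = (p : ZMod (p ^ n)) ^ e • w) →
      ∃ r ∈ R, r⁻¹ * g ∈ Subgroup.center G := by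
    rintro g ⟨w, hw⟩
    obtain ⟨r, hr, hrv⟩ := hmem w
    exact ⟨r, hr, (h.vec_eq_vec_iff r g).mp (hrv.trans hw.symm)⟩
  let Q : ℕ → Subgroup G := fun t => Subgroup.closure {x : G | ∃ y : G, y ^ p ^ t = x}
  have hcp : ∀ i : ℕ, ∀ z ∈ Subgroup.center G, z ^ p ^ i ∈ Q (n + i) := by
    intro i z hz
    obtain ⟨u, v, rfl⟩ := h.gen z
    rw [← h.powers_eq_center hp2] at hz
    have hv0 := (h.mem_powers_iff hp2 le_rfl _).mp hz
    rw [cast_pow_eq_zero_iff.mpr le_rfl] at hv0
    obtain ⟨w, hw⟩ := hv0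
    rw [zero_smul] at hw
    have hu : h.vec (a ^ u * b ^ v) = ((u : ZMod (p ^ n)), geomSum (h.chi b) v) := by
      rw [h.vec_mul, h.vec_pow, h.vec_pow]
      have h1 : h.chi (a ^ u) = 1 := by rw [chi, h.vec_pow, h.vec_a]; simp
      have h2 : geomSum (h.chi a) u = (u : ZMod (p ^ n)) := by
        rw [show h.chi a = 1 by rw [chi, h.vec_a]; simp]; simp [geomSum]
      rw [h1, h2, h.vec_a, h.vec_b]
      ext <;> simp
    rw [hu] at hw
    obtain ⟨u', rfl⟩ : p ^ n ∣ u := (ZMod.natCast_eq_zero_iff u (p ^ n)).mp (congrArg Prod.fst hw)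
    obtain ⟨v', rfl⟩ : p ^ n ∣ v := by
      have h1 : ((geomSum (1 + c) v : ℤ) : ZMod (p ^ n)) = 0 := by
        have := congrArg Prod.snd hw
        simp only [chi, h.vec_b, mul_one] at this
        simpa [geomSum] using this
      rw [ZMod.intCast_zmod_eq_zero_iff_dvd] at h1
      exact dvd_of_dvd_geomSum (x := 1 + c) hp.out hp2 (by rw [add_sub_cancel_left]; exact h.pc) (by exact_mod_cast h1)
    have hcen : Commute (a ^ (p ^ n * u')) (b ^ (p ^ n * v')) := by
      have h1 : a ^ (p ^ n * u') ∈ Subgroup.center G := by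
        rw [← h.powers_eq_center hp2, mul_comm, pow_mul]
        exact subset_closure ⟨_, rfl⟩
      exact (Subgroup.mem_center_iff.mp h1 _).symm
    rw [hcen.mul_pow]
    exact mul_mem (subset_closure ⟨a ^ u', by rw [← pow_mul, ← pow_mul, pow_add]; congr 1; ring⟩)
      (subset_closure ⟨b ^ v', by rw [← pow_mul, ← pow_mul, pow_add]; congr 1; ring⟩)
  obtain ⟨L, hL⟩ := IsPGroup.iff_card.mp hG
  have key : ∀ d t : ℕ, e ≤ t → L ≤ t + d → Q t ≤ R := by
    intro d
    induction d with
    | zero =>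
      intro t _ hLt
      rw [closure_le]
      rintro _ ⟨y, rfl⟩
      have h1 : y ^ p ^ t = 1 := orderOf_dvd_iff_pow_eq_one.mp
        ((_root_.orderOf_dvd_natCard y).trans (hL ▸ pow_dvd_pow p (by omega)))
      rw [h1]; exact one_mem R
    | succ d ih =>
      intro t het hLt
      have hsucc := ih (t + 1) (by omega) (by omega)
      rw [closure_le]
      rintro _ ⟨y, rfl⟩
      obtain ⟨r, hr, hz⟩ := hlift (y ^ p ^ e)
        ((h.mem_powers_iff hp2 hen.le _).mp (subset_closure ⟨y, rfl⟩))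
      have e1 : y ^ p ^ t = r ^ p ^ (t - e) * (r⁻¹ * y ^ p ^ e) ^ p ^ (t - e) := by
        rw [← Commute.mul_pow (Subgroup.mem_center_iff.mp hz r), mul_inv_cancel_left, ← pow_mul, ← pow_add,
          Nat.add_sub_cancel' het]
      rw [e1]
      refine R.mul_mem (pow_mem hr _) (hsucc ?_)
      have h2 := hcp (t - e) _ hz
      have hmono : Q (n + (t - e)) ≤ Q (t + 1) := by
        refine (closure_le _).mpr ?_
        rintro _ ⟨y', rfl⟩
        refine subset_closure ⟨y' ^ p ^ (n + (t - e) - (t + 1)), ?_⟩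
        rw [← pow_mul, ← pow_add]
        congr 2
        omega
      exact hmono h2
  intro z hz
  refine key L n hen.le (Nat.le_add_left L n) ?_
  rw [show Q n = Subgroup.center G from h.powers_eq_center hp2]
  exact hz

include h hp2 in
theorem card_le_of_comm {R : Subgroup G} (hR : IsMulCommutative ↥R) :
    Nat.card R ≤ p ^ n * Nat.card (Subgroup.center G) := by
  rw [h.card_eq hp2]
  rw [h.comm_iff hp2] at hR
  exact Nat.mul_le_mul ((isotropic_or_large _).resolve_right fun hl => hl.1 hR).2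
    (Subgroup.card_le_of_le inf_le_right)

include h hp2 in
theorem comm_iff_card (hG : IsPGroup p G) (R : Subgroup G) :
    IsMulCommutative ↥R ↔ Nat.card R ≤ p ^ n * Nat.card (Subgroup.center G) := by
  refine ⟨h.card_le_of_comm hp2, fun hle => ?_⟩
  by_contra hR
  have hZ := h.center_le_of_noncomm hp2 hG hR
  rw [h.card_eq hp2, inf_eq_right.mpr hZ] at hle
  rw [h.comm_iff hp2] at hR
  obtain ⟨-, -, hlt, -⟩ := (isotropic_or_large _).resolve_left fun hc => hR hc.1
  have := Nat.le_of_mul_le_mul_right hle Nat.card_pos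
  omega

include h hp2 in
theorem maximal_iff (hG : IsPGroup p G) (L : Subgroup G) :
    Maximal (fun K : Subgroup G => IsMulCommutative ↥K) L ↔ Nat.card L = p ^ n * Nat.card (Subgroup.center G) := by
  constructor
  · rintro ⟨hL, hmax⟩
    have hcomm := (isMulCommutative_iff).mp hL
    have hZ : Subgroup.center G ≤ L := by
      have h1 : IsMulCommutative ↥(h.pre (h.img hp2 L)) := by
        rw [h.comm_iff hp2, h.img_pre hp2]
        exact (h.comm_iff hp2 L).mp hL
      have h2 := hmax h1 fun g hg => ⟨g, hg, rfl⟩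
      exact (h.center_le_pre _).trans h2
    have hW := (h.comm_iff hp2 L).mp hL
    rw [h.card_eq hp2, inf_eq_right.mpr hZ]
    congr 1
    have hWP : h.img hp2 L = perp (h.img hp2 L) := by
      refine le_antisymm hW fun v hv => ?_
      obtain ⟨g, rfl⟩ := h.vec_surjective hp2 v
      have hK : h.img hp2 L ⊔ Submodule.span (ZMod (p ^ n)) {h.vec g} ≤
          perp (h.img hp2 L ⊔ Submodule.span (ZMod (p ^ n)) {h.vec g}) := by
        have hsym : ∀ u w : V p n, det u w = 0 → det w u = 0 := fun u w e => by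
          simp only [det] at e ⊢; linear_combination -e
        refine sup_le (fun u hu w hw => ?_) ?_
        · obtain ⟨w1, hw1, w2, hw2, rfl⟩ := Submodule.mem_sup.mp hw
          obtain ⟨r, rfl⟩ := Submodule.mem_span_singleton.mp hw2
          have e1 := hW hu w1 hw1
          have e2 := hsym _ _ (hv u hu)
          simp only [det, Prod.fst_add, Prod.snd_add, Prod.smul_fst, Prod.smul_snd, smul_eq_mul] at e1 e2 ⊢
          linear_combination e1 + r * e2
        · rw [Submodule.span_singleton_le_iff_mem]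
          intro w hw
          obtain ⟨w1, hw1, w2, hw2, rfl⟩ := Submodule.mem_sup.mp hw
          obtain ⟨r, rfl⟩ := Submodule.mem_span_singleton.mp hw2
          have e1 := hv w1 hw1
          simp only [det, Prod.fst_add, Prod.snd_add, Prod.smul_fst, Prod.smul_snd, smul_eq_mul] at e1 ⊢
          linear_combination e1
      have h1 : IsMulCommutative ↥(h.pre (h.img hp2 L ⊔ Submodule.span (ZMod (p ^ n)) {h.vec g})) := by
        rw [h.comm_iff hp2, h.img_pre hp2]; exact hK
      have h2 := hmax h1 fun r hr => Submodule.mem_sup_left ⟨r, hr, rfl⟩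
      exact ⟨g, h2 (Submodule.mem_sup_right (Submodule.mem_span_singleton_self _)), rfl⟩
    have h3 := card_mul_card_perp (h.img hp2 L)
    rw [← hWP] at h3
    exact Nat.mul_self_inj.mp h3
  · intro hc
    refine ⟨(h.comm_iff_card hp2 hG L).mpr hc.le, fun K hK hLK => ?_⟩
    exact (Subgroup.eq_of_le_of_card_ge hLK ((h.card_le_of_comm hp2 hK).trans hc.ge)).ge

include h hp2 in
theorem centralizer_product (R : Subgroup G) :
    Nat.card R * Nat.card (centralizer (R : Set G)) =
      Nat.card (R ⊓ Subgroup.center G : Subgroup G) * (p ^ n * p ^ n * Nat.card (Subgroup.center G)) := by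
  rw [h.card_eq hp2 R, h.centralizer_eq hp2, h.card_pre hp2, ← card_mul_card_perp (h.img hp2 R)]
  ring

include h hp2 in
theorem centralizerLarge_iff (R : Subgroup G) :
    Cfsg.IsCentralizerLarge R ↔ Subgroup.center G ≤ R := by
  have hmax : Cfsg.maxCentralizerProduct G
      = Nat.card (Subgroup.center G) * (p ^ n * p ^ n * Nat.card (Subgroup.center G)) := by
    refine IsGreatest.csSup_eq ⟨⟨Subgroup.center G, ?_⟩, ?_⟩
    · rw [h.centralizer_product hp2, inf_idem]
    · rintro k ⟨K, rfl⟩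
      rw [h.centralizer_product hp2]
      exact Nat.mul_le_mul_right _ (Subgroup.card_le_of_le inf_le_right)
  rw [Cfsg.IsCentralizerLarge, hmax, h.centralizer_product hp2]
  constructor
  · intro e
    have h1 : Nat.card (R ⊓ Subgroup.center G : Subgroup G) = Nat.card (Subgroup.center G) :=
      Nat.eq_of_mul_eq_mul_right (by have := hp.out.pos; have := Nat.card_pos (α := Subgroup.center G); positivity) e
    exact inf_eq_right.mp (Subgroup.eq_of_le_of_card_ge inf_le_right h1.ge)
  · intro e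
    rw [inf_eq_right.mpr e]

include h hp2 in
theorem central_product (hG : IsPGroup p G) (R : Subgroup G) :
    (¬ IsMulCommutative ↥R → Nat.card R * Nat.card (Subgroup.center R) =
      (p ^ n * Nat.card (Subgroup.center G)) ^ 2) ∧
    (IsMulCommutative ↥R → Nat.card R * Nat.card (Subgroup.center R) = Nat.card R ^ 2) := by
  refine ⟨fun hR => ?_, fun hR => ?_⟩
  · have hZ := h.center_le_of_noncomm hp2 hG hR
    rw [card_center_subgroup, h.card_eq hp2 R, inf_eq_right.mpr hZ]
    rw [h.comm_iff hp2] at hR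
    obtain ⟨-, hle, -⟩ := (isotropic_or_large _).resolve_left fun hc => hR hc.1
    have hinf : R ⊓ centralizer (R : Set G) = centralizer (R : Set G) := by
      refine inf_eq_right.mpr ?_
      rw [h.centralizer_eq hp2]
      intro g hg
      rw [← h.pre_img hp2 hZ]
      exact hle hg
    rw [hinf, h.centralizer_eq hp2, h.card_pre hp2]
    calc Nat.card (h.img hp2 R) * Nat.card (Subgroup.center G)
          * (Nat.card (perp (h.img hp2 R)) * Nat.card (Subgroup.center G))
        = Nat.card (h.img hp2 R) * Nat.card (perp (h.img hp2 R)) * Nat.card (Subgroup.center G) ^ 2 := by ring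
      _ = _ := by rw [card_mul_card_perp]; ring
  · rw [card_center_subgroup, inf_eq_left.mpr, pow_two]
    exact fun g hg => mem_centralizer_iff.mpr fun r hr => isMulCommutative_iff.mp hR r hr g hg

include h hp2 in
theorem centrallyLarge_iff (hG : IsPGroup p G) :
    Cfsg.maxCentralProduct G = (p ^ n * Nat.card (Subgroup.center G)) ^ 2 ∧
      ∀ R : Subgroup G, Cfsg.IsCentrallyLarge R ↔
        (¬ IsMulCommutative ↥R ∨ Maximal (fun K : Subgroup G => IsMulCommutative ↥K) R) := by
  have hmax : Cfsg.maxCentralProduct G = (p ^ n * Nat.card (Subgroup.center G)) ^ 2 := by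
    refine IsGreatest.csSup_eq ⟨?_, ?_⟩
    · by_cases hc : IsMulCommutative ↥(⊤ : Subgroup G)
      · refine ⟨⊤, ?_⟩
        rw [(h.central_product hp2 hG ⊤).2 hc, card_top]
        have h1 := h.card_le_of_comm hp2 hc
        rw [card_top, h.card_group hp2] at h1
        have h2 : p ^ n * p ^ n ≤ p ^ n := Nat.le_of_mul_le_mul_right h1 Nat.card_pos
        have h3 : p ^ n = 1 := by
          have := pow_pos hp.out.pos n
          nlinarith
        rw [h.card_group hp2, h3, one_mul]
      · exact ⟨⊤, (h.central_product hp2 hG ⊤).1 hc⟩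
    · rintro k ⟨R, rfl⟩
      by_cases hR : IsMulCommutative ↥R
      · rw [(h.central_product hp2 hG R).2 hR]
        exact Nat.pow_le_pow_left (h.card_le_of_comm hp2 hR) 2
      · rw [(h.central_product hp2 hG R).1 hR]
  refine ⟨hmax, fun R => ?_⟩
  rw [Cfsg.IsCentrallyLarge, hmax]
  by_cases hR : IsMulCommutative ↥R
  · rw [(h.central_product hp2 hG R).2 hR, h.maximal_iff hp2 hG]
    exact ⟨fun e => Or.inr (Nat.pow_left_injective two_ne_zero e), fun e => by rw [e.resolve_left (not_not.mpr hR)]⟩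
  · rw [(h.central_product hp2 hG R).1 hR]
    exact ⟨fun _ => Or.inl hR, fun _ => rfl⟩

include h hp2 in
theorem eq_double_centralizer {K : Subgroup G} (hK : IsMulCommutative ↥K) (hZ : Subgroup.center G ≤ K) :
    K = centralizer (K : Set G) ⊓ centralizer (centralizer (K : Set G) : Set G) := by
  rw [h.centralizer_eq hp2 K, h.centralizer_eq hp2 (h.pre _), h.img_pre hp2, perp_perp]
  rw [h.comm_iff hp2] at hK
  conv_lhs => rw [← h.pre_img hp2 hZ]
  exact le_antisymm (le_inf (fun g hg => hK hg) le_rfl) inf_le_right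

end MCData

end Cfsg.Agent.TwoGroups
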