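import Mathlib

/-!
Submodules of the plane over `ℤ/pⁿ` and their orthogonals for the determinant form.
-/

set_option autoImplicit false

namespace Cfsg.Agent.TwoGroups.ModPlane

variable {p n : ℕ} [Fact p.Prime]

/-- The plane. -/
abbrev V (p n : ℕ) : Type := ZMod (p ^ n) × ZMod (p ^ n)

/-- The determinant form. -/
def det (v w : V p n) : ZMod (p ^ n) := v.1 * w.2 - v.2 * w.1

theorem exists_pow_unit (x : ZMod (p ^ n)) : ∃ e ≤ n, ∃ u : (ZMod (p ^ n))ˣ, x = (p : ZMod (p ^ n)) ^ e * u := by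
  have hp : p.Prime := Fact.out
  haveI : NeZero (p ^ n) := ⟨pow_ne_zero _ hp.ne_zero⟩
  by_cases hx : x = 0
  · exact ⟨n, le_rfl, 1, by rw [hx, ← Nat.cast_pow, ZMod.natCast_self, zero_mul]⟩
  · have hv : x.val ≠ 0 := fun h => hx ((ZMod.val_eq_zero x).mp h)
    obtain ⟨e, u, hu, he⟩ := Nat.exists_eq_pow_mul_and_not_dvd hv p hp.ne_one
    have hlt := ZMod.val_lt x
    have hen : e ≤ n := by
      by_contra h
      have h1 : p ^ n ≤ p ^ e := Nat.pow_le_pow_right hp.pos (by omega)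
      have h2 : p ^ e ≤ x.val := Nat.le_of_dvd (Nat.pos_of_ne_zero hv) ⟨u, he⟩
      omega
    refine ⟨e, hen, ZMod.unitOfCoprime u ((hp.coprime_iff_not_dvd.mpr hu).symm.pow_right n), ?_⟩
    rw [ZMod.coe_unitOfCoprime, ← Nat.cast_pow, ← Nat.cast_mul, ← he, ZMod.natCast_zmod_val]

theorem cast_pow_eq_zero_iff {e : ℕ} : (p : ZMod (p ^ n)) ^ e = 0 ↔ n ≤ e := by
  rw [← Nat.cast_pow, ZMod.natCast_eq_zero_iff]
  exact Nat.pow_dvd_pow_iff_le_right (Fact.out : p.Prime).one_lt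

theorem pow_dvd_pow_iff' {a b : ℕ} (hb : b < n) :
    (p : ZMod (p ^ n)) ^ a ∣ (p : ZMod (p ^ n)) ^ b ↔ a ≤ b := by
  refine ⟨fun h => ?_, fun h => pow_dvd_pow _ h⟩
  by_contra hab
  obtain ⟨c, hc⟩ := h
  have h1 : (p : ZMod (p ^ n)) ^ (n - 1) = 0 := by
    calc (p : ZMod (p ^ n)) ^ (n - 1) = (p : ZMod (p ^ n)) ^ b * (p : ZMod (p ^ n)) ^ (n - 1 - b) := by
          rw [← pow_add, Nat.add_sub_cancel' (by omega)]
      _ = (p : ZMod (p ^ n)) ^ n * ((p : ZMod (p ^ n)) ^ (a - b - 1) * c) := by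
          rw [hc, ← mul_assoc, ← pow_add, mul_right_comm, ← pow_add]
          congr 2
          omega
      _ = 0 := by rw [cast_pow_eq_zero_iff.mpr le_rfl, zero_mul]
  have := cast_pow_eq_zero_iff.mp h1
  omega

theorem pow_mul_eq_zero_iff {e : ℕ} (he : e ≤ n) (x : ZMod (p ^ n)) :
    (p : ZMod (p ^ n)) ^ e * x = 0 ↔ (p : ZMod (p ^ n)) ^ (n - e) ∣ x := by
  constructor
  · intro h
    obtain ⟨f, hf, u, rfl⟩ := exists_pow_unit x
    rw [← mul_assoc, ← pow_add, Units.mul_left_eq_zero, cast_pow_eq_zero_iff] at h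
    exact dvd_mul_of_dvd_left (pow_dvd_pow _ (by omega)) _
  · rintro ⟨c, rfl⟩
    rw [← mul_assoc, ← pow_add, cast_pow_eq_zero_iff.mpr (by omega), zero_mul]

theorem addOrderOf_pow {e : ℕ} (he : e ≤ n) : addOrderOf ((p : ZMod (p ^ n)) ^ e) = p ^ (n - e) := by
  have hp : p.Prime := Fact.out
  rw [← Nat.cast_pow, ZMod.addOrderOf_coe _ (pow_ne_zero _ hp.ne_zero),
    Nat.gcd_eq_right (pow_dvd_pow p he), Nat.pow_div he hp.pos]

theorem card_multiples {e : ℕ} (he : e ≤ n) :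
    Nat.card {x : ZMod (p ^ n) // (p : ZMod (p ^ n)) ^ e ∣ x} = p ^ (n - e) := by
  rw [← addOrderOf_pow (p := p) he, ← Nat.card_zmultiples]
  refine Nat.card_congr (Equiv.subtypeEquivRight fun x => ?_)
  rw [AddSubgroup.mem_zmultiples_iff]
  constructor
  · rintro ⟨c, rfl⟩
    refine ⟨c.val, ?_⟩
    rw [zsmul_eq_mul, mul_comm]
    congr 1
    exact_mod_cast ZMod.natCast_zmod_val c
  · rintro ⟨k, rfl⟩
    exact ⟨k, by rw [zsmul_eq_mul, mul_comm]⟩

/-- An element of determinant one extends a primitive vector. -/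
theorem exists_frame (v : V p n) : ∃ e ≤ n, ∃ f g : V p n, det f g = 1 ∧ v = (p : ZMod (p ^ n)) ^ e • f := by
  obtain ⟨e1, h1, u1, hu1⟩ := exists_pow_unit v.1
  obtain ⟨e2, h2, u2, hu2⟩ := exists_pow_unit v.2
  rcases le_total e1 e2 with hle | hle
  · refine ⟨e1, h1, ((u1 : ZMod (p ^ n)), (p : ZMod (p ^ n)) ^ (e2 - e1) * u2), (0, ((u1⁻¹ : (ZMod (p ^ n))ˣ) : ZMod (p ^ n))), ?_, ?_⟩
    · simp [det]
    · refine Prod.ext hu1 ?_
      show v.2 = (p : ZMod (p ^ n)) ^ e1 * ((p : ZMod (p ^ n)) ^ (e2 - e1) * u2)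
      rw [hu2, ← mul_assoc, ← pow_add, Nat.add_sub_cancel' hle]
  · refine ⟨e2, h2, ((p : ZMod (p ^ n)) ^ (e1 - e2) * u1, (u2 : ZMod (p ^ n))), (-((u2⁻¹ : (ZMod (p ^ n))ˣ) : ZMod (p ^ n)), 0), ?_, ?_⟩
    · simp [det]
    · refine Prod.ext ?_ hu2
      show v.1 = (p : ZMod (p ^ n)) ^ e2 * ((p : ZMod (p ^ n)) ^ (e1 - e2) * u1)
      rw [hu1, ← mul_assoc, ← pow_add, Nat.add_sub_cancel' hle]

theorem coords {f g : V p n} (hfg : det f g = 1) (v : V p n) :
    v = det v g • f + det f v • g := by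
  simp only [det] at hfg ⊢
  refine Prod.ext ?_ ?_
  · simp only [Prod.fst_add, Prod.smul_fst, smul_eq_mul]
    linear_combination (-v.1) * hfg
  · simp only [Prod.snd_add, Prod.smul_snd, smul_eq_mul]
    linear_combination (-v.2) * hfg

theorem det_comb {f g : V p n} (hfg : det f g = 1) (a b c d : ZMod (p ^ n)) :
    det (a • f + b • g) (c • f + d • g) = a * d - b * c := by
  simp only [det, Prod.fst_add, Prod.snd_add, Prod.smul_fst, Prod.smul_snd, smul_eq_mul] at hfg ⊢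
  linear_combination (a * d - b * c) * hfg

/-- The orthogonal of a submodule. -/
def perp (W : Submodule (ZMod (p ^ n)) (V p n)) : Submodule (ZMod (p ^ n)) (V p n) where
  carrier := {x | ∀ w ∈ W, det x w = 0}
  zero_mem' := fun w _ => by simp [det]
  add_mem' := fun {a b} ha hb w hw => by
    have h1 := ha w hw
    have h2 := hb w hw
    simp only [det, Prod.fst_add, Prod.snd_add] at h1 h2 ⊢
    linear_combination h1 + h2
  smul_mem' := fun c a ha w hw => by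
    have h1 := ha w hw
    simp only [det, Prod.smul_fst, Prod.smul_snd, smul_eq_mul] at h1 ⊢
    linear_combination c * h1

theorem mem_perp {W : Submodule (ZMod (p ^ n)) (V p n)} {x : V p n} :
    x ∈ perp W ↔ ∀ w ∈ W, det x w = 0 := Iff.rfl

/-- Adapted bases. -/
theorem smith (W : Submodule (ZMod (p ^ n)) (V p n)) :
    ∃ f g : V p n, det f g = 1 ∧ ∃ e1 e2 : ℕ, e1 ≤ e2 ∧ e2 ≤ n ∧
      ∀ v, v ∈ W ↔ (p : ZMod (p ^ n)) ^ e1 ∣ det v g ∧ (p : ZMod (p ^ n)) ^ e2 ∣ det f v := by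
  classical
  have hex : ∃ e, ∃ v ∈ W, ∃ f g : V p n, det f g = 1 ∧ v = (p : ZMod (p ^ n)) ^ e • f := by
    obtain ⟨e, -, f, g, hfg, he⟩ := exists_frame (0 : V p n)
    exact ⟨e, 0, W.zero_mem, f, g, hfg, he⟩
  set e1 := Nat.find hex
  obtain ⟨v0, hv0, f, g, hfg, rfl⟩ := Nat.find_spec hex
  have he1 : e1 ≤ n := by
    obtain ⟨e, he, f', g', hfg', hv⟩ := exists_frame (0 : V p n)
    exact (Nat.find_le ⟨0, W.zero_mem, f', g', hfg', hv⟩).trans he
  have hdiv : ∀ w ∈ W, (p : ZMod (p ^ n)) ^ e1 ∣ det w g ∧ (p : ZMod (p ^ n)) ^ e1 ∣ det f w := by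
    intro w hw
    obtain ⟨e, he, f', g', hfg', rfl⟩ := exists_frame w
    have hle : e1 ≤ e := Nat.find_le ⟨_, hw, f', g', hfg', rfl⟩
    simp only [det, Prod.smul_fst, Prod.smul_snd, smul_eq_mul]
    exact ⟨(pow_dvd_pow _ hle).trans ⟨det f' g, by simp only [det]; ring⟩,
      (pow_dvd_pow _ hle).trans ⟨det f f', by simp only [det]; ring⟩⟩
  have hex2 : ∃ e, (p : ZMod (p ^ n)) ^ e • g ∈ W :=
    ⟨n, by rw [cast_pow_eq_zero_iff.mpr le_rfl, zero_smul]; exact W.zero_mem⟩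
  set e2 := Nat.find hex2
  have he2 : e2 ≤ n := Nat.find_le (by rw [cast_pow_eq_zero_iff.mpr le_rfl, zero_smul]; exact W.zero_mem)
  have h12 : e1 ≤ e2 := by
    by_contra hlt
    have h1 := (hdiv _ (Nat.find_spec hex2)).2
    have h2 : det f ((p : ZMod (p ^ n)) ^ e2 • g) = (p : ZMod (p ^ n)) ^ e2 := by
      simp only [det, Prod.smul_fst, Prod.smul_snd, smul_eq_mul] at hfg ⊢
      linear_combination (p : ZMod (p ^ n)) ^ e2 * hfg
    rw [h2] at h1
    have := (pow_dvd_pow_iff' (p := p) (by omega : e2 < n)).mp h1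
    omega
  refine ⟨f, g, hfg, e1, e2, h12, he2, fun v => ⟨fun hv => ⟨(hdiv v hv).1, ?_⟩, ?_⟩⟩
  · have h1 : det f v • g ∈ W := by
      obtain ⟨c, hc⟩ := (hdiv v hv).1
      have h2 : det v g • f ∈ W := by
        rw [hc, mul_comm, mul_smul]; exact W.smul_mem c hv0
      have h3 := W.sub_mem hv h2
      nth_rewrite 1 [coords hfg v] at h3
      rwa [add_sub_cancel_left] at h3
    obtain ⟨e, he, u, hu⟩ := exists_pow_unit (det f v)
    have h4 : (p : ZMod (p ^ n)) ^ e • g ∈ W := by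
      have h5 := W.smul_mem ((u⁻¹ : (ZMod (p ^ n))ˣ) : ZMod (p ^ n)) h1
      rw [hu, smul_smul, mul_comm, mul_assoc, Units.mul_inv, mul_one] at h5
      exact h5
    rw [hu]
    exact dvd_mul_of_dvd_left (pow_dvd_pow _ (Nat.find_le h4)) _
  · rintro ⟨⟨c, hc⟩, ⟨d, hd⟩⟩
    rw [coords hfg v, hc, hd, mul_comm _ c, mul_comm _ d, mul_smul, mul_smul]
    exact W.add_mem (W.smul_mem c hv0) (W.smul_mem d (Nat.find_spec hex2))

theorem card_of_coords {f g : V p n} (hfg : det f g = 1) {e1 e2 : ℕ} (h1 : e1 ≤ n) (h2 : e2 ≤ n)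
    {W : Submodule (ZMod (p ^ n)) (V p n)}
    (hW : ∀ v, v ∈ W ↔ (p : ZMod (p ^ n)) ^ e1 ∣ det v g ∧ (p : ZMod (p ^ n)) ^ e2 ∣ det f v) :
    Nat.card W = p ^ (n - e1) * p ^ (n - e2) := by
  haveI : NeZero (p ^ n) := ⟨pow_ne_zero _ (Fact.out : p.Prime).ne_zero⟩
  rw [← card_multiples (p := p) h1, ← card_multiples (p := p) h2, ← Nat.card_prod]
  have hco : ∀ a b : ZMod (p ^ n), det (a • f + b • g) g = a ∧ det f (a • f + b • g) = b := by
    intro a b
    simp only [det, Prod.fst_add, Prod.snd_add, Prod.smul_fst, Prod.smul_snd, smul_eq_mul] at hfg ⊢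
    constructor
    · linear_combination a * hfg
    · linear_combination b * hfg
  exact Nat.card_congr
    { toFun := fun v => (⟨det v.1 g, ((hW v.1).mp v.2).1⟩, ⟨det f v.1, ((hW v.1).mp v.2).2⟩)
      invFun := fun q => ⟨q.1.1 • f + q.2.1 • g, (hW _).mpr ⟨(hco _ _).1 ▸ q.1.2, (hco _ _).2 ▸ q.2.2⟩⟩
      left_inv := fun v => Subtype.ext (coords hfg v.1).symm
      right_inv := fun q => Prod.ext (Subtype.ext (hco _ _).1) (Subtype.ext (hco _ _).2) }

theorem perp_coords {f g : V p n} (hfg : det f g = 1) {e1 e2 : ℕ} (h1 : e1 ≤ n) (h2 : e2 ≤ n)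
    {W : Submodule (ZMod (p ^ n)) (V p n)}
    (hW : ∀ v, v ∈ W ↔ (p : ZMod (p ^ n)) ^ e1 ∣ det v g ∧ (p : ZMod (p ^ n)) ^ e2 ∣ det f v) (x : V p n) :
    x ∈ perp W ↔ (p : ZMod (p ^ n)) ^ (n - e2) ∣ det x g ∧ (p : ZMod (p ^ n)) ^ (n - e1) ∣ det f x := by
  have hf : (p : ZMod (p ^ n)) ^ e1 • f ∈ W := by
    refine (hW _).mpr ⟨⟨1, ?_⟩, ⟨0, ?_⟩⟩ <;>
      simp only [det, Prod.smul_fst, Prod.smul_snd, smul_eq_mul] at hfg ⊢
    · linear_combination (p : ZMod (p ^ n)) ^ e1 * hfg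
    · ring
  have hg : (p : ZMod (p ^ n)) ^ e2 • g ∈ W := by
    refine (hW _).mpr ⟨⟨0, ?_⟩, ⟨1, ?_⟩⟩ <;>
      simp only [det, Prod.smul_fst, Prod.smul_snd, smul_eq_mul] at hfg ⊢
    · ring
    · linear_combination (p : ZMod (p ^ n)) ^ e2 * hfg
  constructor
  · intro hx
    refine ⟨(pow_mul_eq_zero_iff h2 _).mp ?_, (pow_mul_eq_zero_iff h1 _).mp ?_⟩
    · have := hx _ hg
      simp only [det, Prod.smul_fst, Prod.smul_snd, smul_eq_mul] at this ⊢
      linear_combination this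
    · have := hx _ hf
      simp only [det, Prod.smul_fst, Prod.smul_snd, smul_eq_mul] at this ⊢
      linear_combination -this
  · rintro ⟨hc, hd⟩ w hw
    obtain ⟨⟨c, hc'⟩, ⟨d, hd'⟩⟩ := (hW w).mp hw
    rw [coords hfg x, coords hfg w, det_comb hfg]
    have e1' : det x g * det f w = 0 := by
      rw [hd', mul_left_comm, ← mul_assoc, (pow_mul_eq_zero_iff h2 _).mpr hc, zero_mul]
    have e2' : det f x * det w g = 0 := by
      rw [hc', mul_left_comm, ← mul_assoc, (pow_mul_eq_zero_iff h1 _).mpr hd, zero_mul]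
    rw [e1', e2', sub_zero]

theorem card_mul_card_perp (W : Submodule (ZMod (p ^ n)) (V p n)) :
    Nat.card W * Nat.card (perp W) = p ^ n * p ^ n := by
  obtain ⟨f, g, hfg, e1, e2, h12, h2, hW⟩ := smith W
  rw [card_of_coords hfg (h12.trans h2) h2 hW,
    card_of_coords hfg (Nat.sub_le _ _) (Nat.sub_le _ _) (perp_coords hfg (h12.trans h2) h2 hW)]
  simp only [← pow_add]
  congr 1
  omega

theorem perp_perp (W : Submodule (ZMod (p ^ n)) (V p n)) : perp (perp W) = W := by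
  obtain ⟨f, g, hfg, e1, e2, h12, h2, hW⟩ := smith W
  ext x
  rw [perp_coords hfg (Nat.sub_le _ _) (Nat.sub_le _ _) (perp_coords hfg (h12.trans h2) h2 hW), hW,
    show n - (n - e1) = e1 by omega, show n - (n - e2) = e2 by omega]

/-- Submodules are isotropic or large. -/
theorem isotropic_or_large (W : Submodule (ZMod (p ^ n)) (V p n)) :
    (W ≤ perp W ∧ Nat.card W ≤ p ^ n) ∨
    (¬ W ≤ perp W ∧ perp W ≤ W ∧ p ^ n < Nat.card W ∧
      ∃ e < n, ∀ v, (p : ZMod (p ^ n)) ^ e • v ∈ W) := by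
  have hp : p.Prime := Fact.out
  obtain ⟨f, g, hfg, e1, e2, h12, h2, hW⟩ := smith W
  have hP := perp_coords hfg (h12.trans h2) h2 hW
  have hc := card_of_coords hfg (h12.trans h2) h2 hW
  rw [← pow_add] at hc
  rcases le_or_gt n (e1 + e2) with h | h
  · refine Or.inl ⟨fun x hx => ?_, hc ▸ Nat.pow_le_pow_right hp.pos (by omega)⟩
    obtain ⟨a, b⟩ := (hW x).mp hx
    exact (hP x).mpr ⟨(pow_dvd_pow _ (by omega)).trans a, (pow_dvd_pow _ (by omega)).trans b⟩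
  · refine Or.inr ⟨fun hle => ?_, fun x hx => ?_, hc ▸ Nat.pow_lt_pow_right hp.one_lt (by omega), e2, by omega,
      fun v => ?_⟩
    · have hf : (p : ZMod (p ^ n)) ^ e1 • f ∈ W := by
        refine (hW _).mpr ⟨⟨1, ?_⟩, ⟨0, ?_⟩⟩ <;>
          simp only [det, Prod.smul_fst, Prod.smul_snd, smul_eq_mul] at hfg ⊢
        · linear_combination (p : ZMod (p ^ n)) ^ e1 * hfg
        · ring
      have h1 := ((hP _).mp (hle hf)).1
      have e : det ((p : ZMod (p ^ n)) ^ e1 • f) g = (p : ZMod (p ^ n)) ^ e1 := by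
        simp only [det, Prod.smul_fst, Prod.smul_snd, smul_eq_mul] at hfg ⊢
        linear_combination (p : ZMod (p ^ n)) ^ e1 * hfg
      rw [e] at h1
      have := (pow_dvd_pow_iff' (p := p) (by omega : e1 < n)).mp h1
      omega
    · obtain ⟨a, b⟩ := (hP x).mp hx
      exact (hW x).mpr ⟨(pow_dvd_pow _ (by omega)).trans a, (pow_dvd_pow _ (by omega)).trans b⟩
    · refine (hW _).mpr ⟨(pow_dvd_pow _ h12).trans ⟨det v g, ?_⟩, ⟨det f v, ?_⟩⟩ <;>
        simp only [det, Prod.smul_fst, Prod.smul_snd, smul_eq_mul] <;> ring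

/-- The vectors orthogonal to one vector. -/
theorem card_annihilator {e : ℕ} (he : e ≤ n) {f g : V p n} (hfg : det f g = 1) :
    Nat.card (perp (Submodule.span (ZMod (p ^ n)) {(p : ZMod (p ^ n)) ^ e • f})) = p ^ (n + e) := by
  set W := Submodule.span (ZMod (p ^ n)) {(p : ZMod (p ^ n)) ^ e • f}
  have hW : ∀ v, v ∈ W ↔ (p : ZMod (p ^ n)) ^ e ∣ det v g ∧ (p : ZMod (p ^ n)) ^ n ∣ det f v := by
    intro v
    rw [Submodule.mem_span_singleton]
    constructor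
    · rintro ⟨c, rfl⟩
      refine ⟨⟨c, ?_⟩, ⟨0, ?_⟩⟩ <;> simp only [det, Prod.smul_fst, Prod.smul_snd, smul_eq_mul] at hfg ⊢
      · linear_combination c * (p : ZMod (p ^ n)) ^ e * hfg
      · ring
    · rintro ⟨⟨c, hc⟩, ⟨d, hd⟩⟩
      refine ⟨c, ?_⟩
      rw [coords hfg v, hc, hd, cast_pow_eq_zero_iff.mpr le_rfl, zero_mul, zero_smul, add_zero, smul_smul, mul_comm]
  rw [card_of_coords hfg (Nat.sub_le _ _) (Nat.sub_le _ _) (perp_coords hfg he le_rfl hW), ← pow_add]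
  congr 1
  omega

/-- The number of vectors divisible by a power of `p`. -/
theorem card_pow_multiples {e : ℕ} (he : e ≤ n) :
    Nat.card {v : V p n // ∃ w, v = (p : ZMod (p ^ n)) ^ e • w} = p ^ (2 * (n - e)) := by
  rw [two_mul, pow_add, ← card_multiples (p := p) he, ← Nat.card_prod]
  exact Nat.card_congr
    { toFun := fun v => (⟨v.1.1, by obtain ⟨w, hw⟩ := v.2; exact ⟨w.1, by rw [hw]; rfl⟩⟩,
        ⟨v.1.2, by obtain ⟨w, hw⟩ := v.2; exact ⟨w.2, by rw [hw]; rfl⟩⟩)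
      invFun := fun q => ⟨(q.1.1, q.2.1), by
        obtain ⟨a, ha⟩ := q.1.2
        obtain ⟨b, hb⟩ := q.2.2
        exact ⟨(a, b), Prod.ext ha hb⟩⟩
      left_inv := fun v => rfl
      right_inv := fun q => rfl }

end Cfsg.Agent.TwoGroups.ModPlane
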