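import Cfsg.Agent.TwoGroups.PSLEvenSol

/-!
Counting solubilizers in `PSL₂(2^p)`.
-/

set_option autoImplicit false
set_option linter.style.haveILetI false
set_option linter.unusedSectionVars false
open scoped Classical

namespace Cfsg.Agent.TwoGroups.PSLEven

open Matrix Cfsg.Agent.Linear

variable {F : Type*} [Field F] [Fintype F]

local notation "PSL" => Matrix.ProjectiveSpecialLinearGroup (Fin 2) F
local notation "Nz" P => Subgroup.normalizer (((P : Sylow 2 (Matrix.ProjectiveSpecialLinearGroup (Fin 2) F)) : Subgroup (Matrix.ProjectiveSpecialLinearGroup (Fin 2) F)) : Set (Matrix.ProjectiveSpecialLinearGroup (Fin 2) F))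
local notation "Cz" x => Subgroup.centralizer ({x} : Set (Matrix.ProjectiveSpecialLinearGroup (Fin 2) F))
local notation "NC" x => Subgroup.normalizer ((Subgroup.centralizer ({x} : Set (Matrix.ProjectiveSpecialLinearGroup (Fin 2) F))) : Set (Matrix.ProjectiveSpecialLinearGroup (Fin 2) F))

/-- No proper subfields of order at least four. -/
def NoSub (F : Type*) [Fintype F] : Prop :=
  ∀ (F₀ : Type) (_ : Field F₀) (_ : Fintype F₀) (r : ℕ), r.Prime →
    Fintype.card F = Fintype.card F₀ ^ r → Fintype.card F₀ = 2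

variable {f : ℕ} (hf : Hyp F f)
include hf

theorem nc_ne_top {x : PSL} (hx : x ≠ 1) (hne : Nat.card (Cz x) ≤ Fintype.card F + 1) : (NC x) ≠ ⊤ := by
  refine Cfsg.Agent.Linear.PSL2Max.normalizer_ne_top (four_le hf) ?_ ?_
  · intro h
    exact hx (Subgroup.mem_bot.1 (h ▸ (Subgroup.mem_centralizer_singleton_iff.2 rfl : x ∈ Cz x)))
  · intro h
    rw [h, Subgroup.card_top, card_group hf, PSL2ClassSizes.sq_sub_one_eq] at hne
    have := four_le hf
    obtain ⟨d, hd⟩ : ∃ d, Fintype.card F = d + 2 := ⟨Fintype.card F - 2, by omega⟩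
    rw [hd, show d + 2 - 1 = d + 1 by omega] at hne
    have hd2 : 2 ≤ d := by omega
    nlinarith [Nat.mul_le_mul (le_refl (d + 2)) (Nat.mul_le_mul (le_refl (d + 2 + 1)) (show 2 ≤ d + 1 by omega))]

theorem frame_eq {P P' : Sylow 2 PSL} (hne : P' ≠ P) {c : PSL} (h : c ∈ (Nz P)) (h' : c ∈ (Nz P'))
    (hc : c ≠ 1) : Plus c ∧ (Cz c) = (Nz P) ⊓ (Nz P') := by
  have hcP : c ∉ (P : Subgroup PSL) := fun hm =>
    hne (sylow_eq_of_mem hf hm (sylow_norm hf P' ((sylow_elem hf P).1 c hm) h') hc).symm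
  have hplus := plus_of_mem_norm hf h hcP
  obtain ⟨A, B, hAB, -, -, huniq, hC⟩ := plus_frame hf hplus
  refine ⟨hplus, ?_⟩
  rcases huniq P h with rfl | rfl <;> rcases huniq P' h' with rfl | rfl
  · exact absurd rfl hne
  · exact hC
  · rw [hC, inf_comm]
  · exact absurd rfl hne

omit hf in
theorem zpowers_norm_le (x : PSL) : Subgroup.normalizer (Subgroup.zpowers x : Set PSL) ≤ NC x := by
  intro n hn
  refine Subgroup.mem_normalizer_fintype fun c hc => ?_
  rw [SetLike.mem_coe, Subgroup.mem_centralizer_singleton_iff] at hc ⊢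
  have hy : n⁻¹ * x * n ∈ Subgroup.zpowers x := by
    have := (Subgroup.mem_normalizer_iff.1 (inv_mem hn) x).1 (Subgroup.mem_zpowers x)
    rwa [inv_inv] at this
  obtain ⟨i, hi⟩ := hy
  have hcomm : c * (n⁻¹ * x * n) = n⁻¹ * x * n * c := by
    rw [← hi]; exact (Commute.zpow_right hc i).eq
  calc n * c * n⁻¹ * x = n * (c * (n⁻¹ * x * n)) * n⁻¹ := by group
    _ = x * (n * c * n⁻¹) := by rw [hcomm]; group

/-- The data attached to an element of the split torus. -/
theorem plus_data {x : PSL} (hx : Plus x) {P P' : Sylow 2 PSL} (hne : P' ≠ P) (hP : x ∈ (Nz P))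
    (hP' : x ∈ (Nz P')) (huniq : ∀ Q : Sylow 2 PSL, x ∈ (Nz Q) → Q = P ∨ Q = P')
    (hC : (Cz x) = (Nz P) ⊓ (Nz P')) :
    (∀ n ∈ (NC x), n ∈ (Nz P) → n ∈ (Cz x)) ∧ (∀ n ∈ (NC x), n ∉ (Cz x) → n * n = 1) ∧
      Nat.card (NC x) = 2 * (Fintype.card F - 1) := by
  have himg : ∀ n ∈ (NC x), ∀ Q : Sylow 2 PSL, (Q = P ∨ Q = P') → n • Q = P ∨ n • Q = P' := by
    intro n hn Q hQ
    apply huniq
    have h1 : n⁻¹ * x * n ∈ (Cz x) := by
      have := (Subgroup.mem_normalizer_iff.1 (inv_mem hn) x).1 (Subgroup.mem_centralizer_singleton_iff.2 rfl)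
      rwa [inv_inv] at this
    rw [hC] at h1
    have h2 : n⁻¹ * x * n ∈ (Nz Q) := by rcases hQ with rfl | rfl; exacts [h1.1, h1.2]
    apply Sylow.smul_eq_iff_mem_normalizer.1
    have h3 := congrArg (fun R => n • R) (Sylow.smul_eq_iff_mem_normalizer.2 h2)
    simp only [← mul_smul] at h3
    rw [← mul_smul]
    convert h3 using 2
    group
  have h1 : ∀ n ∈ (NC x), n ∈ (Nz P) → n ∈ (Cz x) := by
    intro n hn hnP
    rw [hC]
    refine ⟨hnP, Sylow.smul_eq_iff_mem_normalizer.1 ?_⟩
    rcases himg n hn P' (Or.inr rfl) with h | h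
    · exact absurd (smul_left_cancel n (h.trans (Sylow.smul_eq_iff_mem_normalizer.2 hnP).symm)) hne
    · exact h
  have hswap : ∀ n ∈ (NC x), n ∉ (Cz x) → n • P = P' ∧ n • P' = P := by
    intro n hn hnC
    have hP1 : n • P = P' := (himg n hn P (Or.inl rfl)).resolve_left fun h =>
      hnC (h1 n hn (Sylow.smul_eq_iff_mem_normalizer.1 h))
    exact ⟨hP1, (himg n hn P' (Or.inr rfl)).resolve_right fun h =>
      hne (smul_left_cancel n (h.trans hP1.symm))⟩
  refine ⟨h1, ?_, ?_⟩
  · intro n hn hnC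
    obtain ⟨hs1, hs2⟩ := hswap n hn hnC
    by_contra hne1
    have hm1 : n * n ∈ (Nz P) := Sylow.smul_eq_iff_mem_normalizer.1 (by rw [mul_smul, hs1, hs2])
    have hm2 : n * n ∈ (Nz P') := Sylow.smul_eq_iff_mem_normalizer.1 (by rw [mul_smul, hs2, hs1])
    obtain ⟨-, hC2⟩ := frame_eq hf hne hm1 hm2 hne1
    apply hnC
    rw [hC, ← hC2]
    exact Subgroup.mem_centralizer_singleton_iff.2 (mul_assoc n n n).symm
  · haveI := charTwo hf
    haveI : Fact (Nat.Prime 2) := ⟨Nat.prime_two⟩
    have hnm : Cfsg.Agent.Linear.PSL2Max.nm F = Fintype.card F - 1 := by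
      rcases Cfsg.Agent.Linear.PSL2Max.parity (F := F) with ⟨-, -, h, -⟩ | ⟨h, -⟩
      · exact h
      · have := even hf; omega
    have hx2 : ¬ 2 ∣ orderOf x := fun h2 => by
      have h3 := dvd_trans h2 (hx.2 ▸ orderOf_dvd_cent hf x)
      have := odd_pred hf; rw [Nat.odd_iff] at this; omega
    have hlow := (Cfsg.Agent.Linear.PSL2Max.normalizer_lower 2 hx.1 hx2).trans
      (Subgroup.card_le_of_le (zpowers_norm_le x))
    rw [hnm] at hlow
    refine le_antisymm ?_ hlow
    have hCle : (Cz x) ≤ NC x := Subgroup.le_normalizer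
    obtain ⟨w, hw, hwC⟩ : ∃ w ∈ (NC x), w ∉ (Cz x) := by
      by_contra h
      push Not at h
      have := Subgroup.card_le_of_le (show (NC x) ≤ (Cz x) from h)
      rw [hx.2] at this
      have := four_le hf; omega
    let m : ↥(Cz x) × Bool → ↥(NC x) := fun t =>
      ⟨(if t.2 then w else 1) * t.1, mul_mem (by split_ifs; exacts [hw, one_mem _]) (hCle t.1.2)⟩
    have hm : Function.Surjective m := by
      rintro ⟨n, hn⟩
      by_cases hnC : n ∈ (Cz x)
      · exact ⟨(⟨n, hnC⟩, false), Subtype.ext (by simp [m])⟩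
      · have hmem : w⁻¹ * n ∈ (Cz x) := by
          refine h1 _ (mul_mem (inv_mem hw) hn) (Sylow.smul_eq_iff_mem_normalizer.1 ?_)
          rw [mul_smul, (hswap n hn hnC).1, inv_smul_eq_iff, (hswap w hw hwC).1]
        exact ⟨(⟨_, hmem⟩, true), Subtype.ext (by simp [m])⟩
    have := Nat.card_le_card_of_surjective m hm
    rw [Nat.card_prod, hx.2, Nat.card_eq_fintype_card (α := Bool), Fintype.card_bool] at this
    omega

theorem pr_plus (hmin : NoSub F) {x : PSL} (hx : Plus x) {P P' : Sylow 2 PSL} (hP : x ∈ (Nz P))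
    (hP' : x ∈ (Nz P')) (huniq : ∀ Q : Sylow 2 PSL, x ∈ (Nz Q) → Q = P ∨ Q = P') (y : PSL) :
    Pr x y ↔ y ∈ (Nz P) ∨ y ∈ (Nz P') ∨ y ∈ (NC x) := by
  constructor
  · intro h
    obtain ⟨M, hM, hle⟩ := (IsCoatomic.eq_top_or_exists_le_coatom _).resolve_left h
    have hxM : x ∈ M := hle (Subgroup.subset_closure (by simp))
    have hyM : y ∈ M := hle (Subgroup.subset_closure (by simp))
    rcases coatom_cases hf hmin hM with ⟨Q, rfl⟩ | ⟨⟨e⟩⟩ | ⟨⟨e⟩⟩
    · rcases huniq Q hxM with rfl | rfl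
      · exact Or.inl hyM
      · exact Or.inr (Or.inl hyM)
    all_goals exact Or.inr (Or.inr (dihedral_conj hf e hxM (not_sq_of_plus hf hx) hyM))
  · rintro (h | h | h)
    · exact pr_of_mem (norm_ne_top hf P) hP h
    · exact pr_of_mem (norm_ne_top hf P') hP' h
    · exact pr_of_mem (nc_ne_top hf hx.1 (by rw [hx.2]; omega))
        (Subgroup.le_normalizer (Subgroup.mem_centralizer_singleton_iff.2 rfl)) h

theorem minus_data (hmin : NoSub F) {x : PSL} (hx : Minus x) :
    (∀ y, Pr x y ↔ y ∈ (NC x)) ∧ Nonempty (↥(NC x) ≃* DihedralGroup (Fintype.card F + 1)) := by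
  have hne := nc_ne_top hf hx.1 hx.2.le
  have hxN : x ∈ NC x := Subgroup.le_normalizer (Subgroup.mem_centralizer_singleton_iff.2 rfl)
  have key : ∀ M : Subgroup PSL, IsCoatom M → x ∈ M →
      M = (NC x) ∧ Nonempty (M ≃* DihedralGroup (Fintype.card F + 1)) := by
    intro M hM hxM
    have hd : orderOf x ∣ Fintype.card F + 1 := hx.2 ▸ orderOf_dvd_cent hf x
    have hdM : orderOf x ∣ Nat.card M := Subgroup.orderOf_dvd_natCard _ hxM
    have hbad : orderOf x ∣ Fintype.card F * (Fintype.card F - 1) → False := fun h =>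
      hx.1 (eq_one_of_dvd_both hf h hd)
    rcases coatom_cases hf hmin hM with ⟨Q, rfl⟩ | ⟨⟨e⟩⟩ | ⟨⟨e⟩⟩
    · rw [card_norm hf Q] at hdM; exact (hbad hdM).elim
    · rw [Nat.card_congr e.toEquiv, DihedralGroup.nat_card] at hdM
      exact (hbad (hdM.trans (Nat.mul_dvd_mul_right (Nat.dvd_of_mod_eq_zero (even hf)) _))).elim
    · exact ⟨((hM.le_iff_eq hne).1 (dihedral_conj hf e hxM (not_sq_of_minus hf hx))).symm, ⟨e⟩⟩
  obtain ⟨M, hM, hle⟩ := (IsCoatomic.eq_top_or_exists_le_coatom (NC x)).resolve_left hne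
  obtain ⟨rfl, he⟩ := key M hM (hle hxN)
  refine ⟨fun y => ⟨fun h => ?_, pr_of_mem hne hxN⟩, he⟩
  obtain ⟨M', hM', hle'⟩ := (IsCoatomic.eq_top_or_exists_le_coatom _).resolve_left h
  rw [← (key M' hM' (hle' (Subgroup.subset_closure (by simp)))).1]
  exact hle' (Subgroup.subset_closure (by simp))

theorem pr_invol {v w : PSL} (hv : v * v = 1) (hw : w * w = 1) : Pr v w := by
  intro htop
  haveI := simple hf
  have hnc : ∀ a b : PSL, a * b = b * a → False ∨ True := fun _ _ _ => Or.inr trivial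
  have hvi : v⁻¹ = v := inv_eq_of_mul_eq_one_right hv
  have hwi : w⁻¹ = w := inv_eq_of_mul_eq_one_right hw
  set Z := Subgroup.zpowers (v * w)
  have hle : (⊤ : Subgroup PSL) ≤ Subgroup.normalizer (Z : Set PSL) := by
    rw [← htop, Subgroup.closure_le]
    have hgen : ∀ s : PSL, s * (v * w) * s⁻¹ = (v * w)⁻¹ → s ∈ Subgroup.normalizer (Z : Set PSL) := by
      intro s hs
      refine Subgroup.mem_normalizer_fintype ?_
      rintro _ ⟨i, rfl⟩
      refine ⟨-i, ?_⟩
      show (v * w) ^ (-i) = s * (v * w) ^ i * s⁻¹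
      rw [← conj_zpow, hs, _root_.inv_zpow, _root_.zpow_neg]
    rintro s (rfl | rfl)
    · exact hgen _ (by rw [hvi, _root_.mul_inv_rev, hvi, hwi, ← mul_assoc, hv, one_mul])
    · exact hgen _ (by rw [_root_.mul_inv_rev, hwi, hvi, mul_assoc, mul_assoc v, hw, mul_one])
  have hcomm : ∀ a b : PSL, a * b = b * a := by
    rcases (Subgroup.normalizer_eq_top_iff.1 (top_le_iff.1 hle)).eq_bot_or_eq_top with e | e
    · have hvw : v * w = 1 := Subgroup.mem_bot.1 (e ▸ Subgroup.mem_zpowers (v * w))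
      have hwv : w = v := (eq_inv_of_mul_eq_one_right hvw).trans hvi
      rw [hwv, Set.pair_eq_singleton, ← Subgroup.zpowers_eq_closure] at htop
      intro a b
      obtain ⟨i, rfl⟩ := (htop ▸ Subgroup.mem_top a : a ∈ Subgroup.zpowers v)
      obtain ⟨j, rfl⟩ := (htop ▸ Subgroup.mem_top b : b ∈ Subgroup.zpowers v)
      exact (Commute.zpow_zpow_self v i j).eq
    · intro a b
      obtain ⟨i, rfl⟩ := (e.symm ▸ Subgroup.mem_top a : a ∈ Z)
      obtain ⟨j, rfl⟩ := (e.symm ▸ Subgroup.mem_top b : b ∈ Z)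
      exact (Commute.zpow_zpow_self (v * w) i j).eq
  exact Cfsg.Agent.Linear.PSL2Dickson.not_solvable_psl (K := F) (four_le hf) (Group.isSolvable_of_comm hcomm)

section Count

variable [Fintype (Matrix.ProjectiveSpecialLinearGroup (Fin 2) F)]

omit hf in
theorem card_filter_mem (H : Subgroup PSL) :
    (Finset.univ.filter fun y => y ∈ H).card = Nat.card H := by
  rw [Nat.card_eq_fintype_card, Fintype.card_subtype]

theorem card_sol_plus (hmin : NoSub F) {x : PSL} (hx : Plus x) :
    (Finset.univ.filter (Pr x)).card = 2 * Fintype.card F * (Fintype.card F - 1) ∧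
      (Finset.univ.filter fun v => (v * v = 1 ∧ v ≠ 1) ∧ Pr x v).card = 3 * (Fintype.card F - 1) := by
  obtain ⟨P, P', hne, hP, hP', huniq, hC⟩ := plus_frame hf hx
  obtain ⟨h1, h2, h3⟩ := plus_data hf hx hne hP hP' huniq hC
  obtain ⟨h1', -, -⟩ := plus_data hf hx hne.symm hP' hP (fun Q hQ => (huniq Q hQ).symm) (by rw [hC, inf_comm])
  have hq := four_le hf
  set A := Finset.univ.filter fun y => y ∈ (Nz P) with hA
  set B := Finset.univ.filter fun y => y ∈ (Nz P') with hB
  set N := Finset.univ.filter fun y => y ∈ (NC x) with hN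
  set C := Finset.univ.filter fun y => y ∈ (Cz x) with hCf
  have hAB : A ∩ B = C := by ext y; simp [A, B, C, hC, Subgroup.mem_inf]
  have hCN : C ⊆ N := fun y => by simp only [C, N, Finset.mem_filter]; exact fun h => ⟨h.1, Subgroup.le_normalizer h.2⟩
  have hS : Finset.univ.filter (Pr x) = (A ∪ B) ∪ (N \ C) := by
    ext y
    simp only [A, B, C, N, Finset.mem_filter, Finset.mem_union, Finset.mem_sdiff, Finset.mem_univ, true_and,
      pr_plus hf hmin hx hP hP' huniq y]
    constructor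
    · rintro (h | h | h)
      · exact Or.inl (Or.inl h)
      · exact Or.inl (Or.inr h)
      · by_cases hyC : y ∈ (Cz x)
        · exact Or.inl (Or.inl (hC ▸ hyC).1)
        · exact Or.inr ⟨h, hyC⟩
    · rintro ((h | h) | ⟨h, -⟩)
      exacts [Or.inl h, Or.inr (Or.inl h), Or.inr (Or.inr h)]
  have hdisj : Disjoint (A ∪ B) (N \ C) := by
    rw [Finset.disjoint_left]
    simp only [A, B, C, N, Finset.mem_filter, Finset.mem_union, Finset.mem_sdiff, Finset.mem_univ, true_and]
    rintro y (h | h) ⟨hn, hc⟩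
    · exact hc (h1 y hn h)
    · exact hc (h1' y hn h)
  have cA : A.card = Fintype.card F * (Fintype.card F - 1) := by rw [hA, card_filter_mem, card_norm hf]
  have cB : B.card = Fintype.card F * (Fintype.card F - 1) := by rw [hB, card_filter_mem, card_norm hf]
  have cN : N.card = 2 * (Fintype.card F - 1) := by rw [hN, card_filter_mem, h3]
  have cC : C.card = Fintype.card F - 1 := by rw [hCf, card_filter_mem, hx.2]
  have cNC : (N \ C).card = Fintype.card F - 1 := by rw [Finset.card_sdiff_of_subset hCN, cN, cC]; omega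
  have cAB := Finset.card_union_add_card_inter A B
  rw [hAB, cA, cB, cC] at cAB
  refine ⟨?_, ?_⟩
  · rw [hS, Finset.card_union_of_disjoint hdisj, cNC, mul_assoc]; omega
  · have hI : (Finset.univ.filter fun v => (v * v = 1 ∧ v ≠ 1) ∧ Pr x v) =
        ((Finset.univ.filter fun v => v ∈ (P : Subgroup PSL)).erase 1 ∪
          (Finset.univ.filter fun v => v ∈ (P' : Subgroup PSL)).erase 1) ∪ (N \ C) := by
      ext v
      simp only [C, N, Finset.mem_filter, Finset.mem_union, Finset.mem_sdiff, Finset.mem_erase, Finset.mem_univ,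
        true_and, pr_plus hf hmin hx hP hP' huniq v]
      constructor
      · rintro ⟨⟨hv, hv1⟩, h | h | h⟩
        · exact Or.inl (Or.inl ⟨hv1, sylow_norm hf P hv h⟩)
        · exact Or.inl (Or.inr ⟨hv1, sylow_norm hf P' hv h⟩)
        · refine Or.inr ⟨h, fun hc => ?_⟩
          rw [hC] at hc
          exact not_sq_of_plus hf (frame_eq hf hne hc.1 hc.2 hv1).1 hv
      · rintro ((⟨hv1, h⟩ | ⟨hv1, h⟩) | ⟨h, hc⟩)
        · exact ⟨⟨(sylow_elem hf P).1 v h, hv1⟩, Or.inl (Subgroup.le_normalizer h)⟩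
        · exact ⟨⟨(sylow_elem hf P').1 v h, hv1⟩, Or.inr (Or.inl (Subgroup.le_normalizer h))⟩
        · exact ⟨⟨h2 v h hc, fun e => hc (e ▸ one_mem _)⟩, Or.inr (Or.inr h)⟩
    have hd2 : Disjoint ((Finset.univ.filter fun v => v ∈ (P : Subgroup PSL)).erase 1)
        ((Finset.univ.filter fun v => v ∈ (P' : Subgroup PSL)).erase 1) := by
      rw [Finset.disjoint_left]
      simp only [Finset.mem_filter, Finset.mem_erase, Finset.mem_univ, true_and]
      rintro v ⟨hv1, hv⟩ ⟨-, hv'⟩
      exact hne (sylow_eq_of_mem hf hv' hv hv1)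
    have hd3 : Disjoint ((Finset.univ.filter fun v => v ∈ (P : Subgroup PSL)).erase 1 ∪
        (Finset.univ.filter fun v => v ∈ (P' : Subgroup PSL)).erase 1) (N \ C) := by
      rw [Finset.disjoint_left]
      simp only [C, N, Finset.mem_filter, Finset.mem_union, Finset.mem_sdiff, Finset.mem_erase, Finset.mem_univ,
        true_and]
      rintro v (⟨-, h⟩ | ⟨-, h⟩) ⟨hn, hc⟩
      · exact hc (h1 v hn (Subgroup.le_normalizer h))
      · exact hc (h1' v hn (Subgroup.le_normalizer h))
    have cP : ∀ Q : Sylow 2 PSL, ((Finset.univ.filter fun v => v ∈ (Q : Subgroup PSL)).erase 1).card =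
        Fintype.card F - 1 := fun Q => by
      rw [Finset.card_erase_of_mem (by simp), card_filter_mem, card_sylow hf]
    rw [hI, Finset.card_union_of_disjoint hd3, Finset.card_union_of_disjoint hd2, cP, cP, cNC]
    omega

omit hf [Field F] [Fintype F] [Fintype (Matrix.ProjectiveSpecialLinearGroup (Fin 2) F)] in
theorem dihedral_invol {k : ℕ} [NeZero k] (hk : Odd k) :
    (Finset.univ.filter fun d : DihedralGroup k => d * d = 1 ∧ d ≠ 1).card = k := by
  have : (Finset.univ.filter fun d : DihedralGroup k => d * d = 1 ∧ d ≠ 1) =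
      Finset.univ.image DihedralGroup.sr := by
    ext d
    simp only [Finset.mem_filter, Finset.mem_univ, true_and, Finset.mem_image]
    cases d with
    | r i =>
      constructor
      · rintro ⟨h, h1⟩
        exfalso
        rw [DihedralGroup.r_mul_r, DihedralGroup.one_def] at h
        have h2 : i + i = 0 := DihedralGroup.r.inj h
        have hu : IsUnit ((2 : ℕ) : ZMod k) :=
          (ZMod.unitOfCoprime 2 (Nat.coprime_two_left.2 hk)).isUnit
        have h3 : ((2 : ℕ) : ZMod k) * i = 0 := by rw [← h2]; push_cast; ring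
        apply h1
        rw [(hu.mul_right_eq_zero).1 h3]
        rfl
      · rintro ⟨j, hj⟩; exact absurd hj (by simp)
    | sr i =>
      exact ⟨fun _ => ⟨i, rfl⟩, fun _ => ⟨DihedralGroup.sr_mul_self i, fun h => by rw [DihedralGroup.one_def] at h; cases h⟩⟩
  rw [this, Finset.card_image_of_injective _ (fun a b h => DihedralGroup.sr.inj h), Finset.card_univ, ZMod.card]

theorem card_sol_minus (hmin : NoSub F) {x : PSL} (hx : Minus x) :
    (Finset.univ.filter (Pr x)).card = 2 * (Fintype.card F + 1) ∧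
      (Finset.univ.filter fun v => (v * v = 1 ∧ v ≠ 1) ∧ Pr x v).card = Fintype.card F + 1 := by
  obtain ⟨hpr, ⟨e⟩⟩ := minus_data hf hmin hx
  constructor
  · rw [show Finset.univ.filter (Pr x) = Finset.univ.filter (fun y => y ∈ (NC x)) by ext y; simp [hpr],
      card_filter_mem, Nat.card_congr e.toEquiv, DihedralGroup.nat_card]
  · haveI : NeZero (Fintype.card F + 1) := ⟨by omega⟩
    rw [← dihedral_invol (k := Fintype.card F + 1) (by
      have := even hf; exact Nat.odd_iff.2 (by omega))]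
    refine Finset.card_bij' (fun v hv => e ⟨v, (hpr v).1 (by simp only [Finset.mem_filter] at hv; exact hv.2.2)⟩)
      (fun d _ => ((e.symm d : ↥(NC x)) : PSL)) ?_ ?_ ?_ ?_
    · intro v hv
      simp only [Finset.mem_filter, Finset.mem_univ, true_and] at hv ⊢
      obtain ⟨⟨h, h1⟩, -⟩ := hv
      exact ⟨by rw [← map_mul, ← map_one e]; exact congrArg e (Subtype.ext h),
        fun h2 => h1 (congrArg Subtype.val (e.injective (h2.trans (map_one e).symm)))⟩
    · intro d hd
      simp only [Finset.mem_filter, Finset.mem_univ, true_and] at hd ⊢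
      refine ⟨⟨?_, fun h => hd.2 ?_⟩, (hpr _).2 (e.symm d).2⟩
      · rw [← Subgroup.coe_mul, ← map_mul, hd.1, map_one]; rfl
      · exact e.symm.injective ((Subtype.ext h).trans (map_one e.symm).symm)
    · intro v hv; simp
    · intro d hd; simp

end Count

end Cfsg.Agent.TwoGroups.PSLEven
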