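import Cfsg.Agent.Linear.PSL2MaxApps

/-!
The configuration of Sylow 2-subgroups and centralizers in `PSL₂(2^f)`.
-/

set_option autoImplicit false
set_option linter.style.haveILetI false
set_option linter.unusedSectionVars false

namespace Cfsg.Agent.TwoGroups.PSLEven

open Matrix Cfsg.Agent.Linear Cfsg.Agent.Linear.PSL2Borel Cfsg.Agent.Dickson Cfsg.Agent.KnownA.GL2

variable {F : Type*} [Field F] [Fintype F]

local notation "SL" => Matrix.SpecialLinearGroup (Fin 2) F
local notation "PSL" => Matrix.ProjectiveSpecialLinearGroup (Fin 2) F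
local notation "Nz" P => Subgroup.normalizer ((P : Subgroup (Matrix.ProjectiveSpecialLinearGroup (Fin 2) F)) : Set (Matrix.ProjectiveSpecialLinearGroup (Fin 2) F))
local notation "Cz" x => Subgroup.centralizer ({x} : Set (Matrix.ProjectiveSpecialLinearGroup (Fin 2) F))

variable (f : ℕ)

/-- The hypotheses. -/
def Hyp (F : Type*) [Field F] [Fintype F] (f : ℕ) : Prop := Fintype.card F = 2 ^ f ∧ 2 ≤ f

variable {f} (hf : Hyp F f)

include hf

theorem even : Fintype.card F % 2 = 0 := by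
  obtain ⟨g, rfl⟩ : ∃ g, f = g + 1 := ⟨f - 1, by have := hf.2; omega⟩
  rw [hf.1, pow_succ]; omega

theorem four_le : 4 ≤ Fintype.card F := by
  rw [hf.1]
  calc 4 = 2 ^ 2 := rfl
    _ ≤ 2 ^ f := Nat.pow_le_pow_right (by norm_num) hf.2

theorem two_zero : (2 : F) = 0 := PSL2Classes.two_eq_zero_of_even (even hf)

theorem charTwo : CharP F 2 := by
  obtain ⟨c, hc⟩ := CharP.exists F
  haveI := hc
  have : c ∣ 2 := (CharP.cast_eq_zero_iff F c 2).1 (by exact_mod_cast two_zero hf)
  rcases (Nat.dvd_prime Nat.prime_two).1 this with rfl | rfl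
  · exact absurd rfl (CharP.char_ne_one F 1)
  · exact hc

theorem card_group : Nat.card PSL = Fintype.card F * (Fintype.card F ^ 2 - 1) := by
  have h := Cfsg.Agent.Linear.card_PSL_two (F := F)
  rcases PSL2Dickson.gcd_two_cases (Fintype.card F) Fintype.card_pos with ⟨-, hd⟩ | ⟨h1, -⟩
  · rw [hd, one_mul] at h; exact h
  · have := even hf; omega

theorem simple : IsSimpleGroup PSL :=
  psl_simple_finite (F := F) 2 le_rfl (by have := four_le hf; omega)

theorem card_sylow (P : Sylow 2 PSL) : Nat.card (P : Subgroup PSL) = Fintype.card F := by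
  haveI : Fact (Nat.Prime 2) := ⟨Nat.prime_two⟩
  have hq := four_le hf
  have hodd : ¬ 2 ∣ Fintype.card F ^ 2 - 1 := by
    have h2 : 2 ∣ Fintype.card F ^ 2 := dvd_pow (Nat.dvd_of_mod_eq_zero (even hf)) two_ne_zero
    have : 1 ≤ Fintype.card F ^ 2 := Nat.one_le_pow _ _ (by omega)
    omega
  have hne : Fintype.card F ^ 2 - 1 ≠ 0 := fun h => hodd (h ▸ dvd_zero 2)
  rw [Sylow.card_eq_multiplicity, card_group hf, Nat.factorization_mul (by omega) hne, Finsupp.add_apply,
    Nat.factorization_eq_zero_of_not_dvd hodd, hf.1, Nat.Prime.factorization_pow Nat.prime_two,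
    Finsupp.single_eq_same, add_zero]

theorem sylow_eq_conj (P : Sylow 2 PSL) : ∃ g : PSL, (P : Subgroup PSL) = (UP F).map (MulAut.conj g).toMonoidHom := by
  haveI : Fact (Nat.Prime 2) := ⟨Nat.prime_two⟩
  haveI := charTwo hf
  obtain ⟨g, rfl⟩ := MulAction.exists_smul_eq PSL (sylowUP (F := F) 2) P
  exact ⟨g, by rw [Sylow.coe_subgroup_smul, coe_sylowUP]; rfl⟩

theorem sylow_elem (P : Sylow 2 PSL) : (∀ a ∈ (P : Subgroup PSL), a * a = 1) ∧
    ∀ a ∈ (P : Subgroup PSL), ∀ b ∈ (P : Subgroup PSL), a * b = b * a := by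
  obtain ⟨g, hg⟩ := sylow_eq_conj hf P
  rw [hg]
  constructor
  · rintro _ ⟨a, ha, rfl⟩
    obtain ⟨b, rfl⟩ := mem_UP.1 ha
    rw [← map_mul, ← map_mul, ← uel_add, show b + b = 0 by linear_combination b * two_zero hf, uel_zero,
      map_one, map_one]
  · rintro _ ⟨a, ha, rfl⟩ _ ⟨b, hb, rfl⟩
    obtain ⟨s, rfl⟩ := mem_UP.1 ha
    obtain ⟨t, rfl⟩ := mem_UP.1 hb
    rw [← map_mul, ← map_mul, ← map_mul, ← map_mul, ← uel_add, ← uel_add, add_comm]

theorem cent_cases {x : PSL} (hx : x ≠ 1) :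
    Nat.card (Cz x) = Fintype.card F + 1 ∨
      (Nat.card (Cz x) = Fintype.card F - 1 ∧ ∃ P : Sylow 2 PSL, x ∈ Nz P) ∨
      Nat.card (Cz x) = Fintype.card F := by
  obtain ⟨g, rfl⟩ := toPSL_surjective x
  have hns := PSL2Classes.not_scalar_of_toPSL hx
  have hidx := (PSL2ClassSizes.index_centralizer_toPSL hns).2 (fun h => h.2 (two_zero hf))
  have h1 := (Cz (toPSL g)).index_mul_card
  have h2 := (Subgroup.centralizer ({g} : Set SL)).index_mul_card
  rw [Cfsg.Agent.Linear.card_SL_two (F := F)] at h2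
  rw [card_group hf, hidx, ← h2] at h1
  have hcard := Nat.eq_of_mul_eq_mul_left (Nat.pos_of_ne_zero Subgroup.index_ne_zero_of_finite) h1
  rw [hcard]
  rcases PSL2ClassSizes.card_centralizer_cases hns with ⟨-, h⟩ | ⟨⟨l, hl, -⟩, h⟩ | ⟨-, h⟩
  · exact Or.inl h
  · refine Or.inr (Or.inl ⟨h, ?_⟩)
    haveI : Fact (Nat.Prime 2) := ⟨Nat.prime_two⟩
    haveI := charTwo hf
    obtain ⟨δ, u, hu⟩ := PSL2Classes.exists_nf hns
    set w : SL := u * lel (-l * (δ : F))
    have hb : (w⁻¹ * g * w).1 1 0 = 0 := by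
      have e : w⁻¹ * g * w = (lel (-l * (δ : F)))⁻¹ * nfS (PSL2Classes.tr g) δ * lel (-l * (δ : F)) := by
        conv_lhs => rw [hu]
        simp only [w]; group
      rw [e]
      have hinv : (lel (-l * (δ : F)) : SL)⁻¹ = lel (l * (δ : F)) :=
        inv_eq_of_mul_eq_one_right (by rw [← lel_add, show -l * (δ : F) + l * δ = 0 by ring, lel_zero])
      rw [hinv]
      simp only [mul_apply2]
      simp [nfS, Kmat]
      field_simp
      linear_combination (δ : F) * hl
    refine ⟨toPSL w • sylowUP (F := F) 2, ?_⟩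
    rw [Sylow.coe_subgroup_smul, coe_sylowUP]
    have hm : toPSL (w⁻¹ * g * w) ∈ Subgroup.normalizer (UP F : Set PSL) :=
      borelP_le_normalizer (toPSL_mem_borelP.2 hb)
    have e2 : toPSL g = MulAut.conj (toPSL w) (toPSL (w⁻¹ * g * w)) := by
      simp only [map_mul, map_inv, MulAut.conj_apply]; group
    rw [e2]
    exact Subgroup.le_normalizer_map (MulAut.conj (toPSL w)).toMonoidHom (Subgroup.mem_map_of_mem _ hm)
  · rw [if_pos (even hf)] at h
    exact Or.inr (Or.inr h)

theorem coprime_pred_succ : Nat.Coprime (Fintype.card F * (Fintype.card F - 1)) (Fintype.card F + 1) := by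
  have h := even hf
  have h4 := four_le hf
  apply Nat.Coprime.mul_left
  · exact (Nat.coprime_self_add_right).mpr (Nat.coprime_one_right _)
  · rw [show Fintype.card F + 1 = Fintype.card F - 1 + 2 by omega]
    exact (Nat.coprime_self_add_right).mpr ((Nat.prime_two.coprime_iff_not_dvd.2 (by omega)).symm)

theorem orderOf_dvd_cent (x : PSL) : orderOf x ∣ Nat.card (Cz x) :=
  Subgroup.orderOf_dvd_natCard _ (Subgroup.mem_centralizer_singleton_iff.2 rfl)

theorem cent_sylow (P : Sylow 2 PSL) {v : PSL} (hv : v ∈ (P : Subgroup PSL)) (hv1 : v ≠ 1) :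
    (Cz v) = (P : Subgroup PSL) := by
  obtain ⟨hsq, hcomm⟩ := sylow_elem hf P
  have hle : (P : Subgroup PSL) ≤ Cz v := fun a ha =>
    Subgroup.mem_centralizer_singleton_iff.2 (hcomm a ha v hv)
  refine (Subgroup.eq_of_le_of_card_ge hle ?_).symm
  rw [card_sylow hf P]
  haveI : Fact (Nat.Prime 2) := ⟨Nat.prime_two⟩
  have ho : orderOf v = 2 := orderOf_eq_prime (by rw [pow_two]; exact hsq v hv) hv1
  have hd := orderOf_dvd_cent hf v
  rw [ho] at hd
  have := even hf; have := four_le hf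
  rcases cent_cases hf hv1 with h | ⟨h, -⟩ | h <;> omega

theorem sylow_eq_of_mem {P Q : Sylow 2 PSL} {v : PSL} (hP : v ∈ (P : Subgroup PSL)) (hQ : v ∈ (Q : Subgroup PSL))
    (hv : v ≠ 1) : P = Q :=
  Sylow.ext ((cent_sylow hf P hP hv).symm.trans (cent_sylow hf Q hQ hv))

theorem mem_of_sq {v : PSL} (h : v * v = 1) : ∃ P : Sylow 2 PSL, v ∈ (P : Subgroup PSL) := by
  have hp : IsPGroup 2 (Subgroup.zpowers v) := fun a => ⟨1, by
    obtain ⟨i, hi⟩ := a.2
    apply Subtype.ext
    show a.1 ^ 2 ^ 1 = 1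
    rw [← hi]
    show (v ^ i) ^ 2 ^ 1 = 1
    rw [pow_one, ← zpow_natCast, ← _root_.zpow_mul, mul_comm i, _root_.zpow_mul, zpow_natCast, pow_two, h, _root_.one_zpow]⟩
  obtain ⟨P, hP⟩ := hp.exists_le_sylow
  exact ⟨P, hP (Subgroup.mem_zpowers v)⟩

omit hf in
theorem mem_sylow_of_norm (Q : Sylow 2 PSL) {u : PSL} (hu : IsPGroup 2 (Subgroup.zpowers u))
    (h : u ∈ Nz Q) : u ∈ (Q : Subgroup PSL) := by
  haveI : Fact (Nat.Prime 2) := ⟨Nat.prime_two⟩
  have hj : IsPGroup 2 (↥(Subgroup.zpowers u ⊔ (Q : Subgroup PSL))) :=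
    hu.to_sup_of_normal_right' Q.isPGroup' (Subgroup.zpowers_le.2 h)
  have := Q.is_maximal' hj le_sup_right
  exact this.le (Subgroup.mem_sup_left (Subgroup.mem_zpowers u))

theorem sylow_norm (Q : Sylow 2 PSL) {u : PSL} (hu : u * u = 1) (h : u ∈ Nz Q) : u ∈ (Q : Subgroup PSL) := by
  refine mem_sylow_of_norm Q ?_ h
  obtain ⟨P, hP⟩ := mem_of_sq hf hu
  exact P.isPGroup'.to_le (Subgroup.zpowers_le.2 hP)

theorem num_sylow : Nat.card (Sylow 2 PSL) = Fintype.card F + 1 := by
  classical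
  haveI : Fact (Nat.Prime 2) := ⟨Nat.prime_two⟩
  haveI := simple hf
  obtain ⟨P⟩ : Nonempty (Sylow 2 PSL) := inferInstance
  have hq := four_le hf
  have hmod : Nat.card (Sylow 2 PSL) ≡ 1 [MOD Fintype.card F] := by
    haveI := Fintype.ofFinite (Sylow 2 PSL)
    rw [← card_sylow hf P]
    haveI := Fintype.ofFinite (MulAction.orbitRel.Quotient (P : Subgroup PSL) (Sylow 2 PSL))
    rw [Nat.card_congr (MulAction.selfEquivSigmaOrbits' (P : Subgroup PSL) (Sylow 2 PSL)), Nat.card_sigma, Nat.ModEq]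
    rw [← Finset.add_sum_erase _ _ (Finset.mem_univ (Quotient.mk'' P : MulAction.orbitRel.Quotient (P : Subgroup PSL) (Sylow 2 PSL)))]
    have hfix : ∀ o : MulAction.orbitRel.Quotient (P : Subgroup PSL) (Sylow 2 PSL),
        o ≠ Quotient.mk'' P → Nat.card o.orbit % Nat.card (P : Subgroup PSL) = 0 := by
      intro o
      induction o using Quotient.inductionOn' with
      | h Q =>
        intro hne
        rw [MulAction.orbitRel.Quotient.orbit_mk]
        have hstab : MulAction.stabilizer (P : Subgroup PSL) Q = ⊥ := by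
          rw [eq_bot_iff]
          intro u hu
          by_contra hu1
          apply hne
          have hu1' : (u : PSL) ≠ 1 := fun e => hu1 (Subgroup.mem_bot.2 (Subtype.ext e))
          have hnQ : (u : PSL) ∈ Nz Q := Sylow.smul_eq_iff_mem_normalizer.1 hu
          rw [sylow_eq_of_mem hf u.2 (sylow_norm hf Q ((sylow_elem hf P).1 u u.2) hnQ) hu1']
        rw [Nat.card_congr (MulAction.orbitEquivQuotientStabilizer _ Q), ← Subgroup.index_eq_card, hstab,
          Subgroup.index_bot, Nat.mod_self]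
    rw [Nat.add_mod, Finset.sum_nat_mod, Finset.sum_eq_zero fun o ho => hfix o (by simpa using ho)]
    rw [MulAction.orbitRel.Quotient.orbit_mk]
    have : Nat.card (MulAction.orbit (P : Subgroup PSL) P) = 1 := by
      rw [Nat.card_eq_one_iff_unique]
      refine ⟨⟨fun a b => Subtype.ext ?_⟩, ⟨⟨P, MulAction.mem_orbit_self P⟩⟩⟩
      obtain ⟨u, hu⟩ := a.2
      obtain ⟨w, hw⟩ := b.2
      have key : ∀ u : (P : Subgroup PSL), u • P = P := fun u =>
        Sylow.smul_eq_iff_mem_normalizer.2 (Subgroup.le_normalizer u.2)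
      simp only [key] at hu hw
      rw [← hu, ← hw]
    rw [this]
    simp
  have hdvd : Nat.card (Sylow 2 PSL) ∣ Fintype.card F + 1 := by
    rw [show Nat.card (Sylow 2 PSL) = (Nz P).index from Sylow.card_eq_index_normalizer P, ← index_borelP (F := F)]
    haveI := charTwo hf
    obtain ⟨g, hg⟩ := sylow_eq_conj hf P
    rw [hg]
    have hle : (borelP F).map (MulAut.conj g).toMonoidHom ≤
        Subgroup.normalizer (((UP F).map (MulAut.conj g).toMonoidHom : Subgroup PSL) : Set PSL) :=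
      (Subgroup.map_mono borelP_le_normalizer).trans (Subgroup.le_normalizer_map _)
    exact (Subgroup.index_dvd_of_le hle).trans (dvd_of_eq (Subgroup.index_map_equiv _ (MulAut.conj g)))
  have hne1 : Nat.card (Sylow 2 PSL) ≠ 1 := by
    intro h
    rw [show Nat.card (Sylow 2 PSL) = (Nz P).index from Sylow.card_eq_index_normalizer P, Subgroup.index_eq_one, Subgroup.normalizer_eq_top_iff] at h
    rcases h.eq_bot_or_eq_top with e | e
    · have := card_sylow hf P
      rw [e, Subgroup.card_bot] at this; omega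
    · have := card_sylow hf P
      rw [e, Subgroup.card_top, card_group hf] at this
      have h2 : 2 ≤ Fintype.card F ^ 2 - 1 := by
        have : 16 ≤ Fintype.card F ^ 2 := Nat.pow_le_pow_left hq 2
        omega
      nlinarith
  have hle := Nat.le_of_dvd (by omega) hdvd
  have hpos := Nat.card_pos (α := Sylow 2 PSL)
  rw [Nat.ModEq, Nat.one_mod_eq_one.2 (by omega)] at hmod
  rcases Nat.lt_or_ge (Nat.card (Sylow 2 PSL)) (Fintype.card F) with h | h
  · rw [Nat.mod_eq_of_lt h] at hmod; omega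
  · rcases eq_or_lt_of_le h with e | h'
    · rw [← e, Nat.mod_self] at hmod; omega
    · omega

theorem card_norm (P : Sylow 2 PSL) : Nat.card (Nz P) = Fintype.card F * (Fintype.card F - 1) := by
  haveI : Fact (Nat.Prime 2) := ⟨Nat.prime_two⟩
  have h := (Nz P).index_mul_card
  rw [show (Nz P).index = Nat.card (Sylow 2 PSL) from (Sylow.card_eq_index_normalizer P).symm, num_sylow hf, card_group hf, PSL2ClassSizes.sq_sub_one_eq] at h
  refine Nat.eq_of_mul_eq_mul_left (Nat.succ_pos (Fintype.card F)) ?_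
  rw [Nat.succ_eq_add_one, h]; ring

theorem norm_ne_top (P : Sylow 2 PSL) : (Nz P) ≠ ⊤ := fun h => by
  have h1 := card_norm hf P
  rw [h, Subgroup.card_top, card_group hf, PSL2ClassSizes.sq_sub_one_eq] at h1
  have := four_le hf
  have h2 : (Fintype.card F + 1) * (Fintype.card F - 1) = Fintype.card F - 1 :=
    Nat.eq_of_mul_eq_mul_left (show 0 < Fintype.card F by omega) h1
  obtain ⟨d, hd⟩ : ∃ d, Fintype.card F - 1 = d + 1 := ⟨Fintype.card F - 2, by omega⟩
  rw [hd] at h2
  nlinarith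

end Cfsg.Agent.TwoGroups.PSLEven
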