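import Cfsg.Agent.TwoGroups.PSLEvenFrame

/-!
Solubilizers in `PSL₂(2^p)`.
-/

set_option autoImplicit false
set_option linter.style.haveILetI false
set_option linter.unusedSectionVars false

namespace Cfsg.Agent.TwoGroups.PSLEven

open Matrix Cfsg.Agent.Linear

variable {F : Type*} [Field F] [Fintype F]

local notation "SL" => Matrix.SpecialLinearGroup (Fin 2) F
local notation "PSL" => Matrix.ProjectiveSpecialLinearGroup (Fin 2) F
local notation "Nz" P => Subgroup.normalizer (((P : Sylow 2 (Matrix.ProjectiveSpecialLinearGroup (Fin 2) F)) : Subgroup (Matrix.ProjectiveSpecialLinearGroup (Fin 2) F)) : Set (Matrix.ProjectiveSpecialLinearGroup (Fin 2) F))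
local notation "Cz" x => Subgroup.centralizer ({x} : Set (Matrix.ProjectiveSpecialLinearGroup (Fin 2) F))
local notation "NC" x => Subgroup.normalizer ((Subgroup.centralizer ({x} : Set (Matrix.ProjectiveSpecialLinearGroup (Fin 2) F))) : Set (Matrix.ProjectiveSpecialLinearGroup (Fin 2) F))

/-- `x` and `y` lie in a proper subgroup. -/
def Pr (x y : Matrix.ProjectiveSpecialLinearGroup (Fin 2) F) : Prop :=
  Subgroup.closure ({x, y} : Set (Matrix.ProjectiveSpecialLinearGroup (Fin 2) F)) ≠ ⊤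

omit [Fintype F] in
theorem pr_of_mem {H : Subgroup PSL} (hH : H ≠ ⊤) {x y : PSL} (hx : x ∈ H) (hy : y ∈ H) : Pr x y :=
  fun e => hH (top_le_iff.1 (e ▸ (Subgroup.closure_le _).2 (Set.insert_subset hx (Set.singleton_subset_iff.2 hy))))

omit [Fintype F] in
theorem pr_comm {x y : PSL} (h : Pr x y) : Pr y x := by
  unfold Pr at *; rwa [Set.pair_comm]

/-- The elements with centralizer of order `q - 1`. -/
def Plus (x : Matrix.ProjectiveSpecialLinearGroup (Fin 2) F) : Prop :=
  x ≠ 1 ∧ Nat.card (Cz x) = Fintype.card F - 1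

/-- The elements with centralizer of order `q + 1`. -/
def Minus (x : Matrix.ProjectiveSpecialLinearGroup (Fin 2) F) : Prop :=
  x ≠ 1 ∧ Nat.card (Cz x) = Fintype.card F + 1

variable {f : ℕ} (hf : Hyp F f)
include hf

theorem eq_one_of_dvd_both {x : PSL} (h1 : orderOf x ∣ Fintype.card F * (Fintype.card F - 1))
    (h2 : orderOf x ∣ Fintype.card F + 1) : x = 1 := by
  have := Nat.dvd_gcd h1 h2
  rw [coprime_pred_succ hf] at this
  exact orderOf_eq_one_iff.1 (Nat.dvd_one.1 this)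

theorem inv_cent {v : PSL} (hv : v * v = 1) (hv1 : v ≠ 1) : Nat.card (Cz v) = Fintype.card F := by
  obtain ⟨P, hP⟩ := mem_of_sq hf hv
  rw [cent_sylow hf P hP hv1, card_sylow hf]

theorem not_sq_of_plus {x : PSL} (hx : Plus x) : x * x ≠ 1 := fun h => by
  have := inv_cent hf h hx.1
  rw [hx.2] at this; have := four_le hf; omega

theorem not_sq_of_minus {x : PSL} (hx : Minus x) : x * x ≠ 1 := fun h => by
  have := inv_cent hf h hx.1
  rw [hx.2] at this; omega

theorem not_mem_sylow_of_plus {x : PSL} (hx : Plus x) (P : Sylow 2 PSL) : x ∉ (P : Subgroup PSL) :=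
  fun h => not_sq_of_plus hf hx ((sylow_elem hf P).1 x h)

theorem odd_pred : Odd (Fintype.card F - 1) := by
  have := even hf; have := four_le hf
  exact Nat.odd_iff.2 (by omega)

/-- An element of a Sylow normaliser outside the Sylow subgroup. -/
theorem plus_of_mem_norm {P : Sylow 2 PSL} {h : PSL} (hN : h ∈ Nz P) (hP : h ∉ (P : Subgroup PSL)) :
    Plus h := by
  have h1 : h ≠ 1 := fun e => hP (e ▸ one_mem _)
  have hd : orderOf h ∣ Fintype.card F * (Fintype.card F - 1) := by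
    rw [← card_norm hf P]; exact Subgroup.orderOf_dvd_natCard _ hN
  rcases cent_cases hf h1 with e | ⟨e, -⟩ | e
  · exact absurd (eq_one_of_dvd_both hf hd (e ▸ orderOf_dvd_cent hf h)) h1
  · exact ⟨h1, e⟩
  · exfalso
    apply hP
    refine mem_sylow_of_norm P ?_ hN
    have hdvd := e ▸ orderOf_dvd_cent hf h
    rw [hf.1, Nat.dvd_prime_pow Nat.prime_two] at hdvd
    obtain ⟨k, -, hk⟩ := hdvd
    exact IsPGroup.of_card (n := k) (by rw [Nat.card_zpowers, hk])

/-- An element of a Sylow normaliser, outside the Sylow subgroup, fixes exactly two Sylow subgroups. -/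
theorem second {P : Sylow 2 PSL} {h : PSL} (hN : h ∈ Nz P) (hP : h ∉ (P : Subgroup PSL)) :
    ∃ P', P' ≠ P ∧ h ∈ (Nz P') ∧ ∀ Q : Sylow 2 PSL, h ∈ (Nz Q) → Q = P ∨ Q = P' := by
  classical
  have hplus := plus_of_mem_norm hf hN hP
  haveI := Fintype.ofFinite (Sylow 2 PSL)
  have hnum := num_sylow hf
  obtain ⟨P0, hP0⟩ : ∃ P0, P0 ≠ P := by
    by_contra hc
    push Not at hc
    haveI : Subsingleton (Sylow 2 PSL) := ⟨fun a b => (hc a).trans (hc b).symm⟩
    have : Nat.card (Sylow 2 PSL) ≤ 1 := Finite.card_le_one_iff_subsingleton.2 inferInstance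
    have := four_le hf
    omega
  have hfree : ∀ (u : (P : Subgroup PSL)) (Q : Sylow 2 PSL), Q ≠ P → (u : PSL) • Q = Q → u = 1 := by
    intro u Q hQ hu
    by_contra hu1
    apply hQ
    exact (sylow_eq_of_mem hf u.2 (sylow_norm hf Q ((sylow_elem hf P).1 u u.2)
      (Sylow.smul_eq_iff_mem_normalizer.1 hu)) (fun e => hu1 (Subtype.ext e))).symm
  have hPP : ∀ u : (P : Subgroup PSL), (u : PSL) • P = P := fun u =>
    Sylow.smul_eq_iff_mem_normalizer.2 (Subgroup.le_normalizer u.2)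
  let g : ↥(P : Subgroup PSL) → {Q : Sylow 2 PSL // Q ≠ P} := fun u =>
    ⟨(u : PSL) • P0, fun e => hP0 (smul_left_cancel (u : PSL) (e.trans (hPP u).symm))⟩
  have ginj : Function.Injective g := by
    intro u w e
    have e' : (u : PSL) • P0 = (w : PSL) • P0 := congrArg Subtype.val e
    have : ((w⁻¹ * u : (P : Subgroup PSL)) : PSL) • P0 = P0 := by
      rw [Subgroup.coe_mul, Subgroup.coe_inv, mul_smul, e', inv_smul_smul]
    exact (inv_mul_eq_one.1 (hfree _ P0 hP0 this)).symm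
  have gbij : Function.Bijective g := by
    refine (Nat.bijective_iff_injective_and_card g).2 ⟨ginj, ?_⟩
    rw [card_sylow hf, Nat.card_eq_fintype_card, Fintype.card_subtype_compl, Fintype.card_subtype_eq,
      ← Nat.card_eq_fintype_card (α := Sylow 2 PSL), hnum]
    rfl
  have hP'' : h • P = P := Sylow.smul_eq_iff_mem_normalizer.2 hN
  obtain ⟨u, hu⟩ := gbij.2 ⟨h • P0, fun e => hP0 (smul_left_cancel h (e.trans hP''.symm))⟩
  have hu' : (u : PSL) • P0 = h • P0 := congrArg Subtype.val hu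
  have hconj : ∀ v : (P : Subgroup PSL), h * v * h⁻¹ ∈ (P : Subgroup PSL) := fun v =>
    (Subgroup.mem_normalizer_iff.1 hN _).1 v.2
  let m : ↥(P : Subgroup PSL) → ↥(P : Subgroup PSL) := fun v => v⁻¹ * ⟨h * v * h⁻¹, hconj v⟩
  have minj : Function.Injective m := by
    intro v w e
    have e' : (v : PSL)⁻¹ * (h * v * h⁻¹) = (w : PSL)⁻¹ * (h * w * h⁻¹) := congrArg Subtype.val e
    have hc : ((w * v⁻¹ : (P : Subgroup PSL)) : PSL) * h = h * ((w * v⁻¹ : (P : Subgroup PSL)) : PSL) := by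
      rw [Subgroup.coe_mul, Subgroup.coe_inv]
      calc (w : PSL) * (v : PSL)⁻¹ * h = (w : PSL) * ((v : PSL)⁻¹ * (h * v * h⁻¹)) * h * (v : PSL)⁻¹ := by group
        _ = h * ((w : PSL) * (v : PSL)⁻¹) := by rw [e']; group
    by_contra hne
    have hne' : ((w * v⁻¹ : (P : Subgroup PSL)) : PSL) ≠ 1 := fun h => hne (mul_inv_eq_one.1 (Subtype.ext h)).symm
    have : h ∈ Cz (((w * v⁻¹ : (P : Subgroup PSL)) : PSL)) := Subgroup.mem_centralizer_singleton_iff.2 hc.symm
    rw [cent_sylow hf P (w * v⁻¹).2 hne'] at this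
    exact hP this
  obtain ⟨v, hv⟩ := (Finite.injective_iff_surjective.1 minj) u⁻¹
  have hv' : (v : PSL)⁻¹ * (h * v * h⁻¹) = (u : PSL)⁻¹ := congrArg Subtype.val hv
  have hval : ∀ w : (P : Subgroup PSL),
      h • ((w : PSL) • P0) = ((h * w * h⁻¹) * u : PSL) • P0 := fun w => by
    rw [mul_smul, hu', ← mul_smul, ← mul_smul]; congr 1; group
  refine ⟨(g v).1, (g v).2, Sylow.smul_eq_iff_mem_normalizer.1 ?_, fun Q hQ => ?_⟩
  · show h • ((v : PSL) • P0) = (v : PSL) • P0
    rw [hval, show h * (v : PSL) * h⁻¹ = (v : PSL) * (u : PSL)⁻¹ by rw [← hv']; group, inv_mul_cancel_right]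
  · by_cases hQP : Q = P
    · exact Or.inl hQP
    right
    obtain ⟨w, hw⟩ := gbij.2 ⟨Q, hQP⟩
    have hw' : (w : PSL) • P0 = Q := congrArg Subtype.val hw
    have hQ' : h • Q = Q := Sylow.smul_eq_iff_mem_normalizer.2 hQ
    rw [← hw', hval] at hQ'
    have e2 : (⟨h * w * h⁻¹, hconj w⟩ * u : ↥(P : Subgroup PSL)) = w := ginj (Subtype.ext hQ')
    have : m w = u⁻¹ := by
      show w⁻¹ * ⟨h * w * h⁻¹, hconj w⟩ = u⁻¹
      rw [eq_mul_inv_of_mul_eq e2, inv_mul_cancel_left]
    rw [minj (this.trans hv.symm)] at hw'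
    exact hw'.symm

theorem inter_card {P P' : Sylow 2 PSL} (hne : P' ≠ P) :
    Nat.card (↥((Nz P) ⊓ (Nz P'))) ≤ Fintype.card F - 1 := by
  classical
  let m : ↥((Nz P) ⊓ (Nz P')) × ↥(P : Subgroup PSL) → ↥(Nz P) :=
    fun t => ⟨(t.1 : PSL) * t.2, mul_mem t.1.2.1 (Subgroup.le_normalizer t.2.2)⟩
  have hm : Function.Injective m := by
    rintro ⟨a, b⟩ ⟨c, d⟩ e
    have e' : (a : PSL) * b = c * d := congrArg Subtype.val e
    have h1 : (c : PSL)⁻¹ * a = d * (b : PSL)⁻¹ := by
      calc (c : PSL)⁻¹ * a = (c : PSL)⁻¹ * ((a : PSL) * b) * (b : PSL)⁻¹ := by group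
        _ = _ := by rw [e']; group
    have hN : (c : PSL)⁻¹ * a ∈ (Nz P') := mul_mem (inv_mem c.2.2) a.2.2
    have hP : (c : PSL)⁻¹ * a ∈ (P : Subgroup PSL) := h1 ▸ mul_mem d.2 (inv_mem b.2)
    have h2 : (c : PSL)⁻¹ * a = 1 := by
      by_contra hne1
      exact hne (sylow_eq_of_mem hf hP (sylow_norm hf P' ((sylow_elem hf P).1 _ hP) hN) hne1).symm
    have hac : a = c := Subtype.ext (inv_mul_eq_one.1 h2).symm
    subst hac
    exact Prod.ext rfl (Subtype.ext (mul_left_cancel e'))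
  have := Nat.card_le_card_of_injective m hm
  rw [Nat.card_prod, card_sylow hf, card_norm hf, mul_comm (Fintype.card F)] at this
  exact Nat.le_of_mul_le_mul_right this (by have := four_le hf; omega)

theorem plus_frame {x : PSL} (hx : Plus x) : ∃ P P' : Sylow 2 PSL, P' ≠ P ∧ x ∈ (Nz P) ∧ x ∈ (Nz P') ∧
    (∀ Q : Sylow 2 PSL, x ∈ (Nz Q) → Q = P ∨ Q = P') ∧ (Cz x) = (Nz P) ⊓ (Nz P') := by
  obtain ⟨P, hP⟩ : ∃ P : Sylow 2 PSL, x ∈ Nz P := by
    rcases cent_cases hf hx.1 with e | ⟨-, h⟩ | e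
    · rw [hx.2] at e; omega
    · exact h
    · rw [hx.2] at e; have := four_le hf; omega
  obtain ⟨P', hne, hP', huniq⟩ := second hf hP (not_mem_sylow_of_plus hf hx P)
  refine ⟨P, P', hne, hP, hP', huniq, Subgroup.eq_of_le_of_card_ge ?_ ((inter_card hf hne).trans hx.2.ge)⟩
  intro c hc
  have hodd : Odd (orderOf c) :=
    Odd.of_dvd_nat (hx.2 ▸ odd_pred hf) (Subgroup.orderOf_dvd_natCard _ hc)
  have hcomm := Subgroup.mem_centralizer_singleton_iff.1 hc
  have hmap : ∀ Q : Sylow 2 PSL, x ∈ (Nz Q) → x ∈ (Nz (c • Q)) := fun Q hQ => by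
    apply Sylow.smul_eq_iff_mem_normalizer.1
    rw [← mul_smul, ← hcomm, mul_smul, Sylow.smul_eq_iff_mem_normalizer.2 hQ]
  have hfix : ∀ Q : Sylow 2 PSL, Q = P ∨ Q = P' → x ∈ (Nz Q) := fun Q h => by
    rcases h with rfl | rfl <;> assumption
  have hsq : ∀ Q : Sylow 2 PSL, Q = P ∨ Q = P' → c ∈ (Nz Q) := by
    intro Q hQ
    have h1 := huniq _ (hmap Q (hfix Q hQ))
    have h2 := huniq _ (hmap _ (hmap Q (hfix Q hQ)))
    have hinj : c • Q = c • (c • Q) → Q = c • Q := fun e => smul_left_cancel c e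
    have hcc : c • (c • Q) = Q ∨ c • Q = Q := by
      by_cases e : c • Q = Q
      · exact Or.inr e
      left
      by_contra e2
      rcases hQ with rfl | rfl <;> rcases h1 with h1 | h1 <;> rcases h2 with h2 | h2 <;>
        first | exact e h1 | exact e2 h2 | exact e (hinj (h1.trans h2.symm)).symm
    apply Sylow.smul_eq_iff_mem_normalizer.1
    rcases hcc with e | e
    · obtain ⟨k, hk⟩ := hodd
      have hpow : ∀ n : ℕ, (c * c) ^ n • Q = Q := fun n => by
        induction n with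
        | zero => rw [pow_zero, one_smul]
        | succ n ih => rw [pow_succ, mul_smul, mul_smul c c Q, e, ih]
      have hc1 : (c * c) ^ (k + 1) = c := by
        rw [← pow_two, ← pow_mul, show 2 * (k + 1) = orderOf c + 1 by omega, pow_succ, pow_orderOf_eq_one, one_mul]
      have := hpow (k + 1)
      rwa [hc1] at this
    · exact e
  exact ⟨hsq P (Or.inl rfl), hsq P' (Or.inr rfl)⟩

theorem dihedral_conj {k : ℕ} {M : Subgroup PSL} (e : M ≃* DihedralGroup k) {x : PSL} (hx : x ∈ M)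
    (hx2 : x * x ≠ 1) : M ≤ (NC x) := by
  obtain ⟨i, hi⟩ : ∃ i, e ⟨x, hx⟩ = DihedralGroup.r i := by
    cases hh : e ⟨x, hx⟩ with
    | r i => exact ⟨i, rfl⟩
    | sr i =>
      exfalso
      apply hx2
      have : (⟨x, hx⟩ : M) * ⟨x, hx⟩ = 1 := e.injective (by
        rw [map_mul, hh, map_one, DihedralGroup.sr_mul_self])
      exact congrArg Subtype.val this
  intro y hy
  have key : y * x * y⁻¹ = x ∨ y * x * y⁻¹ = x⁻¹ := by
    cases hh : e ⟨y, hy⟩ with
    | r j =>
      left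
      have : (⟨y, hy⟩ : M) * ⟨x, hx⟩ * ⟨y, hy⟩⁻¹ = ⟨x, hx⟩ := e.injective (by
        rw [map_mul, map_mul, map_inv, hh, hi, DihedralGroup.inv_r, DihedralGroup.r_mul_r, DihedralGroup.r_mul_r]
        congr 1; ring)
      exact congrArg Subtype.val this
    | sr j =>
      right
      have : (⟨y, hy⟩ : M) * ⟨x, hx⟩ * ⟨y, hy⟩⁻¹ = ⟨x, hx⟩⁻¹ := e.injective (by
        rw [map_mul, map_mul, map_inv, map_inv, hh, hi, DihedralGroup.inv_r, DihedralGroup.inv_sr,
          DihedralGroup.sr_mul_r, DihedralGroup.sr_mul_sr]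
        congr 1; ring)
      exact congrArg Subtype.val this
  have hmap : ∀ c, c ∈ (Cz x) ↔ y * c * y⁻¹ ∈ Cz (y * x * y⁻¹) := fun c => by
    simp only [Subgroup.mem_centralizer_singleton_iff]
    constructor
    · intro h
      calc y * c * y⁻¹ * (y * x * y⁻¹) = y * (c * x) * y⁻¹ := by group
        _ = y * x * y⁻¹ * (y * c * y⁻¹) := by rw [h]; group
    · intro h
      calc c * x = y⁻¹ * (y * c * y⁻¹ * (y * x * y⁻¹)) * y := by group
        _ = x * c := by rw [h]; group
  rw [Subgroup.mem_normalizer_iff]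
  intro c
  rw [hmap c]
  rcases key with e1 | e1 <;> rw [e1]
  simp only [Subgroup.mem_centralizer_singleton_iff]
  exact Commute.inv_right_iff.symm.symm

theorem coatom_cases (hmin : ∀ (F₀ : Type) (_ : Field F₀) (_ : Fintype F₀) (r : ℕ), r.Prime →
      Fintype.card F = Fintype.card F₀ ^ r → Fintype.card F₀ = 2)
    {M : Subgroup PSL} (hM : IsCoatom M) :
    (∃ Q : Sylow 2 PSL, M = Nz Q) ∨ Nonempty (M ≃* DihedralGroup (Fintype.card F - 1)) ∨
      Nonempty (M ≃* DihedralGroup (Fintype.card F + 1)) := by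
  classical
  haveI := charTwo hf
  haveI : Fact (Nat.Prime 2) := ⟨Nat.prime_two⟩
  rcases Cfsg.Agent.Linear.PSL2Max.maximal_even 2 (Nat.even_iff.2 (even hf)) (four_le hf) hM with
    h | h | h | ⟨F₀, i1, i2, r, hr, h2, hq, -⟩
  · left
    haveI := Fintype.ofFinite M
    obtain ⟨R⟩ : Nonempty (Sylow 2 M) := inferInstance
    obtain ⟨Q, hQ⟩ := (R.isPGroup'.map M.subtype).exists_le_sylow
    have hcR : Nat.card ((R : Subgroup M).map M.subtype) = Fintype.card F := by
      rw [Subgroup.card_map_of_injective M.subtype_injective, Sylow.card_eq_multiplicity, h,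
        Nat.factorization_mul (by have := four_le hf; omega) (by have := four_le hf; omega), Finsupp.add_apply,
        Nat.factorization_eq_zero_of_not_dvd (n := Fintype.card F - 1) (by have := odd_pred hf; rw [Nat.odd_iff] at this; omega),
        hf.1, Nat.Prime.factorization_pow Nat.prime_two, Finsupp.single_eq_same, add_zero]
    have hQM : (Q : Subgroup PSL) ≤ M := by
      rw [← Subgroup.eq_of_le_of_card_ge hQ (by rw [hcR, card_sylow hf])]
      exact Subgroup.map_subtype_le _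
    have hle : M ≤ Nz Q := by
      intro y hy
      by_contra hyN
      have hne : y • Q ≠ Q := fun e => hyN (Sylow.smul_eq_iff_mem_normalizer.1 e)
      have hyQ : ∀ b ∈ ((y • Q : Sylow 2 PSL) : Subgroup PSL), b ∈ M := by
        rw [Sylow.coe_subgroup_smul]
        rintro _ ⟨a, ha, rfl⟩
        exact mul_mem (mul_mem hy (hQM ha)) (inv_mem hy)
      let m : ↥(Q : Subgroup PSL) × ↥((y • Q : Sylow 2 PSL) : Subgroup PSL) → M :=
        fun t => ⟨(t.1 : PSL) * t.2, mul_mem (hQM t.1.2) (hyQ _ t.2.2)⟩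
      have hm : Function.Injective m := by
        rintro ⟨a, b⟩ ⟨c, d⟩ e
        have e' : (a : PSL) * b = c * d := congrArg Subtype.val e
        have h1 : (c : PSL)⁻¹ * a = d * (b : PSL)⁻¹ := by
          calc (c : PSL)⁻¹ * a = (c : PSL)⁻¹ * ((a : PSL) * b) * (b : PSL)⁻¹ := by group
            _ = _ := by rw [e']; group
        have h2 : (c : PSL)⁻¹ * a = 1 := by
          by_contra hne1
          exact hne (sylow_eq_of_mem hf (h1 ▸ mul_mem d.2 (inv_mem b.2)) (mul_mem (inv_mem c.2) a.2) hne1)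
        have hac : a = c := Subtype.ext (inv_mul_eq_one.1 h2).symm
        subst hac
        exact Prod.ext rfl (Subtype.ext (mul_left_cancel e'))
      have := Nat.card_le_card_of_injective m hm
      rw [Nat.card_prod, card_sylow hf, card_sylow hf, h] at this
      have := Nat.le_of_mul_le_mul_left this (by have := four_le hf; omega)
      have := four_le hf
      omega
    exact ⟨Q, (hM.le_iff_eq (norm_ne_top hf Q)).1 hle |>.symm⟩
  · exact Or.inr (Or.inl h)
  · exact Or.inr (Or.inr h)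
  · exact absurd (hmin F₀ i1 i2 r hr hq) h2

end Cfsg.Agent.TwoGroups.PSLEven
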