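import Cfsg.Agent.Transfer.Complement
import Cfsg.Agent.OddLocal.CN
import Mathlib

/-!
Counting conjugacy classes of `π`-elements against the `π`-part of the group order.
-/

set_option autoImplicit false
set_option linter.style.haveILetI false
set_option linter.unusedSectionVars false

namespace Cfsg.Agent.TwoGroups.PiClasses

open Subgroup Finset
open scoped Pointwise

variable {G : Type*} [Group G] [Finite G]

/-- The number of classes of elements whose order divides `n`. -/
noncomputable def kDiv (n : ℕ) (G : Type*) [Group G] : ℕ :=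
  Nat.card {c : ConjClasses G // ∀ x ∈ c.carrier, x ^ n = 1}

/-- The `π`-part of `N`. -/
noncomputable def part (π : Finset ℕ) (N : ℕ) : ℕ := π.prod fun r => r ^ N.factorization r

theorem card_centralizer_mul_card_carrier (x : G) :
    Nat.card (centralizer ({x} : Set G)) * Nat.card (ConjClasses.mk x).carrier = Nat.card G := by
  have h1 : Nat.card (MulAction.stabilizer (ConjAct G) x) * Nat.card (MulAction.orbit (ConjAct G) x)
      = Nat.card (ConjAct G) := by
    rw [Nat.card_congr (MulAction.orbitEquivQuotientStabilizer (ConjAct G) x), mul_comm]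
    exact (Subgroup.card_eq_card_quotient_mul_card_subgroup _).symm
  rw [ConjAct.orbit_eq_carrier_conjClasses] at h1
  rw [show Nat.card G = Nat.card (ConjAct G) from Nat.card_congr ConjAct.toConjAct.toEquiv, ← h1]
  congr 1
  rw [ConjAct.stabilizer_eq_centralizer]
  rfl

theorem card_centralizer_eq (x : G) :
    Nat.card (centralizer ({x} : Set G)) = Nat.card G / Nat.card (ConjClasses.mk x).carrier := by
  rw [← card_centralizer_mul_card_carrier x, Nat.mul_div_cancel]
  exact Nat.card_pos_iff.mpr ⟨⟨⟨x, ConjClasses.mem_carrier_mk⟩⟩, inferInstance⟩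

variable [Fintype G] [DecidableEq G] [DecidableEq (ConjClasses G)]

/-- Summing an invariant function against centraliser orders. -/
theorem sum_centralizer_mul (n : ℕ) (h : ConjClasses G → ℕ) :
    ∑ x ∈ univ.filter (fun x : G => x ^ n = 1),
        Nat.card (centralizer ({x} : Set G)) * h (ConjClasses.mk x) =
      Nat.card G * ∑ c ∈ (univ.filter (fun x : G => x ^ n = 1)).image ConjClasses.mk, h c := by
  classical
  rw [Finset.mul_sum]
  rw [← Finset.sum_fiberwise_of_maps_to (g := ConjClasses.mk)
    (t := (univ.filter (fun x : G => x ^ n = 1)).image ConjClasses.mk)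
    (fun x hx => Finset.mem_image_of_mem _ hx)]
  refine Finset.sum_congr rfl fun c hc => ?_
  obtain ⟨x, hx, rfl⟩ := Finset.mem_image.mp hc
  have hx' := (Finset.mem_filter.mp hx).2
  have hset : ((univ.filter (fun y : G => y ^ n = 1)).filter
      fun y => ConjClasses.mk y = ConjClasses.mk x).card = Nat.card (ConjClasses.mk x).carrier := by
    rw [← Nat.card_eq_finsetCard]
    refine Nat.card_congr (Equiv.subtypeEquivRight fun y => ?_)
    simp only [Finset.mem_filter, Finset.mem_univ, true_and, ConjClasses.mem_carrier_iff_mk_eq]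
    refine ⟨And.right, fun h => ⟨?_, h⟩⟩
    obtain ⟨g, hg⟩ := isConj_iff.mp (ConjClasses.mk_eq_mk_iff_isConj.mp h.symm)
    rw [← hg, conj_pow, hx', mul_one, mul_inv_cancel]
  rw [Finset.sum_congr rfl (g := fun _ =>
    Nat.card (centralizer ({x} : Set G)) * h (ConjClasses.mk x)) (fun y hy => by
      have hyx := (Finset.mem_filter.mp hy).2
      rw [card_centralizer_eq y, card_centralizer_eq x, hyx]),
    Finset.sum_const, smul_eq_mul, hset, ← mul_assoc]
  rw [mul_comm (Nat.card (ConjClasses.mk x).carrier), card_centralizer_mul_card_carrier]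

theorem kDiv_eq_card_image (n : ℕ) :
    kDiv n G = ((univ.filter (fun x : G => x ^ n = 1)).image ConjClasses.mk).card := by
  rw [kDiv, ← Nat.card_eq_finsetCard]
  refine Nat.card_congr (Equiv.subtypeEquivRight fun c => ?_)
  simp only [Finset.mem_image, Finset.mem_filter, Finset.mem_univ, true_and]
  constructor
  · obtain ⟨x, rfl⟩ := c.exists_rep
    exact fun h => ⟨x, h x ConjClasses.mem_carrier_mk, rfl⟩
  · rintro ⟨x, hx, rfl⟩ y hy
    rw [ConjClasses.mem_carrier_iff_mk_eq, ConjClasses.mk_eq_mk_iff_isConj] at hy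
    obtain ⟨g, hg⟩ := isConj_iff.mp hy.symm
    rw [← hg, conj_pow, hx, mul_one, mul_inv_cancel]

theorem sum_card_centralizer (n : ℕ) :
    ∑ x ∈ univ.filter (fun x : G => x ^ n = 1), Nat.card (centralizer ({x} : Set G)) =
      Nat.card G * kDiv n G := by
  have := sum_centralizer_mul (G := G) n (fun _ => 1)
  simpa [kDiv_eq_card_image] using this

/-- Splitting `ab`-elements into commuting `a`- and `b`-elements, for coprime `a` and `b`. -/
theorem kDiv_mul (a b : ℕ) (hab : a.Coprime b) :
    Nat.card G * kDiv (a * b) G = ∑ y ∈ univ.filter (fun y : G => y ^ a = 1),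
      Nat.card (centralizer ({y} : Set G)) * kDiv b (centralizer ({y} : Set G)) := by
  classical
  rw [← sum_card_centralizer]
  have e2 : ∀ y : G, Nat.card (centralizer ({y} : Set G)) * kDiv b (centralizer ({y} : Set G)) =
      ∑ z ∈ univ.filter (fun z : centralizer ({y} : Set G) => z ^ b = 1),
        Nat.card (centralizer ({z} : Set (centralizer ({y} : Set G)))) :=
    fun y => (sum_card_centralizer b).symm
  simp only [e2]
  rw [Finset.sum_sigma']
  obtain ⟨e, he1, he0⟩ : ∃ e : ℕ, e ≡ 1 [MOD a] ∧ e ≡ 0 [MOD b] :=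
    ⟨(Nat.chineseRemainder hab 1 0).1, (Nat.chineseRemainder hab 1 0).2⟩
  obtain ⟨f, hf0, hf1⟩ : ∃ f : ℕ, f ≡ 0 [MOD a] ∧ f ≡ 1 [MOD b] :=
    ⟨(Nat.chineseRemainder hab 0 1).1, (Nat.chineseRemainder hab 0 1).2⟩
  have hef : e + f ≡ 1 [MOD a * b] :=
    (Nat.modEq_and_modEq_iff_modEq_mul hab).mp ⟨he1.add hf0, he0.add hf1⟩
  have powmod : ∀ (u : G) (m i j : ℕ), u ^ m = 1 → i ≡ j [MOD m] → u ^ i = u ^ j :=
    fun u m i j hu hij => pow_eq_pow_iff_modEq.mpr (hij.of_dvd (orderOf_dvd_of_pow_eq_one hu))
  symm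
  refine Finset.sum_bij (fun s _ => (s.1 * (s.2 : G))) ?_ ?_ ?_ ?_
  · rintro ⟨y, z⟩ hs
    simp only [Finset.mem_sigma, Finset.mem_filter, Finset.mem_univ, true_and] at hs ⊢
    have hc : Commute y (z : G) := (mem_centralizer_singleton_iff.mp z.2).symm
    have hz : (z : G) ^ b = 1 := by simpa using congrArg Subtype.val hs.2
    rw [hc.mul_pow, pow_mul, hs.1, one_pow, one_mul, mul_comm, pow_mul, hz, one_pow]
  · rintro ⟨y, z⟩ hs ⟨y', z'⟩ hs' h
    simp only [Finset.mem_sigma, Finset.mem_filter, Finset.mem_univ, true_and] at hs hs'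
    have key : ∀ (u : G) (v : centralizer ({u} : Set G)), u ^ a = 1 → v ^ b = 1 →
        (u * (v : G)) ^ e = u := by
      intro u v hu hv
      have hc : Commute u (v : G) := (mem_centralizer_singleton_iff.mp v.2).symm
      rw [hc.mul_pow, powmod u a e 1 hu he1, powmod (v : G) b e 0 (by simpa using congrArg Subtype.val hv) he0,
        pow_one, pow_zero, mul_one]
    simp only at h
    have hy : y = y' := by rw [← key y z hs.1 hs.2, h, key y' z' hs'.1 hs'.2]
    subst hy
    rw [mul_left_cancel_iff] at h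
    rw [Subtype.ext h]
  · intro x hx
    simp only [Finset.mem_filter, Finset.mem_univ, true_and] at hx
    have h1 : (x ^ e) ^ a = 1 := by
      rw [← pow_mul]
      exact orderOf_dvd_iff_pow_eq_one.mp ((orderOf_dvd_of_pow_eq_one hx).trans
        (by rw [mul_comm e a]; exact Nat.mul_dvd_mul_left a (Nat.modEq_zero_iff_dvd.mp he0)))
    have h2 : (x ^ f) ^ b = 1 := by
      rw [← pow_mul]
      exact orderOf_dvd_iff_pow_eq_one.mp ((orderOf_dvd_of_pow_eq_one hx).trans
        (Nat.mul_dvd_mul_right (Nat.modEq_zero_iff_dvd.mp hf0) b))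
    have hcm : x ^ f ∈ centralizer ({x ^ e} : Set G) :=
      mem_centralizer_singleton_iff.mpr ((Commute.refl x).pow_pow f e).eq
    refine ⟨⟨x ^ e, ⟨x ^ f, hcm⟩⟩, ?_, ?_⟩
    · simp only [Finset.mem_sigma, Finset.mem_filter, Finset.mem_univ, true_and]
      exact ⟨h1, Subtype.ext (by simpa using h2)⟩
    · show x ^ e * x ^ f = x
      rw [← pow_add, powmod x (a * b) (e + f) 1 hx hef, pow_one]
  · rintro ⟨y, z⟩ hs
    simp only [Finset.mem_sigma, Finset.mem_filter, Finset.mem_univ, true_and] at hs
    have hz : (z : G) ^ b = 1 := by simpa using congrArg Subtype.val hs.2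
    have hc : Commute y (z : G) := (mem_centralizer_singleton_iff.mp z.2).symm
    have h1 : (y * (z : G)) ^ e = y := by
      rw [hc.mul_pow, powmod y a e 1 hs.1 he1, powmod (z : G) b e 0 hz he0, pow_one, pow_zero, mul_one]
    refine Nat.card_congr ⟨fun w => ⟨(w : centralizer ({y} : Set G)), ?_⟩,
      fun w => ⟨⟨(w : G), ?_⟩, ?_⟩, fun w => rfl, fun w => rfl⟩
    · have hwy : Commute ((w : centralizer ({y} : Set G)) : G) y := mem_centralizer_singleton_iff.mp w.1.2
      have hwz : Commute ((w : centralizer ({y} : Set G)) : G) (z : G) :=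
        congrArg Subtype.val (mem_centralizer_singleton_iff.mp w.2)
      exact mem_centralizer_singleton_iff.mpr (hwy.mul_right hwz).eq
    · have hw : Commute (w : G) (y * (z : G)) := mem_centralizer_singleton_iff.mp w.2
      have hwy := hw.pow_right e
      rw [h1] at hwy
      exact mem_centralizer_singleton_iff.mpr hwy.eq
    · have hw : Commute (w : G) (y * (z : G)) := mem_centralizer_singleton_iff.mp w.2
      have hwy := hw.pow_right e
      rw [h1] at hwy
      have hwz : Commute (w : G) (z : G) := by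
        have := hwy.inv_right.mul_right hw
        rwa [inv_mul_cancel_left] at this
      exact mem_centralizer_singleton_iff.mpr (Subtype.ext hwz.eq)

/-- Every element of `p`-power exponent is conjugate into a Sylow subgroup. -/
theorem exists_sylow_rep {p : ℕ} [Fact p.Prime] (P : Sylow p G) {x : G} {e : ℕ} (hx : x ^ p ^ e = 1) :
    ∃ u ∈ (P : Subgroup G), ConjClasses.mk u = ConjClasses.mk x := by
  obtain ⟨j, -, hj⟩ := (Nat.dvd_prime_pow Fact.out).mp (orderOf_dvd_of_pow_eq_one hx)
  obtain ⟨Q, hQ⟩ := (IsPGroup.of_card (G := ↥(zpowers x)) (p := p) (n := j)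
    (by rw [Nat.card_zpowers, hj])).exists_le_sylow
  obtain ⟨g, rfl⟩ := MulAction.exists_smul_eq G P Q
  have hxP := hQ (mem_zpowers x)
  rw [Sylow.coe_subgroup_smul, mem_pointwise_smul_iff_inv_smul_mem] at hxP
  exact ⟨_, hxP, ConjClasses.mk_eq_mk_iff_isConj.mpr
    (isConj_iff.mpr ⟨g, by simp [MulAut.smul_def, mul_assoc]⟩)⟩

theorem sylow_pow_part {p : ℕ} [Fact p.Prime] (P : Sylow p G) (u : (P : Subgroup G)) :
    (u : G) ^ p ^ (Nat.card G).factorization p = 1 :=
  orderOf_dvd_iff_pow_eq_one.mp (P.card_eq_multiplicity ▸ Subgroup.orderOf_dvd_natCard _ u.2)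

theorem image_eq_sylow_image {p : ℕ} [Fact p.Prime] (P : Sylow p G) [Fintype (P : Subgroup G)] :
    (univ.filter (fun x : G => x ^ p ^ (Nat.card G).factorization p = 1)).image ConjClasses.mk =
      univ.image (fun u : (P : Subgroup G) => ConjClasses.mk (u : G)) := by
  ext c
  simp only [Finset.mem_image, Finset.mem_filter, Finset.mem_univ, true_and]
  constructor
  · rintro ⟨x, hx, rfl⟩
    obtain ⟨u, hu, e⟩ := exists_sylow_rep P hx
    exact ⟨⟨u, hu⟩, e⟩
  · rintro ⟨u, rfl⟩
    exact ⟨u, sylow_pow_part P u, rfl⟩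

theorem kDiv_prime_pow_le {p e : ℕ} [Fact p.Prime] (he : (Nat.card G).factorization p ≤ e) :
    kDiv (p ^ e) G ≤ p ^ e := by
  obtain ⟨P⟩ : Nonempty (Sylow p G) := inferInstance
  classical
  rw [kDiv_eq_card_image]
  refine (Finset.card_le_card (t := univ.image (fun u : (P : Subgroup G) => ConjClasses.mk (u : G))) ?_).trans ?_
  · intro c hc
    obtain ⟨x, hx, rfl⟩ := Finset.mem_image.mp hc
    obtain ⟨u, hu, he'⟩ := exists_sylow_rep P (Finset.mem_filter.mp hx).2
    exact Finset.mem_image.mpr ⟨⟨u, hu⟩, Finset.mem_univ _, he'⟩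
  · refine Finset.card_image_le.trans ?_
    rw [Finset.card_univ, ← Nat.card_eq_fintype_card, P.card_eq_multiplicity]
    exact Nat.pow_le_pow_right (Fact.out : p.Prime).pos he

/-- Weighted counting of the image of a map out of a finite type. -/
theorem mul_card_image_le {α β : Type*} [Fintype α] [DecidableEq α] [DecidableEq β] (f : α → β)
    (F : Finset α) (q : ℕ) (h : ∀ x, x ∉ F → q ≤ (univ.filter (fun y => f y = f x)).card) :
    q * (univ.image f).card ≤ Fintype.card α + (q - 1) * F.card := by
  have hsum : Fintype.card α = ∑ c ∈ univ.image f, (univ.filter (fun y => f y = c)).card :=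
    Finset.card_eq_sum_card_image f univ
  have hF : F.card = ∑ c ∈ univ.image f, (F.filter (fun y => f y = c)).card :=
    Finset.card_eq_sum_card_fiberwise (fun x _ => Finset.mem_image_of_mem f (Finset.mem_univ x))
  rw [hsum, hF, Finset.mul_sum, ← Finset.sum_add_distrib, mul_comm, ← smul_eq_mul, ← Finset.sum_const]
  refine Finset.sum_le_sum fun c hc => ?_
  obtain ⟨x, -, rfl⟩ := Finset.mem_image.mp hc
  by_cases hsub : ∀ y, f y = f x → y ∈ F
  · have e : F.filter (fun y => f y = f x) = univ.filter (fun y => f y = f x) := by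
      ext y
      simp only [Finset.mem_filter, Finset.mem_univ, true_and]
      exact ⟨And.right, fun h => ⟨hsub y h, h⟩⟩
    rw [e]
    have hpos : 1 ≤ (univ.filter (fun y => f y = f x)).card := Finset.card_pos.mpr ⟨x, by simp⟩
    rcases q with _ | q
    · simp
    · rw [Nat.add_sub_cancel]
      nlinarith
  · push Not at hsub
    obtain ⟨y, hy, hyF⟩ := hsub
    have := h y hyF
    rw [hy] at this
    omega

end Cfsg.Agent.TwoGroups.PiClasses

namespace Cfsg.Agent.TwoGroups.PiClasses

variable {G : Type*} [Group G] [Finite G]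

open Subgroup in
/-- A group in which the `μ`-elements have few classes has few classes of `μ ∪ ν`-elements. -/
theorem kDiv_mul_le {a b : ℕ} (hab : a.Coprime b)
    (hb : ∀ y : G, kDiv b (centralizer ({y} : Set G)) ≤ b) :
    kDiv (a * b) G ≤ b * kDiv a G := by
  classical
  haveI : Fintype G := Fintype.ofFinite G
  refine Nat.le_of_mul_le_mul_left ?_ (Nat.card_pos (α := G))
  calc Nat.card G * kDiv (a * b) G
      = ∑ y ∈ Finset.univ.filter (fun y : G => y ^ a = 1),
          Nat.card (centralizer ({y} : Set G)) * kDiv b (centralizer ({y} : Set G)) := kDiv_mul a b hab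
    _ ≤ ∑ y ∈ Finset.univ.filter (fun y : G => y ^ a = 1), Nat.card (centralizer ({y} : Set G)) * b :=
        Finset.sum_le_sum fun y _ => Nat.mul_le_mul_left _ (hb y)
    _ = Nat.card G * (b * kDiv a G) := by
        rw [← Finset.sum_mul, ← mul_assoc, mul_comm (Nat.card G) b, mul_assoc, mul_comm b]
        congr 1
        convert sum_card_centralizer (G := G) a

theorem coprime_part {π : Finset ℕ} (hπ : ∀ r ∈ π, r.Prime) {r : ℕ} (hr : r.Prime) (hrπ : r ∉ π)
    (N e : ℕ) : (r ^ e).Coprime (part π N) :=
  Nat.Coprime.prod_right fun s hs => Nat.coprime_pow_primes _ _ hr (hπ s hs) (fun h => hrπ (h ▸ hs))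

/-- At most `N_π` classes of `π`-elements in a group whose order divides `N`. -/
theorem kDiv_part_le (π : Finset ℕ) (hπ : ∀ r ∈ π, r.Prime) {N : ℕ} (hN : N ≠ 0) :
    ∀ {H : Type _} [Group H] [Finite H], Nat.card H ∣ N → ∀ (K : Subgroup H),
      kDiv (part π N) K ≤ part π N := by
  induction π using Finset.induction with
  | empty =>
    intro H _ _ _ K
    rw [part, Finset.prod_empty, kDiv]
    have : ∀ c : {c : ConjClasses K // ∀ x ∈ c.carrier, x ^ 1 = 1}, c.1 = ConjClasses.mk 1 := by
      rintro ⟨c, hc⟩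
      obtain ⟨x, rfl⟩ := c.exists_rep
      have := hc x ConjClasses.mem_carrier_mk
      rw [pow_one] at this
      show ConjClasses.mk x = _
      rw [this]
    exact (Nat.card_le_card_of_injective (fun _ => ()) (fun a b _ => Subtype.ext ((this a).trans (this b).symm))).trans
      (by simp)
  | insert r s hrs ih =>
    intro H _ _ hH K
    have hr : r.Prime := hπ r (Finset.mem_insert_self r s)
    haveI := Fact.mk hr
    have hπ' : ∀ t ∈ s, t.Prime := fun t ht => hπ t (Finset.mem_insert_of_mem ht)
    have hK : Nat.card K ∣ N := (Subgroup.card_subgroup_dvd_card K).trans hH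
    rw [part, Finset.prod_insert hrs]
    calc kDiv (r ^ N.factorization r * part s N) K
        ≤ part s N * kDiv (r ^ N.factorization r) K :=
          kDiv_mul_le (coprime_part hπ' hr hrs N _) (fun y => ih hπ' hK _)
      _ ≤ part s N * r ^ N.factorization r := by
          classical
          haveI : Fintype K := Fintype.ofFinite K
          exact Nat.mul_le_mul_left _ (kDiv_prime_pow_le
            ((Nat.factorization_le_iff_dvd Nat.card_pos.ne' hN).mpr hK r))
      _ = _ := mul_comm _ _

/-- The proportion of classes of `π`-elements is monotone in `π`. -/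
theorem kDiv_part_union_le {π μ : Finset ℕ} (hπ : ∀ r ∈ π, r.Prime) (hμ : μ ⊆ π) :
    kDiv (part π (Nat.card G)) G ≤ part (π \ μ) (Nat.card G) * kDiv (part μ (Nat.card G)) G := by
  have e : part π (Nat.card G) = part μ (Nat.card G) * part (π \ μ) (Nat.card G) := by
    rw [part, part, part, mul_comm, Finset.prod_sdiff hμ]
  rw [e]
  refine kDiv_mul_le (Nat.Coprime.prod_left fun r hr => ?_) fun y => ?_
  · exact coprime_part (fun s hs => hπ s (Finset.mem_sdiff.mp hs).1) (hπ r (hμ hr))
      (fun h => (Finset.mem_sdiff.mp h).2 hr) _ _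
  · exact kDiv_part_le _ (fun s hs => hπ s (Finset.mem_sdiff.mp hs).1) Nat.card_pos.ne' dvd_rfl _

theorem dvd_part_iff {π : Finset ℕ} (hπ : ∀ r ∈ π, r.Prime) (x : G) :
    x ^ part π (Nat.card G) = 1 ↔ ∀ r : ℕ, r.Prime → r ∣ orderOf x → r ∈ π := by
  constructor
  · intro h r hr hrx
    have h1 := hrx.trans (orderOf_dvd_of_pow_eq_one h)
    obtain ⟨s, hs, hrs⟩ := (hr.prime.dvd_finsetProd_iff _).mp h1
    exact ((Nat.prime_dvd_prime_iff_eq hr (hπ s hs)).mp (hr.dvd_of_dvd_pow hrs)) ▸ hs
  · intro h
    refine orderOf_dvd_iff_pow_eq_one.mp ?_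
    rw [part, ← Nat.factorization_prime_le_iff_dvd (orderOf_pos x).ne'
      (Finset.prod_ne_zero_iff.mpr fun r hr => pow_ne_zero _ (hπ r hr).ne_zero)]
    intro r hr
    by_cases hrx : r ∣ orderOf x
    · have hrπ := h r hr hrx
      rw [Nat.factorization_prod fun s hs => pow_ne_zero _ (hπ s hs).ne_zero,
        Finsupp.finset_sum_apply]
      refine le_trans ?_ (Finset.single_le_sum (f := fun s => (s ^ (Nat.card G).factorization s).factorization r)
        (fun _ _ => Nat.zero_le _) hrπ)
      rw [hr.factorization_pow, Finsupp.single_eq_same]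
      exact (Nat.factorization_le_iff_dvd (orderOf_pos x).ne' Nat.card_pos.ne').mpr (orderOf_dvd_natCard x) r
    · rw [Nat.factorization_eq_zero_of_not_dvd hrx]
      exact Nat.zero_le _

end Cfsg.Agent.TwoGroups.PiClasses
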